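import Mathlib
import Cfsg.Agent.Lib.Transfer.Basic
import Cfsg.Agent.Lib.PGroup.Basic
import Cfsg.Agent.Lib.Transfer.Frobenius
import Cfsg.Agent.Lib.Thompson.Main
import Cfsg.Agent.Lib.PGroup.GTOdd
import Cfsg.Agent.Lib.Nilpotent.Elements

/-!
# Camina pairs

`Cam f`: for a homomorphism `f : G →* T`, every `g` outside the kernel is conjugate to all of `g ker f`.
Restriction to a subgroup covering `T` and passage to quotients preserve this.
-/

set_option autoImplicit false
set_option linter.unusedVariables false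
set_option linter.style.haveILetI false
set_option linter.unusedSectionVars false

namespace Cfsg.Agent.Lib.Transfer.Camina

open Subgroup

universe u

section basic
variable {G T : Type*} [Group G] [Group T]

/-- The Camina property for the kernel of `f`. -/
def Cam (f : G →* T) : Prop :=
  ∀ g : G, f g ≠ 1 → ∀ n : G, f n = 1 → ∃ x : G, x * g * x⁻¹ = g * n

/-- The Frobenius property for the kernel of `f`. -/
def Frob (f : G →* T) : Prop :=
  ∀ n : G, f n = 1 → n ≠ 1 → ∀ g : G, g * n = n * g → f g = 1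

theorem orderOf_mul_eq (f : G →* T) (hf : Cam f) {g n : G} (hg : f g ≠ 1) (hn : f n = 1) :
    orderOf (g * n) = orderOf g := by
  obtain ⟨x, hx⟩ := hf g hg n hn
  rw [← hx]
  exact Cfsg.Agent.Lib.Transfer.Basic.orderOf_conj_eq x g

/-- The quotient statement. -/
theorem cam_quotient (f : G →* T) (hf : Cam f) (K : Subgroup G) [K.Normal] (hK : K ≤ f.ker) :
    Cam (QuotientGroup.lift K f (fun x hx => hK hx)) := by
  intro g hg n hn
  obtain ⟨g, rfl⟩ := QuotientGroup.mk_surjective g
  obtain ⟨n, rfl⟩ := QuotientGroup.mk_surjective n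
  obtain ⟨x, hx⟩ := hf g hg n hn
  exact ⟨(x : G ⧸ K), by
    rw [← QuotientGroup.mk_inv, ← QuotientGroup.mk_mul, ← QuotientGroup.mk_mul, hx, QuotientGroup.mk_mul]⟩

variable [Finite G]

/-- An element of the kernel commuting with `g ∉ ker f`, with order coprime to that of `g`, is trivial. -/
theorem eq_one_of_commute_of_coprime (f : G →* T) (hf : Cam f) {g n : G} (hg : f g ≠ 1) (hn : f n = 1)
    (hc : g * n = n * g) (hcop : Nat.Coprime (orderOf g) (orderOf n)) : n = 1 := by
  have h1 := orderOf_mul_eq f hf hg hn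
  rw [Commute.orderOf_mul_eq_mul_orderOf_of_coprime hc hcop] at h1
  have h2 : 0 < orderOf g := orderOf_pos g
  have h3 : orderOf n = 1 := Nat.eq_of_mul_eq_mul_left h2 (h1.trans (mul_one _).symm)
  exact orderOf_eq_one_iff.1 h3

/-- Orbit counting for conjugation by a subgroup. -/
theorem card_eq_orbit (H : Subgroup G) (x : G) (S : Set G) (h1 : ∀ h ∈ H, h * x * h⁻¹ ∈ S)
    (h2 : ∀ s ∈ S, ∃ h ∈ H, h * x * h⁻¹ = s) :
    Nat.card H = Nat.card S * Nat.card (H ⊓ centralizer ({x} : Set G) : Subgroup G) := by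
  classical
  let F : H → S := fun h => ⟨(h : G) * x * (h : G)⁻¹, h1 h h.2⟩
  have hF : ∀ s : S, Nonempty {h : H // F h = s} := by
    rintro ⟨s, hs⟩
    obtain ⟨h, hh, rfl⟩ := h2 s hs
    exact ⟨⟨⟨h, hh⟩, rfl⟩⟩
  have hfib : ∀ s : S, Nat.card {h : H // F h = s} =
      Nat.card (H ⊓ centralizer ({x} : Set G) : Subgroup G) := by
    intro s
    refine Nat.card_congr ?_
    have hrs : F (hF s).some.1 = s := (hF s).some.2
    set h₀ : H := (hF s).some.1 with hh₀
    refine
      { toFun := fun a => ⟨(h₀ : G)⁻¹ * ((a.1 : H) : G), ?_⟩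
        invFun := fun c => ⟨⟨(h₀ : G) * (c : G), mul_mem h₀.2 (Subgroup.mem_inf.1 c.2).1⟩, ?_⟩
        left_inv := ?_
        right_inv := ?_ }
    · refine Subgroup.mem_inf.2 ⟨mul_mem (inv_mem h₀.2) a.1.2, ?_⟩
      rw [Subgroup.mem_centralizer_iff]
      intro y hy
      obtain rfl : y = x := hy
      have h3 : F a.1 = F h₀ := a.2.trans hrs.symm
      have h4 : ((a.1 : H) : G) * y * ((a.1 : H) : G)⁻¹ = (h₀ : G) * y * (h₀ : G)⁻¹ :=
        congrArg Subtype.val h3
      calc y * ((h₀ : G)⁻¹ * ((a.1 : H) : G)) = (h₀ : G)⁻¹ * ((h₀ : G) * y * (h₀ : G)⁻¹) * ((a.1 : H) : G) := by group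
        _ = (h₀ : G)⁻¹ * (((a.1 : H) : G) * y * ((a.1 : H) : G)⁻¹) * ((a.1 : H) : G) := by rw [h4]
        _ = (h₀ : G)⁻¹ * ((a.1 : H) : G) * y := by group
    · have hc := (Subgroup.mem_inf.1 c.2).2
      rw [Subgroup.mem_centralizer_iff] at hc
      have hc' : x * (c : G) = (c : G) * x := hc x rfl
      have : F ⟨(h₀ : G) * (c : G), mul_mem h₀.2 (Subgroup.mem_inf.1 c.2).1⟩ = F h₀ := by
        apply Subtype.ext
        show (h₀ : G) * (c : G) * x * ((h₀ : G) * (c : G))⁻¹ = (h₀ : G) * x * (h₀ : G)⁻¹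
        calc (h₀ : G) * (c : G) * x * ((h₀ : G) * (c : G))⁻¹
            = (h₀ : G) * ((c : G) * x) * (c : G)⁻¹ * (h₀ : G)⁻¹ := by group
          _ = (h₀ : G) * (x * (c : G)) * (c : G)⁻¹ * (h₀ : G)⁻¹ := by rw [hc']
          _ = (h₀ : G) * x * (h₀ : G)⁻¹ := by group
      exact this.trans hrs
    · intro a
      apply Subtype.ext
      apply Subtype.ext
      show (h₀ : G) * ((h₀ : G)⁻¹ * ((a.1 : H) : G)) = _
      group
    · intro c
      apply Subtype.ext
      show (h₀ : G)⁻¹ * ((h₀ : G) * (c : G)) = _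
      group
  letI := Fintype.ofFinite S
  rw [← Nat.card_congr (Equiv.sigmaFiberEquiv F), Nat.card_sigma]
  simp only [hfib, Finset.sum_const, Finset.card_univ, smul_eq_mul]
  rw [← Nat.card_eq_fintype_card]

/-- `|H| = |f(H)| |H ∩ ker f|`. -/
theorem card_eq_map_mul (f : G →* T) (H : Subgroup G) :
    Nat.card H = Nat.card (H.map f) * Nat.card (H ⊓ f.ker : Subgroup G) := by
  have h1 : Nat.card H = Nat.card (f.comp H.subtype).range * Nat.card (f.comp H.subtype).ker := by
    rw [← Subgroup.card_mul_index (f.comp H.subtype).ker, Subgroup.index_ker, mul_comm]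
  have h2 : (f.comp H.subtype).range = H.map f := by
    rw [MonoidHom.range_comp, Subgroup.range_subtype] 
  have h3 : Nat.card (f.comp H.subtype).ker = Nat.card (H ⊓ f.ker : Subgroup G) := by
    refine Nat.card_congr ?_
    refine
      { toFun := fun a => ⟨(a : H), (a : H).2, a.2⟩
        invFun := fun a => ⟨⟨a, a.2.1⟩, a.2.2⟩
        left_inv := fun a => rfl
        right_inv := fun a => rfl }
  rw [h1, h2, h3]

end basic

section cent
variable {G T : Type*} [Group G] [Group T] [Finite G]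

theorem card_translate (x : G) (Y : Subgroup G) :
    Nat.card ((fun n => x * n) '' (Y : Set G)) = Nat.card Y := by
  rw [Nat.card_image_of_injective (mul_right_injective x)]
  rfl

theorem card_D1 (f : G →* T) (hf : Cam f) (x : G) (hx : f x ≠ 1) :
    Nat.card ((centralizer ({f x} : Set T)).comap f) =
      Nat.card f.ker * Nat.card (centralizer ({x} : Set G)) := by
  have h := card_eq_orbit ((centralizer ({f x} : Set T)).comap f) x
    ((fun n => x * n) '' (f.ker : Set G)) ?_ ?_
  · rw [h, card_translate]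
    congr 1
    rw [inf_eq_right.2]
    intro c hc
    rw [Subgroup.mem_comap, Subgroup.mem_centralizer_iff]
    rintro _ rfl
    rw [Subgroup.mem_centralizer_iff] at hc
    rw [← map_mul, ← map_mul, hc x rfl]
  · intro h hh
    rw [Subgroup.mem_comap, Subgroup.mem_centralizer_iff] at hh
    have h2 : f x * f h = f h * f x := hh (f x) rfl
    refine ⟨x⁻¹ * (h * x * h⁻¹), ?_, by group⟩
    show f _ = 1
    simp only [map_mul, map_inv]
    rw [← h2]; group
  · rintro _ ⟨n, hn, rfl⟩
    obtain ⟨c, hc⟩ := hf x hx n hn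
    refine ⟨c, ?_, hc⟩
    rw [Subgroup.mem_comap, Subgroup.mem_centralizer_iff]
    rintro _ rfl
    have h2 := congrArg f hc
    have hn' : f n = 1 := hn
    simp only [map_mul, map_inv, hn', mul_one] at h2
    exact (mul_inv_eq_iff_eq_mul.1 h2).symm

/-- `|C_G(x)| = |C_T(f x)|`. -/
theorem card_centralizer_eq (f : G →* T) (hf : Cam f) (hs : Function.Surjective f) (x : G) (hx : f x ≠ 1) :
    Nat.card (centralizer ({x} : Set G)) = Nat.card (centralizer ({f x} : Set T)) := by
  have h1 := card_D1 f hf x hx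
  have h2 := card_eq_map_mul f ((centralizer ({f x} : Set T)).comap f)
  rw [Subgroup.map_comap_eq_self_of_surjective hs] at h2
  have h3 : ((centralizer ({f x} : Set T)).comap f ⊓ f.ker : Subgroup G) = f.ker := by
    rw [inf_eq_right]
    intro n hn
    rw [Subgroup.mem_comap, show f n = 1 from hn]
    exact one_mem _
  rw [h3, h1, mul_comm] at h2
  exact Nat.eq_of_mul_eq_mul_right Nat.card_pos h2

/-- The restriction to a subgroup covering the image is again Camina. -/
theorem cam_sub (f : G →* T) (hf : Cam f) (hs : Function.Surjective f) (L : Subgroup G)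
    (hL : Function.Surjective (f.comp L.subtype)) : Cam (f.comp L.subtype) := by
  rintro ⟨x, hxL⟩ hx ⟨n, hnL⟩ hn
  haveI : Finite T := Finite.of_surjective f hs
  have hx' : f x ≠ 1 := hx
  have hn' : f n = 1 := hn
  set D₁ : Subgroup G := (centralizer ({f x} : Set T)).comap f with hD₁
  set D₂ : Subgroup G := D₁ ⊓ L with hD₂
  set Y : Subgroup G := L ⊓ f.ker with hY
  set O : Set G := {y | ∃ h ∈ D₂, h * x * h⁻¹ = y} with hO
  have hkerD : f.ker ≤ D₁ := by
    intro m hm
    rw [hD₁, Subgroup.mem_comap, show f m = 1 from hm]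
    exact one_mem _
  have h1 := card_eq_orbit D₂ x O (fun h hh => ⟨h, hh, rfl⟩) (fun s hs => hs)
  have h2 := card_eq_map_mul f D₂
  have h3 : D₂.map f = centralizer ({f x} : Set T) := by
    apply le_antisymm
    · rintro _ ⟨h, hh, rfl⟩
      exact (Subgroup.mem_inf.1 hh).1
    · intro t ht
      obtain ⟨⟨l, hl⟩, hlt⟩ := hL t
      have hlt' : f l = t := hlt
      refine ⟨l, Subgroup.mem_inf.2 ⟨?_, hl⟩, hlt'⟩
      rw [hD₁, Subgroup.mem_comap, hlt']
      exact ht
  have h4 : (D₂ ⊓ f.ker : Subgroup G) = Y := by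
    ext m
    simp only [hD₂, hY, Subgroup.mem_inf]
    constructor
    · rintro ⟨⟨_, h⟩, h'⟩; exact ⟨h, h'⟩
    · rintro ⟨h, h'⟩; exact ⟨⟨hkerD h', h⟩, h'⟩
  rw [h3, h4] at h2
  have h5 : Nat.card (D₂ ⊓ centralizer ({x} : Set G) : Subgroup G) ≤ Nat.card (centralizer ({f x} : Set T)) := by
    rw [← card_centralizer_eq f hf hs x hx']
    exact Subgroup.card_le_of_le inf_le_right
  have h6 : Nat.card Y ≤ Nat.card O := by
    have hpos : 0 < Nat.card (centralizer ({f x} : Set T)) := Nat.card_pos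
    have h7 : Nat.card (centralizer ({f x} : Set T)) * Nat.card Y ≤ Nat.card (centralizer ({f x} : Set T)) * Nat.card O := by
      calc Nat.card (centralizer ({f x} : Set T)) * Nat.card Y = Nat.card O * Nat.card (D₂ ⊓ centralizer ({x} : Set G) : Subgroup G) := by
            rw [← h2, h1]
        _ ≤ Nat.card O * Nat.card (centralizer ({f x} : Set T)) := Nat.mul_le_mul_left _ h5
        _ = _ := mul_comm _ _
    exact Nat.le_of_mul_le_mul_left h7 hpos
  have hOsub : O ⊆ (fun n => x * n) '' (Y : Set G) := by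
    rintro _ ⟨h, hh, rfl⟩
    refine ⟨x⁻¹ * (h * x * h⁻¹), ?_, by group⟩
    have hhL : h ∈ L := (Subgroup.mem_inf.1 hh).2
    have hhD : h ∈ D₁ := (Subgroup.mem_inf.1 hh).1
    refine Subgroup.mem_inf.2 ⟨mul_mem (inv_mem hxL) (mul_mem (mul_mem hhL hxL) (inv_mem hhL)), ?_⟩
    rw [hD₁, Subgroup.mem_comap, Subgroup.mem_centralizer_iff] at hhD
    have h2 : f x * f h = f h * f x := hhD (f x) rfl
    show f _ = 1
    simp only [map_mul, map_inv]
    rw [← h2]; group
  have hEq : O = (fun n => x * n) '' (Y : Set G) := by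
    apply Set.eq_of_subset_of_ncard_le hOsub
    · have := card_translate x Y
      simp only [Nat.card_coe_set_eq] at this h6
      rw [this]
      simpa using h6
  have hmem : x * n ∈ O := by
    rw [hEq]
    exact ⟨n, Subgroup.mem_inf.2 ⟨hnL, hn'⟩, rfl⟩
  obtain ⟨h, hh, hhx⟩ := hmem
  refine ⟨⟨h, (Subgroup.mem_inf.1 hh).2⟩, ?_⟩
  apply Subtype.ext
  exact hhx

end cent

section rank2

theorem prod_iter_eq_one {W : Type*} [CommGroup W] (c : Monoid.End W) {p : ℕ} (hcp : c ^ p = 1)
    (hfix : ∀ w, c w = w → w = 1) (w : W) : ∏ k ∈ Finset.range p, (c ^ k) w = 1 := by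
  apply hfix
  have h1 := Finset.prod_range_succ' (fun k => (c ^ k) w) p
  have h2 := Finset.prod_range_succ (fun k => (c ^ k) w) p
  rw [h2] at h1
  have h3 : (c ^ p) w = (c ^ 0) w := by rw [hcp]; simp
  rw [h3] at h1
  have h4 := mul_right_cancel h1
  rw [map_prod, h4]
  refine Finset.prod_congr rfl fun k _ => ?_
  rw [pow_succ']
  rfl

theorem rank2_core {W : Type*} [CommGroup W] (α β : Monoid.End W) {p : ℕ} [hp : Fact p.Prime]
    (hcomm : Commute α β) (hαp : α ^ p = 1) (hβp : β ^ p = 1)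
    (hβ : ∀ k, 0 < k → k < p → ∀ w, (β ^ k) w = w → w = 1)
    (hαβ : ∀ j : ℕ, ∀ w, (α * β ^ j) w = w → w = 1) (w : W) : w ^ p = 1 := by
  have h1 : ∀ j : ℕ, ∏ k ∈ Finset.range p, ((α * β ^ j) ^ k) w = 1 := by
    intro j
    apply prod_iter_eq_one _ _ (hαβ j)
    rw [(hcomm.pow_right j).mul_pow, hαp, one_mul, ← pow_mul, mul_comm, pow_mul, hβp, one_pow]
  have h2 : ∏ j ∈ Finset.range p, ∏ k ∈ Finset.range p, ((α * β ^ j) ^ k) w = 1 :=
    Finset.prod_eq_one fun j _ => h1 j
  rw [Finset.prod_comm] at h2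
  rw [Finset.prod_eq_single 0] at h2
  · simpa using h2
  · intro k hk hk0
    have hklt := Finset.mem_range.1 hk
    have h3 : ∀ j ∈ Finset.range p, ((α * β ^ j) ^ k) w = (α ^ k) (((β ^ k) ^ j) w) := by
      intro j _
      rw [(hcomm.pow_right j).mul_pow, ← pow_mul, mul_comm j k, pow_mul]
      rfl
    rw [Finset.prod_congr rfl h3, ← map_prod]
    have h4 : (β ^ k) ^ p = 1 := by rw [← pow_mul, mul_comm, pow_mul, hβp, one_pow]
    rw [prod_iter_eq_one (β ^ k) h4 (hβ k (Nat.pos_of_ne_zero hk0) hklt) w, map_one]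
  · intro h
    exact absurd (Finset.mem_range.2 hp.out.pos) h

variable {G : Type*} [Group G]

/-- Conjugation on a subgroup invariant under `c`. -/
def conjE (W : Subgroup G) (hW : ∀ x ∈ W, ∀ y ∈ W, x * y = y * x) (c : G) (hc : ∀ w ∈ W, c * w * c⁻¹ ∈ W) :
    W →* W where
  toFun w := ⟨c * w * c⁻¹, hc w w.2⟩
  map_one' := by ext; simp
  map_mul' x y := by
    apply Subtype.ext
    show c * ((x : G) * y) * c⁻¹ = (c * x * c⁻¹) * (c * y * c⁻¹)
    group

theorem rank2_group (W : Subgroup G) (hW : ∀ x ∈ W, ∀ y ∈ W, x * y = y * x) (a b : G) {p : ℕ} [hp : Fact p.Prime]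
    (ha : ∀ w ∈ W, a * w * a⁻¹ ∈ W) (hb : ∀ w ∈ W, b * w * b⁻¹ ∈ W)
    (hab : ∀ w ∈ W, a * (b * w * b⁻¹) * a⁻¹ = b * (a * w * a⁻¹) * b⁻¹)
    (hap : ∀ w ∈ W, a ^ p * w * (a ^ p)⁻¹ = w) (hbp : ∀ w ∈ W, b ^ p * w * (b ^ p)⁻¹ = w)
    (h1 : ∀ j : ℕ, ∀ w ∈ W, (a * b ^ j) * w * (a * b ^ j)⁻¹ = w → w = 1)
    (h2 : ∀ k, 0 < k → k < p → ∀ w ∈ W, b ^ k * w * (b ^ k)⁻¹ = w → w = 1) :
    ∀ w ∈ W, w ^ p = 1 := by
  letI : CommGroup W :=
    { (inferInstance : Group W) with
      mul_comm := fun x y => Subtype.ext (hW x x.2 y y.2) }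
  let α : Monoid.End W := conjE W hW a ha
  let β : Monoid.End W := conjE W hW b hb
  have hαv : ∀ w : W, ((α w : W) : G) = a * w * a⁻¹ := fun w => rfl
  have hβv : ∀ w : W, ((β w : W) : G) = b * w * b⁻¹ := fun w => rfl
  have hαk : ∀ (k : ℕ) (w : W), (((α ^ k) w : W) : G) = a ^ k * w * (a ^ k)⁻¹ := by
    intro k
    induction k with
    | zero => intro w; simp
    | succ k ih =>
      intro w
      rw [pow_succ']
      show ((α ((α ^ k) w) : W) : G) = _
      rw [hαv, ih, pow_succ']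
      group
  have hβk : ∀ (k : ℕ) (w : W), (((β ^ k) w : W) : G) = b ^ k * w * (b ^ k)⁻¹ := by
    intro k
    induction k with
    | zero => intro w; simp
    | succ k ih =>
      intro w
      rw [pow_succ']
      show ((β ((β ^ k) w) : W) : G) = _
      rw [hβv, ih, pow_succ']
      group
  have hcomm : Commute α β := by
    ext w
    show (α (β w) : G) = β (α w)
    rw [hαv, hβv, hβv, hαv]
    exact hab w w.2
  have hαp : α ^ p = 1 := by
    ext w
    show (((α ^ p) w : W) : G) = w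
    rw [hαk]
    exact hap w w.2
  have hβp : β ^ p = 1 := by
    ext w
    show (((β ^ p) w : W) : G) = w
    rw [hβk]
    exact hbp w w.2
  have key := rank2_core α β hcomm hαp hβp
    (by
      intro k hk0 hkp w hw
      apply Subtype.ext
      refine h2 k hk0 hkp w w.2 ?_
      rw [← hβk, hw])
    (by
      intro j w hw
      apply Subtype.ext
      refine h1 j w w.2 ?_
      have h3 : (((α * β ^ j) w : W) : G) = (a * b ^ j) * w * (a * b ^ j)⁻¹ := by
        show ((α ((β ^ j) w) : W) : G) = _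
        rw [hαv, hβk]
        group
      rw [← h3, hw])
  intro w hw
  have := key ⟨w, hw⟩
  exact congrArg Subtype.val this

end rank2

section loc
variable {G T : Type*} [Group G] [Group T] [Finite G]

/-- A pair of independent commuting elements of order `p` in a `p`-subgroup. -/
def RK (p : ℕ) (T : Type*) [Group T] : Prop :=
  ∃ (B : Subgroup T) (a b : T), IsPGroup p B ∧ a ∈ B ∧ b ∈ B ∧ a ^ p = 1 ∧ b ^ p = 1 ∧ a * b = b * a ∧
    a ≠ 1 ∧ b ∉ zpowers a

theorem orderOf_eq_pow_of_mem {p : ℕ} [Fact p.Prime] {P : Subgroup G} (hP : IsPGroup p P) {c : G} (hc : c ∈ P) :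
    ∃ k, orderOf c = p ^ k := by
  obtain ⟨k, hk⟩ := (IsPGroup.iff_orderOf.1 hP) ⟨c, hc⟩
  exact ⟨k, by rwa [Subgroup.orderOf_mk] at hk⟩

/-- The commuting pair of independent elements acts on nothing in the kernel. -/
theorem K_core (f : G →* T) (hf : Cam f) {p q : ℕ} [hp : Fact p.Prime] [hq : Fact q.Prime] (hpq : p ≠ q)
    (W : Subgroup G) (hWker : W ≤ f.ker) (hWq : IsPGroup q W) (hWab : ∀ x ∈ W, ∀ y ∈ W, x * y = y * x)
    (hW1 : W ≠ ⊥) (P : Subgroup G) (hP : IsPGroup p P) (a b : G) (ha : a ∈ P) (hb : b ∈ P)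
    (hna : ∀ w ∈ W, a * w * a⁻¹ ∈ W) (hnb : ∀ w ∈ W, b * w * b⁻¹ ∈ W)
    (hPN : ∀ c ∈ P, f c = 1 → ∀ w ∈ W, c * w = w * c)
    (hap : f a ^ p = 1) (hbp : f b ^ p = 1) (hcomm : f a * f b = f b * f a)
    (ha1 : f a ≠ 1) (hb2 : f b ∉ zpowers (f a)) : False := by
  have hfpf : ∀ c ∈ P, f c ≠ 1 → ∀ w ∈ W, c * w * c⁻¹ = w → w = 1 := by
    intro c hc hc1 w hw hcw
    obtain ⟨i, hi⟩ := orderOf_eq_pow_of_mem hP hc
    obtain ⟨j, hj⟩ := orderOf_eq_pow_of_mem hWq hw
    refine eq_one_of_commute_of_coprime f hf hc1 (hWker hw) ?_ ?_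
    · exact mul_inv_eq_iff_eq_mul.1 hcw
    · rw [hi, hj]
      exact Nat.Coprime.pow _ _ ((Nat.coprime_primes hp.out hq.out).2 hpq)
  have hb1 : f b ≠ 1 := by
    intro h
    apply hb2
    rw [h]
    exact one_mem _
  have hob : orderOf (f b) = p := orderOf_eq_prime hbp hb1
  have key := rank2_group (p := p) W hWab a b hna hnb ?_ ?_ ?_ ?_ ?_
  · apply hW1
    rw [eq_bot_iff]
    intro w hw
    obtain ⟨j, hj⟩ := orderOf_eq_pow_of_mem hWq hw
    have h1 : orderOf w ∣ p := orderOf_dvd_of_pow_eq_one (key w hw)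
    rw [hj] at h1
    have h2 : j = 0 := by
      by_contra h0
      have h3 : q ∣ p := (dvd_pow_self q h0).trans h1
      exact hpq ((Nat.prime_dvd_prime_iff_eq hq.out hp.out).1 h3).symm
    rw [h2, pow_zero] at hj
    exact Subgroup.mem_bot.2 (orderOf_eq_one_iff.1 hj)
  · intro w hw
    have hc : ∀ c ∈ P, f c = 1 → c * w * c⁻¹ = w := by
      intro c hc hc1
      rw [hPN c hc hc1 w hw]; group
    set c := a⁻¹ * b⁻¹ * a * b with hcdef
    have hcP : c ∈ P := mul_mem (mul_mem (mul_mem (inv_mem ha) (inv_mem hb)) ha) hb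
    have hc1 : f c = 1 := by
      simp only [hcdef, map_mul, map_inv]
      have e : (f b)⁻¹ * f a * f b = f a := by rw [mul_assoc, hcomm]; group
      rw [mul_assoc (f a)⁻¹, mul_assoc (f a)⁻¹, e]
      group
    have h2 := hc c hcP hc1
    calc a * (b * w * b⁻¹) * a⁻¹ = b * a * (c * w * c⁻¹) * (b * a)⁻¹ := by
          rw [hcdef]; group
      _ = b * (a * w * a⁻¹) * b⁻¹ := by rw [h2]; group
  · intro w hw
    rw [hPN _ (pow_mem ha p) (by rw [map_pow, hap]) w hw]
    group
  · intro w hw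
    rw [hPN _ (pow_mem hb p) (by rw [map_pow, hbp]) w hw]
    group
  · intro j w hw h
    refine hfpf _ (mul_mem ha (pow_mem hb j)) ?_ w hw h
    intro h1
    rw [map_mul, map_pow] at h1
    by_cases hpj : p ∣ j
    · obtain ⟨m, rfl⟩ := hpj
      rw [pow_mul, hbp, one_pow, mul_one] at h1
      exact ha1 h1
    · have hcop : Nat.Coprime j (orderOf (f b)) := by
        rw [hob]
        exact ((Nat.Prime.coprime_iff_not_dvd hp.out).2 hpj).symm
      obtain ⟨m, hm⟩ := exists_pow_eq_self_of_coprime hcop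
      apply hb2
      rw [← hm]
      have h3 : f b ^ j = (f a)⁻¹ := (inv_eq_of_mul_eq_one_right h1).symm
      rw [h3]
      exact pow_mem (inv_mem (mem_zpowers _)) m
  · intro k hk0 hkp w hw h
    refine hfpf _ (pow_mem hb k) ?_ w hw h
    rw [map_pow]
    exact pow_ne_one_of_lt_orderOf hk0.ne' (by rwa [hob])

/-- Lifting a `p`-subgroup along a surjection. -/
theorem exists_lift_pgroup {L T : Type*} [Group L] [Finite L] [Group T] (φ : L →* T)
    (hφ : Function.Surjective φ) {p : ℕ} [hp : Fact p.Prime] (B : Subgroup T) (hB : IsPGroup p B) :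
    ∃ P : Subgroup L, IsPGroup p P ∧ P.map φ = B := by
  have hψ := φ.subgroupComap_surjective_of_surjective B hφ
  obtain ⟨P₁⟩ : Nonempty (Sylow p (B.comap φ)) := inferInstance
  refine ⟨(P₁ : Subgroup (B.comap φ)).map (B.comap φ).subtype, P₁.isPGroup'.map _, ?_⟩
  apply le_antisymm
  · rintro _ ⟨_, ⟨d, hd, rfl⟩, rfl⟩
    exact d.2
  · intro t ht
    have h1 : (⊤ : Subgroup B) = (P₁.mapSurjective hψ : Subgroup B) :=
      (P₁.mapSurjective hψ).is_maximal' (hB.to_subgroup ⊤) le_top
    have h2 : (⟨t, ht⟩ : B) ∈ (P₁.mapSurjective hψ : Subgroup B) := by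
      rw [← h1]; trivial
    rw [Sylow.coe_mapSurjective] at h2
    obtain ⟨d, hd, hdt⟩ := h2
    exact ⟨d, ⟨d, hd, rfl⟩, congrArg Subtype.val hdt⟩

theorem surj_of_sup (f : G →* T) (hs : Function.Surjective f) (L : Subgroup G) (hL : L ⊔ f.ker = ⊤) :
    Function.Surjective (f.comp L.subtype) := by
  intro t
  obtain ⟨g, rfl⟩ := hs t
  have hg : g ∈ ((L ⊔ f.ker : Subgroup G) : Set G) := by rw [hL]; trivial
  rw [Subgroup.mul_normal] at hg
  obtain ⟨l, hl, n, hn, rfl⟩ := hg
  refine ⟨⟨l, hl⟩, ?_⟩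
  show f l = f (l * n)
  rw [map_mul, show f n = 1 from hn, mul_one]

/-- The local argument: `Q` a `q`-subgroup of the kernel whose normalizer covers the image, with `p`-elements
of the normalizer in the kernel centralizing `Q`. Then no independent pair of order `p` exists. -/
theorem K2 (f : G →* T) (hf : Cam f) (hs : Function.Surjective f) {p q : ℕ} [hp : Fact p.Prime]
    [hq : Fact q.Prime] (hpq : p ≠ q) (hRK : RK p T) (Q : Subgroup G) (hQker : Q ≤ f.ker)
    (hQq : IsPGroup q Q) (hQ1 : Q ≠ ⊥) (hL : (normalizer (Q : Set G)) ⊔ f.ker = ⊤)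
    (hcent : ∀ c ∈ normalizer (Q : Set G), f c = 1 → (∃ k, orderOf c = p ^ k) → ∀ w ∈ Q, c * w = w * c) :
    False := by
  haveI : Finite T := Finite.of_surjective f hs
  set L := normalizer (Q : Set G) with hLdef
  obtain ⟨B, a₀, b₀, hB, ha₀, hb₀, ha₀p, hb₀p, hab, ha₀1, hb₀2⟩ := hRK
  have hφ := surj_of_sup f hs L hL
  obtain ⟨P₁, hP₁, hP₁B⟩ := exists_lift_pgroup (f.comp L.subtype) hφ B hB
  obtain ⟨a₁, ha₁, ha₁v⟩ : a₀ ∈ P₁.map (f.comp L.subtype) := by rw [hP₁B]; exact ha₀
  obtain ⟨b₁, hb₁, hb₁v⟩ : b₀ ∈ P₁.map (f.comp L.subtype) := by rw [hP₁B]; exact hb₀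
  have ha₁v' : f (a₁ : G) = a₀ := ha₁v
  have hb₁v' : f (b₁ : G) = b₀ := hb₁v
  set P : Subgroup G := P₁.map L.subtype with hPdef
  have hP : IsPGroup p P := hP₁.map _
  -- the abelian part
  set W : Subgroup G := Q ⊓ centralizer (Q : Set G) with hW
  have hWne : W ≠ ⊥ := by
    haveI : Nontrivial Q := by
      rw [Subgroup.nontrivial_iff_ne_bot]
      exact hQ1
    have hct := hQq.center_nontrivial
    obtain ⟨z, hz⟩ := exists_ne (1 : Subgroup.center Q)
    intro hbot
    have hzW : ((z : Q) : G) ∈ W := by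
      refine Subgroup.mem_inf.2 ⟨(z : Q).2, ?_⟩
      rw [Subgroup.mem_centralizer_iff]
      intro u hu
      have := (Subgroup.mem_center_iff.1 z.2) ⟨u, hu⟩
      exact congrArg Subtype.val this
    rw [hbot, Subgroup.mem_bot] at hzW
    exact hz (Subtype.ext (Subtype.ext hzW))
  have hconjW : ∀ c ∈ L, ∀ w ∈ W, c * w * c⁻¹ ∈ W := by
    intro c hc w hw
    have hw1 := (Subgroup.mem_inf.1 hw).1
    have hw2 := (Subgroup.mem_inf.1 hw).2
    rw [Subgroup.mem_centralizer_iff] at hw2
    have hcn := Subgroup.mem_normalizer_iff.1 hc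
    refine Subgroup.mem_inf.2 ⟨(hcn w).1 hw1, ?_⟩
    rw [Subgroup.mem_centralizer_iff]
    intro u hu
    have hu' : c⁻¹ * u * c ∈ Q := by
      have := (hcn (c⁻¹ * u * c)).2
      apply this
      have e : c * (c⁻¹ * u * c) * c⁻¹ = u := by group
      rw [e]; exact hu
    have e1 := hw2 _ hu'
    calc u * (c * w * c⁻¹) = c * ((c⁻¹ * u * c) * w) * c⁻¹ := by group
      _ = c * (w * (c⁻¹ * u * c)) * c⁻¹ := by rw [e1]
      _ = c * w * c⁻¹ * u := by group
  refine K_core f hf hpq W (inf_le_left.trans hQker) (hQq.to_le inf_le_left) ?_ hWne P hP (a₁ : G) (b₁ : G)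
    ⟨a₁, ha₁, rfl⟩ ⟨b₁, hb₁, rfl⟩ (hconjW _ a₁.2) (hconjW _ b₁.2) ?_ ?_ ?_ ?_ ?_ ?_
  · intro x hx y hy
    have h2 := (Subgroup.mem_inf.1 hy).2
    rw [Subgroup.mem_centralizer_iff] at h2
    exact h2 x (Subgroup.mem_inf.1 hx).1
  · rintro c ⟨c₁, hc₁, rfl⟩ hc1 w hw
    exact hcent c₁ c₁.2 hc1 (orderOf_eq_pow_of_mem hP ⟨c₁, hc₁, rfl⟩) w (Subgroup.mem_inf.1 hw).1
  · rw [ha₁v']; exact ha₀p
  · rw [hb₁v']; exact hb₀p
  · rw [ha₁v', hb₁v']; exact hab
  · rw [ha₁v']; exact ha₀1
  · rw [ha₁v', hb₁v']; exact hb₀2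

/-- A `p`-element outside the kernel fixes a nontrivial `p`-element of the kernel if `p` divides its order. -/
theorem exists_cent_in_ker (f : G →* T) {p : ℕ} [hp : Fact p.Prime] {x : G} (hx : ∃ k, orderOf x = p ^ k)
    (hN : p ∣ Nat.card f.ker) :
    ∃ c : G, f c = 1 ∧ c ≠ 1 ∧ c * x = x * c ∧ ∃ k, orderOf c = p ^ k := by
  have hxp : IsPGroup p (zpowers x) := by
    obtain ⟨k, hk⟩ := hx
    exact IsPGroup.of_card (n := k) (by rw [Nat.card_zpowers, hk])
  obtain ⟨P, hP⟩ := hxp.exists_le_sylow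
  obtain ⟨z₀, hz₀⟩ := exists_prime_orderOf_dvd_card' p hN
  have hz₀ord : orderOf (z₀ : G) = p := by rwa [Subgroup.orderOf_coe]
  have hz₀p : IsPGroup p (zpowers (z₀ : G)) :=
    IsPGroup.of_card (n := 1) (by rw [Nat.card_zpowers, hz₀ord, pow_one])
  obtain ⟨y, hy⟩ := Cfsg.Agent.Lib.Transfer.Frobenius.exists_conj_mem_of_isPGroup P hz₀p
  have hz₁P := hy z₀ (mem_zpowers _)
  have hz₁ker : f (y * z₀ * y⁻¹) = 1 := by
    have : f (z₀ : G) = 1 := z₀.2
    simp [this]
  have hz₁ne : y * (z₀ : G) * y⁻¹ ≠ 1 := by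
    intro h
    have h2 : (z₀ : G) = 1 := by
      have : (z₀ : G) = y⁻¹ * (y * z₀ * y⁻¹) * y := by group
      rw [this, h]; group
    rw [h2, orderOf_one] at hz₀ord
    exact hp.out.one_lt.ne hz₀ord
  haveI : (f.ker.subgroupOf (P : Subgroup G)).Normal := inferInstance
  have hne : f.ker.subgroupOf (P : Subgroup G) ≠ ⊥ := by
    intro h
    have hmem : (⟨_, hz₁P⟩ : (P : Subgroup G)) ∈ f.ker.subgroupOf (P : Subgroup G) := by
      rw [Subgroup.mem_subgroupOf]
      exact hz₁ker
    rw [h, Subgroup.mem_bot] at hmem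
    exact hz₁ne (congrArg Subtype.val hmem)
  have hcen := Cfsg.Agent.Lib.PGroup.Basic.inf_center_ne_bot P.isPGroup' hne
  obtain ⟨⟨⟨c, hcP⟩, hcmem⟩, hc1⟩ := (Subgroup.ne_bot_iff_exists_ne_one.1 hcen)
  have hc2 := Subgroup.mem_inf.1 hcmem
  have hcker : f c = 1 := (Subgroup.mem_subgroupOf.1 hc2.1)
  have hcen2 := Subgroup.mem_center_iff.1 hc2.2
  have hc3 : c ≠ 1 := fun h => hc1 (Subtype.ext (Subtype.ext h))
  refine ⟨c, hcker, hc3, ?_, orderOf_eq_pow_of_mem P.isPGroup' hcP⟩
  have hxP : x ∈ (P : Subgroup G) := hP (mem_zpowers x)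
  have := hcen2 ⟨x, hxP⟩
  exact (congrArg Subtype.val this).symm

/-- Some power of prime-power order stays outside the kernel. -/
theorem exists_prime_power_part (f : G →* T) : ∀ (n : ℕ) (g : G), orderOf g = n → f g ≠ 1 →
    ∃ p : ℕ, p.Prime ∧ ∃ g' ∈ zpowers g, f g' ≠ 1 ∧ ∃ k, orderOf g' = p ^ k := by
  intro n
  induction n using Nat.strong_induction_on with
  | _ n ih =>
  intro g hn hg
  have hg1 : orderOf g ≠ 1 := by
    intro h
    rw [orderOf_eq_one_iff] at h
    rw [h, map_one] at hg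
    exact hg rfl
  obtain ⟨p, hp, hpd⟩ := Nat.exists_prime_and_dvd hg1
  haveI : Fact p.Prime := ⟨hp⟩
  obtain ⟨a, b, hab, hcomm, ha, hb, ⟨k, hk⟩, hcop⟩ :=
    Cfsg.Agent.Lib.Transfer.Basic.exists_pPart_decomp (p := p) g
  by_cases hfa : f a = 1
  · have hfb : f b ≠ 1 := by
      intro h
      apply hg
      rw [← hab, map_mul, hfa, h, one_mul]
    have hbg : orderOf b ∣ orderOf g := orderOf_dvd_of_mem_zpowers hb
    have hlt : orderOf b < n := by
      rw [← hn]
      apply lt_of_le_of_ne (Nat.le_of_dvd (orderOf_pos g) hbg)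
      intro h
      rw [h] at hcop
      exact (Nat.Prime.coprime_iff_not_dvd hp).1 hcop.symm hpd
    obtain ⟨q, hq, g', hg', hg'f, hg'k⟩ := ih _ hlt b rfl hfb
    refine ⟨q, hq, g', ?_, hg'f, hg'k⟩
    exact (Subgroup.zpowers_le.2 hb) hg'
  · exact ⟨p, hp, a, ha, hfa, k, hk⟩

/-- If no prime divides both the order of the image and the order of the kernel, the Frobenius property holds. -/
theorem frob_of_coprime (f : G →* T) (hf : Cam f) (hs : Function.Surjective f)
    (h : ∀ p : ℕ, p.Prime → p ∣ Nat.card T → ¬ p ∣ Nat.card f.ker) : Frob f := by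
  haveI : Finite T := Finite.of_surjective f hs
  intro n hn hn1 g hgn
  by_contra hg
  obtain ⟨p, hp, g', hg', hg'f, k, hk⟩ := exists_prime_power_part f _ g rfl hg
  haveI : Fact p.Prime := ⟨hp⟩
  have hpT : p ∣ Nat.card T := by
    have h1 : orderOf (f g') ∣ p ^ k := by
      rw [← hk]
      exact orderOf_map_dvd f g'
    have h2 : orderOf (f g') ≠ 1 := by
      rw [Ne, orderOf_eq_one_iff]
      exact hg'f
    obtain ⟨j, hj, hj2⟩ := (Nat.dvd_prime_pow hp).1 h1
    have hj0 : j ≠ 0 := by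
      rintro rfl
      exact h2 (by simpa using hj2)
    have h3 : p ∣ orderOf (f g') := by
      rw [hj2]
      exact dvd_pow_self p hj0
    exact h3.trans (orderOf_dvd_natCard _)
  have hnp := h p hp hpT
  have hno : orderOf n ∣ Nat.card f.ker := by
    have := orderOf_dvd_natCard (⟨n, MonoidHom.mem_ker.2 hn⟩ : f.ker)
    rwa [Subgroup.orderOf_mk] at this
  have hcop : Nat.Coprime (orderOf g') (orderOf n) := by
    rw [hk]
    apply Nat.Coprime.pow_left
    exact (Nat.Prime.coprime_iff_not_dvd hp).2 (fun h' => hnp (h'.trans hno))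
  have hcomm : g' * n = n * g' := by
    obtain ⟨z, rfl⟩ := Subgroup.mem_zpowers_iff.1 hg'
    have hc : Commute g n := hgn
    exact (hc.zpow_left z)
  exact hn1 (eq_one_of_commute_of_coprime f hf hg'f hn hcomm hcop)

/-- A Frobenius pair admits no independent commuting pair of order `p` in the image. -/
theorem no_frob (f : G →* T) (hf : Cam f) (hs : Function.Surjective f) (hker : f.ker ≠ ⊥) (hF : Frob f)
    {p : ℕ} [hp : Fact p.Prime] (hRK : RK p T) : False := by
  haveI : Finite T := Finite.of_surjective f hs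
  have hnd : ¬ p ∣ Nat.card f.ker := by
    intro hd
    obtain ⟨B, a₀, b₀, hB, ha₀, hb₀, ha₀p, hb₀p, hab, ha₀1, hb₀2⟩ := hRK
    obtain ⟨P₁, hP₁, hP₁B⟩ := exists_lift_pgroup f hs B hB
    obtain ⟨a₁, ha₁, ha₁v⟩ : a₀ ∈ P₁.map f := by rw [hP₁B]; exact ha₀
    obtain ⟨c, hc1, hc2, hc3, -⟩ := exists_cent_in_ker f (orderOf_eq_pow_of_mem hP₁ ha₁) hd
    have := hF c hc1 hc2 a₁ hc3.symm
    rw [ha₁v] at this
    exact ha₀1 this
  have hcard1 : Nat.card f.ker ≠ 1 := by
    intro h
    exact hker (Subgroup.eq_bot_of_card_eq _ h)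
  obtain ⟨q, hq, hqd⟩ := Nat.exists_prime_and_dvd hcard1
  haveI : Fact q.Prime := ⟨hq⟩
  have hpq : p ≠ q := by
    rintro rfl
    exact hnd hqd
  obtain ⟨Q⟩ : Nonempty (Sylow q f.ker) := inferInstance
  refine K2 f hf hs hpq hRK ((Q : Subgroup f.ker).map f.ker.subtype) ?_ (Q.isPGroup'.map _) ?_
    (Sylow.normalizer_sup_eq_top Q) ?_
  · exact Subgroup.map_subtype_le _
  · intro h
    have h1 := Sylow.ne_bot_of_dvd_card Q hqd
    apply h1
    exact (Subgroup.map_eq_bot_iff_of_injective _ (Subgroup.subtype_injective _)).1 h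
  · intro c _ hc1 ⟨k, hk⟩ w _
    have hno : orderOf c ∣ Nat.card f.ker := by
      have := orderOf_dvd_natCard (⟨c, MonoidHom.mem_ker.2 hc1⟩ : f.ker)
      rwa [Subgroup.orderOf_mk] at this
    have hk0 : k = 0 := by
      by_contra h0
      apply hnd
      exact (dvd_pow_self p h0).trans (hk ▸ hno)
    rw [hk0, pow_zero, orderOf_eq_one_iff] at hk
    rw [hk]; group

/-- **The key local lemma.** If `p` divides the orders of the image and of the kernel, the image contains an
independent commuting pair of order `p`. -/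
theorem star (f : G →* T) (hf : Cam f) (hs : Function.Surjective f) {p : ℕ} [hp : Fact p.Prime]
    (hT : p ∣ Nat.card T) (hN : p ∣ Nat.card f.ker) : RK p T := by
  classical
  haveI : Finite T := Finite.of_surjective f hs
  -- a `p`-element of maximal order
  obtain ⟨xb, ⟨i, hi⟩, hmax⟩ := Set.exists_max_image {t : T | ∃ k, orderOf t = p ^ k} orderOf
    (Set.toFinite _) ⟨1, 0, by simp⟩
  have hxb1 : xb ≠ 1 := by
    obtain ⟨t₀, ht₀⟩ := exists_prime_orderOf_dvd_card' p hT
    have h1 := hmax t₀ ⟨1, by rw [ht₀, pow_one]⟩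
    intro h
    rw [h, orderOf_one, ht₀] at h1
    exact absurd hp.out.two_le (by omega)
  have hi0 : i ≠ 0 := by
    rintro rfl
    rw [pow_zero, orderOf_eq_one_iff] at hi
    exact hxb1 hi
  -- a `p`-element lift
  obtain ⟨x, hxo, hfx⟩ : ∃ x : G, (∃ k, orderOf x = p ^ k) ∧ f x = xb := by
    have hB : IsPGroup p (zpowers xb) := IsPGroup.of_card (n := i) (by rw [Nat.card_zpowers, hi])
    obtain ⟨P₁, hP₁, hP₁B⟩ := exists_lift_pgroup f hs _ hB
    obtain ⟨a₁, ha₁, ha₁v⟩ : xb ∈ P₁.map f := by rw [hP₁B]; exact mem_zpowers xb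
    exact ⟨a₁, orderOf_eq_pow_of_mem hP₁ ha₁, ha₁v⟩
  have hfx1 : f x ≠ 1 := by rw [hfx]; exact hxb1
  set V : Subgroup G := centralizer ({x} : Set G) with hV
  set Cb : Subgroup T := centralizer ({xb} : Set T) with hCb
  have hpV : p ∣ Nat.card (V ⊓ f.ker : Subgroup G) := by
    obtain ⟨c, hc1, hc2, hc3, k, hk⟩ := exists_cent_in_ker f hxo hN
    have hcmem : c ∈ (V ⊓ f.ker : Subgroup G) := by
      refine Subgroup.mem_inf.2 ⟨?_, hc1⟩
      rw [hV, Subgroup.mem_centralizer_iff]
      rintro _ rfl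
      exact hc3.symm
    have h1 := orderOf_dvd_natCard (⟨c, hcmem⟩ : (V ⊓ f.ker : Subgroup G))
    rw [Subgroup.orderOf_mk, hk] at h1
    have hk0 : k ≠ 0 := by
      rintro rfl
      rw [pow_zero, orderOf_eq_one_iff] at hk
      exact hc2 hk
    exact (dvd_pow_self p hk0).trans h1
  have hcount : Nat.card Cb = Nat.card (V.map f) * Nat.card (V ⊓ f.ker : Subgroup G) := by
    rw [← card_eq_map_mul, hV, card_centralizer_eq f hf hs x hfx1, hfx]
  have hVCb : V.map f ≤ Cb := by
    rintro _ ⟨c, hc, rfl⟩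
    have hc' : c ∈ centralizer ({x} : Set G) := hc
    rw [Subgroup.mem_centralizer_iff] at hc'
    rw [hCb, Subgroup.mem_centralizer_iff]
    intro y hy
    have hy' : y = xb := hy
    rw [hy', ← hfx, ← map_mul, ← map_mul, hc' x rfl]
  -- a `p`-element of the centralizer outside the image
  obtain ⟨w, hwCb, hwo, hwV⟩ : ∃ w : T, w ∈ Cb ∧ (∃ k, orderOf w = p ^ k) ∧ w ∉ V.map f := by
    obtain ⟨R⟩ : Nonempty (Sylow p Cb) := inferInstance
    by_contra hcon
    push Not at hcon
    have hR : (R : Subgroup Cb) ≤ (V.map f).subgroupOf Cb := by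
      intro r hr
      rw [Subgroup.mem_subgroupOf]
      apply hcon (r : T) r.2
      obtain ⟨k, hk⟩ := orderOf_eq_pow_of_mem R.isPGroup' hr
      exact ⟨k, by rw [Subgroup.orderOf_coe]; exact hk⟩
    have h1 := R.not_dvd_index
    apply h1
    refine dvd_trans ?_ (Subgroup.index_dvd_of_le hR)
    have h2 := Subgroup.card_mul_index ((V.map f).subgroupOf Cb)
    rw [hcount, Nat.card_congr (Subgroup.subgroupOfEquivOfLe hVCb).toEquiv] at h2
    have h3 : Nat.card (V.map f) ≠ 0 := Nat.card_pos.ne'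
    have h4 := Nat.eq_of_mul_eq_mul_left (Nat.pos_of_ne_zero h3) h2
    rw [h4]
    exact hpV
  have hzx : zpowers xb ≤ V.map f := by
    rw [Subgroup.zpowers_le]
    refine ⟨x, Subgroup.mem_centralizer_iff.2 ?_, hfx⟩
    rintro _ rfl
    rfl
  have hwx : w ∉ zpowers xb := fun h => hwV (hzx h)
  -- the commutation of `w` with `xb`
  have hcomm : Commute w xb := by
    rw [hCb, Subgroup.mem_centralizer_iff] at hwCb
    exact (hwCb xb rfl).symm
  -- the last power outside `zpowers xb`
  obtain ⟨k, hk⟩ := hwo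
  have hex : ∃ e, w ^ (p ^ e) ∈ zpowers xb := ⟨k, by rw [← hk, pow_orderOf_eq_one]; exact one_mem _⟩
  set e := Nat.find hex with he
  have he1 : w ^ (p ^ e) ∈ zpowers xb := Nat.find_spec hex
  have he0 : e ≠ 0 := by
    intro h
    rw [h, pow_zero, pow_one] at he1
    exact hwx he1
  obtain ⟨d, hd⟩ : ∃ d, e = d + 1 := ⟨e - 1, by omega⟩
  set w' := w ^ (p ^ d) with hw'
  have hw'x : w' ∉ zpowers xb := Nat.find_min hex (by omega : d < e)
  have hw'p : w' ^ p ∈ zpowers xb := by
    rw [hw', ← pow_mul, ← pow_succ, ← hd]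
    exact he1
  have hcomm' : Commute w' xb := hcomm.pow_left _
  have hw'o : ∃ l, orderOf w' = p ^ l := by
    have h1 : orderOf w' ∣ p ^ k := by
      apply orderOf_dvd_of_pow_eq_one
      rw [hw', ← pow_mul, mul_comm, pow_mul, ← hk, pow_orderOf_eq_one, one_pow]
    obtain ⟨l, _, hl⟩ := (Nat.dvd_prime_pow hp.out).1 h1
    exact ⟨l, hl⟩
  obtain ⟨m, hm⟩ : ∃ m : ℕ, xb ^ m = w' ^ p := by
    have := (mem_powers_iff_mem_zpowers (x := xb) (y := w' ^ p)).2 hw'p
    obtain ⟨m, hm⟩ := this
    exact ⟨m, hm⟩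
  have hpm : p ∣ m := by
    by_contra hpm
    have hcop : Nat.Coprime (orderOf xb) m := by
      rw [hi]
      exact Nat.Coprime.pow_left _ ((Nat.Prime.coprime_iff_not_dvd hp.out).2 hpm)
    have h1 : orderOf (xb ^ m) = p ^ i := by rw [hcop.orderOf_pow, hi]
    rw [hm] at h1
    obtain ⟨l, hl⟩ := hw'o
    have hl0 : l ≠ 0 := by
      rintro rfl
      rw [pow_zero, orderOf_eq_one_iff] at hl
      apply hw'x
      rw [hl]
      exact one_mem _
    have h2 : orderOf (w' ^ p) = p ^ (l - 1) := by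
      rw [orderOf_pow' _ hp.out.ne_zero, hl]
      have h3 : Nat.gcd (p ^ l) p = p := Nat.gcd_eq_right (dvd_pow_self p hl0)
      rw [h3]
      obtain ⟨l', rfl⟩ : ∃ l', l = l' + 1 := ⟨l - 1, by omega⟩
      rw [pow_succ, Nat.mul_div_cancel _ hp.out.pos]
      simp
    rw [h1] at h2
    have h4 : i = l - 1 := Nat.pow_right_injective hp.out.two_le h2
    have h5 := hmax w' ⟨l, hl⟩
    rw [hl, hi] at h5
    have h6 : p ^ i < p ^ l := Nat.pow_lt_pow_right hp.out.one_lt (by omega)
    omega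
  obtain ⟨m', rfl⟩ := hpm
  -- the pair
  set b := w' * (xb ^ m')⁻¹ with hb
  set a := xb ^ (p ^ (i - 1)) with ha
  refine ⟨zpowers xb ⊔ zpowers w, a, b, ?_, ?_, ?_, ?_, ?_, ?_, ?_, ?_⟩
  · apply IsPGroup.to_sup_of_normal_right'
    · exact IsPGroup.of_card (n := i) (by rw [Nat.card_zpowers, hi])
    · exact IsPGroup.of_card (n := k) (by rw [Nat.card_zpowers, hk])
    · rw [Subgroup.zpowers_le, Subgroup.mem_normalizer_iff]
      have hcz : ∀ y ∈ zpowers w, xb * y * xb⁻¹ = y := by
        rintro _ ⟨z, rfl⟩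
        have h1 := (hcomm.symm.zpow_right z).eq
        simp only
        rw [h1]; group
      intro y
      constructor
      · intro hy
        rw [hcz y hy]
        exact hy
      · intro hy
        have h1 := hcz _ hy
        have h2 : xb * y * xb⁻¹ = y := by
          have h3 : xb * (xb * y * xb⁻¹) = (xb * y * xb⁻¹) * xb := by
            calc xb * (xb * y * xb⁻¹) = xb * (xb * y * xb⁻¹) * xb⁻¹ * xb := by group
              _ = (xb * y * xb⁻¹) * xb := by rw [h1]
          have h4 : xb * y = y * xb := by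
            have e1 : xb * (xb * y * xb⁻¹) * xb⁻¹ = xb * (xb * y * xb⁻¹ * xb⁻¹) := by group
            have e2 : xb * y * xb⁻¹ = xb⁻¹ * (xb * (xb * y * xb⁻¹)) := by group
            rw [h3] at e2
            have e3 : xb * y * xb⁻¹ = y := by
              rw [e2]; group
            exact mul_inv_eq_iff_eq_mul.1 e3
          rw [h4]; group
        rw [h2] at hy
        exact hy
  · exact Subgroup.mem_sup_left (pow_mem (mem_zpowers _) _)
  · refine mul_mem (Subgroup.mem_sup_right (pow_mem (mem_zpowers _) _)) (inv_mem (Subgroup.mem_sup_left (pow_mem (mem_zpowers _) _)))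
  · rw [ha, ← pow_mul, ← pow_succ]
    have : i - 1 + 1 = i := by omega
    rw [this, ← hi, pow_orderOf_eq_one]
  · have hc2 : Commute w' (xb ^ m')⁻¹ := (hcomm'.pow_right m').inv_right
    rw [hb, hc2.mul_pow, ← hm, inv_pow, ← pow_mul, mul_comm m' p]
    group
  · have hc3 : Commute a w' := (hcomm'.pow_right _).symm
    have hc4 : Commute a (xb ^ m')⁻¹ := ((Commute.refl xb).pow_pow _ _).inv_right
    exact (hc3.mul_right hc4).eq
  · rw [ha]
    apply pow_ne_one_of_lt_orderOf (pow_ne_zero _ hp.out.ne_zero)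
    rw [hi]
    exact Nat.pow_lt_pow_right hp.out.one_lt (by omega)
  · intro hbmem
    have h1 : zpowers a ≤ zpowers xb := by
      rw [Subgroup.zpowers_le, ha]
      exact pow_mem (mem_zpowers _) _
    have h2 := h1 hbmem
    apply hw'x
    have h3 : w' = b * xb ^ m' := by rw [hb]; group
    rw [h3]
    exact mul_mem h2 (pow_mem (mem_zpowers _) _)

end loc

section main

open Cfsg.Agent.Lib.PGroup.ZJ Cfsg.Agent.Lib.Transfer.Basic

theorem exists_other_prime {m p : ℕ} (hm : m ≠ 0) (hp : p.Prime) (hpm : p ∣ m) (hnp : ¬ IsPrimePow m) :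
    ∃ q : ℕ, q.Prime ∧ q ≠ p ∧ q ∣ m := by
  by_contra hcon
  push Not at hcon
  apply hnp
  have h1 := Nat.eq_prime_pow_of_unique_prime_dvd hm (fun {d} hd hdm => by
    by_contra h
    exact hcon d hd h hdm)
  rw [isPrimePow_nat_iff]
  refine ⟨p, _, hp, ?_, h1.symm⟩
  by_contra h0
  have h2 : m.primeFactorsList.length = 0 := by omega
  rw [h2, pow_zero] at h1
  rw [h1] at hpm
  exact hp.one_lt.ne' (Nat.dvd_one.1 hpm)

theorem card_ker_comp {G T : Type*} [Group G] [Group T] (f : G →* T) (L : Subgroup G) :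
    Nat.card (f.comp L.subtype).ker = Nat.card (L ⊓ f.ker : Subgroup G) := by
  refine Nat.card_congr ?_
  refine
    { toFun := fun a => ⟨(a : L), (a : L).2, a.2⟩
      invFun := fun a => ⟨⟨a, a.2.1⟩, a.2.2⟩
      left_inv := fun a => rfl
      right_inv := fun a => rfl }

theorem main_thm {T : Type u} [Group T] [Finite T] [Nontrivial T] (hT : ¬ IsPrimePow (Nat.card T)) :
    ∀ (n : ℕ) (G : Type u) [Group G] [Finite G] (f : G →* T), Nat.card G = n → Function.Surjective f →
      f.ker ≠ ⊥ → Cam f → ¬ IsPrimePow (Nat.card f.ker) → Frob f := by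
  intro n
  induction n using Nat.strong_induction_on with
  | _ n ih =>
  intro G _ _ f hn hs hker hf hNpp
  classical
  by_contra hnF
  set N : Subgroup G := f.ker with hNdef
  have hNcard0 : Nat.card N ≠ 0 := Nat.card_pos.ne'
  -- a common prime
  obtain ⟨p₀, hp₀, hp₀T, hp₀N⟩ : ∃ p : ℕ, p.Prime ∧ p ∣ Nat.card T ∧ p ∣ Nat.card N := by
    by_contra h
    push Not at h
    exact hnF (frob_of_coprime f hf hs (fun p hp h1 h2 => h p hp h1 h2))
  haveI : Fact p₀.Prime := ⟨hp₀⟩
  have hRK : RK p₀ T := star f hf hs hp₀T hp₀N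
  -- proper subgroups covering `T`
  have A1 : ∀ L : Subgroup G, L ≠ ⊤ → L ⊔ N = ⊤ → (L ⊓ N : Subgroup G) ≠ ⊥ →
      IsPrimePow (Nat.card (L ⊓ N : Subgroup G)) := by
    intro L hL hLN hY
    by_contra hnp
    have hφ := surj_of_sup f hs L hLN
    have hlt : Nat.card L < n := by
      rw [← hn]
      apply lt_of_le_of_ne (Subgroup.card_le_card_group L)
      intro h
      exact hL (Subgroup.eq_top_of_card_eq L h)
    have hk1 : Nat.card (f.comp L.subtype).ker = Nat.card (L ⊓ N : Subgroup G) := card_ker_comp f L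
    have hk2 : (f.comp L.subtype).ker ≠ ⊥ := by
      intro h
      rw [h, Subgroup.card_bot] at hk1
      exact hY (Subgroup.eq_bot_of_card_eq _ hk1.symm)
    have hcam := cam_sub f hf hs L hφ
    have hfr := ih _ hlt L (f.comp L.subtype) rfl hφ hk2 hcam (by rw [hk1]; exact hnp)
    exact no_frob _ hcam hφ hk2 hfr hRK
  -- quotients
  have A2 : ∀ K : Subgroup G, K.Normal → K ≤ N → K ≠ ⊥ → K ≠ N →
      ∃ (s k : ℕ), s.Prime ∧ k ≠ 0 ∧ Nat.card N = Nat.card K * s ^ k := by
    intro K hKn hKN hK1 hKne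
    haveI := hKn
    set F : G ⧸ K →* T := QuotientGroup.lift K f (fun x hx => hKN hx) with hF
    have hFs : Function.Surjective F := by
      intro t
      obtain ⟨g, rfl⟩ := hs t
      exact ⟨(g : G ⧸ K), rfl⟩
    have hGc : Nat.card G = Nat.card K * Nat.card (G ⧸ K) := (Subgroup.card_mul_index K).symm
    have hK2 : 1 < Nat.card K := by
      have h0 : Nat.card K ≠ 0 := Nat.card_pos.ne'
      have h1 : Nat.card K ≠ 1 := fun h => hK1 (Subgroup.eq_bot_of_card_eq _ h)
      omega
    have hlt : Nat.card (G ⧸ K) < n := by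
      rw [← hn, hGc]
      have h0 : 0 < Nat.card (G ⧸ K) := Nat.card_pos
      nlinarith
    have hFker : F.ker = N.map (QuotientGroup.mk' K) := by
      ext y
      obtain ⟨g, rfl⟩ := QuotientGroup.mk_surjective y
      constructor
      · intro h
        exact ⟨g, h, rfl⟩
      · rintro ⟨g', hg', hgg⟩
        show f g = 1
        have h1 : g'⁻¹ * g ∈ K := QuotientGroup.eq.1 hgg
        have h2 : f (g'⁻¹ * g) = 1 := hKN h1
        rw [map_mul, map_inv, show f g' = 1 from hg', inv_one, one_mul] at h2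
        exact h2
    have hcard := card_eq_map_mul (QuotientGroup.mk' K) N
    rw [QuotientGroup.ker_mk', inf_eq_right.2 hKN, ← hFker, mul_comm] at hcard
    have hFne : F.ker ≠ ⊥ := by
      intro h
      rw [h, Subgroup.card_bot, mul_one] at hcard
      exact hKne (Subgroup.eq_of_le_of_card_ge hKN hcard.le)
    have hFcam : Cam F := cam_quotient f hf K hKN
    have hpp : IsPrimePow (Nat.card F.ker) := by
      by_contra hnp
      have hfr := ih _ hlt (G ⧸ K) F rfl hFs hFne hFcam hnp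
      exact no_frob _ hFcam hFs hFne hfr hRK
    obtain ⟨s, k, hs1, hk, hsk⟩ := (isPrimePow_nat_iff _).1 hpp
    exact ⟨s, k, hs1, hk.ne', by rw [hcard, ← hsk]⟩
  -- the normalizer lemma
  have B1 : ∀ (q : ℕ) [Fact q.Prime] (Q : Sylow q N) (Z : Subgroup G), (Q : Subgroup N) ≠ ⊥ →
      normalizer (((Q : Subgroup N).map N.subtype : Subgroup G) : Set G) ≤ normalizer (Z : Set G) →
      normalizer (Z : Set G) ≠ ⊤ → ∀ y ∈ normalizer (Z : Set G), f y = 1 →
      y ∈ (Q : Subgroup N).map N.subtype := by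
    intro q _ Q Z hQ1 hZ hZtop y hy hfy
    set Qt : Subgroup G := (Q : Subgroup N).map N.subtype with hQt
    set L : Subgroup G := normalizer (Z : Set G) with hL
    have hQL : Qt ≤ L := (Subgroup.le_normalizer).trans hZ
    have hQker : Qt ≤ N := Subgroup.map_subtype_le _
    have hQt1 : Qt ≠ ⊥ := fun h =>
      hQ1 ((Subgroup.map_eq_bot_iff_of_injective _ (Subgroup.subtype_injective _)).1 h)
    have hLN : L ⊔ N = ⊤ := by
      apply top_le_iff.1
      rw [← Sylow.normalizer_sup_eq_top Q]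
      exact sup_le_sup_right hZ _
    have hQY : Qt ≤ L ⊓ N := le_inf hQL hQker
    have hY : (L ⊓ N : Subgroup G) ≠ ⊥ := fun h => hQt1 (le_bot_iff.1 (h ▸ hQY))
    obtain ⟨t, k, ht, hk, htk⟩ := (isPrimePow_nat_iff _).1 (A1 L hZtop hLN hY)
    have hqt : t = q := by
      have hq2 : q ∣ Nat.card Qt := by
        have hQp : IsPGroup q Qt := Q.isPGroup'.map _
        rcases hQp.card_eq_or_dvd with h | h
        · exact absurd (Subgroup.eq_bot_of_card_eq _ h) hQt1
        · exact h
      have h3 := hq2.trans (Subgroup.card_dvd_of_le hQY)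
      rw [← htk] at h3
      exact ((Nat.prime_dvd_prime_iff_eq Fact.out ht).1 (Nat.Prime.dvd_of_dvd_pow Fact.out h3)).symm
    subst hqt
    have hYp : IsPGroup t (L ⊓ N : Subgroup G) := IsPGroup.of_card htk.symm
    set D : Subgroup N := (L ⊓ N : Subgroup G).comap N.subtype with hD
    have hDp : IsPGroup t D := hYp.comap_of_injective _ (Subgroup.subtype_injective _)
    have hQD : (Q : Subgroup N) ≤ D := by
      intro z hz
      exact hQY ⟨z, hz, rfl⟩
    have hDQ : D = Q := Q.is_maximal' hDp hQD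
    have hyD : (⟨y, hfy⟩ : N) ∈ D := Subgroup.mem_inf.2 ⟨hy, hfy⟩
    rw [hDQ] at hyD
    exact ⟨_, hyD, rfl⟩
  have hNnp : ∀ (r : ℕ) [Fact r.Prime], ¬ IsPGroup r N := by
    intro r _ h
    obtain ⟨k, hk⟩ := IsPGroup.iff_card.1 h
    apply hNpp
    rw [isPrimePow_nat_iff]
    refine ⟨r, k, Fact.out, ?_, hk.symm⟩
    by_contra h0
    have h1 : k = 0 := by omega
    rw [h1, pow_zero] at hk
    exact hker (Subgroup.eq_bot_of_card_eq _ hk)
  have hconjmem : ∀ (Z : Subgroup G) (g : G), (∀ z ∈ Z, g * z * g⁻¹ ∈ Z) → g ∈ normalizer (Z : Set G) := by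
    intro Z g h
    rw [Subgroup.mem_normalizer_iff]
    intro x
    refine ⟨h x, fun hx => ?_⟩
    let F : Z → Z := fun z => ⟨g * z * g⁻¹, h z z.2⟩
    have hFi : Function.Injective F := by
      intro a b hab
      have h2 : g * (a : G) * g⁻¹ = g * b * g⁻¹ := congrArg Subtype.val hab
      apply Subtype.ext
      simpa using h2
    obtain ⟨z, hz⟩ := Finite.surjective_of_injective hFi ⟨_, hx⟩
    have h3 : g * (z : G) * g⁻¹ = g * x * g⁻¹ := congrArg Subtype.val hz
    have h4 : (z : G) = x := by simpa using h3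
    rw [← h4]
    exact z.2
  -- the prime-pair lemma
  have B2 : ∀ (q s : ℕ) [Fact q.Prime] [Fact s.Prime] (Q : Sylow q N) (S : Sylow s N), s ≠ q →
      (Q : Subgroup N) ≠ ⊥ → ¬ (Q : Subgroup N).Normal → (S : Subgroup N).Normal → s ∣ Nat.card N →
      ¬ Group.IsNilpotent N → False := by
    intro q s _ _ Q S hsq hQ1 hQn hSn hsN hnil
    have hqp : (q : ℕ).Prime := Fact.out
    have hsp : (s : ℕ).Prime := Fact.out
    set Qt : Subgroup G := (Q : Subgroup N).map N.subtype with hQt
    set St : Subgroup G := (S : Subgroup N).map N.subtype with hSt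
    haveI hSchar : (S : Subgroup N).Characteristic := Sylow.characteristic_of_normal S hSn
    have hStn : St.Normal := inferInstance
    have hStN : St ≤ N := Subgroup.map_subtype_le _
    have hSne : (S : Subgroup N) ≠ ⊥ := Sylow.ne_bot_of_dvd_card S hsN
    have hSt1 : St ≠ ⊥ := fun h =>
      hSne ((Subgroup.map_eq_bot_iff_of_injective _ (Subgroup.subtype_injective _)).1 h)
    have hStp : IsPGroup s St := S.isPGroup'.map _
    have hStne : St ≠ N := by
      intro h
      apply hNnp s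
      rw [← h]
      exact hStp
    obtain ⟨t, k, ht, hk, hNc⟩ := A2 St hStn hStN hSt1 hStne
    have hQt1 : Qt ≠ ⊥ := fun h =>
      hQ1 ((Subgroup.map_eq_bot_iff_of_injective _ (Subgroup.subtype_injective _)).1 h)
    have hQp : IsPGroup q Qt := Q.isPGroup'.map _
    have hqQ : q ∣ Nat.card Qt := by
      rcases hQp.card_eq_or_dvd with h | h
      · exact absurd (Subgroup.eq_bot_of_card_eq _ h) hQt1
      · exact h
    have hqN : q ∣ Nat.card N := hqQ.trans (Subgroup.card_dvd_of_le (Subgroup.map_subtype_le _))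
    obtain ⟨a, ha⟩ := IsPGroup.iff_card.1 hStp
    have hqnd : ¬ q ∣ Nat.card St := by
      rw [ha]
      intro h
      exact hsq ((Nat.prime_dvd_prime_iff_eq hqp hsp).1 (hqp.dvd_of_dvd_pow h)).symm
    have htq : t = q := by
      rw [hNc] at hqN
      rcases (Nat.Prime.dvd_mul hqp).1 hqN with h | h
      · exact absurd h hqnd
      · exact ((Nat.prime_dvd_prime_iff_eq hqp ht).1 (hqp.dvd_of_dvd_pow h)).symm
    subst htq
    have hQtop : normalizer (Qt : Set G) ≠ ⊤ := by
      intro h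
      have h1 : Qt.Normal := Subgroup.normalizer_eq_top_iff.1 h
      exact hQn (Subgroup.Normal.of_map_subtype h1)
    have hB1 := B1 t Q Qt hQ1 le_rfl hQtop
    by_cases hsT : s ∣ Nat.card T
    · have hRKs : RK s T := star f hf hs hsT hsN
      refine K2 f hf hs hsq hRKs Qt (Subgroup.map_subtype_le _) hQp hQt1 (Sylow.normalizer_sup_eq_top Q) ?_
      rintro c hc hc1 ⟨j, hj⟩ w hw
      have hcQ := hB1 c hc hc1
      obtain ⟨j', hj'⟩ := orderOf_eq_pow_of_mem hQp hcQ
      have hj0 : j = 0 := by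
        by_contra h0
        have h1 : s ∣ t ^ j' := by
          rw [← hj', hj]
          exact dvd_pow_self s h0
        exact hsq ((Nat.prime_dvd_prime_iff_eq hsp ht).1 (hsp.dvd_of_dvd_pow h1))
      rw [hj0, pow_zero, orderOf_eq_one_iff] at hj
      rw [hj]; group
    · -- a prime of `T` outside `N`
      obtain ⟨r, hr, hrq, hrT⟩ : ∃ r : ℕ, r.Prime ∧ r ≠ t ∧ r ∣ Nat.card T := by
        have hT1 : Nat.card T ≠ 1 := by
          intro h
          exact (not_nontrivial_iff_subsingleton.2 ((Nat.card_eq_one_iff_unique.1 h).1)) ‹_›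
        obtain ⟨r₀, hr₀, hr₀d⟩ := Nat.exists_prime_and_dvd hT1
        by_cases h0 : r₀ = t
        · subst h0
          exact exists_other_prime Nat.card_pos.ne' hr₀ hr₀d hT
        · exact ⟨r₀, hr₀, h0, hr₀d⟩
      haveI : Fact r.Prime := ⟨hr⟩
      have hrs : r ≠ s := by
        rintro rfl
        exact hsT hrT
      have hrN : ¬ r ∣ Nat.card N := by
        intro h
        rw [hNc, ha] at h
        rcases (Nat.Prime.dvd_mul hr).1 h with h | h
        · exact hrs ((Nat.prime_dvd_prime_iff_eq hr hsp).1 (hr.dvd_of_dvd_pow h))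
        · exact hrq ((Nat.prime_dvd_prime_iff_eq hr ht).1 (hr.dvd_of_dvd_pow h))
      obtain ⟨t₀, ht₀⟩ := exists_prime_orderOf_dvd_card' r hrT
      have hBt : IsPGroup r (zpowers t₀) := IsPGroup.of_card (n := 1) (by rw [Nat.card_zpowers, ht₀, pow_one])
      obtain ⟨P₁, hP₁, hP₁B⟩ := exists_lift_pgroup f hs _ hBt
      obtain ⟨y₀, hy₀, hy₀v⟩ : t₀ ∈ P₁.map f := by rw [hP₁B]; exact mem_zpowers t₀
      obtain ⟨j, hj⟩ := orderOf_eq_pow_of_mem hP₁ hy₀
      have hj0 : j ≠ 0 := by
        rintro rfl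
        rw [pow_zero, orderOf_eq_one_iff] at hj
        rw [hj, map_one] at hy₀v
        rw [← hy₀v, orderOf_one] at ht₀
        exact hr.one_lt.ne ht₀
      set y := y₀ ^ (r ^ (j - 1)) with hy
      have hyo : orderOf y = r := by
        rw [hy, orderOf_pow_of_dvd (pow_ne_zero _ hr.ne_zero) (by rw [hj]; exact pow_dvd_pow r (by omega)), hj]
        obtain ⟨j', rfl⟩ : ∃ j', j = j' + 1 := ⟨j - 1, by omega⟩
        simp [pow_succ, Nat.mul_div_cancel_left _ (pow_pos hr.pos j')]
      have hfy : f y ≠ 1 := by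
        intro h
        apply hrN
        have := orderOf_dvd_natCard (⟨y, MonoidHom.mem_ker.2 h⟩ : f.ker)
        rw [Subgroup.orderOf_mk, hyo] at this
        exact this
      let φ : N ≃* N := MulAut.conjNormal y
      have hφv : ∀ g : N, ((φ g : N) : G) = y * g * y⁻¹ := fun g => MulAut.conjNormal_apply y g
      have hfix : ∀ g : N, φ g = g → g = 1 := by
        intro g hg
        have h1 := congrArg Subtype.val hg
        rw [hφv] at h1
        have hcomm : y * (g : G) = g * y := mul_inv_eq_iff_eq_mul.1 h1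
        have hgo : orderOf (g : G) ∣ Nat.card N := by
          have := orderOf_dvd_natCard g
          rwa [← Subgroup.orderOf_coe] at this
        have hcop : Nat.Coprime (orderOf y) (orderOf (g : G)) := by
          rw [hyo]
          exact (Nat.Prime.coprime_iff_not_dvd hr).2 (fun h => hrN (h.trans hgo))
        have h2 := eq_one_of_commute_of_coprime f hf hfy g.2 hcomm hcop
        exact Subtype.ext h2
      have hiter : ∀ (k : ℕ) (g : N), (((φ^[k]) g : N) : G) = y ^ k * g * (y ^ k)⁻¹ := by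
        intro k
        induction k with
        | zero => intro g; simp
        | succ k ih =>
          intro g
          rw [Function.iterate_succ_apply', hφv, ih, pow_succ']
          group
      have hiter2 : ∀ g : N, (φ^[r]) g = g := by
        intro g
        apply Subtype.ext
        rw [hiter, ← hyo, pow_orderOf_eq_one]
        group
      exact hnil (Cfsg.Agent.Lib.Thompson.Main.thompson_nilpotent hr _ N φ rfl hfix hiter2)
  by_cases hnil : Group.IsNilpotent N
  · obtain ⟨q, hq, hqp, hqN⟩ := exists_other_prime hNcard0 hp₀ hp₀N hNpp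
    haveI : Fact q.Prime := ⟨hq⟩
    obtain ⟨Q⟩ : Nonempty (Sylow q N) := inferInstance
    have hQne : (Q : Subgroup N) ≠ ⊥ := Sylow.ne_bot_of_dvd_card Q hqN
    refine K2 f hf hs hqp.symm hRK ((Q : Subgroup N).map N.subtype) (Subgroup.map_subtype_le _)
      (Q.isPGroup'.map _) ?_ (Sylow.normalizer_sup_eq_top Q) ?_
    · exact fun h => hQne ((Subgroup.map_eq_bot_iff_of_injective _ (Subgroup.subtype_injective _)).1 h)
    · rintro c _ hc1 ⟨j, hj⟩ _ ⟨w₀, hw₀, rfl⟩
      obtain ⟨i, hi⟩ := orderOf_eq_pow_of_mem Q.isPGroup' hw₀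
      have hcN : c ∈ N := hc1
      have hcop : Nat.Coprime (orderOf (⟨c, hcN⟩ : N)) (orderOf w₀) := by
        rw [hi, Subgroup.orderOf_mk, hj]
        exact Nat.Coprime.pow _ _ ((Nat.coprime_primes hp₀ hq).2 hqp.symm)
      have := Cfsg.Agent.Lib.Nilpotent.Elements.commute_of_coprime_orderOf hcop
      exact congrArg Subtype.val this.eq
  · have hexq : ∃ (q : ℕ) (_ : Fact q.Prime) (Q : Sylow q N), ¬ (Q : Subgroup N).Normal := by
      by_contra h
      push Not at h
      exact hnil ((Group.isNilpotent_of_finite_tfae.out 0 3).2 fun p hp P => h p hp P)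
    by_cases hodd : ∃ (q : ℕ) (_ : Fact q.Prime) (Q : Sylow q N), q ≠ 2 ∧ ¬ (Q : Subgroup N).Normal
    · obtain ⟨q, hqf, Q, hq2, hQn⟩ := hodd
      haveI := hqf
      have hqp : q.Prime := hqf.out
      have hQ1 : (Q : Subgroup N) ≠ ⊥ := by
        intro h
        apply hQn
        rw [h]
        infer_instance
      -- the Thompson subgroup
      set Z₀ : Subgroup N := ZZ 0 (Q : Subgroup N) with hZ₀
      set Zt : Subgroup G := Z₀.map N.subtype with hZt
      set Qt : Subgroup G := (Q : Subgroup N).map N.subtype with hQt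
      have hZ₀1 : Z₀ ≠ ⊥ := Cfsg.Agent.Lib.PGroup.ZJControl.ZZ_ne_bot (Or.inl rfl) Q.isPGroup' hQ1
      have hZ₀Q : Z₀ ≤ (Q : Subgroup N) := ZZ_le_self 0 _
      have hZ₀p : IsPGroup q Z₀ := Q.isPGroup'.to_le hZ₀Q
      have hZtp : IsPGroup q Zt := hZ₀p.map _
      have hZtcard : Nat.card Zt = Nat.card Z₀ :=
        Subgroup.card_map_of_injective (Subgroup.subtype_injective _)
      have hZtN : Zt ≤ N := Subgroup.map_subtype_le _
      have hZt1 : Zt ≠ ⊥ := fun h =>
        hZ₀1 ((Subgroup.map_eq_bot_iff_of_injective _ (Subgroup.subtype_injective _)).1 h)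
      have hZnot : ¬ Z₀.Normal := by
        intro hZn
        haveI hZchar : Z₀.Characteristic := ZZ_characteristic Q hZn
        have hZtn : Zt.Normal := inferInstance
        have hZtne : Zt ≠ N := by
          intro h
          apply hNnp q
          rw [← h]
          exact hZtp
        obtain ⟨t, k, ht, hk, hNc⟩ := A2 Zt hZtn hZtN hZt1 hZtne
        obtain ⟨a, ha⟩ := IsPGroup.iff_card.1 hZtp
        by_cases htq : t = q
        · subst htq
          apply hNnp t
          exact IsPGroup.of_card (n := a + k) (by rw [hNc, ha, pow_add])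
        · -- `Q = Z₀`
          have hcop : Nat.Coprime (Nat.card (Q : Subgroup N)) (t ^ k) := by
            obtain ⟨b, hb⟩ := IsPGroup.iff_card.1 Q.isPGroup'
            rw [hb]
            exact Nat.Coprime.pow _ _ ((Nat.coprime_primes hqp ht).2 (Ne.symm htq))
          have hdvd : Nat.card (Q : Subgroup N) ∣ Nat.card Zt * t ^ k := by
            rw [← hNc]
            exact Subgroup.card_subgroup_dvd_card _
          have hdvd2 : Nat.card (Q : Subgroup N) ∣ Nat.card Z₀ := by
            rw [← hZtcard]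
            exact hcop.dvd_of_dvd_mul_right hdvd
          have heq : Z₀ = (Q : Subgroup N) :=
            Subgroup.eq_of_le_of_card_ge hZ₀Q (Nat.le_of_dvd Nat.card_pos hdvd2)
          apply hQn
          rw [← heq]
          exact hZn
      have hZtop : normalizer (Zt : Set G) ≠ ⊤ := by
        intro h
        exact hZnot (Subgroup.Normal.of_map_subtype (Subgroup.normalizer_eq_top_iff.1 h))
      have hZsub : normalizer (Qt : Set G) ≤ normalizer (Zt : Set G) := by
        intro g hg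
        apply hconjmem
        let ψ : N ≃* N := MulAut.conjNormal g
        have hψv : ∀ x : N, ((ψ x : N) : G) = g * x * g⁻¹ := fun x => MulAut.conjNormal_apply g x
        have hψQ : (Q : Subgroup N).map ψ.toMonoidHom = Q := by
          apply Subgroup.eq_of_le_of_card_ge
          · rintro _ ⟨x, hx, rfl⟩
            have h1 : g * (x : G) * g⁻¹ ∈ Qt := (Subgroup.mem_normalizer_iff.1 hg _).1 ⟨x, hx, rfl⟩
            obtain ⟨y, hy, hyv⟩ := h1
            have h2 : y = ψ x := Subtype.ext (by rw [hψv]; exact hyv)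
            show ψ x ∈ (Q : Subgroup N)
            rw [← h2]
            exact hy
          · exact (Subgroup.card_map_of_injective ψ.injective).ge
        have hψZ := ZZ_map 0 (Q : Subgroup N) ψ
        rw [hψQ] at hψZ
        rintro _ ⟨z, hz, rfl⟩
        have h1 : ψ z ∈ Z₀ := by
          rw [hZ₀, ← hψZ]
          exact ⟨z, hz, rfl⟩
        exact ⟨ψ z, h1, hψv z⟩
      have hB := B1 q Q Zt hQ1 hZsub hZtop
      -- the normalizer of `Z₀` in `N` lies in `Q`
      have hnZ : normalizer (Z₀ : Set N) ≤ (Q : Subgroup N) := by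
        intro x hx
        have h1 : (x : G) ∈ normalizer (Zt : Set G) := by
          apply hconjmem
          rintro _ ⟨z, hz, rfl⟩
          have h2 : x * z * x⁻¹ ∈ Z₀ := (Subgroup.mem_normalizer_iff.1 hx z).1 hz
          exact ⟨_, h2, rfl⟩
        obtain ⟨y, hy, hyv⟩ := hB _ h1 x.2
        have hyx : y = x := Subtype.ext hyv
        rw [← hyx]
        exact hy
      have hHN : Cfsg.HasNormalPComplement q (normalizer (Z₀ : Set N)) := by
        refine hasNormalPComplement_iff.2 ⟨⊥, inferInstance, ?_, ?_⟩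
        · simp
        · exact (Q.isPGroup'.to_le hnZ).to_quotient _
      have hcomp : Cfsg.HasNormalPComplement q N :=
        Cfsg.Agent.Lib.PGroup.GTOdd.hnpc_of_normalizer_ZZ (k := 0) hq2 (Or.inl rfl) Q (Q : Subgroup N)
          ⟨le_rfl, fun x _ g h => h⟩ hHN
      obtain ⟨K₁, hK₁n, hK₁c, hK₁q⟩ := hasNormalPComplement_iff.1 hcomp
      haveI := hK₁n
      have hK₁1 : Nat.card K₁ ≠ 1 := by
        intro h
        obtain ⟨b, hb⟩ := IsPGroup.iff_card.1 hK₁q
        apply hNnp q
        refine IsPGroup.of_card (n := b) ?_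
        have := Subgroup.card_mul_index K₁
        rw [h, one_mul] at this
        rw [← this]
        exact hb
      obtain ⟨s, hsp, hsd⟩ := Nat.exists_prime_and_dvd hK₁1
      haveI : Fact s.Prime := ⟨hsp⟩
      have hsq : s ≠ q := by
        rintro rfl
        exact hsp.one_lt.ne' (Nat.dvd_one.1 (hK₁c ▸ Nat.dvd_gcd hsd dvd_rfl))
      obtain ⟨S⟩ : Nonempty (Sylow s N) := inferInstance
      have hSK : (S : Subgroup N) ≤ K₁ := by
        intro x hx
        rw [mem_iff_coprime_of_normal K₁ hK₁c hK₁q]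
        obtain ⟨j, hj⟩ := (IsPGroup.iff_orderOf.1 S.isPGroup') ⟨x, hx⟩
        rw [Subgroup.orderOf_mk] at hj
        rw [hj]
        exact Nat.Coprime.pow_left _ ((Nat.coprime_primes hsp hqp).2 hsq)
      have hsN : s ∣ Nat.card N := hsd.trans (Subgroup.card_subgroup_dvd_card _)
      have hSne : (S : Subgroup N) ≠ ⊥ := Sylow.ne_bot_of_dvd_card S hsN
      have hSn : (S : Subgroup N).Normal := by
        by_contra hSn
        set St : Subgroup G := (S : Subgroup N).map N.subtype with hSt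
        have hStop : normalizer (St : Set G) ≠ ⊤ := by
          intro h
          exact hSn (Subgroup.Normal.of_map_subtype (Subgroup.normalizer_eq_top_iff.1 h))
        have hB' := B1 s S St hSne le_rfl hStop
        have hnS : normalizer ((S : Subgroup N) : Set N) ≤ (S : Subgroup N) := by
          intro x hx
          have h1 : (x : G) ∈ normalizer (St : Set G) := by
            apply hconjmem
            rintro _ ⟨z, hz, rfl⟩
            have h2 : x * z * x⁻¹ ∈ (S : Subgroup N) := (Subgroup.mem_normalizer_iff.1 hx z).1 hz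
            exact ⟨_, h2, rfl⟩
          obtain ⟨y, hy, hyv⟩ := hB' _ h1 x.2
          have hyx : y = x := Subtype.ext hyv
          rw [← hyx]
          exact hy
        have hsup := Sylow.normalizer_sup_eq_top' S hSK
        have hK₁top : K₁ = ⊤ := by
          rw [eq_top_iff, ← hsup]
          exact sup_le (hnS.trans hSK) le_rfl
        have hqN : q ∣ Nat.card K₁ := by
          rw [hK₁top, Subgroup.card_top]
          have hQp : IsPGroup q (Q : Subgroup N) := Q.isPGroup'
          rcases hQp.card_eq_or_dvd with h | h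
          · exact absurd (Subgroup.eq_bot_of_card_eq _ h) hQ1
          · exact h.trans (Subgroup.card_subgroup_dvd_card _)
        exact hqp.one_lt.ne' (Nat.dvd_one.1 (hK₁c ▸ Nat.dvd_gcd hqN dvd_rfl))
      exact B2 q s Q S hsq hQ1 hQn hSn hsN hnil
    · push Not at hodd
      obtain ⟨q, hqf, Q, hQn⟩ := hexq
      haveI := hqf
      have hq2 : q = 2 := by
        by_contra h
        exact hQn (hodd q hqf Q h)
      subst hq2
      have hQ1 : (Q : Subgroup N) ≠ ⊥ := by
        intro h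
        apply hQn
        rw [h]
        infer_instance
      have h2N : 2 ∣ Nat.card N := by
        have hQp : IsPGroup 2 (Q : Subgroup N) := Q.isPGroup'
        rcases hQp.card_eq_or_dvd with h | h
        · exact absurd (Subgroup.eq_bot_of_card_eq _ h) hQ1
        · exact h.trans (Subgroup.card_subgroup_dvd_card _)
      obtain ⟨s, hsp, hs2, hsN⟩ := exists_other_prime hNcard0 hqf.out h2N hNpp
      haveI : Fact s.Prime := ⟨hsp⟩
      obtain ⟨S⟩ : Nonempty (Sylow s N) := inferInstance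
      exact B2 2 s Q S hs2 hQ1 hQn (hodd s ⟨hsp⟩ S hs2) hsN hnil

end main

end Cfsg.Agent.Lib.Transfer.Camina
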