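import Mathlib
import Cfsg.Agent.Lib.Transfer.Basic
import Cfsg.Agent.Lib.Transfer.EngelCore
import Cfsg.Agent.Lib.PGroup.Basic
import Cfsg.Agent.Lib.Transfer.WellPlaced
import Cfsg.Agent.Lib.Transfer.Frobenius
import Cfsg.Agent.Lib.Transfer.Tate
import Cfsg.Agent.Lib.Transfer.CentralLift
import Cfsg.Prelude.Def_Transfer
import Cfsg.Prelude.Def_BaumannBlocks

/-!
# The monomial form of the transfer on invariant sets of cosets

For a subgroup `P` of `G`, a homomorphism `ϕ : P → A`, a section `r` of `G → G ⧸ P` and a set `X` of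
cosets, `T ϕ r X x = ∏ q ∈ X, ϕ (r (x q)⁻¹ x r q)`.  On sets invariant under `x` this does not depend on `r`,
it is multiplicative, it is conjugation-equivariant and on a cycle of `x` it is the usual
`ϕ (t⁻¹ x ^ n t)`.
-/

set_option autoImplicit false
set_option linter.unusedSectionVars false
set_option linter.style.haveILetI false
set_option linter.unusedVariables false

namespace Cfsg.Agent.Lib.Transfer.Monomial

open Subgroup MulAction Function
open scoped commutatorElement
open Cfsg.Agent.Lib.Transfer.EngelCore (ext ext_of_mem ext_mul ext_one ext_inv)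

variable {G : Type*} [Group G] {A : Type*} [CommGroup A] {P : Subgroup G} (ϕ : P →* A)

/-- Sections of `G → G ⧸ P`. -/
def IsSec (r : G ⧸ P → G) : Prop := ∀ q, ((r q : G) : G ⧸ P) = q

theorem out_isSec : IsSec (fun q : G ⧸ P => q.out) := fun q => QuotientGroup.out_eq' q

theorem mem_of_mk_eq {a b : G} (h : ((a : G) : G ⧸ P) = (b : G)) : a⁻¹ * b ∈ P :=
  QuotientGroup.eq.mp h

theorem tr_mem {r : G ⧸ P → G} (hr : IsSec r) (x : G) (q : G ⧸ P) :
    (r (x • q))⁻¹ * x * r q ∈ P := by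
  have h : ((r (x • q) : G) : G ⧸ P) = ((x * r q : G) : G ⧸ P) := by
    rw [hr]
    have : ((x * r q : G) : G ⧸ P) = x • ((r q : G) : G ⧸ P) := rfl
    rw [this, hr]
  have h2 := mem_of_mk_eq h
  rwa [← mul_assoc] at h2

theorem sec_diff_mem {r r' : G ⧸ P → G} (hr : IsSec r) (hr' : IsSec r') (q : G ⧸ P) :
    (r q)⁻¹ * r' q ∈ P := mem_of_mk_eq (by rw [hr, hr'])

/-- The monomial element. -/
noncomputable def tr (r : G ⧸ P → G) (x : G) (q : G ⧸ P) : A := ext ϕ ((r (x • q))⁻¹ * x * r q)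

open Classical in
/-- The partial transfer. -/
noncomputable def T (r : G ⧸ P → G) (X : Finset (G ⧸ P)) (x : G) : A := ∏ q ∈ X, tr ϕ r x q

theorem prod_smul_eq {α : Type*} [MulAction G α] [DecidableEq α] (X : Finset α) (x : G)
    (hinv : ∀ q, x • q ∈ X ↔ q ∈ X) (a : α → A) : ∏ q ∈ X, a (x • q) = ∏ q ∈ X, a q := by
  refine Finset.prod_nbij' (fun q => x • q) (fun q => x⁻¹ • q) ?_ ?_ ?_ ?_ ?_
  · intro q hq; exact (hinv q).mpr hq
  · intro q hq
    apply (hinv _).mp
    rwa [smul_inv_smul]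
  · intro q _; simp
  · intro q _; simp
  · intro q _; rfl

/-- Independence of the section. -/
theorem T_section {r r' : G ⧸ P → G} (hr : IsSec r) (hr' : IsSec r') (X : Finset (G ⧸ P)) (x : G)
    (hinv : ∀ q, x • q ∈ X ↔ q ∈ X) : T ϕ r' X x = T ϕ r X x := by
  classical
  let a : G ⧸ P → A := fun q => ext ϕ ((r q)⁻¹ * r' q)
  have h1 : ∀ q, tr ϕ r' x q = (a (x • q))⁻¹ * tr ϕ r x q * a q := by
    intro q
    have e : (r' (x • q))⁻¹ * x * r' q =
        ((r (x • q))⁻¹ * r' (x • q))⁻¹ * ((r (x • q))⁻¹ * x * r q) * ((r q)⁻¹ * r' q) := by group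
    unfold tr
    rw [e, ext_mul ϕ (P.mul_mem (P.inv_mem (sec_diff_mem hr hr' _)) (tr_mem hr x q))
      (sec_diff_mem hr hr' q), ext_mul ϕ (P.inv_mem (sec_diff_mem hr hr' _)) (tr_mem hr x q),
      ext_inv ϕ (sec_diff_mem hr hr' _)]
  unfold T
  rw [Finset.prod_congr rfl (fun q _ => h1 q), Finset.prod_mul_distrib, Finset.prod_mul_distrib,
    Finset.prod_inv_distrib, prod_smul_eq X x hinv a]
  rw [mul_comm (∏ q ∈ X, a q)⁻¹, mul_assoc, inv_mul_cancel, mul_one]

/-- Multiplicativity. -/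
theorem T_mul {r : G ⧸ P → G} (hr : IsSec r) (X : Finset (G ⧸ P)) (x y : G)
    (hinv : ∀ q, y • q ∈ X ↔ q ∈ X) : T ϕ r X (x * y) = T ϕ r X x * T ϕ r X y := by
  classical
  have h1 : ∀ q, tr ϕ r (x * y) q = tr ϕ r x (y • q) * tr ϕ r y q := by
    intro q
    unfold tr
    rw [mul_smul, ← ext_mul ϕ (tr_mem hr x (y • q)) (tr_mem hr y q)]
    congr 1
    group
  unfold T
  rw [Finset.prod_congr rfl (fun q _ => h1 q), Finset.prod_mul_distrib,
    prod_smul_eq X y hinv (fun q => tr ϕ r x q)]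

theorem smul_section {r : G ⧸ P → G} (hr : IsSec r) (z : G) :
    IsSec (fun q : G ⧸ P => z * r (z⁻¹ • q)) := by
  intro q
  have : ((z * r (z⁻¹ • q) : G) : G ⧸ P) = z • ((r (z⁻¹ • q) : G) : G ⧸ P) := rfl
  rw [this, hr, smul_inv_smul]

/-- Conjugation-equivariance. -/
theorem T_conj [DecidableEq (G ⧸ P)] {r : G ⧸ P → G} (hr : IsSec r) (X : Finset (G ⧸ P)) (x z : G)
    (hinv : ∀ q, x • q ∈ X ↔ q ∈ X) :
    T ϕ r (X.image (z • ·)) (z * x * z⁻¹) = T ϕ r X x := by
  have hinj : Function.Injective (fun q : G ⧸ P => z • q) := MulAction.injective z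
  have hmem : ∀ q, q ∈ X.image (z • ·) ↔ z⁻¹ • q ∈ X := by
    intro q
    constructor
    · intro h
      obtain ⟨q₀, hq₀, rfl⟩ := Finset.mem_image.mp h
      simpa using hq₀
    · intro h
      exact Finset.mem_image.mpr ⟨_, h, by simp⟩
  have hinv' : ∀ q, (z * x * z⁻¹) • q ∈ X.image (z • ·) ↔ q ∈ X.image (z • ·) := by
    intro q
    rw [hmem, hmem]
    have e : z⁻¹ • (z * x * z⁻¹) • q = x • (z⁻¹ • q) := by
      simp [mul_smul]
    rw [e, hinv]
  rw [← T_section ϕ hr (smul_section hr z) _ _ hinv']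
  unfold T
  rw [Finset.prod_image (fun a _ b _ h => hinj h)]
  refine Finset.prod_congr rfl fun q _ => ?_
  unfold tr
  congr 1
  have e1 : z⁻¹ • (z * x * z⁻¹) • z • q = x • q := by simp [mul_smul]
  have e2 : z⁻¹ • z • q = q := by simp
  simp only [e1, e2]
  group

/-- On a cycle. -/
theorem prod_cycle {r : G ⧸ P → G} (hr : IsSec r) (x t : G) (n : ℕ)
    (hn : x ^ n • ((t : G) : G ⧸ P) = (t : G)) :
    ∏ i ∈ Finset.range n, tr ϕ r x (x ^ i • ((t : G) : G ⧸ P)) = ext ϕ (t⁻¹ * x ^ n * t) := by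
  set c : G ⧸ P := ((t : G) : G ⧸ P) with hc
  let b : ℕ → G := fun i => t⁻¹ * (x ^ i)⁻¹ * r (x ^ i • c)
  have hb : ∀ i, b i ∈ P := by
    intro i
    have h1 : ((r (x ^ i • c) : G) : G ⧸ P) = ((x ^ i * t : G) : G ⧸ P) := by
      rw [hr]; rfl
    have h2 := mem_of_mk_eq h1.symm
    have e : b i = (x ^ i * t)⁻¹ * r (x ^ i • c) := by
      simp [b, mul_assoc]
    rw [e]; exact h2
  let a : ℕ → A := fun i => ext ϕ (b i)
  have h1 : ∀ i, tr ϕ r x (x ^ i • c) = a i / a (i + 1) := by
    intro i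
    have e : (r (x • x ^ i • c))⁻¹ * x * r (x ^ i • c) = (b (i + 1))⁻¹ * b i := by
      simp only [b, pow_succ', mul_smul]
      group
    unfold tr
    rw [e, ext_mul ϕ (P.inv_mem (hb _)) (hb _), ext_inv ϕ (hb _), div_eq_mul_inv, mul_comm]
  rw [Finset.prod_congr rfl (fun i _ => h1 i)]
  have h2 : ∀ m : ℕ, ∏ i ∈ Finset.range m, (a i / a (i + 1)) = a 0 / a m := by
    intro m
    induction m with
    | zero => simp
    | succ m ih =>
      rw [Finset.prod_range_succ, ih, div_mul_div_cancel]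
  rw [h2]
  have e0 : b 0 * (b n)⁻¹ = t⁻¹ * x ^ n * t := by
    simp only [b, pow_zero, one_smul, hn]
    group
  show ext ϕ (b 0) / ext ϕ (b n) = _
  rw [← e0, ext_mul ϕ (hb 0) (P.inv_mem (hb n)), ext_inv ϕ (hb n), div_eq_mul_inv]

section Finite

variable [Finite G]

/-- If all cycles of `u` in `X` have trivial value, the partial transfer is trivial. -/
theorem T_eq_one_of_cycles {r : G ⧸ P → G} (hr : IsSec r) (X : Finset (G ⧸ P)) (u : G)
    (hinv : ∀ q, u • q ∈ X ↔ q ∈ X)
    (h : ∀ t : G, ((t : G) : G ⧸ P) ∈ X →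
      ext ϕ (t⁻¹ * u ^ minimalPeriod (u • ·) ((t : G) : G ⧸ P) * t) = 1) :
    T ϕ r X u = 1 := by
  classical
  haveI : Fintype (G ⧸ P) := Fintype.ofFinite _
  haveI : Fintype (orbitRel.Quotient (zpowers u) (G ⧸ P)) := Fintype.ofFinite _
  have hiter : ∀ (i : ℕ) (c : G ⧸ P), u ^ i • c ∈ X ↔ c ∈ X := by
    intro i c
    induction i with
    | zero => simp
    | succ i ih => rw [pow_succ', mul_smul, hinv, ih]
  have h1 : T ϕ r X u = ∏ c, (if c ∈ X then tr ϕ r u c else 1) := by
    rw [Finset.prod_ite_mem]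
    simp [T]
  rw [h1, Cfsg.Agent.Lib.Transfer.EngelCore.prod_eq_prod_orbits P u]
  refine Finset.prod_eq_one fun q _ => ?_
  by_cases hq : q.out ∈ X
  · have h2 : ∀ i ∈ Finset.range (minimalPeriod (u • ·) q.out),
        (if u ^ i • q.out ∈ X then tr ϕ r u (u ^ i • q.out) else 1) = tr ϕ r u (u ^ i • q.out) := by
      intro i _
      rw [if_pos ((hiter i _).2 hq)]
    rw [Finset.prod_congr rfl h2]
    have hout : ((q.out.out : G) : G ⧸ P) = q.out := QuotientGroup.out_eq' _
    have hper : u ^ minimalPeriod (u • ·) q.out • q.out = q.out := by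
      have := iterate_minimalPeriod (f := (u • ·)) (x := q.out)
      rwa [smul_iterate] at this
    have h3 := prod_cycle ϕ hr u q.out.out (minimalPeriod (u • ·) q.out) (by rw [hout]; exact hper)
    rw [hout] at h3
    rw [h3]
    have h4 := h q.out.out (by rw [hout]; exact hq)
    rw [hout] at h4
    exact h4
  · refine Finset.prod_eq_one fun i _ => ?_
    rw [if_neg (fun h => hq ((hiter i _).1 h))]

open Classical in
/-- The orbit of a coset under a subgroup, as a finite set. -/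
noncomputable def orb [Fintype (G ⧸ P)] (H : Subgroup G) (c : G ⧸ P) : Finset (G ⧸ P) :=
  Finset.univ.filter (fun q => ∃ x ∈ H, q = x • c)

theorem mem_orb [Fintype (G ⧸ P)] {H : Subgroup G} {c q : G ⧸ P} : q ∈ orb H c ↔ ∃ x ∈ H, q = x • c := by
  classical
  simp [orb]

theorem orb_inv [Fintype (G ⧸ P)] {H : Subgroup G} {c : G ⧸ P} {x : G} (hx : x ∈ H) (q : G ⧸ P) :
    x • q ∈ orb H c ↔ q ∈ orb H c := by
  rw [mem_orb, mem_orb]
  constructor
  · rintro ⟨y, hy, e⟩
    refine ⟨x⁻¹ * y, H.mul_mem (H.inv_mem hx) hy, ?_⟩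
    rw [mul_smul, ← e, inv_smul_smul]
  · rintro ⟨y, hy, rfl⟩
    exact ⟨x * y, H.mul_mem hx hy, (mul_smul _ _ _).symm⟩

theorem T_one {r : G ⧸ P → G} (hr : IsSec r) (X : Finset (G ⧸ P)) : T ϕ r X 1 = 1 := by
  unfold T
  refine Finset.prod_eq_one fun q _ => ?_
  unfold tr
  rw [one_smul, mul_one, inv_mul_cancel, ext_one]

/-- The partial transfer on an orbit is a homomorphism. -/
noncomputable def nu [Fintype (G ⧸ P)] {r : G ⧸ P → G} (hr : IsSec r) (M : Subgroup G) (c : G ⧸ P) :
    M →* A where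
  toFun m := T ϕ r (orb M c) m
  map_one' := T_one ϕ hr _
  map_mul' x y := T_mul ϕ hr _ _ _ (orb_inv y.2)

/-- Splitting an orbit into orbits of a normal subgroup of prime index. -/
theorem T_decomp [Fintype (G ⧸ P)] {r : G ⧸ P → G} (hr : IsSec r) {p : ℕ}
    (U M : Subgroup G) (z : G) (c₀ : G ⧸ P) (u : G)
    (hMU : M ≤ U) (hn : ∀ x ∈ U, ∀ m ∈ M, x * m * x⁻¹ ∈ M) (hzU : z ∈ U)
    (hcov : ∀ x ∈ U, ∃ i, i < p ∧ ∃ m ∈ M, x = z ^ i * m)
    (hz : ∀ i, 0 < i → i < p → z ^ i ∉ M)
    (hstab : ∀ x ∈ U, x • c₀ = c₀ → x ∈ M) (hu : u ∈ M) :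
    T ϕ r (orb U c₀) u = ∏ i ∈ Finset.range p, T ϕ r (orb M c₀) ((z ^ i)⁻¹ * u * z ^ i) := by
  classical
  have hzi : ∀ i : ℕ, z ^ i ∈ U := fun i => U.pow_mem hzU i
  have hconj : ∀ i : ℕ, (z ^ i)⁻¹ * u * z ^ i ∈ M := by
    intro i
    have := hn _ (U.inv_mem (hzi i)) u hu
    simpa using this
  have hcover : orb U c₀ = (Finset.range p).biUnion (fun i => (orb M c₀).image (z ^ i • ·)) := by
    ext q
    simp only [Finset.mem_biUnion, Finset.mem_image, Finset.mem_range]
    rw [mem_orb]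
    constructor
    · rintro ⟨x, hx, rfl⟩
      obtain ⟨i, hi, m, hm, rfl⟩ := hcov x hx
      exact ⟨i, hi, m • c₀, mem_orb.mpr ⟨m, hm, rfl⟩, (mul_smul _ _ _).symm⟩
    · rintro ⟨i, _, q₀, hq₀, rfl⟩
      obtain ⟨m, hm, rfl⟩ := mem_orb.mp hq₀
      exact ⟨z ^ i * m, U.mul_mem (hzi i) (hMU hm), (mul_smul _ _ _).symm⟩
  have hdisj : ∀ i j : ℕ, i < j → j < p → ∀ q, q ∈ (orb M c₀).image (z ^ i • ·) →
      q ∉ (orb M c₀).image (z ^ j • ·) := by
    intro i j hij hj q hqi hqj
    obtain ⟨q₁, hq₁, rfl⟩ := Finset.mem_image.mp hqi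
    obtain ⟨q₂, hq₂, e⟩ := Finset.mem_image.mp hqj
    obtain ⟨m₁, hm₁, rfl⟩ := mem_orb.mp hq₁
    obtain ⟨m₂, hm₂, rfl⟩ := mem_orb.mp hq₂
    have hk : j = (j - i) + i := by omega
    have hpow : z ^ j = z ^ (j - i) * z ^ i := by
      conv_lhs => rw [hk, pow_add]
    have e' : (m₂⁻¹ * (z ^ (j - i))⁻¹ * m₁) • c₀ = c₀ := by
      have e2 : (z ^ j * m₂) • c₀ = (z ^ i * m₁) • c₀ := by
        rw [mul_smul, mul_smul]; exact e
      have e3 : (m₂⁻¹ * (z ^ (j - i))⁻¹ * m₁) = (z ^ j * m₂)⁻¹ * (z ^ i * m₁) := by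
        rw [hpow]; group
      rw [e3, mul_smul, ← e2, inv_smul_smul]
    have hUel : m₂⁻¹ * (z ^ (j - i))⁻¹ * m₁ ∈ U :=
      U.mul_mem (U.mul_mem (U.inv_mem (hMU hm₂)) (U.inv_mem (hzi _))) (hMU hm₁)
    have hM := hstab _ hUel e'
    have h5 : (z ^ (j - i))⁻¹ ∈ M := by
      have := M.mul_mem (M.mul_mem hm₂ hM) (M.inv_mem hm₁)
      have e4 : m₂ * (m₂⁻¹ * (z ^ (j - i))⁻¹ * m₁) * m₁⁻¹ = (z ^ (j - i))⁻¹ := by group
      rwa [e4] at this
    exact hz (j - i) (by omega) (by omega) (by simpa using M.inv_mem h5)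
  rw [hcover]
  unfold T
  rw [Finset.prod_biUnion]
  · refine Finset.prod_congr rfl fun i _ => ?_
    have h6 := T_conj ϕ hr (orb M c₀) ((z ^ i)⁻¹ * u * z ^ i) (z ^ i) (orb_inv (hconj i))
    have e : z ^ i * ((z ^ i)⁻¹ * u * z ^ i) * (z ^ i)⁻¹ = u := by group
    rw [e] at h6
    exact h6
  · intro i hi j hj hij
    simp only [Finset.coe_range, Set.mem_Iio] at hi hj
    simp only [Function.onFun]
    rw [Finset.disjoint_left]
    intro q hq1 hq2
    rcases lt_or_gt_of_ne hij with h | h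
    · exact hdisj i j h hj q hq1 hq2
    · exact hdisj j i h hi q hq2 hq1

section Main

variable {p : ℕ} [hp : Fact p.Prime]

/-- The vanishing condition on norms. -/
def EngelVanish (p : ℕ) (P W : Subgroup G) (A : Type*) [CommGroup A] : Prop :=
  ∀ (U M : Subgroup G), U ≤ P → W ≤ U → M ≤ U → M.relIndex U = p →
    (∀ x ∈ U, ∀ m ∈ M, x * m * x⁻¹ ∈ M) → ∀ z ∈ W, z ∉ M → ∀ ν : M →* A, ∀ u ∈ M,
      ∏ i ∈ Finset.range p, ext ν ((z ^ i)⁻¹ * u * z ^ i) = 1

/-- A fixed coset in an orbit not fixed by `W`. -/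
theorem T_orbit_fixed [Fintype (G ⧸ P)] {r : G ⧸ P → G} (hr : IsSec r) (hP : IsPGroup p P)
    (W U : Subgroup G) (hUP : U ≤ P) (hWU : W ≤ U) (u : G) (huU : u ∈ U)
    (hgen : ∀ H : Subgroup G, W ≤ H → u ∈ H → U ≤ H) (c₀ : G ⧸ P) (huc : u • c₀ = c₀)
    (hnot : ¬ W ≤ stabilizer G c₀) (hEV : EngelVanish p P W A) : T ϕ r (orb U c₀) u = 1 := by
  classical
  have hUp : IsPGroup p U := hP.to_le hUP
  have hS' : (U ⊓ stabilizer G c₀).subgroupOf U ≠ ⊤ := by
    intro h
    apply hnot
    intro w hw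
    have h1 : (⟨w, hWU hw⟩ : U) ∈ (U ⊓ stabilizer G c₀).subgroupOf U := by rw [h]; trivial
    exact (Subgroup.mem_subgroupOf.mp h1).2
  obtain ⟨M', hSM', hM'n, hM'idx⟩ :=
    Cfsg.Agent.Lib.PGroup.Basic.exists_normal_index_ge hUp hS'
  let M : Subgroup G := M'.map U.subtype
  have hmemM : ∀ (x : G) (hx : x ∈ U), x ∈ M ↔ (⟨x, hx⟩ : U) ∈ M' := by
    intro x hx
    constructor
    · rintro ⟨y, hy, e⟩
      have : y = ⟨x, hx⟩ := Subtype.ext e
      rwa [← this]
    · intro h
      exact ⟨_, h, rfl⟩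
  have hMU : M ≤ U := Subgroup.map_subtype_le _
  have hMsub : M.subgroupOf U = M' := by
    ext x
    rw [Subgroup.mem_subgroupOf, hmemM x x.2]
  have hrel : M.relIndex U = p := by
    show (M.subgroupOf U).index = p
    rw [hMsub, hM'idx]
  have hn : ∀ x ∈ U, ∀ m ∈ M, x * m * x⁻¹ ∈ M := by
    intro x hx m hm
    have h1 := (hmemM m (hMU hm)).mp hm
    have h2 := hM'n.conj_mem _ h1 ⟨x, hx⟩
    exact (hmemM _ (U.mul_mem (U.mul_mem hx (hMU hm)) (U.inv_mem hx))).mpr h2
  have hstab : ∀ x ∈ U, x • c₀ = c₀ → x ∈ M := by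
    intro x hx hxc
    apply (hmemM x hx).mpr
    apply hSM'
    rw [Subgroup.mem_subgroupOf]
    exact ⟨hx, hxc⟩
  have huM : u ∈ M := hstab u huU huc
  obtain ⟨z, hzW, hzM⟩ : ∃ z ∈ W, z ∉ M := by
    by_contra hno
    push Not at hno
    have hUM : U ≤ M := hgen M hno huM
    have : M' = ⊤ := by
      rw [← hMsub]
      exact (Subgroup.subgroupOf_eq_top).mpr hUM
    rw [this, Subgroup.index_top] at hM'idx
    exact hp.out.one_lt.ne hM'idx
  have hzU : z ∈ U := hWU hzW
  -- the quotient has prime order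
  have hcard : Nat.card (U ⧸ M') = p := hM'idx
  have hzbar : ((⟨z, hzU⟩ : U) : U ⧸ M') ≠ 1 := by
    rw [Ne, QuotientGroup.eq_one_iff]
    exact fun h => hzM ((hmemM z hzU).mpr h)
  have hord : orderOf ((⟨z, hzU⟩ : U) : U ⧸ M') = p := by
    rw [orderOf_eq_card_of_forall_mem_zpowers (fun x => mem_zpowers_of_prime_card hcard hzbar)]
    exact hcard
  have hcov : ∀ x ∈ U, ∃ i, i < p ∧ ∃ m ∈ M, x = z ^ i * m := by
    intro x hx
    have h1 : ((⟨x, hx⟩ : U) : U ⧸ M') ∈ zpowers ((⟨z, hzU⟩ : U) : U ⧸ M') :=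
      mem_zpowers_of_prime_card hcard hzbar
    rw [← mem_powers_iff_mem_zpowers] at h1
    obtain ⟨n, hn'⟩ := h1
    have h2 : ((⟨z, hzU⟩ : U) : U ⧸ M') ^ (n % p) = ((⟨x, hx⟩ : U) : U ⧸ M') := by
      rw [← hord, pow_mod_orderOf]
      exact hn'
    refine ⟨n % p, Nat.mod_lt _ hp.out.pos, (z ^ (n % p))⁻¹ * x, ?_, by group⟩
    have h3 : (((⟨z, hzU⟩ : U) ^ (n % p) : U) : U ⧸ M') = ((⟨x, hx⟩ : U) : U ⧸ M') := by
      rw [QuotientGroup.mk_pow]; exact h2
    have h4 := QuotientGroup.eq.mp h3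
    apply (hmemM _ (U.mul_mem (U.inv_mem (U.pow_mem hzU _)) hx)).mpr
    convert h4 using 1
    apply Subtype.ext
    simp
  have hz : ∀ i, 0 < i → i < p → z ^ i ∉ M := by
    intro i hi0 hip hm
    have h1 : (⟨z, hzU⟩ : U) ^ i ∈ M' := by
      have h2 := (hmemM _ (U.pow_mem hzU i)).mp hm
      convert h2 using 1
      apply Subtype.ext
      simp
    have h3 : ((⟨z, hzU⟩ : U) : U ⧸ M') ^ i = 1 := by
      rw [← QuotientGroup.mk_pow, QuotientGroup.eq_one_iff]
      exact h1
    have h4 := orderOf_dvd_of_pow_eq_one h3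
    rw [hord] at h4
    have := Nat.le_of_dvd hi0 h4
    omega
  rw [T_decomp ϕ hr U M z c₀ u hMU hn hzU hcov hz hstab huM]
  have hzi : ∀ i : ℕ, z ^ i ∈ U := fun i => U.pow_mem hzU i
  have hconj : ∀ i : ℕ, (z ^ i)⁻¹ * u * z ^ i ∈ M := by
    intro i
    have := hn _ (U.inv_mem (hzi i)) u huM
    simpa using this
  have h5 := hEV U M hUP hWU hMU hrel hn z hzW hzM (nu ϕ hr M c₀) u huM
  rw [← h5]
  refine Finset.prod_congr rfl fun i _ => ?_
  rw [ext_of_mem _ (hconj i)]
  rfl

/-- Decomposition along orbits. -/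
theorem T_of_blocks [Fintype (G ⧸ P)] {r : G ⧸ P → G} (U : Subgroup G) (u : G) :
    ∀ (n : ℕ) (Y : Finset (G ⧸ P)), Y.card = n → (∀ x ∈ U, ∀ q, x • q ∈ Y ↔ q ∈ Y) →
      (∀ c ∈ Y, T ϕ r (orb U c) u = 1) → T ϕ r Y u = 1 := by
  classical
  intro n
  induction n using Nat.strong_induction_on with
  | _ n ih =>
    intro Y hn hinv hblock
    by_cases hY : Y.Nonempty
    · obtain ⟨c, hc⟩ := hY
      have hsub : orb U c ⊆ Y := by
        intro q hq
        obtain ⟨x, hx, rfl⟩ := mem_orb.mp hq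
        exact (hinv x hx c).mpr hc
      have hcmem : c ∈ orb U c := mem_orb.mpr ⟨1, U.one_mem, by simp⟩
      have h1 : T ϕ r Y u = T ϕ r (Y \ orb U c) u * T ϕ r (orb U c) u := by
        unfold T
        rw [Finset.prod_sdiff hsub]
      rw [h1, hblock c hc, mul_one]
      refine ih _ ?_ _ rfl ?_ ?_
      · rw [← hn]
        exact Finset.card_lt_card (Finset.sdiff_ssubset hsub ⟨c, hcmem⟩)
      · intro x hx q
        rw [Finset.mem_sdiff, Finset.mem_sdiff, hinv x hx, orb_inv hx]
      · intro c' hc'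
        exact hblock c' (Finset.mem_sdiff.mp hc').1
    · rw [Finset.not_nonempty_iff_eq_empty] at hY
      simp [hY, T]

open Cfsg.Agent.Lib.Transfer.WellPlaced in
theorem le_normalizer_of_weaklyClosed (P W : Subgroup G) (hW : Cfsg.IsWeaklyClosed W P) :
    P ≤ normalizer (W : Set G) := by
  intro g hg
  apply mem_Nz_iff.mpr
  apply hW.2
  rintro _ ⟨w, hw, rfl⟩
  exact P.mul_mem (P.mul_mem hg (hW.1 hw)) (P.inv_mem hg)

/-- The transfer in monomial form. -/
theorem transfer_eq_T [P.FiniteIndex] [Fintype (G ⧸ P)] {r : G ⧸ P → G} (hr : IsSec r) (x : G) :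
    ϕ.transfer x = T ϕ r Finset.univ x := by
  classical
  let Tv : P.LeftTransversal := ⟨Set.range r, Subgroup.isComplement_range_left hr⟩
  have hT : ∀ q, ((Tv.2.leftQuotientEquiv q : Tv.1) : G) = r q := fun q =>
    Subgroup.IsComplement.leftQuotientEquiv_apply hr q
  rw [MonoidHom.transfer_def ϕ Tv x]
  unfold Subgroup.leftTransversals.diff
  simp only
  have hs : ∀ q, (((x • Tv).2.leftQuotientEquiv q : (x • Tv).1) : G) = x * r (x⁻¹ • q) := by
    intro q
    rw [Subgroup.smul_apply_eq_smul_apply_inv_smul, hT]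
    rfl
  have e : P.fintypeQuotientOfFiniteIndex = ‹Fintype (G ⧸ P)› := Subsingleton.elim _ _
  rw [e]
  unfold T
  refine Fintype.prod_equiv (MulAction.toPerm x : Equiv.Perm (G ⧸ P)).symm _ _ fun q => ?_
  unfold tr
  rw [ext_of_mem ϕ (tr_mem hr x _)]
  congr 1
  apply Subtype.ext
  simp only [MulAction.toPerm_symm_apply]
  rw [hs, hT]
  simp [mul_assoc]

theorem eq_one_of_pow {a : A} {c p : ℕ} (hc : Nat.Coprime c p) (h1 : a ^ c = 1) (h2 : a ^ p = 1) :
    a = 1 := by
  have h3 := Nat.eq_one_of_dvd_coprimes hc (orderOf_dvd_of_pow_eq_one h1) (orderOf_dvd_of_pow_eq_one h2)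
  exact orderOf_eq_one_iff.mp h3

/-- The transfer computation: the value on `P`. -/
theorem transfer_pow (P : Sylow p G) (W : Subgroup G) (hW : Cfsg.IsWeaklyClosed W P)
    (N : Subgroup G) (hPN : (P : Subgroup G) ≤ N)
    (hNW : ∀ t : G, W.map (MulAut.conj t).toMonoidHom = W → t ∈ N)
    (hA : ∀ a : A, a ^ p = 1) (lam : N →* A)
    (hEV : EngelVanish p (P : Subgroup G) W A) :
    ∃ c : ℕ, Nat.Coprime c p ∧ ∀ u (hu : u ∈ (P : Subgroup G)),
      MonoidHom.transfer (lam.comp (Subgroup.inclusion hPN)) u = lam ⟨u, hPN hu⟩ ^ c := by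
  classical
  haveI : Fintype (G ⧸ (P : Subgroup G)) := Fintype.ofFinite _
  set ϕ : (P : Subgroup G) →* A := lam.comp (Subgroup.inclusion hPN) with hϕ
  let r : G ⧸ (P : Subgroup G) → G := fun q => q.out
  have hr : IsSec r := out_isSec
  let c₁ : G ⧸ (P : Subgroup G) := ((1 : G) : G ⧸ (P : Subgroup G))
  let Y₀ : Finset (G ⧸ (P : Subgroup G)) := orb N c₁
  have hcard : Y₀.card = (P : Subgroup G).relIndex N := by
    have h1 := MulAction.index_stabilizer N c₁
    have h2 : stabilizer N c₁ = (P : Subgroup G).subgroupOf N := by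
      ext n
      rw [MulAction.mem_stabilizer_iff, Subgroup.mem_subgroupOf]
      have h3 : n • c₁ = (((n : G)) : G ⧸ (P : Subgroup G)) := by
        show (((n : G) * 1 : G) : G ⧸ (P : Subgroup G)) = _
        rw [mul_one]
      rw [h3]
      show (((n : G)) : G ⧸ (P : Subgroup G)) = ((1 : G) : G ⧸ (P : Subgroup G)) ↔ _
      rw [QuotientGroup.eq, mul_one, inv_mem_iff]
    have h3 : orbit N c₁ = (Y₀ : Set (G ⧸ (P : Subgroup G))) := by
      ext q
      simp only [Finset.mem_coe, MulAction.mem_orbit_iff]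
      constructor
      · rintro ⟨n, rfl⟩
        exact mem_orb.mpr ⟨n, n.2, rfl⟩
      · intro h
        obtain ⟨x, hx, rfl⟩ := mem_orb.mp h
        exact ⟨⟨x, hx⟩, rfl⟩
    rw [h2, h3, Set.ncard_coe_finset] at h1
    exact h1.symm
  have hcop : Nat.Coprime Y₀.card p := by
    rw [hcard, Nat.coprime_comm, Nat.Prime.coprime_iff_not_dvd hp.out]
    intro h
    apply P.not_dvd_index
    rw [← Subgroup.relIndex_mul_index hPN]
    exact Dvd.dvd.mul_right h _
  refine ⟨Y₀.card, hcop, ?_⟩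
  -- the extended function
  let L : G → A := ext lam
  have hL : ∀ {x} (hx : x ∈ N), L x = lam ⟨x, hx⟩ := fun hx => ext_of_mem lam hx
  have hLmul : ∀ {a b}, a ∈ N → b ∈ N → L (a * b) = L a * L b := fun ha hb => ext_mul lam ha hb
  have hLinv : ∀ {a}, a ∈ N → L a⁻¹ = (L a)⁻¹ := fun ha => ext_inv lam ha
  have hϕL : ∀ {y} (hy : y ∈ (P : Subgroup G)), ext ϕ y = L y := by
    intro y hy
    rw [ext_of_mem ϕ hy, hL (hPN hy)]
    rfl
  have hrN : ∀ q ∈ Y₀, r q ∈ N := by
    intro q hq
    obtain ⟨x, hx, rfl⟩ := mem_orb.mp hq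
    have h1 : ((x : G) : G ⧸ (P : Subgroup G)) = x • c₁ := by
      show _ = ((x * 1 : G) : G ⧸ (P : Subgroup G))
      rw [mul_one]
    have h2 : x⁻¹ * r (x • c₁) ∈ (P : Subgroup G) := mem_of_mk_eq (by rw [hr, h1])
    have e : r (x • c₁) = x * (x⁻¹ * r (x • c₁)) := by group
    rw [e]
    exact N.mul_mem hx (hPN h2)
  -- induction on the order
  have key : ∀ m : ℕ, ∀ u (hu : u ∈ (P : Subgroup G)), orderOf u = m →
      ϕ.transfer u = L u ^ Y₀.card := by
    intro m
    induction m using Nat.strong_induction_on with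
    | _ m ih =>
      intro u hu hm
      have huN : u ∈ N := hPN hu
      rw [transfer_eq_T ϕ hr]
      have hsplit : T ϕ r Finset.univ u = T ϕ r Y₀ u * T ϕ r Y₀ᶜ u := by
        unfold T
        exact (Finset.prod_mul_prod_compl Y₀ _).symm
      rw [hsplit]
      have h1 : T ϕ r Y₀ u = L u ^ Y₀.card := by
        have hinvY : ∀ q, u • q ∈ Y₀ ↔ q ∈ Y₀ := orb_inv huN
        have h2 : ∀ q ∈ Y₀, tr ϕ r u q = (L (r (u • q)))⁻¹ * L u * L (r q) := by
          intro q hq
          have h3 := hrN q hq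
          have h4 := hrN _ ((hinvY q).mpr hq)
          unfold tr
          rw [hϕL (tr_mem hr u q), hLmul (N.mul_mem (N.inv_mem h4) huN) h3,
            hLmul (N.inv_mem h4) huN, hLinv h4]
        unfold T
        rw [Finset.prod_congr rfl h2, Finset.prod_mul_distrib, Finset.prod_mul_distrib,
          Finset.prod_inv_distrib, prod_smul_eq Y₀ u hinvY (fun q => L (r q)), Finset.prod_const]
        rw [mul_comm (∏ q ∈ Y₀, L (r q))⁻¹, mul_assoc, inv_mul_cancel, mul_one]
      rw [h1]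
      suffices h2 : T ϕ r Y₀ᶜ u = 1 by rw [h2, mul_one]
      let U : Subgroup G := W ⊔ zpowers u
      have hUP : U ≤ (P : Subgroup G) := sup_le hW.1 (zpowers_le.mpr hu)
      have hWU : W ≤ U := le_sup_left
      have huU : u ∈ U := (le_sup_right (α := Subgroup G)) (mem_zpowers u)
      have hUinv : ∀ x ∈ U, ∀ q, x • q ∈ Y₀ᶜ ↔ q ∈ Y₀ᶜ := by
        intro x hx q
        rw [Finset.mem_compl, Finset.mem_compl, orb_inv (hPN (hUP hx))]
      refine T_of_blocks ϕ U u _ Y₀ᶜ rfl hUinv ?_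
      intro c hc
      by_cases hfix : ∃ c' ∈ orb U c, u • c' = c'
      · obtain ⟨c', hc', huc'⟩ := hfix
        obtain ⟨x, hx, rfl⟩ := mem_orb.mp hc'
        have hEq : orb U (x • c) = orb U c := by
          ext q
          rw [mem_orb, mem_orb]
          constructor
          · rintro ⟨y, hy, rfl⟩
            exact ⟨y * x, U.mul_mem hy hx, (mul_smul y x c).symm⟩
          · rintro ⟨y, hy, rfl⟩
            refine ⟨y * x⁻¹, U.mul_mem hy (U.inv_mem hx), ?_⟩
            rw [mul_smul, inv_smul_smul]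
        rw [← hEq]
        refine T_orbit_fixed ϕ hr P.isPGroup' W U hUP hWU u huU ?_ _ huc' ?_ hEV
        · intro H hWH huH
          exact sup_le hWH (zpowers_le.mpr huH)
        · intro hle
          have hc'Y : x • c ∈ Y₀ᶜ := (hUinv x hx c).mpr hc
          apply Finset.mem_compl.mp hc'Y
          set t : G := (x • c).out with ht
          have htc : ((t : G) : G ⧸ (P : Subgroup G)) = x • c := QuotientGroup.out_eq' _
          have hmap : W.map (MulAut.conj t⁻¹).toMonoidHom ≤ (P : Subgroup G) := by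
            rintro _ ⟨w, hw, rfl⟩
            have hs : w • (x • c) = x • c := hle hw
            rw [← htc] at hs
            have h5 : ((w * t : G) : G ⧸ (P : Subgroup G)) = (t : G) := hs
            have h6 := mem_of_mk_eq h5
            have h7 := (P : Subgroup G).inv_mem h6
            convert h7 using 1
            simp only [MonoidHom.coe_coe, MulEquiv.coe_toMonoidHom, MulAut.conj_apply]
            group
          have hWeq := hW.2 t⁻¹ hmap
          have htN : t ∈ N := by
            have := N.inv_mem (hNW t⁻¹ hWeq)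
            simpa using this
          refine mem_orb.mpr ⟨t, htN, ?_⟩
          rw [← htc]
          show _ = ((t * 1 : G) : G ⧸ (P : Subgroup G))
          rw [mul_one]
      · push Not at hfix
        refine T_eq_one_of_cycles ϕ hr _ u (orb_inv huU) ?_
        intro t ht
        set c' : G ⧸ (P : Subgroup G) := ((t : G) : G ⧸ (P : Subgroup G)) with hc'
        set n := minimalPeriod (u • ·) c' with hn
        have hper : u ^ n • c' = c' := by
          have := iterate_minimalPeriod (f := (u • ·)) (x := c')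
          rwa [smul_iterate] at this
        have hn1 : n ≠ 1 := by
          intro h1'
          rw [hn, minimalPeriod_eq_one_iff_isFixedPt] at h1'
          exact hfix c' ht h1'
        have hnord : n ∣ orderOf u := by
          apply IsPeriodicPt.minimalPeriod_dvd
          show (u • ·)^[orderOf u] c' = c'
          rw [smul_iterate, pow_orderOf_eq_one]
          simp
        obtain ⟨k, hk⟩ := (IsPGroup.iff_orderOf.mp P.isPGroup') ⟨u, hu⟩
        have hk' : orderOf u = p ^ k := by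
          rw [← hk]; exact (Subgroup.orderOf_mk u hu).symm
        have hpn : p ∣ n := by
          rw [hk'] at hnord
          obtain ⟨j, -, hj⟩ := (Nat.dvd_prime_pow hp.out).1 hnord
          rw [hj]
          rcases j with _ | j
          · exact absurd (by rw [hj, pow_zero]) hn1
          · exact dvd_pow_self p (by omega)
        have hn0 : n ≠ 0 := by
          intro h0
          rw [h0] at hpn hnord
          have := Nat.eq_zero_of_zero_dvd hnord
          exact (orderOf_pos u).ne' this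
        have hord : orderOf (u ^ n) < m := by
          rw [orderOf_pow_of_dvd hn0 hnord, hm]
          apply Nat.div_lt_self
          · rw [← hm]; exact orderOf_pos u
          · have := Nat.one_lt_iff_ne_zero_and_ne_one.mpr ⟨hn0, hn1⟩
            exact this
        have hunP : u ^ n ∈ (P : Subgroup G) := (P : Subgroup G).pow_mem hu n
        have hyP : t⁻¹ * u ^ n * t ∈ (P : Subgroup G) := by
          have h5 : ((u ^ n * t : G) : G ⧸ (P : Subgroup G)) = (t : G) := hper
          have h6 := mem_of_mk_eq h5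
          have h7 := (P : Subgroup G).inv_mem h6
          convert h7 using 1
          group
        have hordy : orderOf (t⁻¹ * u ^ n * t) = orderOf (u ^ n) := by
          have h6 : orderOf (MulAut.conj t⁻¹ (u ^ n)) = orderOf (u ^ n) :=
            MulEquiv.orderOf_eq _ _
          rw [MulAut.conj_apply, inv_inv] at h6
          exact h6
        have hi1 := ih _ hord (u ^ n) hunP rfl
        have hi2 := ih _ (hordy ▸ hord) _ hyP rfl
        have hVconj : ϕ.transfer (t⁻¹ * u ^ n * t) = ϕ.transfer (u ^ n) := by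
          rw [map_mul, map_mul, map_inv, mul_comm (ϕ.transfer t)⁻¹, mul_assoc, inv_mul_cancel, mul_one]
        rw [hVconj, hi1] at hi2
        have hLun : L (u ^ n) = 1 := by
          rw [hL (hPN hunP)]
          have e : (⟨u ^ n, hPN hunP⟩ : N) = (⟨u, huN⟩ : N) ^ n := Subtype.ext (by simp)
          rw [e, map_pow]
          obtain ⟨j, hj⟩ := hpn
          rw [hj, pow_mul, hA, one_pow]
        rw [hLun, one_pow] at hi2
        rw [hϕL hyP]
        exact eq_one_of_pow hcop hi2.symm (hA _)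
  intro u hu
  rw [key _ u hu rfl, hL (hPN hu)]

/-- Extension of homomorphisms from `N` to `G`. -/
theorem exists_extension (P : Sylow p G) (W : Subgroup G) (hW : Cfsg.IsWeaklyClosed W P)
    (N : Subgroup G) (hPN : (P : Subgroup G) ≤ N)
    (hNW : ∀ t : G, W.map (MulAut.conj t).toMonoidHom = W → t ∈ N)
    (hA : ∀ a : A, a ^ p = 1) (lam : N →* A)
    (hEV : EngelVanish p (P : Subgroup G) W A) :
    ∃ μ : G →* A, ∀ x : N, μ x = lam x := by
  classical
  obtain ⟨c, hc, hV⟩ := transfer_pow P W hW N hPN hNW hA lam hEV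
  obtain ⟨d, hd⟩ := Nat.exists_mul_mod_eq_one_of_coprime hc hp.out.one_lt
  let μ : G →* A := (powMonoidHom d).comp (MonoidHom.transfer (lam.comp (Subgroup.inclusion hPN)))
  have hμP : ∀ u (hu : u ∈ (P : Subgroup G)), μ u = lam ⟨u, hPN hu⟩ := by
    intro u hu
    show (MonoidHom.transfer (lam.comp (Subgroup.inclusion hPN)) u) ^ d = _
    rw [hV u hu, ← pow_mul, ← Nat.mod_add_div (c * d) p, pow_add, pow_mul _ p, hA, one_pow, mul_one,
      hd.2, pow_one]
  refine ⟨μ, fun x => ?_⟩
  obtain ⟨a, b, hab, hcomm, ha, hb, ⟨k, hk⟩, hob⟩ :=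
    Cfsg.Agent.Lib.Transfer.Basic.exists_pPart_decomp (p := p) (x : G)
  have hzle : zpowers (x : G) ≤ N := zpowers_le.mpr x.2
  have haN := hzle ha
  have hbN := hzle hb
  have hμb : μ b = 1 := by
    apply eq_one_of_pow hob _ (hA _)
    rw [← map_pow, pow_orderOf_eq_one, map_one]
  have hlamb : lam ⟨b, hbN⟩ = 1 := by
    apply eq_one_of_pow (c := orderOf b) hob _ (hA _)
    rw [← map_pow]
    have e : (⟨b, hbN⟩ : N) ^ orderOf b = 1 := Subtype.ext (by simp [pow_orderOf_eq_one])
    rw [e, map_one]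
  have hxe : x = (⟨a, haN⟩ : N) * ⟨b, hbN⟩ := Subtype.ext hab.symm
  have hμx : μ (x : G) = μ a * μ b := by rw [← map_mul, hab]
  rw [hμx, hμb, mul_one, hxe, map_mul, hlamb, mul_one]
  -- the `p`-part
  have hZ : IsPGroup p (zpowers (⟨a, haN⟩ : N)) :=
    IsPGroup.iff_card.mpr ⟨k, by
      rw [Nat.card_zpowers, Subgroup.orderOf_mk, hk]⟩
  obtain ⟨y, hy⟩ := Cfsg.Agent.Lib.Transfer.Frobenius.exists_conj_mem_of_isPGroup (P.subtype hPN) hZ
  have h1 := hy _ (mem_zpowers _)
  rw [Sylow.coe_subtype, Subgroup.mem_subgroupOf] at h1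
  have h2 := hμP _ h1
  have h3 : μ (((y * ⟨a, haN⟩ * y⁻¹ : N)) : G) = μ a := by
    simp only [Subgroup.coe_mul, Subgroup.coe_inv, map_mul, map_inv]
    rw [mul_comm (μ (y : G)), mul_assoc, mul_inv_cancel, mul_one]
  rw [← h3, h2]
  have e : (⟨((y * ⟨a, haN⟩ * y⁻¹ : N) : G), hPN h1⟩ : N) = y * ⟨a, haN⟩ * y⁻¹ := rfl
  rw [e, map_mul, map_mul, map_inv, mul_comm (lam y), mul_assoc, mul_inv_cancel, mul_one]

/-- The generalized Tate argument: control of the elementary abelian quotients gives control of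
`O^p`. -/
theorem residual_eq (H : Subgroup G) (hidx : ¬ p ∣ H.index)
    (hext : ∀ lam : H →* Multiplicative (ZMod p), ∃ μ : G →* Multiplicative (ZMod p),
      ∀ x : H, μ x = lam x) :
    Cfsg.pResidualOf p H = Cfsg.pResidual p G ⊓ H := by
  classical
  set R : Subgroup G := Cfsg.pResidual p G with hR
  haveI hRn : R.Normal := Cfsg.Agent.Lib.Transfer.Basic.pResidual_normal p G
  have hRp : IsPGroup p (G ⧸ R) := Cfsg.Agent.Lib.Transfer.Basic.isPGroup_quotient_pResidual
  set C : Subgroup H := Cfsg.pResidual p H with hC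
  haveI hCn : C.Normal := Cfsg.Agent.Lib.Transfer.Basic.pResidual_normal p H
  have hCp : IsPGroup p (H ⧸ C) := Cfsg.Agent.Lib.Transfer.Basic.isPGroup_quotient_pResidual
  let B : Subgroup H := R.subgroupOf H
  haveI hBn : B.Normal := inferInstance
  have hmemB : ∀ x : H, x ∈ B ↔ (x : G) ∈ R := fun x => Subgroup.mem_subgroupOf
  have hBp : IsPGroup p (H ⧸ B) := by
    intro x
    induction x using QuotientGroup.induction_on with
    | H h =>
      obtain ⟨k, hk⟩ := hRp ((h : G) : G ⧸ R)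
      refine ⟨k, ?_⟩
      rw [← QuotientGroup.mk_pow, QuotientGroup.eq_one_iff, hmemB]
      rw [← QuotientGroup.mk_pow, QuotientGroup.eq_one_iff] at hk
      simpa using hk
  have hCB : C ≤ B := Cfsg.Agent.Lib.Transfer.Basic.pResidual_le_of_isPGroup_quotient B hBp
  -- it suffices to show `B ≤ C`
  suffices hBC : B ≤ C by
    apply le_antisymm
    · rintro _ ⟨x, hx, rfl⟩
      exact ⟨(hmemB x).mp (hCB hx), x.2⟩
    · rintro x ⟨hxR, hxH⟩
      exact ⟨⟨x, hxH⟩, hBC ((hmemB _).mpr hxR), rfl⟩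
  -- the central quotient
  let D : Subgroup H := ⁅B, (⊤ : Subgroup H)⁆ ⊔ C
  haveI hDn : D.Normal := inferInstance
  have hDB : D ≤ B := sup_le (Subgroup.commutator_le_left B ⊤) hCB
  have hEp : IsPGroup p (H ⧸ D) := by
    intro x
    induction x using QuotientGroup.induction_on with
    | H h =>
      obtain ⟨k, hk⟩ := hCp (h : H ⧸ C)
      refine ⟨k, ?_⟩
      rw [← QuotientGroup.mk_pow, QuotientGroup.eq_one_iff] at hk ⊢
      exact le_sup_right (α := Subgroup H) hk
  let π : H ⧸ D →* G ⧸ R := QuotientGroup.lift D ((QuotientGroup.mk' R).comp H.subtype) (by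
    intro x hx
    exact (QuotientGroup.eq_one_iff _).mpr ((hmemB x).mp (hDB hx)))
  have hπ : ∀ x : H, π (x : H ⧸ D) = ((x : G) : G ⧸ R) := fun x => rfl
  have hπker : ∀ x : H, π (x : H ⧸ D) = 1 ↔ x ∈ B := by
    intro x
    rw [hπ, QuotientGroup.eq_one_iff, hmemB]
  have hsup : R ⊔ H = ⊤ := by
    have h1 : (R ⊔ H).index ∣ H.index := Subgroup.index_dvd_of_le le_sup_right
    have h2 : (R ⊔ H).index ∣ R.index := Subgroup.index_dvd_of_le le_sup_left
    obtain ⟨k, hk⟩ := IsPGroup.iff_card.mp hRp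
    have h3 : R.index = p ^ k := hk
    rw [h3] at h2
    have hcop : Nat.Coprime H.index (p ^ k) :=
      Nat.Coprime.pow_right k (((Nat.Prime.coprime_iff_not_dvd hp.out).mpr hidx).symm)
    exact Subgroup.index_eq_one.mp (Nat.eq_one_of_dvd_coprimes hcop h1 h2)
  have hπsurj : Function.Surjective π := by
    intro w
    induction w using QuotientGroup.induction_on with
    | H g =>
      have hg : g ∈ R ⊔ H := by rw [hsup]; trivial
      obtain ⟨r, hr, h, hh, rfl⟩ := Subgroup.mem_sup_of_normal_left.mp hg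
      refine ⟨((⟨h, hh⟩ : H) : H ⧸ D), ?_⟩
      rw [hπ]
      show ((h : G) : G ⧸ R) = ((r * h : G) : G ⧸ R)
      rw [QuotientGroup.mk_mul, (QuotientGroup.eq_one_iff r).mpr hr, one_mul]
  have hcent : π.ker ≤ center (H ⧸ D) := by
    intro y hy
    induction y using QuotientGroup.induction_on with
    | H x =>
      rw [MonoidHom.mem_ker, hπker] at hy
      rw [Subgroup.mem_center_iff]
      intro z
      induction z using QuotientGroup.induction_on with
      | H w =>
        have h1 : ⁅x, w⁆ ∈ D := le_sup_left (α := Subgroup H)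
          (Subgroup.commutator_mem_commutator hy (Subgroup.mem_top w))
        rw [commutatorElement_def] at h1
        have h2 := (QuotientGroup.eq_one_iff _).mpr h1
        have h3 : ((x * w * x⁻¹ * w⁻¹ : H) : H ⧸ D) =
            (x : H ⧸ D) * (w : H ⧸ D) * (x : H ⧸ D)⁻¹ * (w : H ⧸ D)⁻¹ := rfl
        rw [h3] at h2
        have h4 := mul_inv_eq_one.mp h2
        exact (mul_inv_eq_iff_eq_mul.mp h4).symm
  have hkerp : IsPGroup p π.ker := hEp.to_subgroup _
  have hcop : (Nat.card π.ker).Coprime H.index := by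
    obtain ⟨k, hk⟩ := IsPGroup.iff_card.mp hkerp
    rw [hk]
    exact Nat.Coprime.pow_left k ((Nat.Prime.coprime_iff_not_dvd hp.out).mpr hidx)
  obtain ⟨F, hF⟩ := Cfsg.Agent.Lib.Transfer.CentralLift.exists_lift_of_lift_on_subgroup H π hπsurj hcent
    (QuotientGroup.mk' R) (QuotientGroup.mk' D) (fun x => rfl) hcop
  -- the kernel lies in the Frattini subgroup
  have hkerΦ : π.ker ≤ frattini (H ⧸ D) := by
    intro e he
    by_contra hne
    obtain ⟨M, hMn, hMi, -, heM⟩ :=
      Cfsg.Agent.Lib.PGroup.Basic.exists_normal_index_notMem_of_notMem_frattini hEp hne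
    haveI := hMn
    have hcardM : Nat.card ((H ⧸ D) ⧸ M) = p := hMi
    have hcard2 : Nat.card (Multiplicative (ZMod p)) = p := by
      rw [Nat.card_congr Multiplicative.toAdd, Nat.card_zmod]
    let e₀ : ((H ⧸ D) ⧸ M) ≃* Multiplicative (ZMod p) := mulEquivOfPrimeCardEq hcardM hcard2
    let lam : H →* Multiplicative (ZMod p) :=
      e₀.toMonoidHom.comp ((QuotientGroup.mk' M).comp (QuotientGroup.mk' D))
    obtain ⟨μ, hμ⟩ := hext lam
    have hA : IsPGroup p (Multiplicative (ZMod p)) :=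
      IsPGroup.of_card (n := 1) (by rw [hcard2, pow_one])
    have hμR : R ≤ μ.ker := Cfsg.Agent.Lib.Transfer.Basic.pResidual_le_ker hA μ
    induction e using QuotientGroup.induction_on with
    | H x =>
      rw [MonoidHom.mem_ker, hπker] at he
      apply heM
      have h1 : μ (x : G) = 1 := hμR ((hmemB x).mp he)
      rw [hμ] at h1
      have h2 : e₀ ((((x : H) : H ⧸ D) : (H ⧸ D) ⧸ M)) = 1 := h1
      have h3 : (((x : H) : H ⧸ D) : (H ⧸ D) ⧸ M) = 1 := by
        apply e₀.injective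
        rw [h2, map_one]
      exact (QuotientGroup.eq_one_iff _).mp h3
  -- surjectivity of the lift
  have hFsurj : F.range = ⊤ := by
    apply frattini_nongenerating
    rw [eq_top_iff]
    intro e _
    obtain ⟨g, hg⟩ : ∃ g, ((g : G) : G ⧸ R) = π e := QuotientGroup.mk_surjective _
    have h1 : π ((F g)⁻¹ * e) = 1 := by
      rw [map_mul, map_inv, hF g]
      show (((g : G) : G ⧸ R))⁻¹ * π e = 1
      rw [hg, inv_mul_cancel]
    have h2 : (F g)⁻¹ * e ∈ frattini (H ⧸ D) := hkerΦ h1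
    have h3 : e = F g * ((F g)⁻¹ * e) := by group
    rw [h3]
    exact Subgroup.mul_mem_sup ⟨g, rfl⟩ h2
  have hFR : R ≤ F.ker := Cfsg.Agent.Lib.Transfer.Basic.pResidual_le_ker hEp F
  -- so `π` is injective and `B ≤ D`
  have hBD : B ≤ D := by
    intro x hx
    have h1 : ((x : H) : H ⧸ D) ∈ F.range := by rw [hFsurj]; trivial
    obtain ⟨g, hg⟩ := h1
    have h2 : ((g : G) : G ⧸ R) = 1 := by
      have := hF g
      rw [hg, (hπker x).mpr hx] at this
      exact this.symm
    have h3 : F g = 1 := hFR ((QuotientGroup.eq_one_iff g).mp h2)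
    rw [h3] at hg
    exact (QuotientGroup.eq_one_iff x).mp hg.symm
  -- conclusion by nilpotency of `H ⧸ C`
  haveI hnil : Group.IsNilpotent (H ⧸ C) := hCp.isNilpotent
  have hQ : B.map (QuotientGroup.mk' C) ≤ ⁅B.map (QuotientGroup.mk' C), (⊤ : Subgroup (H ⧸ C))⁆ := by
    have h1 := Subgroup.map_mono (f := QuotientGroup.mk' C) hBD
    have h2 : (D.map (QuotientGroup.mk' C)) = ⁅B.map (QuotientGroup.mk' C), (⊤ : Subgroup (H ⧸ C))⁆ := by
      rw [Subgroup.map_sup, Subgroup.map_commutator]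
      have h3 : C.map (QuotientGroup.mk' C) = ⊥ := by
        rw [eq_bot_iff]
        rintro _ ⟨c, hc, rfl⟩
        exact (QuotientGroup.eq_one_iff c).mpr hc
      have h4 : (⊤ : Subgroup H).map (QuotientGroup.mk' C) = ⊤ := by
        rw [← MonoidHom.range_eq_map]
        exact MonoidHom.range_eq_top.mpr (QuotientGroup.mk'_surjective C)
      rw [h3, h4, sup_bot_eq]
    rwa [h2] at h1
  by_contra hne
  apply Cfsg.Agent.Lib.Transfer.Tate.not_le_commutator_top _ _ hQ
  intro hbot
  apply hne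
  intro x hx
  have h1 : (QuotientGroup.mk' C) x ∈ B.map (QuotientGroup.mk' C) := ⟨x, hx, rfl⟩
  rw [hbot, Subgroup.mem_bot] at h1
  exact (QuotientGroup.eq_one_iff x).mp h1

theorem coeff_eq_one (k : ℕ) (hk : k ≤ p - 1) :
    ((-1 : ZMod p) ^ (p - 1 - k) * ((p - 1).choose k : ZMod p)) = 1 := by
  induction k with
  | zero =>
    simp only [Nat.sub_zero, Nat.choose_zero_right, Nat.cast_one, mul_one]
    exact ZMod.pow_card_sub_one_eq_one (by simp)
  | succ k ih =>
    have hk' : k ≤ p - 1 := by omega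
    have h0 := ih hk'
    have hp1 : p - 1 + 1 = p := Nat.sub_add_cancel hp.out.one_le
    have h1 : ((p.choose (k + 1) : ℕ) : ZMod p) = 0 := by
      rw [ZMod.natCast_eq_zero_iff]
      exact hp.out.dvd_choose_self (by omega) (by omega)
    have h2 : (((p - 1).choose (k + 1) : ℕ) : ZMod p) = -(((p - 1).choose k : ℕ) : ZMod p) := by
      have h3 : p.choose (k + 1) = (p - 1).choose k + (p - 1).choose (k + 1) := by
        conv_lhs => rw [← hp1]
        exact Nat.choose_succ_succ _ _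
      rw [h3] at h1
      push_cast at h1
      exact eq_neg_of_add_eq_zero_right h1
    rw [h2]
    have h4 : p - 1 - k = (p - 1 - (k + 1)) + 1 := by omega
    rw [h4, pow_succ] at h0
    linear_combination h0

/-- In an additive group killed by `p`, the `(p-1)`-st forward difference at `0` is the sum of the
first `p` values. -/
theorem fwd_sum {B : Type*} [AddCommGroup B] (hB : ∀ x : B, p • x = 0) (b : ℕ → B) :
    (fwdDiff (1 : ℕ))^[p - 1] b 0 = ∑ k ∈ Finset.range p, b k := by
  rw [fwdDiff_iter_eq_sum_shift]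
  have hp1 : p - 1 + 1 = p := Nat.sub_add_cancel hp.out.one_le
  rw [hp1]
  refine Finset.sum_congr rfl fun k hk => ?_
  have hk' : k ≤ p - 1 := by
    have := Finset.mem_range.mp hk
    omega
  have h1 := coeff_eq_one (p := p) k hk'
  have h2 : (((-1 : ℤ) ^ (p - 1 - k) * ((p - 1).choose k : ℤ) : ℤ) : ZMod p) = ((1 : ℤ) : ZMod p) := by
    push_cast
    exact h1
  rw [ZMod.intCast_eq_intCast_iff_dvd_sub] at h2
  obtain ⟨w, hw⟩ := h2
  have h3 : ((-1 : ℤ) ^ (p - 1 - k) * ((p - 1).choose k : ℤ) : ℤ) = 1 - (p : ℤ) * w := by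
    linarith
  rw [h3]
  simp only [zero_add, smul_eq_mul, mul_one]
  rw [sub_smul, one_smul, mul_smul]
  have h4 : ((p : ℤ)) • (w • b k) = 0 := by
    rw [natCast_zsmul]
    exact hB _
  rw [h4, sub_zero]

/-- The norm along a `p`-fold conjugation is the iterated commutator. -/
theorem norm_eq_iter (hA : ∀ a : A, a ^ p = 1) (M : Subgroup G) (ν : M →* A) (z : G)
    (hz : ∀ m ∈ M, z⁻¹ * m * z ∈ M) (u : G) (hu : u ∈ M) :
    ∏ i ∈ Finset.range p, ext ν ((z ^ i)⁻¹ * u * z ^ i) =
      ext ν ((fun y : G => y⁻¹ * z⁻¹ * y * z)^[p - 1] u) := by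
  let f : G → G := fun y : G => y⁻¹ * z⁻¹ * y * z
  have hfM : ∀ y ∈ M, f y ∈ M := by
    intro y hy
    have h1 := M.mul_mem (M.inv_mem hy) (hz y hy)
    have e : f y = y⁻¹ * (z⁻¹ * y * z) := by
      simp only [f]; group
    rw [e]; exact h1
  have hzj : ∀ (j : ℕ), ∀ y ∈ M, (z ^ j)⁻¹ * y * z ^ j ∈ M := by
    intro j
    induction j with
    | zero => intro y hy; simpa using hy
    | succ j ih =>
      intro y hy
      have e : (z ^ (j + 1))⁻¹ * y * z ^ (j + 1) = z⁻¹ * ((z ^ j)⁻¹ * y * z ^ j) * z := by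
        rw [pow_succ]; group
      rw [e]
      exact hz _ (ih y hy)
  let seq : G → ℕ → Additive A := fun y j => Additive.ofMul (ext ν ((z ^ j)⁻¹ * y * z ^ j))
  have hseq : ∀ y ∈ M, seq (f y) = fwdDiff 1 (seq y) := by
    intro y hy
    funext j
    have e : (z ^ j)⁻¹ * f y * z ^ j =
        ((z ^ j)⁻¹ * y * z ^ j)⁻¹ * ((z ^ (j + 1))⁻¹ * y * z ^ (j + 1)) := by
      simp only [f]
      rw [pow_succ]; group
    simp only [seq, fwdDiff]
    rw [e, ext_mul ν (M.inv_mem (hzj j y hy)) (hzj _ y hy), ext_inv ν (hzj j y hy)]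
    rw [ofMul_mul, ofMul_inv]
    abel
  have hiter : ∀ n : ℕ, f^[n] u ∈ M ∧ seq (f^[n] u) = (fwdDiff (1 : ℕ))^[n] (seq u) := by
    intro n
    induction n with
    | zero => exact ⟨hu, rfl⟩
    | succ n ih =>
      rw [Function.iterate_succ_apply', Function.iterate_succ_apply', hseq _ ih.1, ih.2]
      exact ⟨hfM _ ih.1, rfl⟩
  have hB : ∀ x : Additive A, p • x = 0 := by
    intro x
    show Additive.ofMul (Additive.toMul x ^ p) = 0
    rw [hA]; rfl
  have h1 := congrFun (hiter (p - 1)).2 0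
  rw [fwd_sum hB] at h1
  have h2 : Additive.toMul (seq (f^[p - 1] u) 0) = ext ν (f^[p - 1] u) := by
    simp [seq]
  rw [← h2, h1]
  simp [seq, toMul_sum]

theorem hA_zmod (a : Multiplicative (ZMod p)) : a ^ p = 1 := by
  have hcard : Nat.card (Multiplicative (ZMod p)) = p := by
    rw [Nat.card_congr Multiplicative.toAdd, Nat.card_zmod]
  have h := pow_card_eq_one' (x := a)
  rwa [hcard] at h

/-- The residual statement from the vanishing of the norms. -/
theorem residual_eq_of_vanish (P : Sylow p G) (W : Subgroup G) (hW : Cfsg.IsWeaklyClosed W P)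
    (hEV : EngelVanish p (P : Subgroup G) W (Multiplicative (ZMod p))) :
    Cfsg.pResidualOf p (normalizer (W : Set G)) = Cfsg.pResidual p G ⊓ normalizer (W : Set G) := by
  have hPN := le_normalizer_of_weaklyClosed (P : Subgroup G) W hW
  apply residual_eq
  · intro h
    exact P.not_dvd_index (h.trans (Subgroup.index_dvd_of_le hPN))
  · intro lam
    exact exists_extension P W hW _ hPN
      (fun t ht => Cfsg.Agent.Lib.Transfer.WellPlaced.mem_Nz_iff.mpr ht) hA_zmod lam hEV

/-- From `O^p` to the focal form. -/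
theorem commutator_inf_of_residual (P : Sylow p G) (N : Subgroup G) (hPN : (P : Subgroup G) ≤ N)
    (hres : Cfsg.pResidualOf p N = Cfsg.pResidual p G ⊓ N) :
    (P : Subgroup G) ⊓ commutator G = (P : Subgroup G) ⊓ ⁅N, N⁆ := by
  classical
  apply le_antisymm
  · rintro x ⟨hxP, hxG⟩
    refine ⟨hxP, ?_⟩
    set R : Subgroup G := Cfsg.pResidual p G with hR
    haveI hRn : R.Normal := Cfsg.Agent.Lib.Transfer.Basic.pResidual_normal p G
    have hRp : IsPGroup p (G ⧸ R) := Cfsg.Agent.Lib.Transfer.Basic.isPGroup_quotient_pResidual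
    -- `N` surjects onto `G ⧸ R`
    have hsup : N.map (QuotientGroup.mk' R) = ⊤ := by
      have h1 : R ⊔ N = ⊤ := by
        have h2 : (R ⊔ N).index ∣ N.index := Subgroup.index_dvd_of_le le_sup_right
        have h3 : (R ⊔ N).index ∣ R.index := Subgroup.index_dvd_of_le le_sup_left
        have h4 : N.index ∣ (P : Subgroup G).index := Subgroup.index_dvd_of_le hPN
        obtain ⟨k, hk⟩ := IsPGroup.iff_card.mp hRp
        have h5 : R.index = p ^ k := hk
        rw [h5] at h3
        have hcop : Nat.Coprime N.index (p ^ k) :=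
          Nat.Coprime.pow_right k (((Nat.Prime.coprime_iff_not_dvd hp.out).mpr
            (fun h => P.not_dvd_index (h.trans h4))).symm)
        exact Subgroup.index_eq_one.mp (Nat.eq_one_of_dvd_coprimes hcop h2 h3)
      rw [eq_top_iff]
      intro w _
      induction w using QuotientGroup.induction_on with
      | H g =>
        have hg : g ∈ R ⊔ N := by rw [h1]; trivial
        obtain ⟨r, hr, n, hn, rfl⟩ := Subgroup.mem_sup_of_normal_left.mp hg
        refine ⟨n, hn, ?_⟩
        show ((n : G) : G ⧸ R) = ((r * n : G) : G ⧸ R)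
        rw [QuotientGroup.mk_mul, (QuotientGroup.eq_one_iff r).mpr hr, one_mul]
    have h1 : (QuotientGroup.mk' R) x ∈ (⁅N, N⁆ : Subgroup G).map (QuotientGroup.mk' R) := by
      rw [Subgroup.map_commutator, hsup]
      have h2 := Subgroup.mem_map_of_mem (QuotientGroup.mk' R) hxG
      rw [_root_.commutator_def, Subgroup.map_commutator] at h2
      have h3 : (⊤ : Subgroup G).map (QuotientGroup.mk' R) = ⊤ := by
        rw [← MonoidHom.range_eq_map]
        exact MonoidHom.range_eq_top.mpr (QuotientGroup.mk'_surjective R)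
      rwa [h3] at h2
    obtain ⟨n', hn', hn'x⟩ := h1
    have hn'N : n' ∈ N := by
      have hle : ⁅N, N⁆ ≤ N := by
        rw [Subgroup.commutator_le]
        intro a ha b hb
        exact N.mul_mem (N.mul_mem (N.mul_mem ha hb) (N.inv_mem ha)) (N.inv_mem hb)
      exact hle hn'
    have hyR : n'⁻¹ * x ∈ R := by
      have := QuotientGroup.eq.mp hn'x
      exact this
    have hxN : x ∈ N := hPN hxP
    have hyN : n'⁻¹ * x ∈ N := N.mul_mem (N.inv_mem hn'N) hxN
    have hy : n'⁻¹ * x ∈ Cfsg.pResidualOf p N := by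
      rw [hres]; exact ⟨hyR, hyN⟩
    obtain ⟨y, hyC, hye⟩ := hy
    -- work in the abelianization of `N`
    let Ab := Abelianization N
    have hcopC : ∀ c ∈ Cfsg.pResidual p N, Nat.Coprime (orderOf (Abelianization.of c)) p := by
      intro c hc
      refine Subgroup.closure_induction (p := fun c _ => Nat.Coprime (orderOf (Abelianization.of c)) p)
        ?_ ?_ ?_ ?_ hc
      · intro g hg
        exact Nat.Coprime.coprime_dvd_left (orderOf_map_dvd _ _) hg
      · simp
      · intro a b _ _ ha hb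
        rw [map_mul]
        have h2 : (Abelianization.of a * Abelianization.of b) ^
            (orderOf (Abelianization.of a) * orderOf (Abelianization.of b)) = 1 := by
          rw [mul_pow, pow_mul, pow_orderOf_eq_one, one_pow, mul_comm (orderOf _), pow_mul,
            pow_orderOf_eq_one, one_pow, mul_one]
        exact Nat.Coprime.coprime_dvd_left (orderOf_dvd_of_pow_eq_one h2) (Nat.Coprime.mul_left ha hb)
      · intro a _ ha
        rw [map_inv, orderOf_inv]
        exact ha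
    have hxpow : ∃ k : ℕ, x ^ p ^ k = 1 := by
      obtain ⟨k, hk⟩ := (IsPGroup.iff_orderOf.mp P.isPGroup') ⟨x, hxP⟩
      refine ⟨k, ?_⟩
      rw [← (Subgroup.orderOf_mk x hxP).symm.trans hk]
      exact pow_orderOf_eq_one x
    obtain ⟨k, hk⟩ := hxpow
    -- `x` and `y` have the same image
    have hn'ker : (⟨n', hn'N⟩ : N) ∈ commutator N := by
      have : n' ∈ (commutator N).map N.subtype := by
        rw [_root_.commutator_def, Subgroup.map_commutator, ← MonoidHom.range_eq_map, Subgroup.range_subtype]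
        exact hn'
      obtain ⟨w, hw, hwe⟩ := this
      have e : w = ⟨n', hn'N⟩ := Subtype.ext hwe
      rwa [← e]
    have hxy : Abelianization.of (⟨x, hxN⟩ : N) = Abelianization.of y := by
      have e : (⟨x, hxN⟩ : N) = ⟨n', hn'N⟩ * y := by
        apply Subtype.ext
        simp only [Subgroup.coe_mul]
        have : (y : G) = n'⁻¹ * x := hye
        rw [this]; group
      rw [e, map_mul]
      have h2 : Abelianization.of (⟨n', hn'N⟩ : N) = 1 := by
        rw [← MonoidHom.mem_ker, Abelianization.ker_of]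
        exact hn'ker
      rw [h2, one_mul]
    have h3 : Abelianization.of (⟨x, hxN⟩ : N) = 1 := by
      have h4 : (Abelianization.of (⟨x, hxN⟩ : N)) ^ p ^ k = 1 := by
        rw [← map_pow]
        have e : (⟨x, hxN⟩ : N) ^ p ^ k = 1 := Subtype.ext (by simpa using hk)
        rw [e, map_one]
      have h5 := hcopC y hyC
      rw [← hxy] at h5
      have h6 : orderOf (Abelianization.of (⟨x, hxN⟩ : N)) ∣ p ^ k := orderOf_dvd_of_pow_eq_one h4
      have h7 := Nat.eq_one_of_dvd_coprimes (Nat.Coprime.pow_right k h5) dvd_rfl h6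
      exact orderOf_eq_one_iff.mp h7
    rw [← MonoidHom.mem_ker, Abelianization.ker_of] at h3
    have h8 := Subgroup.mem_map_of_mem N.subtype h3
    rw [_root_.commutator_def, Subgroup.map_commutator, ← MonoidHom.range_eq_map, Subgroup.range_subtype] at h8
    exact h8
  · exact inf_le_inf_left _ (by
      rw [_root_.commutator_def]
      exact Subgroup.commutator_mono le_top le_top)

end Main

end Finite

end Cfsg.Agent.Lib.Transfer.Monomial
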