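import Mathlib
import Cfsg.Agent.Lib.Transfer.Monomial

/-!
# The regular wreath product as a `p`-transitive image (Yoshida)

If `X` is a finite `p`-group, `M` a normal subgroup of index `p`, `ν : M → F_p` and some norm
`∑ ν(z^{-i} u z^i)` does not vanish, then `X` maps onto a Sylow `p`-subgroup of `Sym(p²)`.
-/

namespace Cfsg.Agent.Lib.Transfer.Wreath

open Cfsg.Agent.Lib.Transfer.EngelCore

section Seq

variable {p : ℕ} [hp : Fact p.Prime]

theorem iter_eq_sum (b : ℕ → ZMod p) (y : ℕ) :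
    (fwdDiff (1 : ℕ))^[p - 1] b y = ∑ k ∈ Finset.range p, b (y + k) := by
  rw [fwdDiff_iter_eq_sum_shift]
  have hp1 : p - 1 + 1 = p := Nat.sub_add_cancel hp.out.one_le
  rw [hp1]
  refine Finset.sum_congr rfl fun k hk => ?_
  have hk' : k ≤ p - 1 := by
    have := Finset.mem_range.mp hk
    omega
  have h1 := Cfsg.Agent.Lib.Transfer.Monomial.coeff_eq_one (p := p) k hk'
  rw [zsmul_eq_mul]
  push_cast
  rw [h1, one_mul]
  simp

theorem window_const (b : ℕ → ZMod p) (hb : ∀ n, b (n + p) = b n) (n : ℕ) :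
    ∑ k ∈ Finset.range p, b (n + k) = ∑ k ∈ Finset.range p, b k := by
  induction n with
  | zero => simp
  | succ n ih =>
    rw [← ih]
    have h1 := Finset.sum_range_succ (fun k => b (n + k)) p
    have h2 := Finset.sum_range_succ' (fun k => b (n + k)) p
    simp only [add_zero] at h2
    have h3 : b (n + p) = b n := hb n
    rw [h3] at h1
    have h4 : ∑ k ∈ Finset.range p, b (n + (k + 1)) = ∑ k ∈ Finset.range p, b (n + k) := by
      have := h1.symm.trans h2
      exact (add_right_cancel this).symm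
    rw [← h4]
    refine Finset.sum_congr rfl fun k _ => ?_
    congr 1
    omega

/-- Periodicity is preserved. -/
theorem per_iter (f : ℕ → ZMod p) (hf : ∀ n, f (n + p) = f n) (k : ℕ) (n : ℕ) :
    (fwdDiff (1 : ℕ))^[k] f (n + p) = (fwdDiff (1 : ℕ))^[k] f n := by
  induction k generalizing n with
  | zero => exact hf n
  | succ k ih =>
    rw [Function.iterate_succ_apply']
    simp only [fwdDiff]
    have e : n + p + 1 = n + 1 + p := by omega
    rw [e, ih (n + 1), ih n]

theorem top_iter_eq (f : ℕ → ZMod p) (hf : ∀ n, f (n + p) = f n) (n : ℕ) :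
    (fwdDiff (1 : ℕ))^[p - 1] f n = ∑ k ∈ Finset.range p, f k := by
  rw [iter_eq_sum, window_const f hf]

theorem const_of_diff_zero (f : ℕ → ZMod p) (hf : fwdDiff (1 : ℕ) f = 0) (n : ℕ) : f n = f 0 := by
  induction n with
  | zero => rfl
  | succ n ih =>
    rw [← ih]
    have := congrFun hf n
    simp only [fwdDiff, Pi.zero_apply, sub_eq_zero] at this
    exact this

/-- A shift-invariant group of periodic sequences containing one with nonzero sum is everything. -/
theorem mem_of_periodic (Y : AddSubgroup (ℕ → ZMod p)) (hper : ∀ f ∈ Y, ∀ n, f (n + p) = f n)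
    (hshift : ∀ f ∈ Y, (fun n => f (n + 1)) ∈ Y) (v : ℕ → ZMod p) (hvY : v ∈ Y)
    (hv : ∑ k ∈ Finset.range p, v k ≠ 0) (w : ℕ → ZMod p) (hw : ∀ n, w (n + p) = w n) : w ∈ Y := by
  have hsmul : ∀ (c : ZMod p), ∀ f ∈ Y, c • f ∈ Y := by
    intro c f hf
    have e : c • f = c.val • f := by
      funext n
      simp only [Pi.smul_apply, smul_eq_mul, nsmul_eq_mul, ZMod.natCast_zmod_val]
    rw [e]
    exact AddSubgroup.nsmul_mem _ hf _
  have hdiff : ∀ f ∈ Y, fwdDiff (1 : ℕ) f ∈ Y := by
    intro f hf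
    have e : fwdDiff (1 : ℕ) f = (fun n => f (n + 1)) - f := rfl
    rw [e]
    exact Y.sub_mem (hshift f hf) hf
  have hiterY : ∀ k : ℕ, ∀ f ∈ Y, (fwdDiff (1 : ℕ))^[k] f ∈ Y := by
    intro k
    induction k with
    | zero => intro f hf; exact hf
    | succ k ih =>
      intro f hf
      rw [Function.iterate_succ_apply']
      exact hdiff _ (ih f hf)
  set σ : ZMod p := ∑ k ∈ Finset.range p, v k with hσ
  have key : ∀ k : ℕ, k ≤ p → ∀ f : ℕ → ZMod p, (∀ n, f (n + p) = f n) →
      (fwdDiff (1 : ℕ))^[k] f = 0 → f ∈ Y := by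
    intro k
    induction k with
    | zero =>
      intro _ f _ h
      have : f = 0 := h
      rw [this]
      exact Y.zero_mem
    | succ k ih =>
      intro hk f hf h
      rw [Function.iterate_succ_apply'] at h
      have hc := const_of_diff_zero _ h
      set c : ZMod p := (fwdDiff (1 : ℕ))^[k] f 0 with hcdef
      set vk : ℕ → ZMod p := (fwdDiff (1 : ℕ))^[p - 1 - k] v with hvk
      have hvkY : vk ∈ Y := hiterY _ v hvY
      have hvkk : ∀ n, (fwdDiff (1 : ℕ))^[k] vk n = σ := by
        intro n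
        rw [hvk, ← Function.iterate_add_apply]
        have e : k + (p - 1 - k) = p - 1 := by omega
        rw [e]
        exact top_iter_eq v (hper v hvY) n
      let g : ℕ → ZMod p := f - (c / σ) • vk
      have hg : g ∈ Y := by
        apply ih (by omega) g
        · intro n
          simp only [g, Pi.sub_apply, Pi.smul_apply, smul_eq_mul]
          rw [hf n, hper vk hvkY n]
        · funext n
          have e : g = f + (-(c / σ)) • vk := by
            funext m
            simp only [g, Pi.sub_apply, Pi.smul_apply, Pi.add_apply, smul_eq_mul, neg_mul]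
            ring
          rw [e, fwdDiff_iter_add, fwdDiff_iter_const_smul]
          simp only [Pi.add_apply, Pi.smul_apply, Pi.zero_apply, smul_eq_mul]
          rw [hc n, hvkk n]
          field_simp
          ring
      have e : f = g + (c / σ) • vk := by
        funext m
        simp only [g, Pi.sub_apply, Pi.smul_apply, Pi.add_apply, smul_eq_mul]
        ring
      rw [e]
      exact Y.add_mem hg (hsmul _ _ hvkY)
  apply key p le_rfl w hw
  have hp1 : (p - 1) + 1 = p := Nat.sub_add_cancel hp.out.one_le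
  have e := Function.iterate_succ_apply' (fwdDiff (1 : ℕ)) (p - 1) w
  rw [Nat.succ_eq_add_one, hp1] at e
  rw [e]
  funext n
  simp only [fwdDiff, Pi.zero_apply]
  have h2 := top_iter_eq w hw (n + 1)
  have h3 := top_iter_eq w hw n
  rw [h2, h3, sub_self]

end Seq

section Group

variable {X : Type*} [Group X] [Finite X] {p : ℕ} [hp : Fact p.Prime]

/-- The sequence of the values of `ν` along conjugates by powers of `z`. -/
noncomputable def seqv (M : Subgroup X) (ν : M →* Multiplicative (ZMod p)) (z y : X) (n : ℕ) : ZMod p :=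
  Multiplicative.toAdd (ext ν ((z ^ n)⁻¹ * y * z ^ n))

variable {M : Subgroup X} [hM : M.Normal] (ν : M →* Multiplicative (ZMod p)) (z : X)

omit [Finite X] in
theorem conj_mem {y : X} (hy : y ∈ M) (n : ℕ) : (z ^ n)⁻¹ * y * z ^ n ∈ M := by
  have := hM.conj_mem y hy (z ^ n)⁻¹
  simpa using this

omit [Finite X] in
theorem seqv_mul {y₁ y₂ : X} (h₁ : y₁ ∈ M) (h₂ : y₂ ∈ M) (n : ℕ) :
    seqv M ν z (y₁ * y₂) n = seqv M ν z y₁ n + seqv M ν z y₂ n := by
  have e : (z ^ n)⁻¹ * (y₁ * y₂) * z ^ n = ((z ^ n)⁻¹ * y₁ * z ^ n) * ((z ^ n)⁻¹ * y₂ * z ^ n) := by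
    group
  simp only [seqv]
  rw [e, ext_mul ν (conj_mem z h₁ n) (conj_mem z h₂ n)]
  rfl

omit [Finite X] in
theorem seqv_one (n : ℕ) : seqv M ν z 1 n = 0 := by
  simp only [seqv, mul_one, inv_mul_cancel]
  rw [ext_one]
  rfl

omit [Finite X] in
theorem seqv_inv {y : X} (h : y ∈ M) (n : ℕ) : seqv M ν z y⁻¹ n = - seqv M ν z y n := by
  have h1 := seqv_mul ν z h (M.inv_mem h) n
  rw [mul_inv_cancel, seqv_one] at h1
  exact (neg_eq_of_add_eq_zero_right h1.symm).symm

omit [Finite X] in
theorem seqv_shift (y : X) (n : ℕ) : seqv M ν z (z⁻¹ * y * z) n = seqv M ν z y (n + 1) := by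
  simp only [seqv]
  congr 2
  rw [pow_succ]; group

omit [Finite X] in
theorem seqv_conj_mem {m y : X} (hm : m ∈ M) (hy : y ∈ M) :
    ext ν (m⁻¹ * y * m) = ext ν y := by
  have h1 : m⁻¹ * y * m = m⁻¹ * (y * m) := by group
  rw [h1, ext_mul ν (M.inv_mem hm) (M.mul_mem hy hm), ext_mul ν hy hm, ext_inv ν hm]
  rw [mul_comm (ext ν y), inv_mul_cancel_left]

theorem seqv_period (hzp : z ^ p ∈ M) {y : X} (hy : y ∈ M) (n : ℕ) :
    seqv M ν z y (n + p) = seqv M ν z y n := by
  simp only [seqv]
  have e : (z ^ (n + p))⁻¹ * y * z ^ (n + p) = (z ^ p)⁻¹ * ((z ^ n)⁻¹ * y * z ^ n) * z ^ p := by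
    rw [pow_add]; group
  rw [e, seqv_conj_mem ν hzp (conj_mem z hy n)]

/-- The shift-invariant group of sequences. -/
def seqGroup : AddSubgroup (ℕ → ZMod p) where
  carrier := {f | ∃ y ∈ M, f = seqv M ν z y}
  zero_mem' := ⟨1, M.one_mem, by funext n; exact (seqv_one ν z n).symm⟩
  add_mem' := by
    rintro _ _ ⟨a, ha, rfl⟩ ⟨b, hb, rfl⟩
    exact ⟨a * b, M.mul_mem ha hb, by funext n; exact (seqv_mul ν z ha hb n).symm⟩
  neg_mem' := by
    rintro _ ⟨a, ha, rfl⟩
    exact ⟨a⁻¹, M.inv_mem ha, by funext n; exact (seqv_inv ν z ha n).symm⟩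

theorem seqv_surj (hzp : z ^ p ∈ M) {u : X} (hu : u ∈ M)
    (hne : ∑ k ∈ Finset.range p, seqv M ν z u k ≠ 0) (w : ℕ → ZMod p) (hw : ∀ n, w (n + p) = w n) :
    ∃ y ∈ M, ∀ n, seqv M ν z y n = w n := by
  have h := mem_of_periodic (seqGroup ν z) ?_ ?_ (seqv M ν z u) ⟨u, hu, rfl⟩ hne w hw
  · obtain ⟨y, hy, rfl⟩ := h
    exact ⟨y, hy, fun _ => rfl⟩
  · rintro _ ⟨y, hy, rfl⟩ n
    exact seqv_period ν z hzp hy n
  · rintro _ ⟨y, hy, rfl⟩
    have hc : z⁻¹ * y * z ∈ M := by
      have := hM.conj_mem y hy z⁻¹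
      simpa using this
    exact ⟨z⁻¹ * y * z, hc, by funext n; exact (seqv_shift ν z y n).symm⟩

/-- The homomorphism to the first `p` values. -/
noncomputable def psi : M →* Multiplicative (Fin p → ZMod p) where
  toFun y := Multiplicative.ofAdd fun i => seqv M ν z y i
  map_one' := by
    apply Multiplicative.toAdd.injective
    funext i
    exact seqv_one ν z i
  map_mul' a b := by
    apply Multiplicative.toAdd.injective
    funext i
    exact seqv_mul ν z a.2 b.2 i

theorem psi_surj (hzp : z ^ p ∈ M) {u : X} (hu : u ∈ M)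
    (hne : ∑ k ∈ Finset.range p, seqv M ν z u k ≠ 0) : Function.Surjective (psi ν z) := by
  intro w
  have hp0 : 0 < p := hp.out.pos
  obtain ⟨y, hy, hyw⟩ := seqv_surj ν z hzp hu hne
    (fun n => (Multiplicative.toAdd w) ⟨n % p, Nat.mod_lt _ hp0⟩)
    (fun n => by simp only [Nat.add_mod_right])
  refine ⟨⟨y, hy⟩, ?_⟩
  apply Multiplicative.toAdd.injective
  funext i
  have e : (⟨(i : ℕ) % p, Nat.mod_lt _ hp0⟩ : Fin p) = i := Fin.ext (Nat.mod_eq_of_lt i.2)
  exact (hyw i).trans (congrArg (Multiplicative.toAdd w) e)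

theorem nu_surj {u : X} (hu : u ∈ M) (hne : ∑ k ∈ Finset.range p, seqv M ν z u k ≠ 0) :
    Function.Surjective ν := by
  have hne1 : ν ≠ 1 := by
    intro h
    apply hne
    refine Finset.sum_eq_zero fun k _ => ?_
    simp only [seqv]
    rw [ext_of_mem ν (conj_mem z hu k), h]
    rfl
  obtain ⟨y, hy⟩ : ∃ y, ν y ≠ 1 := by
    by_contra hno
    push Not at hno
    exact hne1 (MonoidHom.ext fun y => hno y)
  intro a
  have hcard : Nat.card (Multiplicative (ZMod p)) = p := by
    rw [Nat.card_congr Multiplicative.toAdd, Nat.card_zmod]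
  obtain ⟨i, hi⟩ := mem_zpowers_of_prime_card hcard (g := ν y) (g' := a) hy
  exact ⟨y ^ i, by rw [map_zpow]; exact hi⟩

theorem index_map_ker {Y : Type*} [Group Y] [Finite Y] (f : M →* Y) (hf : Function.Surjective f)
    (hMi : M.index = p) : (f.ker.map M.subtype).index = Nat.card Y * p := by
  have hle : f.ker.map M.subtype ≤ M := Subgroup.map_subtype_le _
  rw [← Subgroup.relIndex_mul_index hle, hMi]
  congr 1
  have e : (f.ker.map M.subtype).subgroupOf M = f.ker :=
    Subgroup.comap_map_eq_self_of_injective M.subtype_injective _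
  rw [Subgroup.relIndex, e, Subgroup.index_ker, MonoidHom.range_eq_top.mpr hf]
  exact Nat.card_congr Subgroup.topEquiv.toEquiv

theorem padic_fact : ((p ^ 2).factorial).factorization p = p + 1 := by
  rw [Nat.factorization_def _ hp.out]
  have hlog : Nat.log p (p ^ 2) < 3 := by
    rw [Nat.log_pow hp.out.one_lt]; norm_num
  rw [padicValNat_factorial hlog]
  have hp0 : 0 < p := hp.out.pos
  have e : Finset.Ico 1 3 = {1, 2} := by decide
  rw [e, Finset.sum_pair (by norm_num)]
  rw [pow_one, Nat.div_self (pow_pos hp0 2), sq, Nat.mul_div_cancel _ hp0]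

/-- **Yoshida**: a non-vanishing norm gives a surjection onto a Sylow `p`-subgroup of `Sym(p²)`. -/
theorem wreath_of_norm_ne (hX : IsPGroup p X) (hMi : M.index = p) {u : X} (hu : u ∈ M)
    (hne : ∏ k ∈ Finset.range p, ext ν ((z ^ k)⁻¹ * u * z ^ k) ≠ 1) :
    ∃ (P : Sylow p (Equiv.Perm (Fin (p ^ 2)))) (f : X →* (P : Subgroup (Equiv.Perm (Fin (p ^ 2))))),
      Function.Surjective f := by
  classical
  have hne' : ∑ k ∈ Finset.range p, seqv M ν z u k ≠ 0 := by
    intro h0
    apply hne
    apply Multiplicative.toAdd.injective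
    rw [toAdd_prod]
    exact h0
  have hzp : z ^ p ∈ M := by
    have := Subgroup.pow_index_mem M z
    rwa [hMi] at this
  set K : Subgroup X := ν.ker.map M.subtype with hK
  set L : Subgroup X := (psi ν z).ker.map M.subtype with hL
  have hcardA : Nat.card (Multiplicative (ZMod p)) = p := by
    rw [Nat.card_congr Multiplicative.toAdd, Nat.card_zmod]
  have hcardB : Nat.card (Multiplicative (Fin p → ZMod p)) = p ^ p := by
    rw [Nat.card_congr Multiplicative.toAdd, Nat.card_eq_fintype_card, Fintype.card_fun, ZMod.card,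
      Fintype.card_fin]
  have hKi : K.index = p ^ 2 := by
    rw [hK, index_map_ker ν (nu_surj ν z hu hne') hMi, hcardA]
    ring
  have hLi : L.index = p ^ (p + 1) := by
    rw [hL, index_map_ker (psi ν z) (psi_surj ν z hzp hu hne') hMi, hcardB]
    ring
  -- the permutation representation
  haveI : Fintype (X ⧸ K) := Fintype.ofFinite _
  have hcK : Fintype.card (X ⧸ K) = p ^ 2 := by
    rw [← Nat.card_eq_fintype_card, ← Subgroup.index_eq_card, hKi]
  let e : (X ⧸ K) ≃ Fin (p ^ 2) := Fintype.equivFinOfCardEq hcK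
  let ρ : X →* Equiv.Perm (Fin (p ^ 2)) :=
    (Equiv.permCongrHom e).toMonoidHom.comp (MulAction.toPermHom X (X ⧸ K))
  have hker : ρ.ker ≤ L := by
    intro s hs
    have hfix : ∀ q : X ⧸ K, s • q = q := by
      intro q
      have h1 : ρ s = 1 := hs
      have h2 : Equiv.permCongrHom e (MulAction.toPermHom X (X ⧸ K) s) = 1 := h1
      have h3 : MulAction.toPermHom X (X ⧸ K) s = 1 := by
        apply (Equiv.permCongrHom e).injective
        rw [h2, map_one]
      have h4 := congrArg (fun τ : Equiv.Perm (X ⧸ K) => τ q) h3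
      exact h4
    have hmemK : ∀ n : ℕ, (z ^ n)⁻¹ * s * z ^ n ∈ K := by
      intro n
      have h1 := hfix ((z ^ n : X) : X ⧸ K)
      have h2 : ((s * z ^ n : X) : X ⧸ K) = ((z ^ n : X) : X ⧸ K) := h1
      have h3 := QuotientGroup.eq.mp h2.symm
      have e' : (z ^ n)⁻¹ * s * z ^ n = (z ^ n)⁻¹ * (s * z ^ n) := by group
      rw [e']; exact h3
    have hsM : s ∈ M := by
      have h1 := hmemK 0
      simp only [pow_zero, inv_one, one_mul, mul_one] at h1
      exact (Subgroup.map_subtype_le _) h1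
    refine ⟨⟨s, hsM⟩, ?_, rfl⟩
    rw [SetLike.mem_coe, MonoidHom.mem_ker]
    apply Multiplicative.toAdd.injective
    funext i
    show seqv M ν z s i = 0
    simp only [seqv]
    obtain ⟨w, hw, hwe⟩ := hmemK i
    rw [← hwe]
    show Multiplicative.toAdd (ext ν (w : X)) = 0
    rw [ext_of_mem ν w.2]
    have h5 : ν w = 1 := hw
    rw [h5]
    rfl
  -- the range is a Sylow subgroup
  have hrp : IsPGroup p ρ.range := hX.of_surjective ρ.rangeRestrict ρ.rangeRestrict_surjective
  obtain ⟨r, hr⟩ := IsPGroup.iff_card.mp hrp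
  have hdvd1 : p ^ (p + 1) ∣ p ^ r := by
    rw [← hr, ← Subgroup.index_ker, ← hLi]
    exact Subgroup.index_dvd_of_le hker
  have hr1 : p + 1 ≤ r := (Nat.pow_dvd_pow_iff_le_right hp.out.one_lt).mp hdvd1
  have hfact : Nat.card (Equiv.Perm (Fin (p ^ 2))) = (p ^ 2).factorial := by
    rw [Nat.card_perm, Nat.card_fin]
  have hr2 : r ≤ p + 1 := by
    have h1 : p ^ r ∣ (p ^ 2).factorial := by
      rw [← hr, ← hfact]
      exact Subgroup.card_subgroup_dvd_card _
    have h2 := (hp.out.pow_dvd_iff_le_factorization (Nat.factorial_ne_zero _)).mp h1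
    rwa [padic_fact] at h2
  have hcardR : Nat.card ρ.range = p ^ (Nat.card (Equiv.Perm (Fin (p ^ 2)))).factorization p := by
    rw [hfact, padic_fact, hr]
    congr 1
    omega
  let P := Sylow.ofCard ρ.range hcardR
  have hP : (P : Subgroup (Equiv.Perm (Fin (p ^ 2)))) = ρ.range := Sylow.coe_ofCard _ _
  refine ⟨P, ρ.codRestrict (P : Subgroup (Equiv.Perm (Fin (p ^ 2))))
    (fun x => by rw [hP]; exact ⟨x, rfl⟩), ?_⟩
  rintro ⟨y, hy⟩
  rw [hP] at hy
  obtain ⟨x, rfl⟩ := hy
  exact ⟨x, rfl⟩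

end Group

end Cfsg.Agent.Lib.Transfer.Wreath
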