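import Mathlib
import Cfsg.Agent.Lib.Transfer.CentralLift
import Cfsg.Agent.Lib.Transfer.Basic

/-!
# Equal focal subgroups give equal largest `p`-quotients

If `S ≤ H ≤ G`, `S` is a Sylow `p`-subgroup of `G` and `S ∩ G' ≤ H'`, then every homomorphism from `H` to a
`p`-group extends to `G`, and `G / O^p(G) ≅ H / O^p(H)`.
-/

set_option autoImplicit false

universe u

namespace Cfsg.Agent.Lib.Transfer.PQuotientIso

open Subgroup Cfsg Cfsg.Agent.Lib.Transfer.Basic
open scoped commutatorElement

variable {G : Type u} [Group G] [Finite G] {p : ℕ} [hp : Fact p.Prime]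

/-- A homomorphism to a `p`-group that is trivial on a Sylow subgroup of `G` inside `H` is trivial. -/
theorem hom_eq_one_of_sylow {H : Subgroup G} (S : Sylow p G) (hSH : (S : Subgroup G) ≤ H)
    {A : Type*} [Group A] (hA : IsPGroup p A) (δ : H →* A)
    (hδ : ∀ s (hs : s ∈ (S : Subgroup G)), δ ⟨s, hSH hs⟩ = 1) : δ = 1 := by
  have hle : (S : Subgroup G).subgroupOf H ≤ δ.ker := by
    intro x hx
    exact hδ x (Subgroup.mem_subgroupOf.1 hx)
  have h1 : δ.ker.index ∣ ((S : Subgroup G).subgroupOf H).index := Subgroup.index_dvd_of_le hle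
  have h2 : ((S : Subgroup G).subgroupOf H).index ∣ (S : Subgroup G).index := by
    have := Subgroup.relIndex_mul_index hSH
    exact ⟨H.index, this.symm⟩
  haveI : Finite δ.range := Finite.of_surjective δ.rangeRestrict δ.rangeRestrict_surjective
  have h3 : Nat.card δ.range = δ.ker.index := (Subgroup.index_ker δ).symm
  obtain ⟨k, hk⟩ := IsPGroup.iff_card.1 (hA.to_subgroup δ.range)
  have h4 : p ^ k ∣ (S : Subgroup G).index := by
    rw [← hk, h3]
    exact h1.trans h2
  have hk0 : k = 0 := by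
    by_contra hne
    exact S.not_dvd_index ((dvd_pow_self p hne).trans h4)
  rw [hk0, pow_zero] at hk
  have h5 : δ.range = ⊥ := Subgroup.eq_bot_of_card_eq _ hk
  exact MonoidHom.range_eq_bot_iff.1 h5

/-- Extension to a commutative `p`-group. -/
theorem exists_ext_comm {H : Subgroup G} (S : Sylow p G) (hSH : (S : Subgroup G) ≤ H)
    (hfoc : (S : Subgroup G) ⊓ commutator G ≤ ⁅H, H⁆)
    {A : Type*} [CommGroup A] [Finite A] (hA : IsPGroup p A) (χ : H →* A) :
    ∃ F : G →* A, ∀ h : H, F h = χ h := by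
  classical
  haveI : (S : Subgroup G).FiniteIndex := ⟨Subgroup.index_ne_zero_of_finite⟩
  let ϕ : (S : Subgroup G) →* A := χ.comp (Subgroup.inclusion hSH)
  have hcop : (Nat.card A).Coprime (S : Subgroup G).index := by
    obtain ⟨k, hk⟩ := IsPGroup.iff_card.1 hA
    rw [hk]
    exact Nat.Coprime.pow_left k ((Nat.Prime.coprime_iff_not_dvd hp.out).2 S.not_dvd_index)
  have hχc : ∀ y ∈ ⁅H, H⁆, ∀ hy : y ∈ H, χ ⟨y, hy⟩ = 1 := by
    intro y hy hyH
    rw [← H.map_subtype_commutator] at hy
    obtain ⟨y', hy', rfl⟩ := hy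
    have h1 : y' ∈ χ.ker := commutator_le_ker_of_comm χ hy'
    exact h1
  have hV : ∀ s : (S : Subgroup G), MonoidHom.transfer ϕ (s : G) = ϕ s ^ (S : Subgroup G).index := by
    intro s
    refine transfer_eq_pow_of_fusion _ ϕ s fun k g₀ hw => ?_
    have hmem : g₀⁻¹ * (s : G) ^ k * g₀ * ((s : G) ^ k)⁻¹ ∈ (S : Subgroup G) ⊓ commutator G := by
      refine ⟨(S : Subgroup G).mul_mem hw ((S : Subgroup G).inv_mem ((S : Subgroup G).pow_mem s.2 k)), ?_⟩
      have e : g₀⁻¹ * (s : G) ^ k * g₀ * ((s : G) ^ k)⁻¹ = ⁅g₀⁻¹, (s : G) ^ k⁆ := by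
        rw [commutatorElement_def]; group
      rw [e]
      exact Subgroup.commutator_mem_commutator (Subgroup.mem_top _) (Subgroup.mem_top _)
    have h1 := hχc _ (hfoc hmem) (hSH hmem.1)
    have e2 : (⟨g₀⁻¹ * (s : G) ^ k * g₀, hSH hw⟩ : H) =
        ⟨g₀⁻¹ * (s : G) ^ k * g₀ * ((s : G) ^ k)⁻¹, hSH hmem.1⟩ * (Subgroup.inclusion hSH s) ^ k := by
      apply Subtype.ext
      simp
    show χ (Subgroup.inclusion hSH ⟨_, hw⟩) = χ (Subgroup.inclusion hSH s) ^ k
    have e3 : Subgroup.inclusion hSH ⟨_, hw⟩ = (⟨g₀⁻¹ * (s : G) ^ k * g₀, hSH hw⟩ : H) := rfl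
    rw [e3, e2, map_mul, h1, one_mul, map_pow]
  let e : A ≃ A := powCoprime hcop
  have he : ∀ x, e x = x ^ (S : Subgroup G).index := fun x => rfl
  let F : G →* A :=
    { toFun := fun g => e.symm (MonoidHom.transfer ϕ g)
      map_one' := by
        apply e.injective
        rw [Equiv.apply_symm_apply, he, map_one, one_pow]
      map_mul' := fun a b => by
        apply e.injective
        rw [Equiv.apply_symm_apply, map_mul, he (_ * _), mul_pow, ← he, ← he, Equiv.apply_symm_apply,
          Equiv.apply_symm_apply] }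
  have hFS : ∀ s : (S : Subgroup G), F s = ϕ s := by
    intro s
    show e.symm (MonoidHom.transfer ϕ (s : G)) = ϕ s
    rw [hV, ← he, Equiv.symm_apply_apply]
  refine ⟨F, fun h => ?_⟩
  have hδ := hom_eq_one_of_sylow S hSH hA ((F.comp H.subtype) / χ) (fun s hs => by
    show F s / χ ⟨s, hSH hs⟩ = 1
    rw [hFS ⟨s, hs⟩, div_eq_one]
    rfl)
  have h2 := DFunLike.congr_fun hδ h
  have h3 : F h / χ h = 1 := h2
  exact div_eq_one.1 h3

/-- Extension to an arbitrary `p`-group, by central lifting. -/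
theorem exists_ext {H : Subgroup G} (S : Sylow p G) (hSH : (S : Subgroup G) ≤ H)
    (hfoc : (S : Subgroup G) ⊓ commutator G ≤ ⁅H, H⁆) :
    ∀ (n : ℕ) (Q : Type u) [Group Q] [Finite Q], Nat.card Q = n → IsPGroup p Q → ∀ f : H →* Q,
      ∃ F : G →* Q, ∀ h : H, F h = f h := by
  intro n
  induction n using Nat.strong_induction_on with
  | _ n ih =>
  intro Q _ _ hn hQ f
  by_cases hQt : Nontrivial Q
  · have hZ := hQ.center_nontrivial
    let π : Q →* Q ⧸ center Q := QuotientGroup.mk' (center Q)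
    have hπ : Function.Surjective π := QuotientGroup.mk'_surjective _
    have hker : π.ker = center Q := QuotientGroup.ker_mk' _
    have hlt : Nat.card (Q ⧸ center Q) < n := by
      have h1 := Subgroup.card_eq_card_quotient_mul_card_subgroup (center Q)
      have h2 : 1 < Nat.card (center Q) := Finite.one_lt_card
      have h3 : 0 < Nat.card (Q ⧸ center Q) := Nat.card_pos
      rw [← hn, h1]
      nlinarith
    obtain ⟨F₁, hF₁⟩ := ih _ hlt (Q ⧸ center Q) rfl (hQ.to_quotient (center Q)) (π.comp f)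
    have hcop : (Nat.card π.ker).Coprime H.index := by
      have h1 : IsPGroup p π.ker := hQ.to_subgroup _
      obtain ⟨k, hk⟩ := IsPGroup.iff_card.1 h1
      rw [hk]
      refine Nat.Coprime.pow_left k ((Nat.Prime.coprime_iff_not_dvd hp.out).2 fun hdvd => ?_)
      apply S.not_dvd_index
      have h2 := Subgroup.relIndex_mul_index hSH
      rw [← h2]
      exact dvd_mul_of_dvd_right hdvd _
    obtain ⟨F₂, hF₂⟩ := CentralLift.exists_lift_of_lift_on_subgroup H π hπ (le_of_eq hker) F₁ f
      (fun x => (hF₁ x).symm) hcop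
    have hval : ∀ h : H, f h * (F₂ h)⁻¹ ∈ center Q := by
      intro h
      rw [← hker, MonoidHom.mem_ker, map_mul, map_inv, hF₂, hF₁]
      simp
    have hcen : ∀ z ∈ center Q, ∀ y : Q, z * y = y * z := fun z hz y => (Subgroup.mem_center_iff.1 hz y).symm
    letI instC : CommGroup (center Q) :=
      { (inferInstance : Group (center Q)) with
        mul_comm := fun a b => Subtype.ext (hcen _ a.2 _) }
    let χ : H →* center Q :=
      { toFun := fun h => ⟨f h * (F₂ h)⁻¹, hval h⟩
        map_one' := by apply Subtype.ext; simp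
        map_mul' := fun a b => by
          apply Subtype.ext
          show f (a * b) * (F₂ ((a * b : H) : G))⁻¹ = f a * (F₂ (a : G))⁻¹ * (f b * (F₂ (b : G))⁻¹)
          have h1 := hcen _ (hval b) (F₂ (a : G))⁻¹
          simp only [coe_mul, map_mul, mul_inv_rev]
          calc f a * f b * ((F₂ (b : G))⁻¹ * (F₂ (a : G))⁻¹)
              = f a * ((f b * (F₂ (b : G))⁻¹) * (F₂ (a : G))⁻¹) := by group
            _ = f a * ((F₂ (a : G))⁻¹ * (f b * (F₂ (b : G))⁻¹)) := by rw [h1]
            _ = _ := by group }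
    obtain ⟨F₃, hF₃⟩ := exists_ext_comm S hSH hfoc (hQ.to_subgroup (center Q)) χ
    let F : G →* Q :=
      { toFun := fun g => (F₃ g : Q) * F₂ g
        map_one' := by simp
        map_mul' := fun a b => by
          have h1 := hcen _ (F₃ b).2 (F₂ a)
          simp only [map_mul, coe_mul]
          calc (F₃ a : Q) * (F₃ b : Q) * (F₂ a * F₂ b) = (F₃ a : Q) * ((F₃ b : Q) * F₂ a) * F₂ b := by group
            _ = (F₃ a : Q) * (F₂ a * (F₃ b : Q)) * F₂ b := by rw [h1]
            _ = _ := by group }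
    refine ⟨F, fun h => ?_⟩
    show (F₃ (h : G) : Q) * F₂ (h : G) = f h
    rw [hF₃ h]
    show f h * (F₂ (h : G))⁻¹ * F₂ (h : G) = f h
    group
  · rw [not_nontrivial_iff_subsingleton] at hQt
    exact ⟨1, fun h => Subsingleton.elim _ _⟩

/-- **The largest `p`-quotients agree.** -/
theorem nonempty_quotient_equiv {H : Subgroup G} (S : Sylow p G) (hSH : (S : Subgroup G) ≤ H)
    (hfoc : (S : Subgroup G) ⊓ commutator G ≤ ⁅H, H⁆)
    [hn : (pResidual p G).Normal] [hm : (pResidual p H).Normal] :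
    Nonempty (G ⧸ pResidual p G ≃* H ⧸ pResidual p H) := by
  have hQ : IsPGroup p (H ⧸ pResidual p H) := isPGroup_quotient_pResidual
  have hQG : IsPGroup p (G ⧸ pResidual p G) := isPGroup_quotient_pResidual
  obtain ⟨F, hF⟩ := exists_ext S hSH hfoc _ (H ⧸ pResidual p H) rfl hQ (QuotientGroup.mk' (pResidual p H))
  have hle : pResidual p G ≤ F.ker := pResidual_le_ker hQ F
  let Fb : G ⧸ pResidual p G →* H ⧸ pResidual p H := QuotientGroup.lift _ F hle
  have hsurj : Function.Surjective Fb := by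
    intro q
    obtain ⟨h, rfl⟩ := QuotientGroup.mk_surjective q
    exact ⟨((h : H) : G), by
      show F (h : G) = _
      rw [hF h]
      rfl⟩
  -- the other direction
  have hS : ∀ x : G ⧸ pResidual p G, ∃ s ∈ (S : Subgroup G), (QuotientGroup.mk s : G ⧸ pResidual p G) = x := by
    have hπ : Function.Surjective (QuotientGroup.mk' (pResidual p G)) := QuotientGroup.mk'_surjective _
    let T : Sylow p (G ⧸ pResidual p G) := S.mapSurjective hπ
    have h1 : (T : Subgroup (G ⧸ pResidual p G)).index = 1 := by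
      have h2 : (T : Subgroup (G ⧸ pResidual p G)).index ∣ Nat.card (G ⧸ pResidual p G) := Subgroup.index_dvd_card _
      obtain ⟨k, hk⟩ := IsPGroup.iff_card.1 hQG
      rw [hk] at h2
      obtain ⟨j, -, hj⟩ := (Nat.dvd_prime_pow hp.out).1 h2
      rw [hj]
      have hj0 : j = 0 := by
        by_contra hne
        apply T.not_dvd_index
        rw [hj]
        exact dvd_pow_self p hne
      rw [hj0, pow_zero]
    have h3 : (T : Subgroup (G ⧸ pResidual p G)) = ⊤ := Subgroup.index_eq_one.1 h1
    intro x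
    have hx : x ∈ (T : Subgroup (G ⧸ pResidual p G)) := by rw [h3]; trivial
    obtain ⟨s, hs, hsx⟩ := hx
    exact ⟨s, hs, hsx⟩
  have hcard : Nat.card (G ⧸ pResidual p G) ≤ Nat.card (H ⧸ pResidual p H) := by
    have hle2 : pResidual p H ≤ ((QuotientGroup.mk' (pResidual p G)).comp H.subtype).ker :=
      pResidual_le_ker hQG _
    let I : H ⧸ pResidual p H →* G ⧸ pResidual p G := QuotientGroup.lift _ _ hle2
    have hIs : Function.Surjective I := by
      intro x
      obtain ⟨s, hs, rfl⟩ := hS x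
      exact ⟨(QuotientGroup.mk (⟨s, hSH hs⟩ : H) : H ⧸ pResidual p H), rfl⟩
    exact Nat.card_le_card_of_surjective I hIs
  exact ⟨MulEquiv.ofBijective Fb (hsurj.bijective_of_nat_card_le hcard)⟩

end Cfsg.Agent.Lib.Transfer.PQuotientIso
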