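import Cfsg.Agent.Lib.Transfer.SelfNorm2
import Cfsg.Agent.Lib.PSL2.Basic
import Cfsg.Agent.Lib.PGroup.QDSylow6
import Cfsg.Prelude.Def_LieExceptional

/-!
# Groups whose non-abelian subgroups are self-normalizing, part 3

The passage from the structure theorems to `PSL(2, 2^n)`.
-/

set_option autoImplicit false
set_option linter.unusedSectionVars false

namespace Cfsg.Agent.Lib.Transfer.SelfNorm

open Subgroup Cfsg.Agent.Lib.Transfer.Basic Cfsg.Agent.Lib.Transfer.Frobenius
open Cfsg.Agent.Lib.PSL2.Basic
open scoped MatrixGroups commutatorElement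

local notation "d_" => Cfsg.Agent.Lib.PSL2.Basic.d

section Transport

variable {G H : Type*} [Group G] [Group H] [Finite G] [Finite H]

/-- `SN` is transported along isomorphisms. -/
theorem SN.of_equiv (e : G ≃* H) (hS : SN G) : SN H := by
  intro A hA
  have hB : ¬ IsMulCommutative (A.map e.symm.toMonoidHom) := by
    intro hB
    apply hA
    have h1 := isComm_iff.mp hB
    rw [isComm_iff]
    intro a ha b hb
    have h2 := h1 (e.symm a) ⟨a, ha, rfl⟩ (e.symm b) ⟨b, hb, rfl⟩
    apply e.symm.injective
    simpa using h2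
  have h3 := hS _ hB
  apply le_antisymm _ Subgroup.le_normalizer
  intro z hz
  have h4 : e.symm z ∈ normalizer ((A.map e.symm.toMonoidHom : Subgroup G) : Set G) := by
    apply mem_normalizer_of_conj_mem
    rintro _ ⟨a, ha, rfl⟩
    refine ⟨z * a * z⁻¹, (Subgroup.mem_normalizer_iff.mp hz a).mp ha, ?_⟩
    simp
  rw [h3] at h4
  obtain ⟨w, hw, hwz⟩ := h4
  have : w = z := by
    apply e.symm.injective
    exact hwz
  rwa [← this]

end Transport

section Simple

variable {G : Type*} [Group G] [Finite G]

theorem commutator_eq_top [IsSimpleGroup G] (hna : ¬ IsMulCommutative G) : commutator G = ⊤ := by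
  rcases (inferInstance : (commutator G).Normal).eq_bot_or_eq_top with h | h
  · exfalso
    apply hna
    refine ⟨⟨fun a b => ?_⟩⟩
    have h1 : ⁅a, b⁆ ∈ commutator G := Subgroup.commutator_mem_commutator (mem_top a) (mem_top b)
    rw [h, Subgroup.mem_bot] at h1
    exact commutatorElement_eq_one_iff_mul_comm.mp h1
  · exact h

theorem not_isPGroup [IsSimpleGroup G] (hna : ¬ IsMulCommutative G) {p : ℕ} [hp : Fact p.Prime] :
    ¬ IsPGroup p G := by
  intro hG
  have hnt : Nontrivial G := IsSimpleGroup.toNontrivial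
  haveI := hG.center_nontrivial
  have hc : center G = ⊤ := by
    rcases (inferInstance : (center G).Normal).eq_bot_or_eq_top with h | h
    · have := (Subgroup.nontrivial_iff_ne_bot (center G)).mp inferInstance
      exact absurd h this
    · exact h
  apply hna
  refine ⟨⟨fun a b => ?_⟩⟩
  have : a ∈ center G := by rw [hc]; trivial
  exact (Subgroup.mem_center_iff.mp this b).symm

theorem not_dvd_of_complement [IsSimpleGroup G] (hna : ¬ IsMulCommutative G) {p : ℕ}
    [hp : Fact p.Prime] (h : Cfsg.HasNormalPComplement p G) : ¬ p ∣ Nat.card G := by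
  obtain ⟨N, hn, h1, h2⟩ := hasNormalPComplement_iff.mp h
  rcases hn.eq_bot_or_eq_top with h | h
  · subst h
    exact absurd (h2.of_equiv (QuotientGroup.quotientBot)) (not_isPGroup hna)
  · subst h
    rw [Subgroup.card_top] at h1
    exact (Nat.Prime.coprime_iff_not_dvd hp.out).mp h1.symm

theorem not_normal_sylow [IsSimpleGroup G] (hna : ¬ IsMulCommutative G) {p : ℕ}
    [hp : Fact p.Prime] (hd : p ∣ Nat.card G) (P : Sylow p G) (hP : (P : Subgroup G).Normal) :
    False := by
  rcases hP.eq_bot_or_eq_top with h | h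
  · have h2 := P.not_dvd_index
    rw [h, Subgroup.index_bot] at h2
    exact h2 hd
  · have h2 := P.isPGroup'
    rw [h] at h2
    exact not_isPGroup hna (h2.of_equiv Subgroup.topEquiv)

/-- A simple group does not have order `6`. -/
theorem card_ne_six [IsSimpleGroup G] : Nat.card G ≠ 6 := by
  intro h6
  haveI : Fact (Nat.Prime 3) := ⟨Nat.prime_three⟩
  obtain ⟨x, hx⟩ := exists_prime_orderOf_dvd_card' (G := G) 3 (by rw [h6]; norm_num)
  have hc : Nat.card (zpowers x) = 3 := by rw [Nat.card_zpowers, hx]
  have hi : (zpowers x).index = 2 := by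
    have := Subgroup.card_mul_index (zpowers x)
    rw [hc, h6] at this
    omega
  haveI : (zpowers x).Normal := Subgroup.normal_of_index_eq_two hi
  rcases (inferInstance : (zpowers x).Normal).eq_bot_or_eq_top with h | h
  · rw [h, Subgroup.card_bot] at hc
    omega
  · rw [h, Subgroup.card_top, h6] at hc
    omega

end Simple

section Field

variable {F : Type*} [Field F] [Fintype F]

/-- The subgroup used to show that `q - 1` is prime. -/
def hD (F : Type*) [Field F] (d : ℕ) : Subgroup SL(2, F) where
  carrier := {M | M.1 1 0 = 0 ∧ (M.1 0 0) ^ d = 1}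
  one_mem' := by simp
  mul_mem' := by
    rintro A B ⟨hA1, hA2⟩ ⟨hB1, hB2⟩
    refine ⟨by simp [hA1, hB1], ?_⟩
    rw [mul_00, hB1, mul_zero, add_zero, mul_pow, hA2, hB2, one_mul]
  inv_mem' := by
    rintro A ⟨hA1, hA2⟩
    have h := det_entries A
    rw [hA1, mul_zero, sub_zero] at h
    rw [Matrix.SpecialLinearGroup.SL2_inv_expl]
    refine ⟨by simp [hA1], ?_⟩
    have e : (A.1 0 0) ^ d * (A.1 1 1) ^ d = 1 := by rw [← mul_pow, h, one_pow]
    rw [hA2, one_mul] at e
    simpa using e

/-- `q - 1` is prime in an `SN` group `SL(2, q)`. -/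
theorem prime_of_SN_SL2 (h2 : (2 : F) = 0) (hS : SN SL(2, F)) (hq : 2 < Fintype.card F) :
    (Fintype.card F - 1).Prime := by
  classical
  set q := Fintype.card F with hqdef
  by_contra hnp
  have hq1 : 2 ≤ q - 1 := by omega
  obtain ⟨d, hd1, hd2, hd3⟩ : ∃ d, d ∣ q - 1 ∧ 2 ≤ d ∧ d < q - 1 := by
    obtain ⟨d, hd, h1, h2⟩ := (Nat.not_prime_iff_exists_dvd_lt hq1).mp hnp
    exact ⟨d, hd, h1, h2⟩
  obtain ⟨c, hc⟩ := IsCyclic.exists_generator (α := Fˣ)
  have hordc : orderOf c = q - 1 := by
    rw [orderOf_eq_card_of_forall_mem_zpowers hc, Nat.card_eq_fintype_card, Fintype.card_units]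
  obtain ⟨e, he⟩ := hd1
  have hepos : 0 < e := by
    rcases Nat.eq_zero_or_pos e with h | h
    · rw [h] at he; omega
    · exact h
  have hcv : (c : F) ≠ 0 := c.ne_zero
  set a : F := (c : F) ^ e with ha
  have hane : a ≠ 0 := pow_ne_zero _ hcv
  have had : a ^ d = 1 := by
    rw [ha, ← pow_mul, mul_comm, ← he]
    have := pow_orderOf_eq_one c
    rw [hordc] at this
    have h7 := congrArg Units.val this
    simpa using h7
  have ha1 : a ≠ 1 := by
    intro h
    have h3 : c ^ e = 1 := Units.ext (by simpa [ha] using h)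
    have h4 := orderOf_dvd_of_pow_eq_one h3
    rw [hordc] at h4
    have h5 := Nat.le_of_dvd hepos h4
    rw [he] at h5
    nlinarith
  have hane' : a ≠ a⁻¹ := by
    intro h
    have h3 : a * a = 1 := by
      nth_rewrite 2 [h]
      exact mul_inv_cancel₀ hane
    have h4 : (a - 1) * (a - 1) = 0 := by
      have : (a - 1) * (a - 1) = a * a - 2 * a + 1 := by ring
      rw [this, h3, h2]
      have e2 : (1 : F) - 0 * a + 1 = 2 := by ring
      rw [e2, h2]
    have h5 : a - 1 = 0 := by simpa using h4
    exact ha1 (sub_eq_zero.mp h5)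
  -- non-abelian
  have hnc : ¬ IsMulCommutative (hD F d) := by
    intro hcomm
    have hA : d_ a hane ∈ hD F d := ⟨by simp, by simpa using had⟩
    have hB : x (1 : F) ∈ hD F d := ⟨by simp, by simp⟩
    have h1 := isComm_iff.mp hcomm _ hA _ hB
    have h3 := congrArg (fun M : SL(2, F) => M.1 0 1) h1
    simp at h3
    exact hane' h3
  have hDc : (d_ (c : F) hcv) ∈ normalizer ((hD F d : Subgroup SL(2, F)) : Set SL(2, F)) := by
    apply mem_normalizer_of_conj_mem
    rintro M ⟨hM1, hM2⟩
    refine ⟨?_, ?_⟩
    · simp [d_inv, hM1]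
    · have : (d_ (c : F) hcv * M * (d_ (c : F) hcv)⁻¹).1 0 0 = M.1 0 0 := by
        simp [d_inv]
        field_simp
      rw [this]
      exact hM2
  rw [hS _ hnc] at hDc
  have h3 : (c : F) ^ d = 1 := by simpa using hDc.2
  have h4 : c ^ d = 1 := Units.ext (by simpa using h3)
  have h5 := orderOf_dvd_of_pow_eq_one h4
  rw [hordc] at h5
  have h6 := Nat.le_of_dvd (by omega) h5
  omega

/-- A ring isomorphism induces an isomorphism of special linear groups. -/
noncomputable def slCongr {F K : Type*} [Field F] [Field K] (σ : F ≃+* K) : SL(2, F) ≃* SL(2, K) :=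
  MonoidHom.toMulEquiv (Matrix.SpecialLinearGroup.map σ.toRingHom)
    (Matrix.SpecialLinearGroup.map σ.symm.toRingHom)
    (by
      ext A i j
      simp)
    (by
      ext A i j
      simp)

end Field

section Main

variable {G : Type*} [Group G] [Finite G] [IsSimpleGroup G]

/-- The forward implication, given the two structure theorems. -/
theorem fwd (hna : ¬ IsMulCommutative G) (hS : SN G)
    (h0183 : Odd (Nat.card G) → Cfsg.IsCNGroup G → Group.IsSolvable G)
    (h2202 : Even (Nat.card G) → (∀ t : G, orderOf t = 2 →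
        IsMulCommutative ↥(Subgroup.centralizer ({t} : Set G))) →
      (∀ P : Sylow 2 G, IsCyclic ↥P) ∨ (∀ P : Sylow 2 G, (P : Subgroup G).Normal) ∨
      (∃ (F : Type) (_ : Field F) (_ : Fintype F) (A : Type) (_ : CommGroup A) (_ : Finite A),
        CharP F 2 ∧ Odd (Nat.card A) ∧ Nonempty (G ≃* Matrix.SpecialLinearGroup (Fin 2) F × A))) :
    ∃ n : ℕ, 2 ≤ n ∧ (2 ^ n - 1).Prime ∧
      Nonempty (G ≃* Matrix.ProjectiveSpecialLinearGroup (Fin 2) (GaloisField 2 n)) := by
  classical
  haveI : Fact (Nat.Prime 2) := ⟨Nat.prime_two⟩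
  have htop := commutator_eq_top hna
  have hC : ∀ y : G, y ≠ 1 → IsMulCommutative (centralizer ({y} : Set G)) :=
    fun y hy => centralizer_comm hna htop hS hy
  rcases Nat.even_or_odd (Nat.card G) with heven | hodd
  swap
  · exfalso
    have hCN : Cfsg.IsCNGroup G := by
      intro g hg
      have h1 := hC g hg
      letI : CommGroup (centralizer ({g} : Set G)) :=
        { (inferInstance : Group (centralizer ({g} : Set G))) with
          mul_comm := fun a b => Subtype.ext (isComm_iff.mp h1 a a.2 b b.2) }
      exact CommGroup.isNilpotent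
    have hsol := h0183 hodd hCN
    apply hna
    have := (IsSimpleGroup.comm_iff_isSolvable (G := G)).mpr hsol
    exact ⟨⟨fun a b => this a b⟩⟩
  have h2d : 2 ∣ Nat.card G := heven.two_dvd
  rcases h2202 heven (fun t ht => hC t (by
    rintro rfl
    rw [orderOf_one] at ht
    omega)) with h | h | h
  · exact absurd h2d (not_dvd_of_complement hna
      (Cfsg.Agent.Lib.PGroup.QDSylow6.hasNormalPComplement_of_isCyclic default (h default)))
  · exact (not_normal_sylow hna h2d default (h default)).elim
  · obtain ⟨F, hF, hFt, A, hA, hAf, hchar, hAodd, ⟨e⟩⟩ := h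
    have h2F : (2 : F) = 0 := by exact_mod_cast CharP.cast_eq_zero F 2
    -- `G ≃ SL(2, F)`
    let f : G →* SL(2, F) := (MonoidHom.fst _ _).comp e.toMonoidHom
    have hfs : Function.Surjective f := by
      intro M
      refine ⟨e.symm (M, 1), ?_⟩
      simp [f]
    have hfi : Function.Injective f := by
      rw [injective_iff_map_eq_one]
      intro g hg
      have hk : g ∈ f.ker := hg
      rcases (inferInstance : f.ker.Normal).eq_bot_or_eq_top with h | h
      · rw [h] at hk
        exact hk
      · exfalso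
        have h3 : (x (1 : F) : SL(2, F)) = 1 := by
          obtain ⟨g', hg'⟩ := hfs (x (1 : F))
          have : g' ∈ f.ker := by rw [h]; trivial
          rw [← hg']
          exact this
        have h4 := congrArg (fun M : SL(2, F) => M.1 0 1) h3
        simp at h4
    let e1 : G ≃* SL(2, F) := MulEquiv.ofBijective f ⟨hfi, hfs⟩
    have hS1 : SN SL(2, F) := hS.of_equiv e1
    -- the size of `F`
    obtain ⟨n, hnp, hcard⟩ := FiniteField.card F 2
    have hcardG : Nat.card G = Fintype.card F * (Fintype.card F ^ 2 - 1) := by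
      rw [Nat.card_congr e1.toEquiv, card_SL2]
    have hq2 : 2 < Fintype.card F := by
      have h1 : 2 ≤ Fintype.card F := Fintype.one_lt_card
      rcases h1.lt_or_eq with h | h
      · exact h
      · exfalso
        rw [← h] at hcardG
        exact card_ne_six (G := G) (by rw [hcardG]; norm_num)
    have hprime := prime_of_SN_SL2 h2F hS1 hq2
    have hn2 : 2 ≤ (n : ℕ) := by
      by_contra hlt
      have h1 : (n : ℕ) = 1 := by
        have := n.pos
        omega
      rw [hcard, h1] at hq2
      omega
    refine ⟨n, hn2, by rwa [hcard] at hprime, ?_⟩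
    letI : Fintype (GaloisField 2 n) := Fintype.ofFinite _
    have hcardK : Fintype.card (GaloisField 2 n) = 2 ^ (n : ℕ) :=
      (Nat.card_eq_fintype_card).symm.trans (GaloisField.card 2 n n.pos.ne')
    have hfe : F ≃+* GaloisField 2 n := FiniteField.ringEquivOfCardEq (hcard.trans hcardK.symm)
    have h2K : (2 : GaloisField 2 n) = 0 := by
      exact_mod_cast CharP.cast_eq_zero (GaloisField 2 n) 2
    exact ⟨e1.trans ((slCongr hfe).trans (pslEquivSL h2K).symm)⟩

end Main

end Cfsg.Agent.Lib.Transfer.SelfNorm
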