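import Mathlib

/-!
# An element of order `p` acting nontrivially on an abelian normal `p'`-subgroup

If `x^p = 1`, `x` acts nontrivially on an abelian `p'`-subgroup `E` and `ρ` is a representation in
characteristic `p` faithful on `E`, then `∑_{i<p} ρ(x)^i ≠ 0`.
-/

set_option autoImplicit false
set_option linter.unusedSectionVars false
set_option linter.style.haveILetI false
set_option linter.unusedVariables false

namespace Cfsg.Agent.Lib.Transfer.FrobeniusNorm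

open Subgroup

variable {H : Type*} [Group H] {p : ℕ} [hp : Fact p.Prime]

/-- The subgroup `[E, u]` for `u` normalizing the abelian `E`. -/
def commSub (E : Subgroup H) (hcomm : ∀ a ∈ E, ∀ b ∈ E, a * b = b * a) (u : H)
    (hu : ∀ b ∈ E, u * b * u⁻¹ ∈ E) : Subgroup H where
  carrier := {a | ∃ b ∈ E, a = b * (u * b * u⁻¹)⁻¹}
  one_mem' := ⟨1, E.one_mem, by simp⟩
  mul_mem' := by
    rintro _ _ ⟨b, hb, rfl⟩ ⟨c, hc, rfl⟩
    refine ⟨b * c, E.mul_mem hb hc, ?_⟩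
    have h1 := hcomm _ (E.inv_mem (hu b hb)) _ (E.mul_mem hc (E.inv_mem (hu c hc)))
    calc b * (u * b * u⁻¹)⁻¹ * (c * (u * c * u⁻¹)⁻¹)
        = b * ((u * b * u⁻¹)⁻¹ * (c * (u * c * u⁻¹)⁻¹)) := by group
      _ = b * ((c * (u * c * u⁻¹)⁻¹) * (u * b * u⁻¹)⁻¹) := by rw [h1]
      _ = _ := by group
  inv_mem' := by
    rintro _ ⟨b, hb, rfl⟩
    refine ⟨b⁻¹, E.inv_mem hb, ?_⟩
    have h1 := hcomm _ hb _ (E.inv_mem (hu b hb))
    have e : (b * (u * b * u⁻¹)⁻¹)⁻¹ = (u * b * u⁻¹) * b⁻¹ := by group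
    have e2 : b⁻¹ * (u * b⁻¹ * u⁻¹)⁻¹ = b⁻¹ * (u * b * u⁻¹) := by group
    rw [e, e2]
    have h2 := hcomm _ (E.inv_mem hb) _ (hu b hb)
    exact h2.symm

theorem commSub_le (E : Subgroup H) (hcomm : ∀ a ∈ E, ∀ b ∈ E, a * b = b * a) (u : H)
    (hu : ∀ b ∈ E, u * b * u⁻¹ ∈ E) : commSub E hcomm u hu ≤ E := by
  rintro _ ⟨b, hb, rfl⟩
  exact E.mul_mem hb (E.inv_mem (hu b hb))

theorem conj_mem_commSub (E : Subgroup H) (hcomm : ∀ a ∈ E, ∀ b ∈ E, a * b = b * a) (u : H)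
    (hu : ∀ b ∈ E, u * b * u⁻¹ ∈ E) {a : H} (ha : a ∈ commSub E hcomm u hu) :
    u * a * u⁻¹ ∈ commSub E hcomm u hu := by
  obtain ⟨b, hb, rfl⟩ := ha
  refine ⟨u * b * u⁻¹, hu b hb, ?_⟩
  group

/-- Elements of `[E, x]` fixed by `x` are trivial, for `x^p = 1` and `E` a `p'`-group. -/
theorem eq_one_of_fixed [Finite H] (E : Subgroup H) (hcomm : ∀ a ∈ E, ∀ b ∈ E, a * b = b * a)
    (hc : (Nat.card E).Coprime p) (x : H) (hx : x ^ p = 1) (hu : ∀ b ∈ E, x * b * x⁻¹ ∈ E)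
    {a : H} (ha : a ∈ commSub E hcomm x hu) (hfix : x * a * x⁻¹ = a) : a = 1 := by
  have h1 : ∀ j : ℕ, x ^ j * a * (x ^ j)⁻¹ = a := by
    intro j
    induction j with
    | zero => simp
    | succ j ih =>
      calc x ^ (j + 1) * a * (x ^ (j + 1))⁻¹ = x ^ j * (x * a * x⁻¹) * (x ^ j)⁻¹ := by
            rw [pow_succ]; group
        _ = a := by rw [hfix, ih]
  have haE : a ∈ E := commSub_le E hcomm x hu ha
  obtain ⟨b, hb, hab⟩ := ha
  have h2 : ∀ j : ℕ, a ^ j = b * (x ^ j * b * (x ^ j)⁻¹)⁻¹ := by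
    intro j
    induction j with
    | zero => simp
    | succ j ih =>
      rw [pow_succ, ih]
      have e : a = x ^ j * (b * (x * b * x⁻¹)⁻¹) * (x ^ j)⁻¹ := by
        rw [← hab, h1]
      conv_lhs => rw [e]
      rw [pow_succ]
      group
  have h3 : a ^ p = 1 := by
    rw [h2 p, hx]
    group
  have h4 : orderOf a ∣ Nat.card E := by
    have := orderOf_dvd_natCard (⟨a, haE⟩ : E)
    simpa using this
  have h5 : Nat.Coprime (orderOf a) p := Nat.Coprime.coprime_dvd_left h4 hc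
  have h6 : orderOf a = 1 := by
    have := orderOf_dvd_of_pow_eq_one h3
    exact Nat.Coprime.eq_one_of_dvd h5 this
  exact orderOf_eq_one_iff.1 h6

/-- **The main lemma.** -/
theorem geom_sum_ne_zero [Finite H] {M : Type*} [AddCommGroup M] [Module (ZMod p) M] (E : Subgroup H)
    (hcomm : ∀ a ∈ E, ∀ b ∈ E, a * b = b * a)
    (hc : (Nat.card E).Coprime p) (x : H) (hx : x ^ p = 1) (hu : ∀ b ∈ E, x * b * x⁻¹ ∈ E)
    (hne : ∃ e ∈ E, x * e * x⁻¹ ≠ e) (ρ : H →* Module.End (ZMod p) M)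
    (hρ : ∀ e ∈ E, ρ e = 1 → e = 1) : ∑ i ∈ Finset.range p, (ρ x) ^ i ≠ 0 := by
  classical
  intro hN
  set A : Subgroup H := commSub E hcomm x hu with hA
  have hAE : A ≤ E := commSub_le E hcomm x hu
  haveI : Fintype A := Fintype.ofFinite A
  have hxi : ∀ (i : ℕ), ∀ a ∈ A, x ^ i * a * (x ^ i)⁻¹ ∈ A := by
    intro i
    induction i with
    | zero => intro a ha; simpa using ha
    | succ i ih =>
      intro a ha
      have := conj_mem_commSub E hcomm x hu (ih a ha)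
      have e : x ^ (i + 1) * a * (x ^ (i + 1))⁻¹ = x * (x ^ i * a * (x ^ i)⁻¹) * x⁻¹ := by
        rw [pow_succ']; group
      rw [e]
      exact this
  -- the maps
  let ψ : ∀ i : ℕ, A → A := fun i b => ⟨(b : H) * (x ^ i * b * (x ^ i)⁻¹)⁻¹,
    A.mul_mem b.2 (A.inv_mem (hxi i b b.2))⟩
  have hψ : ∀ i : ℕ, 0 < i → i < p → Function.Bijective (ψ i) := by
    intro i hi0 hip
    rw [← Finite.injective_iff_bijective]
    intro b b' hbb
    have h1 : (b : H) * (x ^ i * b * (x ^ i)⁻¹)⁻¹ = (b' : H) * (x ^ i * b' * (x ^ i)⁻¹)⁻¹ :=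
      congrArg Subtype.val hbb
    set d : H := (b' : H)⁻¹ * b with hd
    have hdA : d ∈ A := A.mul_mem (A.inv_mem b'.2) b.2
    have h2 : x ^ i * d * (x ^ i)⁻¹ = d := by
      have e1 : (b' : H)⁻¹ * b = (x ^ i * b' * (x ^ i)⁻¹)⁻¹ * (x ^ i * b * (x ^ i)⁻¹) := by
        have : (b' : H)⁻¹ * ((b : H) * (x ^ i * b * (x ^ i)⁻¹)⁻¹) * (x ^ i * b * (x ^ i)⁻¹) =
            (b' : H)⁻¹ * ((b' : H) * (x ^ i * b' * (x ^ i)⁻¹)⁻¹) * (x ^ i * b * (x ^ i)⁻¹) := by rw [h1]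
        calc (b' : H)⁻¹ * b = (b' : H)⁻¹ * ((b : H) * (x ^ i * b * (x ^ i)⁻¹)⁻¹) * (x ^ i * b * (x ^ i)⁻¹) := by group
          _ = _ := by rw [this]; group
      rw [hd]
      calc x ^ i * ((b' : H)⁻¹ * b) * (x ^ i)⁻¹ = (x ^ i * b' * (x ^ i)⁻¹)⁻¹ * (x ^ i * b * (x ^ i)⁻¹) := by group
        _ = _ := e1.symm
    have hcop : Nat.Coprime i p :=
      ((Nat.Prime.coprime_iff_not_dvd hp.out).2 (Nat.not_dvd_of_pos_of_lt hi0 hip)).symm
    obtain ⟨m, -, hm⟩ := Nat.exists_mul_mod_eq_one_of_coprime hcop hp.out.one_lt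
    have h3 : ∀ j : ℕ, (x ^ i) ^ j * d * ((x ^ i) ^ j)⁻¹ = d := by
      intro j
      induction j with
      | zero => simp
      | succ j ih =>
        calc (x ^ i) ^ (j + 1) * d * ((x ^ i) ^ (j + 1))⁻¹ = (x ^ i) ^ j * (x ^ i * d * (x ^ i)⁻¹) * ((x ^ i) ^ j)⁻¹ := by
              rw [pow_succ]; group
          _ = d := by rw [h2, ih]
    have h4 : (x ^ i) ^ m = x := by
      rw [← pow_mul]
      conv_lhs => rw [← Nat.div_add_mod (i * m) p, hm, pow_add, pow_mul, hx, one_pow, one_mul, pow_one]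
    have h5 := h3 m
    rw [h4] at h5
    have h6 := eq_one_of_fixed E hcomm hc x hx hu hdA h5
    apply Subtype.ext
    rw [hd] at h6
    have := inv_mul_eq_one.1 h6
    exact this.symm
  set S : Module.End (ZMod p) M := ∑ a : A, ρ a with hS
  -- the sums
  have hsum1 : ∀ i : ℕ, 0 < i → i < p → ∑ b : A, ρ b * (ρ x) ^ i * ρ (b : H)⁻¹ = S * (ρ x) ^ i := by
    intro i hi0 hip
    have h1 : ∀ b : A, ρ b * (ρ x) ^ i * ρ (b : H)⁻¹ = ρ (ψ i b) * (ρ x) ^ i := by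
      intro b
      rw [← map_pow, ← map_mul, ← map_mul, ← map_mul]
      congr 1
      show (b : H) * x ^ i * (b : H)⁻¹ = (b : H) * (x ^ i * b * (x ^ i)⁻¹)⁻¹ * x ^ i
      group
    rw [Finset.sum_congr rfl (fun b _ => h1 b), ← Finset.sum_mul]
    congr 1
    exact (hψ i hi0 hip).sum_comp (fun a : A => ρ a)
  have hsum0 : ∑ b : A, ρ b * (ρ x) ^ 0 * ρ (b : H)⁻¹ = (Nat.card A) • (1 : Module.End (ZMod p) M) := by
    have h1 : ∀ b : A, ρ b * (ρ x) ^ 0 * ρ (b : H)⁻¹ = 1 := by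
      intro b
      rw [pow_zero, mul_one, ← map_mul, mul_inv_cancel, map_one]
    rw [Finset.sum_congr rfl (fun b _ => h1 b), Finset.sum_const, Finset.card_univ, Nat.card_eq_fintype_card]
  have hp1 : p = (p - 1) + 1 := (Nat.sub_add_cancel hp.out.one_lt.le).symm
  have htotal : ∑ b : A, ρ b * (∑ i ∈ Finset.range p, (ρ x) ^ i) * ρ (b : H)⁻¹ = 0 := by
    rw [hN]
    simp
  have hexp : ∑ b : A, ρ b * (∑ i ∈ Finset.range p, (ρ x) ^ i) * ρ (b : H)⁻¹ =
      ∑ i ∈ Finset.range p, ∑ b : A, ρ b * (ρ x) ^ i * ρ (b : H)⁻¹ := by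
    rw [Finset.sum_comm]
    refine Finset.sum_congr rfl fun b _ => ?_
    rw [Finset.mul_sum, Finset.sum_mul]
  rw [hexp] at htotal
  have hsplit := Finset.sum_range_succ' (fun i => ∑ b : A, ρ b * (ρ x) ^ i * ρ (b : H)⁻¹) (p - 1)
  rw [← hp1] at hsplit
  rw [hsplit, hsum0] at htotal
  have hrest : ∑ i ∈ Finset.range (p - 1), ∑ b : A, ρ b * (ρ x) ^ (i + 1) * ρ (b : H)⁻¹ = - S := by
    have h1 : ∀ i ∈ Finset.range (p - 1), ∑ b : A, ρ b * (ρ x) ^ (i + 1) * ρ (b : H)⁻¹ = S * (ρ x) ^ (i + 1) := by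
      intro i hi
      have := Finset.mem_range.1 hi
      exact hsum1 (i + 1) (Nat.succ_pos i) (by omega)
    rw [Finset.sum_congr rfl h1, ← Finset.mul_sum]
    have h2 := Finset.sum_range_succ' (fun i => (ρ x) ^ i) (p - 1)
    rw [← hp1, hN, pow_zero] at h2
    have h3 : ∑ i ∈ Finset.range (p - 1), (ρ x) ^ (i + 1) = -1 := by
      rw [eq_neg_iff_add_eq_zero]
      exact h2.symm
    rw [h3, mul_neg, mul_one]
  rw [hrest] at htotal
  have hSval : S = (Nat.card A) • (1 : Module.End (ZMod p) M) := by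
    have := neg_add_eq_zero.1 htotal
    exact this
  have hcardA : (Nat.card A : ZMod p) ≠ 0 := by
    intro h
    rw [ZMod.natCast_eq_zero_iff] at h
    have h1 : Nat.card A ∣ Nat.card E := by
      exact Subgroup.card_dvd_of_le hAE
    exact (Nat.Prime.coprime_iff_not_dvd hp.out).1 hc.symm (h.trans h1)
  have htriv : ∀ a ∈ A, ρ a = 1 := by
    intro a ha
    have h1 : ρ a * S = S := by
      rw [hS, Finset.mul_sum]
      have h2 : ∀ b : A, ρ a * ρ b = ρ ((⟨a, ha⟩ : A) * b) := by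
        intro b
        rw [← map_mul]
      rw [Finset.sum_congr rfl (fun b _ => h2 b)]
      exact Equiv.sum_comp (Equiv.mulLeft (⟨a, ha⟩ : A)) (fun b : A => ρ b)
    rw [hSval, mul_smul_comm, mul_one] at h1
    have h2 : (Nat.card A : ZMod p) • (ρ a - 1) = 0 := by
      rw [smul_sub, Nat.cast_smul_eq_nsmul, Nat.cast_smul_eq_nsmul, h1, sub_self]
    rcases smul_eq_zero.1 h2 with h3 | h3
    · exact absurd h3 hcardA
    · exact sub_eq_zero.1 h3
  obtain ⟨e, he, hne'⟩ := hne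
  have h1 : e * (x * e * x⁻¹)⁻¹ ∈ A := ⟨e, he, rfl⟩
  have h2 := hρ _ (hAE h1) (htriv _ h1)
  apply hne'
  exact (mul_inv_eq_one.1 h2).symm

end Cfsg.Agent.Lib.Transfer.FrobeniusNorm
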