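import Mathlib
import Cfsg.Prelude.Def_LocalEven
import Cfsg.Prelude.Def_PLocal
import Cfsg.Agent.Lib.Transfer.Basic
import Cfsg.Agent.Lib.Basic.PCore
import Cfsg.Agent.Lib.Coprime.InvSylow
import Cfsg.Agent.Lib.PGroup.QdStable

/-!
# Groups with a maximal Sylow subgroup: sections are `p`-stable

If a Sylow `p`-subgroup `T` of `Y` is a maximal subgroup then the normal `p'`-subgroups of `Y` are abelian.
If moreover `X / O_p(X)` has a normal `p`-complement then `Qd(p)` is not involved in `X` for odd `p`,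
and all sections of `X` are `p`-stable.
-/

set_option autoImplicit false
set_option linter.unusedSectionVars false
set_option linter.style.haveILetI false
set_option linter.unusedVariables false

universe u

namespace Cfsg.Agent.Lib.Transfer.MaximalStable

open Subgroup Cfsg Matrix Cfsg.Agent.Lib.Basic.PCore Cfsg.Agent.Lib.Transfer.Basic
open Cfsg.Agent.Lib.Coprime.InvSylow Cfsg.Agent.Lib.Coprime.Coset
open scoped MatrixGroups

variable {p : ℕ} [hp : Fact p.Prime]

section coatom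

variable {Y : Type*} [Group Y] [Finite Y]

theorem eq_one_of_mem_coprime {E T : Subgroup Y} (hE : (Nat.card E).Coprime p) (hT : IsPGroup p T)
    {x : Y} (h1 : x ∈ E) (h2 : x ∈ T) : x = 1 := by
  obtain ⟨k, hk⟩ := (IsPGroup.iff_orderOf.mp hT) ⟨x, h2⟩
  have hk' : orderOf x = p ^ k := by rw [← hk]; exact (Subgroup.orderOf_mk x h2).symm
  have h3 : orderOf x ∣ Nat.card E := by
    have := orderOf_dvd_natCard (⟨x, h1⟩ : E)
    simpa using this
  have h4 : Nat.Coprime (orderOf x) (Nat.card E) := by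
    rw [hk']
    exact Nat.Coprime.pow_left k hE.symm
  have := Nat.Coprime.eq_one_of_dvd h4 h3
  exact orderOf_eq_one_iff.1 this

/-- An invariant subgroup of a normal `p'`-subgroup is trivial or the whole group. -/
theorem eq_bot_or_eq (T : Sylow p Y) (hT : IsCoatom (T : Subgroup Y)) (E : Subgroup Y)
    (hEc : (Nat.card E).Coprime p) (A : Subgroup Y) (hAE : A ≤ E)
    (hTA : (T : Subgroup Y) ≤ normalizer (A : Set Y)) : A = ⊥ ∨ A = E := by
  by_cases hAT : A ⊔ (T : Subgroup Y) = T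
  · left
    rw [eq_bot_iff]
    intro a ha
    have h1 : a ∈ (T : Subgroup Y) := by
      rw [← hAT]
      exact Subgroup.mem_sup_left ha
    exact eq_one_of_mem_coprime hEc T.isPGroup' (hAE ha) h1
  · right
    have htop : A ⊔ (T : Subgroup Y) = ⊤ :=
      hT.2 _ (lt_of_le_of_ne le_sup_right (Ne.symm hAT))
    refine le_antisymm hAE ?_
    intro e he
    have h1 : e ∈ A ⊔ (T : Subgroup Y) := by rw [htop]; exact mem_top _
    obtain ⟨a, ha, t, ht, rfl⟩ := (mem_sup_iff_of_le_normalizer hTA e).1 h1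
    have h2 : t ∈ E := by
      have : t = a⁻¹ * (a * t) := by group
      rw [this]
      exact E.mul_mem (E.inv_mem (hAE ha)) he
    have h3 := eq_one_of_mem_coprime hEc T.isPGroup' h2 ht
    rw [h3, mul_one]
    exact ha

/-- A normal `p'`-subgroup in a group with a maximal Sylow `p`-subgroup is abelian. -/
theorem comm_of_coatom (T : Sylow p Y) (hT : IsCoatom (T : Subgroup Y)) (E : Subgroup Y) [hEn : E.Normal]
    (hEc : (Nat.card E).Coprime p) : ∀ a ∈ E, ∀ b ∈ E, a * b = b * a := by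
  classical
  by_cases hEb : E = ⊥
  · intro a ha b hb
    rw [hEb, Subgroup.mem_bot] at ha hb
    rw [ha, hb]
  haveI hnt : Nontrivial E := (Subgroup.nontrivial_iff_ne_bot E).2 hEb
  have hcard : Nat.card E ≠ 1 := by
    have := Finite.one_lt_card (α := E)
    omega
  obtain ⟨q, hq, hqd⟩ := Nat.exists_prime_and_dvd hcard
  haveI : Fact q.Prime := ⟨hq⟩
  have hTE : (T : Subgroup Y) ≤ normalizer (E : Set Y) := by
    rw [Subgroup.normalizer_eq_top_iff.2 hEn]
    exact le_top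
  have hcop : (Nat.card (T : Subgroup Y)).Coprime (Nat.card E) := by
    obtain ⟨n, hn⟩ := IsPGroup.iff_card.mp T.isPGroup'
    rw [hn]
    exact Nat.Coprime.pow_left n hEc.symm
  haveI : Group.IsNilpotent (T : Subgroup Y) := T.isPGroup'.isNilpotent
  obtain ⟨P, hP⟩ := exists_invariant_sylow hTE hcop (Or.inl inferInstance) q
  have hPne : (P : Subgroup E) ≠ ⊥ := P.ne_bot_of_dvd_card hqd
  have hEq : IsPGroup q E := by
    rcases eq_bot_or_eq T hT E hEc _ (Subgroup.map_subtype_le _) hP with h | h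
    · exfalso
      apply hPne
      exact (Subgroup.map_eq_bot_iff_of_injective _ E.subtype_injective).1 h
    · have h1 : IsPGroup q ((P : Subgroup E).map E.subtype) := P.isPGroup'.map _
      rwa [h] at h1
  haveI := hEq.center_nontrivial
  obtain ⟨z, hz⟩ := exists_ne (1 : Subgroup.center E)
  set Z : Subgroup Y := E ⊓ centralizer (E : Set Y) with hZ
  have hzZ : ((z : E) : Y) ∈ Z := by
    refine ⟨(z : E).2, mem_centralizer_iff.2 fun s hs => ?_⟩
    have := (Subgroup.mem_center_iff.1 z.2) ⟨s, hs⟩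
    exact congrArg Subtype.val this
  have hZne : Z ≠ ⊥ := by
    intro hb
    rw [hb, Subgroup.mem_bot] at hzZ
    exact hz (Subtype.ext (Subtype.ext hzZ))
  have hTZ : (T : Subgroup Y) ≤ normalizer (Z : Set Y) := by
    refine le_normalizer_of_forall_conj_mem fun t _ x hx => ?_
    refine ⟨hEn.conj_mem x hx.1 t, mem_centralizer_iff.2 fun e he => ?_⟩
    have h1 : t⁻¹ * e * t ∈ E := by
      have := hEn.conj_mem e he t⁻¹
      simpa using this
    have h2 := (mem_centralizer_iff.1 hx.2) _ h1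
    calc e * (t * x * t⁻¹) = t * ((t⁻¹ * e * t) * x) * t⁻¹ := by group
      _ = t * (x * (t⁻¹ * e * t)) * t⁻¹ := by rw [h2]
      _ = t * x * t⁻¹ * e := by group
  have hZE : Z = E := (eq_bot_or_eq T hT E hEc Z inf_le_left hTZ).resolve_left hZne
  intro a ha b hb
  have h1 : a ∈ Z := by rw [hZE]; exact ha
  exact ((mem_centralizer_iff.1 h1.2) b hb).symm

end coatom

section star

variable {X : Type*} [Group X] [Finite X]

/-- The commutator of two `p'`-elements lies in `O_p(X)`. -/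
theorem star_of_coatom (T : Sylow p X) (hT : IsCoatom (T : Subgroup X))
    (hq : HasNormalPComplement p (X ⧸ pCore p X)) {u v : X} (hu : (orderOf u).Coprime p)
    (hv : (orderOf v).Coprime p) : u * v * u⁻¹ * v⁻¹ ∈ pCore p X := by
  haveI hQn : (pCore p X).Normal := pCore_normal p X
  set Q : Subgroup X := pCore p X with hQ
  let π : X →* X ⧸ Q := QuotientGroup.mk' Q
  have hπ : Function.Surjective π := QuotientGroup.mk'_surjective Q
  let T' : Sylow p (X ⧸ Q) := T.mapSurjective hπ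
  have hT'c : (T' : Subgroup (X ⧸ Q)) = (T : Subgroup X).map π := rfl
  have hQT : Q ≤ T := pCore_le_sylow T
  have hker : π.ker = Q := QuotientGroup.ker_mk' Q
  have hT' : IsCoatom (T' : Subgroup (X ⧸ Q)) := by
    rw [hT'c]
    constructor
    · intro h1
      apply hT.1
      rw [eq_top_iff]
      intro x _
      have : π x ∈ (T : Subgroup X).map π := by rw [h1]; exact mem_top _
      obtain ⟨t, ht, htx⟩ := this
      have h2 : t⁻¹ * x ∈ Q := QuotientGroup.eq.1 htx
      have : x = t * (t⁻¹ * x) := by group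
      rw [this]
      exact mul_mem ht (hQT h2)
    · intro H hH
      have h1 : (T : Subgroup X) < H.comap π := by
        refine lt_of_le_of_ne ?_ ?_
        · rw [← Subgroup.map_le_iff_le_comap]
          exact hH.le
        · intro h2
          apply hH.ne
          rw [h2, Subgroup.map_comap_eq_self_of_surjective hπ]
      have h2 := hT.2 _ h1
      rw [← Subgroup.map_comap_eq_self_of_surjective hπ H, h2, ← MonoidHom.range_eq_map,
        MonoidHom.range_eq_top.2 hπ]
  obtain ⟨E, hEn, hEc, hEq⟩ := hasNormalPComplement_iff.1 hq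
  have hcomm := comm_of_coatom T' hT' E hEc
  have hmem : ∀ w : X, (orderOf w).Coprime p → π w ∈ E := by
    intro w hw
    rw [mem_iff_coprime_of_normal E hEc hEq]
    exact Nat.Coprime.coprime_dvd_left (orderOf_map_dvd π w) hw
  have h1 := hcomm _ (hmem u hu) _ (hmem v hv)
  have h2 : π (u * v * u⁻¹ * v⁻¹) = 1 := by
    rw [map_mul, map_mul, map_mul, map_inv, map_inv, h1]
    group
  rw [← hker]
  exact h2

end star

section involve

/-- A `p'`-lift of a `p'`-element. -/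
theorem exists_lift {G H : Type*} [Group G] [Group H] [Finite G] (f : G →* H) (g : G) {n : ℕ}
    (hn : n.Coprime p) (hg : (f g) ^ n = 1) : ∃ b : G, f b = f g ∧ (orderOf b).Coprime p := by
  obtain ⟨a, b, hab, -, ha, -, ⟨k, hk⟩, hb⟩ := exists_pPart_decomp (p := p) g
  refine ⟨b, ?_, hb⟩
  obtain ⟨i, rfl⟩ := Subgroup.mem_zpowers_iff.1 ha
  have h1 : (f (g ^ i)) ^ n = 1 := by
    rw [map_zpow, ← zpow_natCast, ← _root_.zpow_mul, mul_comm, _root_.zpow_mul, zpow_natCast, hg, _root_.one_zpow]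
  have h2 : (f (g ^ i)) ^ p ^ k = 1 := by
    rw [← map_pow, ← hk, pow_orderOf_eq_one, map_one]
  have h3 : Nat.Coprime n (p ^ k) := Nat.Coprime.pow_right k hn
  have h4 : orderOf (f (g ^ i)) = 1 :=
    Nat.Coprime.eq_one_of_dvd (Nat.Coprime.coprime_dvd_left (orderOf_dvd_of_pow_eq_one h1) h3)
      (orderOf_dvd_of_pow_eq_one h2)
  have h5 : f (g ^ i) = 1 := orderOf_eq_one_iff.1 h4
  rw [← hab, map_mul, h5, one_mul]

/-- The elements of `Qd(p)` used below. -/
def xx : SL(3, ZMod p) := ⟨!![0, 1, 0; -1, 0, 0; 0, 0, 1], by simp [Matrix.det_fin_three]⟩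

def zz : SL(3, ZMod p) := ⟨!![-1, 0, 0; 0, -1, 0; 0, 0, 1], by simp [Matrix.det_fin_three]⟩

def yy (a b : ZMod p) (hab : a ^ 2 + b ^ 2 = -1) : SL(3, ZMod p) :=
  ⟨!![a, b, 0; b, -a, 0; 0, 0, 1], by
    simp [Matrix.det_fin_three]
    linear_combination (-1 : ZMod p) * hab⟩

theorem xx_mul_xx : (xx : SL(3, ZMod p)) * xx = zz := by
  apply Subtype.ext
  show (!![0, 1, 0; -1, 0, 0; 0, 0, 1] : Matrix (Fin 3) (Fin 3) (ZMod p)) * !![0, 1, 0; -1, 0, 0; 0, 0, 1] =
    !![-1, 0, 0; 0, -1, 0; 0, 0, 1]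
  ext i j
  fin_cases i <;> fin_cases j <;> simp [Matrix.mul_apply, Fin.sum_univ_three]

theorem zz_mul_zz : (zz : SL(3, ZMod p)) * zz = 1 := by
  apply Subtype.ext
  show (!![-1, 0, 0; 0, -1, 0; 0, 0, 1] : Matrix (Fin 3) (Fin 3) (ZMod p)) * !![-1, 0, 0; 0, -1, 0; 0, 0, 1] = 1
  ext i j
  fin_cases i <;> fin_cases j <;> simp [Matrix.mul_apply, Fin.sum_univ_three]

theorem yy_mul_yy (a b : ZMod p) (hab : a ^ 2 + b ^ 2 = -1) : yy a b hab * yy a b hab = zz := by
  apply Subtype.ext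
  show (!![a, b, 0; b, -a, 0; 0, 0, 1] : Matrix (Fin 3) (Fin 3) (ZMod p)) * !![a, b, 0; b, -a, 0; 0, 0, 1] =
    !![-1, 0, 0; 0, -1, 0; 0, 0, 1]
  ext i j
  fin_cases i <;> fin_cases j <;> simp [Matrix.mul_apply, Fin.sum_univ_three] <;>
    first
      | linear_combination hab
      | ring

theorem xx_mul_yy (a b : ZMod p) (hab : a ^ 2 + b ^ 2 = -1) :
    xx * yy a b hab = zz * (yy a b hab * xx) := by
  apply Subtype.ext
  show (!![0, 1, 0; -1, 0, 0; 0, 0, 1] : Matrix (Fin 3) (Fin 3) (ZMod p)) * !![a, b, 0; b, -a, 0; 0, 0, 1] =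
    !![-1, 0, 0; 0, -1, 0; 0, 0, 1] * (!![a, b, 0; b, -a, 0; 0, 0, 1] * !![0, 1, 0; -1, 0, 0; 0, 0, 1])
  ext i j
  fin_cases i <;> fin_cases j <;> simp [Matrix.mul_apply, Fin.sum_univ_three]

theorem zz_ne_one (hp2 : p ≠ 2) : (zz : SL(3, ZMod p)) ≠ 1 := by
  intro h
  have h1 := congrArg (fun M : SL(3, ZMod p) => (M : Matrix (Fin 3) (Fin 3) (ZMod p)) 0 0) h
  simp [zz] at h1
  have h2 : (2 : ZMod p) = 0 := by
    linear_combination (-1 : ZMod p) * h1
  have h3 : ((2 : ℕ) : ZMod p) = 0 := by simpa using h2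
  rw [ZMod.natCast_eq_zero_iff] at h3
  exact hp2 ((Nat.prime_dvd_prime_iff_eq hp.out Nat.prime_two).1 h3)

/-- `Qd(p)` is not involved in a group in which commutators of `p'`-elements are in a normal `p`-subgroup. -/
theorem not_involves_of_star (hp2 : p ≠ 2) {X : Type*} [Group X] [Finite X] (Q : Subgroup X)
    (hQ : IsPGroup p Q)
    (hstar : ∀ u v : X, (orderOf u).Coprime p → (orderOf v).Coprime p → u * v * u⁻¹ * v⁻¹ ∈ Q) :
    ¬ Involves ↥(qd p) X := by
  rintro ⟨K, R, hR, ⟨e⟩⟩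
  haveI := hR
  let π : K →* qd p := e.toMonoidHom.comp (QuotientGroup.mk' (R.subgroupOf K))
  have hπ : Function.Surjective π := e.surjective.comp (QuotientGroup.mk'_surjective _)
  obtain ⟨a, b, hab⟩ := ZMod.sq_add_sq p (-1 : ZMod p)
  have hxq : (xx : SL(3, ZMod p)) ∈ qd p := by
    refine Subgroup.subset_closure ?_
    show (!![0, 1, 0; -1, 0, 0; 0, 0, 1] : Matrix (Fin 3) (Fin 3) (ZMod p)) 2 0 = 0 ∧
      (!![0, 1, 0; -1, 0, 0; 0, 0, 1] : Matrix (Fin 3) (Fin 3) (ZMod p)) 2 1 = 0 ∧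
      (!![0, 1, 0; -1, 0, 0; 0, 0, 1] : Matrix (Fin 3) (Fin 3) (ZMod p)) 2 2 = 1
    simp
  have hyq : yy a b hab ∈ qd p := by
    refine Subgroup.subset_closure ?_
    show (!![a, b, 0; b, -a, 0; 0, 0, 1] : Matrix (Fin 3) (Fin 3) (ZMod p)) 2 0 = 0 ∧
      (!![a, b, 0; b, -a, 0; 0, 0, 1] : Matrix (Fin 3) (Fin 3) (ZMod p)) 2 1 = 0 ∧
      (!![a, b, 0; b, -a, 0; 0, 0, 1] : Matrix (Fin 3) (Fin 3) (ZMod p)) 2 2 = 1
    simp
  let x : qd p := ⟨xx, hxq⟩
  let y : qd p := ⟨yy a b hab, hyq⟩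
  have hzq : (zz : SL(3, ZMod p)) ∈ qd p := by
    rw [← xx_mul_xx]
    exact mul_mem hxq hxq
  let z : qd p := ⟨zz, hzq⟩
  have hxx : x * x = z := Subtype.ext xx_mul_xx
  have hyy : y * y = z := Subtype.ext (yy_mul_yy a b hab)
  have hzz : z * z = 1 := Subtype.ext zz_mul_zz
  have hxy : x * y = z * (y * x) := Subtype.ext (xx_mul_yy a b hab)
  have hz1 : z ≠ 1 := fun h => zz_ne_one hp2 (congrArg Subtype.val h)
  have h4 : Nat.Coprime 4 p := by
    have : Nat.Coprime 2 p := (Nat.coprime_primes Nat.prime_two hp.out).2 (Ne.symm hp2)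
    exact Nat.Coprime.pow_left 2 this
  obtain ⟨u₀, hu₀⟩ := hπ x
  obtain ⟨v₀, hv₀⟩ := hπ y
  obtain ⟨u, hu, hu'⟩ := exists_lift (p := p) π u₀ h4 (by
    rw [hu₀, show x ^ 4 = (x * x) * (x * x) by simp only [pow_succ, pow_zero, one_mul, mul_assoc], hxx, hzz])
  obtain ⟨v, hv, hv'⟩ := exists_lift (p := p) π v₀ h4 (by
    rw [hv₀, show y ^ 4 = (y * y) * (y * y) by simp only [pow_succ, pow_zero, one_mul, mul_assoc], hyy, hzz])
  rw [hu₀] at hu
  rw [hv₀] at hv
  have hw : ((u * v * u⁻¹ * v⁻¹ : K) : X) ∈ Q := by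
    have h1 := hstar (u : X) (v : X) (by rwa [Subgroup.orderOf_coe]) (by rwa [Subgroup.orderOf_coe])
    simpa using h1
  have hw' : π (u * v * u⁻¹ * v⁻¹) = z := by
    rw [map_mul, map_mul, map_mul, map_inv, map_inv, hu, hv, hxy]
    group
  obtain ⟨k, hk⟩ := (IsPGroup.iff_orderOf.mp hQ) ⟨_, hw⟩
  have hk' : ((u * v * u⁻¹ * v⁻¹ : K) : X) ^ p ^ k = 1 := by
    have := pow_orderOf_eq_one (⟨_, hw⟩ : Q)
    rw [hk] at this
    exact congrArg Subtype.val this
  have hk'' : (u * v * u⁻¹ * v⁻¹ : K) ^ p ^ k = 1 := by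
    apply Subtype.ext
    rw [Subgroup.coe_pow, hk']
    rfl
  have h5 : z ^ p ^ k = 1 := by
    rw [← hw', ← map_pow, hk'', map_one]
  have h6 : z ^ 2 = 1 := by rw [pow_two, hzz]
  have h7 : Nat.Coprime 2 (p ^ k) :=
    Nat.Coprime.pow_right k ((Nat.coprime_primes Nat.prime_two hp.out).2 (Ne.symm hp2))
  have h8 : orderOf z = 1 :=
    Nat.Coprime.eq_one_of_dvd (Nat.Coprime.coprime_dvd_left (orderOf_dvd_of_pow_eq_one h6) h7)
      (orderOf_dvd_of_pow_eq_one h5)
  exact hz1 (orderOf_eq_one_iff.1 h8)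

end involve

/-- **All sections are `p`-stable** when `T` is maximal and `X / O_p(X)` has a normal `p`-complement. -/
theorem sections_stable {X : Type u} [Group X] [Finite X] (hp2 : p ≠ 2) (T : Sylow p X)
    (hT : IsCoatom (T : Subgroup X)) (hq : HasNormalPComplement p (X ⧸ pCore p X)) :
    ∀ (K R : Subgroup X) [hR : (R.subgroupOf K).Normal], IsNormalizerPStable p (K ⧸ R.subgroupOf K) :=
  (Cfsg.Agent.Lib.PGroup.QdStable.free_iff hp2).1
    (not_involves_of_star hp2 (pCore p X) (pCore_isPGroup p)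
      (fun _ _ hu hv => star_of_coatom T hT hq hu hv))

end Cfsg.Agent.Lib.Transfer.MaximalStable
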