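import Mathlib
import Cfsg.Agent.Lib.Transfer.FrobeniusNorm
import Cfsg.Agent.Lib.Transfer.MaximalStable
import Cfsg.Agent.Lib.Transfer.ChiefNorm
import Cfsg.Agent.Lib.Thompson.QuadraticStable
import Cfsg.Agent.Lib.PGroup.KInfQuartic

/-!
# Engel condition on a chief factor in a constrained group with a maximal Sylow subgroup
-/

set_option autoImplicit false
set_option linter.unusedSectionVars false
set_option linter.style.haveILetI false
set_option linter.unusedVariables false

universe u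

namespace Cfsg.Agent.Lib.Transfer.EngelMaximal

open Subgroup Cfsg Cfsg.Agent.Lib.Basic.PCore Cfsg.Agent.Lib.Transfer.Basic
open Cfsg.Agent.Lib.Transfer.ChiefNorm Cfsg.Agent.Lib.Transfer.MaximalStable
open Cfsg.Agent.Lib.Thompson.QuadraticStable
open scoped commutatorElement

variable {p : ℕ} [hp : Fact p.Prime]

/-- The image of a maximal Sylow subgroup in `X / O_p(X)` is maximal. -/
theorem coatom_map {X : Type*} [Group X] [Finite X] (T : Sylow p X) (hT : IsCoatom (T : Subgroup X)) :
    IsCoatom ((T : Subgroup X).map (QuotientGroup.mk' (pCore p X))) := by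
  haveI hQn : (pCore p X).Normal := pCore_normal p X
  set Q : Subgroup X := pCore p X with hQ
  let π : X →* X ⧸ Q := QuotientGroup.mk' Q
  have hπ : Function.Surjective π := QuotientGroup.mk'_surjective Q
  have hQT : Q ≤ T := pCore_le_sylow T
  constructor
  · intro h1
    apply hT.1
    rw [eq_top_iff]
    intro x _
    have : π x ∈ (T : Subgroup X).map π := by rw [h1]; exact mem_top _
    obtain ⟨t, ht, htx⟩ := this
    have h2 : t⁻¹ * x ∈ Q := QuotientGroup.eq.1 htx
    have : x = t * (t⁻¹ * x) := by group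
    rw [this]
    exact mul_mem ht (hQT h2)
  · intro H hH
    have h1 : (T : Subgroup X) < H.comap π := by
      refine lt_of_le_of_ne ?_ ?_
      · rw [← Subgroup.map_le_iff_le_comap]
        exact hH.le
      · intro h2
        apply hH.ne
        rw [h2, Subgroup.map_comap_eq_self_of_surjective hπ]
    have h2 := hT.2 _ h1
    rw [← Subgroup.map_comap_eq_self_of_surjective hπ H, h2, ← MonoidHom.range_eq_map,
      MonoidHom.range_eq_top.2 hπ]

/-- The contradiction: a `p`-element outside `O_p(X)` cannot act with nilpotency degree `≤ p - 1` on a chief factor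
unless trivially. -/
theorem false_of_engel {X : Type u} [Group X] [Finite X]
    (hq : HasNormalPComplement p (X ⧸ pCore p X)) (T : Sylow p X) (hT : IsCoatom (T : Subgroup X))
    {g : X} (hgT : g ∈ (T : Subgroup X)) (hgQ : g ∉ pCore p X) {U V : Subgroup X}
    (hcf : IsChiefFactor U V) (hUQ : U ≤ pCore p X)
    (hit : iterCommutator U (zpowers g) (p - 1) ≤ V) (hne : ¬ ⁅U, zpowers g⁆ ≤ V) : False := by
  classical
  haveI hQn : (pCore p X).Normal := pCore_normal p X
  have hQp : IsPGroup p (pCore p X) := pCore_isPGroup p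
  set Q : Subgroup X := pCore p X with hQ
  obtain ⟨hVU, hUn, hVn, hmin⟩ := id hcf
  haveI := hUn
  haveI := hVn
  have hUp : IsPGroup p U := hQp.to_le hUQ
  have hcomm : ∀ x ∈ U, ∀ y ∈ U, x * y * x⁻¹ * y⁻¹ ∈ V := by
    intro x hx y hy
    exact chief_comm_le hcf hUQ hQn hQp x hx y (hUQ hy)
  have hpow : ∀ x ∈ U, x ^ p ∈ V := chief_pow_mem hcf hUQ hQn hQp
  obtain ⟨M, i1, i2, ρ, π, hsurj, hadd, hker, hact⟩ := exists_section_rep p U V hcomm hpow
  have hsub : ∀ u v : U, π (u * v⁻¹) = π u - π v := by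
    intro u v
    have := hadd (u * v⁻¹) v
    rw [inv_mul_cancel_right] at this
    rw [this, add_sub_cancel_right]
  have hρker : ∀ k, ρ k = 1 ↔ ∀ x ∈ U, k * x * k⁻¹ * x⁻¹ ∈ V := by
    intro k
    constructor
    · intro hk x hx
      have h1 := hact k ⟨x, hx⟩
      rw [hk, Module.End.one_apply] at h1
      have h2 := hsub (MulAut.conjNormal k ⟨x, hx⟩) ⟨x, hx⟩
      rw [← h1, sub_self, hker] at h2
      simpa using h2
    · intro hk
      refine LinearMap.ext fun v => ?_
      obtain ⟨x, rfl⟩ := hsurj v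
      rw [Module.End.one_apply, hact]
      apply sub_eq_zero.mp
      rw [← hsub, hker]
      simpa using hk x x.2
  have hcomm_iff : ∀ k : X, (∀ x ∈ U, k * x * k⁻¹ * x⁻¹ ∈ V) ↔ ∀ x ∈ U, ⁅x, k⁆ ∈ V := by
    intro k
    constructor
    · intro h x hx
      have e : ⁅x, k⁆ = (k * x * k⁻¹ * x⁻¹)⁻¹ := by
        rw [commutatorElement_def]; group
      rw [e]
      exact V.inv_mem (h x hx)
    · intro h x hx
      have e : k * x * k⁻¹ * x⁻¹ = (⁅x, k⁆)⁻¹ := by
        rw [commutatorElement_def]; group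
      rw [e]
      exact V.inv_mem (h x hx)
  have hQker : ∀ q ∈ Q, ρ q = 1 := by
    intro q hq'
    rw [hρker, hcomm_iff]
    intro x hx
    exact chief_comm_le hcf hUQ hQn hQp x hx q hq'
  have hgρ : ρ g ≠ 1 := by
    intro h
    apply hne
    rw [Subgroup.commutator_le]
    intro x hx z hz
    have hz' : z ∈ ρ.ker := by
      have : zpowers g ≤ ρ.ker := by
        rw [zpowers_le]
        exact h
      exact this hz
    exact (hcomm_iff z).1 ((hρker z).1 hz') x hx
  -- the nilpotency
  have hnil : ∀ (j : ℕ) (u : U), ∃ u' : U, (u' : X) ∈ iterCommutator U (zpowers g) j ∧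
      ((ρ g - 1) ^ j : Module.End (ZMod p) M) (π u) = π u' := by
    intro j
    induction j with
    | zero => exact fun u => ⟨u, u.2, rfl⟩
    | succ j ih =>
      intro u
      obtain ⟨u', hu', e⟩ := ih u
      have hyx : ⁅g, (u' : X)⁆ ∈ U := by
        rw [commutatorElement_def]
        exact U.mul_mem (hUn.conj_mem _ u'.2 g) (U.inv_mem u'.2)
      refine ⟨⟨⁅g, (u' : X)⁆, hyx⟩, ?_, ?_⟩
      · show ⁅g, (u' : X)⁆ ∈ ⁅iterCommutator U (zpowers g) j, zpowers g⁆
        rw [Subgroup.commutator_comm]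
        exact Subgroup.commutator_mem_commutator (mem_zpowers g) hu'
      · rw [pow_succ', Module.End.mul_apply, e, LinearMap.sub_apply, Module.End.one_apply, hact,
          ← hsub]
        rfl
  have hnil0 : ((ρ g - 1) ^ (p - 1) : Module.End (ZMod p) M) = 0 := by
    refine LinearMap.ext fun m => ?_
    obtain ⟨u, rfl⟩ := hsurj m
    obtain ⟨u', hu', e⟩ := hnil (p - 1) u
    rw [e, LinearMap.zero_apply, hker]
    exact hit hu'
  have hgeom := geom_sum_eq_zero_of_nilp (p := p) (ρ g) hnil0 (k := 1) le_rfl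
  rw [pow_one] at hgeom
  have hgp : ρ (g ^ p) = 1 := by
    have := geom_sum_mul (ρ g) p
    rw [hgeom, zero_mul] at this
    rw [map_pow]
    exact (sub_eq_zero.1 this.symm)
  -- the kernel
  have hDQ : ρ.ker ≤ Q := by
    by_cases hDT : ρ.ker ≤ (T : Subgroup X)
    · exact le_pCore inferInstance (T.isPGroup'.to_le hDT)
    · exfalso
      have hne1 : (T : Subgroup X) ≠ (T : Subgroup X) ⊔ ρ.ker := by
        intro h
        apply hDT
        rw [h]
        exact le_sup_right
      have htop : (T : Subgroup X) ⊔ ρ.ker = ⊤ :=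
        hT.2 _ (lt_of_le_of_ne le_sup_left hne1)
      let τ : X →* X ⧸ ρ.ker := QuotientGroup.mk' ρ.ker
      have hτ : Function.Surjective τ := QuotientGroup.mk'_surjective _
      have hΓ : IsPGroup p (X ⧸ ρ.ker) := by
        have hs : Function.Surjective (τ.comp (T : Subgroup X).subtype) := by
          intro y
          obtain ⟨x, rfl⟩ := hτ y
          have hx : x ∈ ((T : Subgroup X) ⊔ ρ.ker : Subgroup X) := by rw [htop]; exact mem_top _
          have hx' : x ∈ (((T : Subgroup X) ⊔ ρ.ker : Subgroup X) : Set X) := hx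
          rw [Subgroup.mul_normal] at hx'
          obtain ⟨t, ht, d, hd, rfl⟩ := Set.mem_mul.1 hx'
          refine ⟨⟨t, ht⟩, ?_⟩
          show τ t = τ (t * d)
          rw [map_mul]
          have : τ d = 1 := (QuotientGroup.eq_one_iff d).2 hd
          rw [this, mul_one]
        exact T.isPGroup'.of_surjective _ hs
      have hr : τ g ∈ pCore p (X ⧸ ρ.ker) := by
        have h1 : (⊤ : Subgroup (X ⧸ ρ.ker)) ≤ pCore p (X ⧸ ρ.ker) :=
          le_pCore inferInstance (by
            intro y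
            obtain ⟨k, hk⟩ := hΓ y.1
            exact ⟨k, Subtype.ext hk⟩)
        exact h1 (mem_top _)
      have hker' : ∀ k, τ k = 1 → ∀ u ∈ U, ⁅u, k⁆ ∈ V := by
        intro k hk
        have h1 : k ∈ ρ.ker := (QuotientGroup.eq_one_iff k).1 hk
        exact (hcomm_iff k).1 ((hρker k).1 h1)
      have h2 := Cfsg.Agent.Lib.PGroup.KInfQuartic.chief_central_of_pCore T hcf hUp τ hτ hker' hr
      exact hgρ ((hρker g).2 ((hcomm_iff g).2 h2))
  -- the quotient
  let κ : X →* X ⧸ Q := QuotientGroup.mk' Q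
  have hκ : Function.Surjective κ := QuotientGroup.mk'_surjective Q
  let ρ' : (X ⧸ Q) →* Module.End (ZMod p) M := QuotientGroup.lift Q ρ hQker
  have hρ' : ∀ a : X, ρ' (κ a) = ρ a := fun a => QuotientGroup.lift_mk' _ _ _
  let T' : Sylow p (X ⧸ Q) := T.mapSurjective hκ
  have hT'c : (T' : Subgroup (X ⧸ Q)) = (T : Subgroup X).map κ := rfl
  have hT' : IsCoatom (T' : Subgroup (X ⧸ Q)) := coatom_map T hT
  obtain ⟨E, hEn, hEc, hEq⟩ := hasNormalPComplement_iff.1 hq
  have hcommE := comm_of_coatom T' hT' E hEc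
  have hxp : (κ g) ^ p = 1 := by
    rw [← map_pow]
    exact (QuotientGroup.eq_one_iff _).2 (hDQ hgp)
  have hu : ∀ b ∈ E, κ g * b * (κ g)⁻¹ ∈ E := fun b hb => hEn.conj_mem b hb _
  have hne' : ∃ e ∈ E, κ g * e * (κ g)⁻¹ ≠ e := by
    by_contra hcon
    push Not at hcon
    -- `κ g` centralizes `E`
    set C : Subgroup (X ⧸ Q) := centralizer (E : Set (X ⧸ Q)) with hC
    have hCn : C.Normal := by rw [hC]; infer_instance
    have hgC : κ g ∈ C := by
      refine mem_centralizer_iff.2 fun e he => ?_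
      have := hcon e he
      calc e * κ g = (κ g * e * (κ g)⁻¹) * κ g := by rw [this]
        _ = κ g * e := by group
    have hcompl := isComplement'_of_coprime_of_isPGroup T' hEc hEq
    have htop : (T' : Subgroup (X ⧸ Q)) ⊔ E = ⊤ := by
      rw [sup_comm]
      exact hcompl.sup_eq_top
    have hPn : ((T' : Subgroup (X ⧸ Q)) ⊓ C).Normal := by
      refine ⟨fun z hz y => ?_⟩
      have hy : y ∈ (((T' : Subgroup (X ⧸ Q)) ⊔ E : Subgroup (X ⧸ Q)) : Set (X ⧸ Q)) := by
        rw [htop]; exact mem_top _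
      rw [Subgroup.mul_normal] at hy
      obtain ⟨t, ht, e, he, rfl⟩ := Set.mem_mul.1 hy
      have h1 := (mem_centralizer_iff.1 hz.2) e he
      have e1 : t * e * z * (t * e)⁻¹ = t * z * t⁻¹ := by
        calc t * e * z * (t * e)⁻¹ = t * (e * z) * e⁻¹ * t⁻¹ := by group
          _ = t * (z * e) * e⁻¹ * t⁻¹ := by rw [h1]
          _ = _ := by group
      rw [e1]
      exact ⟨(T' : Subgroup (X ⧸ Q)).mul_mem ((T' : Subgroup (X ⧸ Q)).mul_mem ht hz.1)
        ((T' : Subgroup (X ⧸ Q)).inv_mem ht), hCn.conj_mem z hz.2 t⟩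
    have hPle : (T' : Subgroup (X ⧸ Q)) ⊓ C ≤ pCore p (X ⧸ Q) :=
      le_pCore hPn (T'.isPGroup'.to_le inf_le_left)
    have hgT' : κ g ∈ (T' : Subgroup (X ⧸ Q)) := ⟨g, hgT, rfl⟩
    have h2 := hPle ⟨hgT', hgC⟩
    rw [pCore_quotient_eq_bot, Subgroup.mem_bot] at h2
    exact hgQ ((QuotientGroup.eq_one_iff g).1 h2)
  have hfaith : ∀ e ∈ E, ρ' e = 1 → e = 1 := by
    intro e _ he
    obtain ⟨a, rfl⟩ := hκ e
    rw [hρ'] at he
    exact (QuotientGroup.eq_one_iff a).2 (hDQ he)
  refine Cfsg.Agent.Lib.Transfer.FrobeniusNorm.geom_sum_ne_zero E hcommE hEc (κ g) hxp hu hne' ρ' hfaith ?_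
  rw [hρ']
  exact hgeom

end Cfsg.Agent.Lib.Transfer.EngelMaximal
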