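import Mathlib
import Cfsg.Prelude.Def_Transfer
import Cfsg.Agent.Lib.Basic.BurnsideAut
import Cfsg.Agent.Lib.Transfer.Basic

set_option autoImplicit false

/-!
Small Sylow subgroups: automorphisms of prime order of small `p`-groups, and the fact that a
nonabelian simple group has no normal `p`-complement for a prime `p` dividing its order.
-/

namespace Cfsg.Agent.Lib.Transfer.SmallSylow

/-- A nonabelian simple group has no normal `p`-complement when `p` divides its order. -/
theorem false_of_complement {G : Type*} [Group G] [Finite G] [IsSimpleGroup G]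
    (hG : ∃ x y : G, x * y ≠ y * x) {p : ℕ} [hp : Fact p.Prime] (hdvd : p ∣ Nat.card G)
    (h : Cfsg.HasNormalPComplement p G) : False := by
  obtain ⟨N, hN, h1, h2⟩ := Cfsg.Agent.Lib.Transfer.Basic.hasNormalPComplement_iff.mp h
  rcases hN.eq_bot_or_eq_top with rfl | rfl
  · have hP : IsPGroup p G := by
      intro x
      obtain ⟨k, hk⟩ := h2 (x : G ⧸ (⊥ : Subgroup G))
      refine ⟨k, ?_⟩
      rw [← QuotientGroup.mk_pow, QuotientGroup.eq_one_iff, Subgroup.mem_bot] at hk
      exact hk
    have : Nontrivial G := IsSimpleGroup.toNontrivial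
    have := hP.center_nontrivial
    have hc : Subgroup.center G = ⊤ := by
      have hne : Subgroup.center G ≠ ⊥ := (Subgroup.nontrivial_iff_ne_bot _).mp inferInstance
      exact ((inferInstance : (Subgroup.center G).Normal).eq_bot_or_eq_top).resolve_left hne
    obtain ⟨x, y, hxy⟩ := hG
    apply hxy
    have hx : x ∈ Subgroup.center G := by rw [hc]; trivial
    exact (Subgroup.mem_center_iff.mp hx y).symm
  · rw [Subgroup.card_top] at h1
    exact (Nat.Prime.coprime_iff_not_dvd hp.out).mp h1.symm hdvd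

/-- Arithmetic: if `q ∤ p^e - 1` for `1 ≤ e ≤ d` and `|V| = p^d`, the only subgroup `F` of `V` with
`|V| ≡ |F| (mod q)` is `V`. -/
theorem eq_top_of_modEq_pow {V : Type*} [Group V] [Finite V] {p q d : ℕ} [hp : Fact p.Prime]
    [hq : Fact q.Prime] (hqp : q ≠ p) (hV : Nat.card V = p ^ d)
    (h : ∀ e : ℕ, 1 ≤ e → e ≤ d → ¬ q ∣ p ^ e - 1) (F : Subgroup V)
    (hF : Nat.card V ≡ Nat.card F [MOD q]) : F = ⊤ := by
  have hFV : Nat.card F ∣ Nat.card V := F.card_subgroup_dvd_card
  rw [hV] at hFV
  obtain ⟨i, hi, hi2⟩ := (Nat.dvd_prime_pow hp.out).mp hFV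
  have hcop : Nat.Coprime q p := (Nat.coprime_primes hq.out hp.out).mpr hqp
  have hieq : i = d := by
    rw [hV, hi2] at hF
    by_contra hne
    have hlt : i < d := lt_of_le_of_ne hi hne
    refine h (d - i) (by omega) (by omega) ?_
    have hmod1 : p ^ i * p ^ (d - i) ≡ p ^ i * 1 [MOD q] := by
      rw [mul_one, ← pow_add, Nat.add_sub_cancel' hi]
      exact hF
    have hmod2 : p ^ (d - i) ≡ 1 [MOD q] :=
      Nat.ModEq.cancel_left_of_coprime (by
        rw [Nat.gcd_comm]
        exact (Nat.Coprime.pow_left i hcop.symm)) hmod1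
    exact (Nat.modEq_iff_dvd' (Nat.one_le_pow _ _ hp.out.pos)).mp hmod2.symm
  apply Subgroup.eq_top_of_card_eq
  rw [hi2, hV, hieq]

/-- An automorphism of prime order `q` of a group of order `p^d` is trivial as soon as
`q ∤ p^e - 1` for `1 ≤ e ≤ d`. -/
theorem aut_eq_one_of_pow {V : Type*} [Group V] [Finite V] {p q d : ℕ} [hp : Fact p.Prime]
    [hq : Fact q.Prime] (hqp : q ≠ p) (hV : Nat.card V = p ^ d)
    (h : ∀ e : ℕ, 1 ≤ e → e ≤ d → ¬ q ∣ p ^ e - 1) (σ : MulAut V) (hσ : orderOf σ = q) : σ = 1 :=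
  Cfsg.Agent.Lib.Basic.BurnsideAut.aut_eq_one_of_modEq σ hσ
    (fun F hF => eq_top_of_modEq_pow hqp hV h F hF)

/-- A group of order `p^d` with `d ≤ 2` is commutative. -/
theorem isMulCommutative_of_card {V : Type*} [Group V] {p d : ℕ} [hp : Fact p.Prime]
    (hV : Nat.card V = p ^ d) (hd : d ≤ 2) : IsMulCommutative V := by
  interval_cases d
  · rw [pow_zero] at hV
    have := (Nat.card_eq_one_iff_unique.mp hV).1
    exact ⟨⟨fun a b => Subsingleton.elim _ _⟩⟩
  · rw [pow_one] at hV
    have hc : IsCyclic V := isCyclic_of_prime_card hV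
    exact IsCyclic.isMulCommutative
  · exact IsPGroup.isMulCommutative_of_card_eq_prime_sq hV

end Cfsg.Agent.Lib.Transfer.SmallSylow
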