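import Mathlib
import Cfsg.Agent.Lib.PGroup.Basic
import Cfsg.Agent.Lib.PGroup.Critical
import Cfsg.Agent.Lib.PGroup.ZJStable
import Cfsg.Agent.Lib.Coprime.OmegaOne
import Cfsg.Agent.Lib.Coprime.FrattiniAct
import Cfsg.Agent.Lib.Transfer.Frobenius

/-!
# Automorphisms stabilizing all subgroups of a given order

An element `n` of order prime to `p (p - 1)` normalizing a `p`-subgroup `Y` and normalizing all
subgroups of `Y` of order `p ^ d` (and all those of order `4` when `p ^ d = 2`), where
`1 < p ^ d < |Y|`, centralizes `Y`.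
-/

set_option autoImplicit false

namespace Cfsg.Agent.Lib.Transfer.AutSmall

open Subgroup Cfsg.Agent.Lib.PGroup.Basic Cfsg.Agent.Lib.Coprime.OmegaOne
open Cfsg.Agent.Lib.Coprime.FrattiniAct Cfsg.Agent.Lib.PGroup.ZJStable
open Cfsg.Agent.Lib.Transfer.Frobenius
open scoped commutatorElement

/-- Eigenvalues: `a` of order prime to `p - 1` acting on `w` with `w ^ p = 1` by a power map acts
trivially on `w`. -/
theorem eig_abstract {Q : Type*} [Group Q] {p : ℕ} [hp : Fact p.Prime] {a w : Q} {k : ℕ}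
    (hwp : w ^ p = 1) (hk : a * w * a⁻¹ = w ^ k) {j : ℕ} (hj : a ^ j = 1)
    (hjp : j.Coprime (p - 1)) : a * w * a⁻¹ = w := by
  have key : ∀ i : ℕ, a ^ i * w * (a ^ i)⁻¹ = w ^ (k ^ i) := by
    intro i
    induction i with
    | zero => simp
    | succ i ih =>
      have e : a ^ (i + 1) * w * (a ^ (i + 1))⁻¹ = a * (a ^ i * w * (a ^ i)⁻¹) * a⁻¹ := by
        rw [pow_succ']; group
      rw [e, ih, ← conj_pow, hk, ← pow_mul, pow_succ']
  by_cases hw : w = 1
  · simp [hw]
  have hord : orderOf w = p := orderOf_eq_prime hwp hw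
  have h1 := key j
  rw [hj] at h1
  simp only [one_mul, inv_one, mul_one] at h1
  have h2 : w ^ 1 = w ^ (k ^ j) := by rw [pow_one]; exact h1
  rw [pow_eq_pow_iff_modEq, hord] at h2
  have h3 : ((k : ZMod p)) ^ j = 1 := by
    have := (ZMod.natCast_eq_natCast_iff _ _ p).mpr h2
    push_cast at this
    exact this.symm
  have hk0 : (k : ZMod p) ≠ 0 := by
    intro h0
    have hd : p ∣ k := (ZMod.natCast_eq_zero_iff k p).mp h0
    have h4 : w ^ k = 1 := by
      obtain ⟨c, rfl⟩ := hd
      rw [pow_mul, hwp, one_pow]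
    rw [h4] at hk
    apply hw
    have : a⁻¹ * (a * w * a⁻¹) * a = w := by group
    rw [← this, hk]; group
  have h4 : ((k : ZMod p)) ^ (p - 1) = 1 := ZMod.pow_card_sub_one_eq_one hk0
  have h5 := pow_gcd_eq_one.mpr ⟨h3, h4⟩
  rw [hjp, pow_one] at h5
  have h6 : k ≡ 1 [MOD orderOf w] := by
    rw [hord]
    apply (ZMod.natCast_eq_natCast_iff _ _ p).mp
    simpa using h5
  rw [hk]
  have := (pow_eq_pow_iff_modEq (x := w)).mpr h6
  simpa using this

variable {G : Type*} [Group G] {p : ℕ} [hp : Fact p.Prime]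

/-- Eigenvalues, modulo a subgroup. -/
theorem eig {F : Subgroup G} {n w : G} (hn : n ∈ normalizer (F : Set G))
    (hw : w ∈ normalizer (F : Set G)) (hwp : w ^ p ∈ F) {k : ℕ}
    (hk : (w ^ k)⁻¹ * (n * w * n⁻¹) ∈ F) {j : ℕ} (hj : n ^ j = 1) (hjp : j.Coprime (p - 1)) :
    w⁻¹ * (n * w * n⁻¹) ∈ F := by
  set H := normalizer (F : Set G) with hH
  set F' := F.subgroupOf H with hF'
  haveI : F'.Normal := normal_in_normalizer
  let π : H →* H ⧸ F' := QuotientGroup.mk' F'
  have hπ : ∀ z : H, π z = 1 ↔ (z : G) ∈ F := by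
    intro z
    rw [QuotientGroup.mk'_apply, QuotientGroup.eq_one_iff, mem_subgroupOf]
  let a : H := ⟨n, hn⟩
  let b : H := ⟨w, hw⟩
  have h1 : (π b) ^ p = 1 := by
    rw [← map_pow, hπ]
    exact hwp
  have h2 : π a * π b * (π a)⁻¹ = (π b) ^ k := by
    have : π ((b ^ k)⁻¹ * (a * b * a⁻¹)) = 1 := by
      rw [hπ]
      exact hk
    rw [map_mul, map_inv, map_pow, map_mul, map_mul, map_inv, inv_mul_eq_one] at this
    exact this.symm
  have h3 : (π a) ^ j = 1 := by
    have : a ^ j = 1 := by
      apply Subtype.ext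
      simpa [a] using hj
    rw [← map_pow, this, map_one]
  have h4 := eig_abstract h1 h2 h3 hjp
  have h5 : π (b⁻¹ * (a * b * a⁻¹)) = 1 := by
    rw [map_mul, map_inv, map_mul, map_mul, map_inv, inv_mul_eq_one]
    exact h4.symm
  exact (hπ _).mp h5

variable [Finite G]

/-- Maximal subgroups separate elements modulo a subgroup containing the Frattini subgroup. -/
theorem exists_isCoatom_ge_notMem {W : Subgroup G} {x : G} (hW : powCommutator p G ≤ W)
    (hx : x ∉ W) : ∃ M : Subgroup G, IsCoatom M ∧ W ≤ M ∧ x ∉ M := by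
  classical
  let S : Set (Subgroup G) := {K | W ≤ K ∧ x ∉ K}
  have hSfin : S.Finite := Set.toFinite S
  obtain ⟨K, hK⟩ := hSfin.exists_maximal (⟨W, le_refl _, hx⟩ : S.Nonempty)
  obtain ⟨⟨hWK, hxK⟩, hKmax⟩ := hK
  have hFK := hW.trans hWK
  have hKnorm : K.Normal := by
    have hcomm : commutator G ≤ K := (commutator_le_powCommutator p).trans hFK
    refine ⟨fun n hn g => ?_⟩
    have hc : ⁅g, n⁆ ∈ K := hcomm (_root_.commutator_def G ▸ Subgroup.commutator_mem_commutator
      (Subgroup.mem_top g) (Subgroup.mem_top n))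
    have : g * n * g⁻¹ = ⁅g, n⁆ * n := by
      rw [commutatorElement_def]; group
    rw [this]; exact mul_mem hc hn
  refine ⟨K, ⟨fun h => hxK (h ▸ Subgroup.mem_top x), ?_⟩, hWK, hxK⟩
  intro L hKL
  have hxL : x ∈ L := by
    by_contra hxL
    have hL : L ∈ S := ⟨hWK.trans hKL.le, hxL⟩
    exact absurd (hKmax hL hKL.le) (not_le_of_gt hKL)
  rw [eq_top_iff]
  intro y _
  by_cases hyK : y ∈ K
  · exact hKL.le hyK
  have hxy : x ∈ K ⊔ zpowers y := by
    by_contra hxy
    have hmem : K ⊔ zpowers y ∈ S := ⟨hWK.trans le_sup_left, hxy⟩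
    have hle := hKmax hmem le_sup_left
    exact hyK (hle ((le_sup_right : zpowers y ≤ K ⊔ zpowers y) (mem_zpowers y)))
  rw [← SetLike.mem_coe, Subgroup.normal_mul, Set.mem_mul] at hxy
  obtain ⟨k, hk, w, hw, rfl⟩ := hxy
  obtain ⟨i, rfl⟩ := mem_zpowers_iff.mp hw
  have hyp : ∀ n : ℤ, y ^ (p * n) ∈ K := by
    intro n
    rw [zpow_mul]
    apply zpow_mem
    have := hFK (pow_mem_powCommutator p y)
    simpa using this
  have hnd : ¬ (p : ℤ) ∣ i := by
    rintro ⟨n, rfl⟩
    exact hxK (mul_mem hk (hyp n))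
  have hcop : IsCoprime (p : ℤ) i := by
    exact (Nat.prime_iff_prime_int.mp hp.out).coprime_iff_not_dvd.mpr hnd
  obtain ⟨a, b, hab⟩ := hcop
  have hy : y = (y ^ (p * a)) * (((k⁻¹ * (k * y ^ i)) ^ b)) := by
    rw [inv_mul_cancel_left, ← zpow_mul, ← zpow_add]
    rw [show (p : ℤ) * a + i * b = a * p + b * i by ring, hab, zpow_one]
  rw [hy]
  refine mul_mem (hKL.le (hyp a)) (zpow_mem (mul_mem (inv_mem (hKL.le hk)) hxL) b)

/-- Separation: in a finite `p`-group, if `x` lies in all maximal subgroups containing `w`, then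
`x` is a power of `w` modulo the Frattini subgroup. -/
theorem exists_pow_of_forall_coatom (hG : IsPGroup p G) {w x : G}
    (h : ∀ M : Subgroup G, IsCoatom M → w ∈ M → x ∈ M) :
    ∃ k : ℕ, (w ^ k)⁻¹ * x ∈ frattini G := by
  have hn : (frattini G).Normal := inferInstance
  by_contra hcon
  have hx : x ∉ zpowers w ⊔ frattini G := by
    intro hmem
    rw [Subgroup.mem_sup_of_normal_right] at hmem
    obtain ⟨a, ha, f, hf, rfl⟩ := hmem
    have ha' : a ∈ Submonoid.powers w := mem_powers_iff_mem_zpowers.mpr ha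
    obtain ⟨k, rfl⟩ := ha'
    apply hcon
    refine ⟨k, ?_⟩
    simpa using hf
  have hW : powCommutator p G ≤ zpowers w ⊔ frattini G := by
    rw [← frattini_eq_powCommutator hG]
    exact le_sup_right
  obtain ⟨M, hM, hWM, hxM⟩ := exists_isCoatom_ge_notMem hW hx
  exact hxM (h M hM (hWM (mem_sup_left (mem_zpowers w))))

/-- Subgroups of a `p`-group of intermediate order. -/
theorem exists_between_card {A B : Subgroup G} (hAB : A ≤ B) {a d : ℕ}
    (hA : Nat.card A = p ^ a) (had : a ≤ d) (hd : p ^ d ∣ Nat.card B) :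
    ∃ E : Subgroup G, A ≤ E ∧ E ≤ B ∧ Nat.card E = p ^ d := by
  have hH : Nat.card (A.subgroupOf B) = p ^ a := by
    rw [← hA]
    exact Nat.card_congr (Subgroup.subgroupOfEquivOfLe hAB).toEquiv
  obtain ⟨K, hK, hHK⟩ := Sylow.exists_subgroup_card_pow_prime_le p hd (A.subgroupOf B) hH had
  refine ⟨K.map B.subtype, ?_, map_subtype_le _, ?_⟩
  · intro x hx
    exact ⟨⟨x, hAB hx⟩, hHK (mem_subgroupOf.mpr hx), rfl⟩
  · rw [Subgroup.card_map_of_injective B.subtype_injective, hK]

/-- Arithmetic choice of the exponent. -/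
theorem exists_exponent {d : ℕ} (hd : 0 < d) :
    ∃ e m : ℕ, d ≤ e ∧ m ∣ p ^ e ∧ p ∣ m ∧ p ∣ m.choose 2 ∧
      ∀ a : ℕ, a ≤ e → a ≤ d ∨ (p ^ d = 2 ∧ a = 2) := by
  by_cases h2 : p ^ d = 2
  · have hp2 : p = 2 := by
      have := (Nat.prime_dvd_prime_iff_eq hp.out Nat.prime_two).mp
        (h2 ▸ dvd_pow_self p hd.ne')
      exact this
    subst hp2
    have hd1 : d = 1 := by
      have : 2 ^ d = 2 ^ 1 := by simpa using h2
      exact Nat.pow_right_injective le_rfl this
    subst hd1
    refine ⟨2, 4, by norm_num, by norm_num, by norm_num, by decide, fun a ha => ?_⟩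
    by_cases ha1 : a ≤ 1
    · exact Or.inl ha1
    · exact Or.inr ⟨by norm_num, by omega⟩
  · by_cases hp2 : p = 2
    · subst hp2
      have hd2 : 2 ≤ d := by
        by_contra hlt
        have : d = 1 := by omega
        subst this
        exact h2 (by norm_num)
      refine ⟨d, 4, le_rfl, ?_, by norm_num, by decide, fun a ha => Or.inl ha⟩
      exact (show 4 = 2 ^ 2 by norm_num) ▸ pow_dvd_pow 2 hd2
    · exact ⟨d, p, le_rfl, dvd_pow_self p hd.ne', dvd_rfl,
        Cfsg.Agent.Lib.PGroup.Critical.prime_dvd_choose_two hp2, fun a ha => Or.inl ha⟩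

/-- An element of order prime to `p (p - 1)` normalizing a cyclic `p`-subgroup centralizes it. -/
theorem comm_of_isCyclic {T : Subgroup G} (hT : IsPGroup p T) (hc : IsCyclic T) {n : G}
    (hn : n ∈ normalizer (T : Set G)) (hnp : (orderOf n).Coprime p)
    (hnp1 : (orderOf n).Coprime (p - 1)) : conjAut T n hn = 1 := by
  have h1 : orderOf (conjAut T n hn) ∣ Nat.card (MulAut T) := orderOf_dvd_natCard _
  rw [hc.card_mulAut] at h1
  obtain ⟨k, hk⟩ := IsPGroup.iff_card.mp hT
  have h2 := orderOf_conjAut_dvd T n hn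
  apply orderOf_eq_one_iff.mp
  rcases Nat.eq_zero_or_pos k with rfl | hk0
  · rw [hk] at h1
    simpa using h1
  · rw [hk, Nat.totient_prime_pow hp.out hk0] at h1
    have hcop : (orderOf (conjAut T n hn)).Coprime (p ^ (k - 1) * (p - 1)) := by
      apply Nat.Coprime.mul_right
      · exact Nat.Coprime.pow_right _ (Nat.Coprime.coprime_dvd_left h2 hnp)
      · exact Nat.Coprime.coprime_dvd_left h2 hnp1
    exact Nat.Coprime.eq_one_of_dvd hcop h1

/-- An element of order prime to `p (p - 1)` acting on a `p`-subgroup `T` generated by a set of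
elements `w`, each with the property that `n w n⁻¹` lies in all maximal subgroups of `T` containing
`w`, centralizes `T`. -/
theorem conjAut_eq_one_of_coatom {S : Set G} {T : Subgroup G} (hTS : T = closure S)
    (hT : IsPGroup p T) {n : G}
    (hn : n ∈ normalizer (T : Set G)) (hnp : (orderOf n).Coprime p)
    (hnp1 : (orderOf n).Coprime (p - 1))
    (hS : ∀ (w : T), (w : G) ∈ S → ∀ M : Subgroup T, IsCoatom M → w ∈ M → conjAut T n hn w ∈ M) :
    conjAut T n hn = 1 := by
  subst hTS
  set T := closure S with hTdef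
  set α := conjAut T n hn with hα
  have hw1 : ∀ (w : T), (w : G) ∈ S → α w * w⁻¹ ∈ frattini T := by
    intro w hw
    obtain ⟨k, hk⟩ := exists_pow_of_forall_coatom hT (hS w hw)
    set F := (frattini T).map T.subtype with hF
    have hFn : ∀ b ∈ normalizer (T : Set G), b ∈ normalizer (F : Set G) := fun b hb =>
      map_char_mem_normalizer _ inferInstance hb
    have h1 : (w : G)⁻¹ * (n * w * n⁻¹) ∈ F := by
      refine eig (p := p) (hFn n hn) (hFn _ (le_normalizer w.2)) ?_ (k := k) ?_
        (pow_orderOf_eq_one n) hnp1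
      · exact ⟨w ^ p, pow_mem_frattini hT w, rfl⟩
      · exact ⟨_, hk, rfl⟩
    obtain ⟨f, hf, hfe⟩ := h1
    have h2 : α w * w⁻¹ = w * f * w⁻¹ := by
      apply Subtype.ext
      have h3 : (α w : G) = n * w * n⁻¹ := rfl
      simp only [Subgroup.coe_mul, Subgroup.coe_inv, h3]
      have h4 : (f : G) = (w : G)⁻¹ * (n * w * n⁻¹) := hfe
      rw [h4]
      group
    rw [h2]
    exact (inferInstance : (frattini T).Normal).conj_mem f hf w
  have hall : ∀ (x : T), α x * x⁻¹ ∈ frattini T := by
    let π := QuotientGroup.mk' (frattini T)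
    have hπ : ∀ x : T, π (α x) = π x ↔ α x * x⁻¹ ∈ frattini T := by
      intro x
      rw [← QuotientGroup.eq_one_iff, QuotientGroup.mk_mul, QuotientGroup.mk_inv,
        mul_inv_eq_one]
      rfl
    intro ⟨x, hx⟩
    rw [← hπ]
    induction hx using closure_induction with
    | mem x hx => exact (hπ _).mpr (hw1 ⟨x, subset_closure hx⟩ hx)
    | one =>
      have : (⟨1, one_mem _⟩ : T) = 1 := rfl
      rw [this, map_one, map_one]
    | mul x y hx hy h1 h2 =>
      have : (⟨x * y, mul_mem hx hy⟩ : T) = ⟨x, hx⟩ * ⟨y, hy⟩ := rfl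
      rw [this, map_mul, map_mul, map_mul, h1, h2]
    | inv x hx h1 =>
      have : (⟨x⁻¹, inv_mem hx⟩ : T) = ⟨x, hx⟩⁻¹ := rfl
      rw [this, map_inv, map_inv, map_inv, h1]
  have hmem : α ∈ trivFrattini T := hall
  obtain ⟨k, hk⟩ := trivFrattini_isPGroup hT ⟨α, hmem⟩
  have h3 : α ^ p ^ k = 1 := congrArg Subtype.val hk
  have h4 : orderOf α ∣ p ^ k := orderOf_dvd_of_pow_eq_one h3
  have h5 : (orderOf α).Coprime (p ^ k) :=
    Nat.Coprime.pow_right _ (Nat.Coprime.coprime_dvd_left (orderOf_conjAut_dvd T n hn) hnp)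
  exact orderOf_eq_one_iff.mp (Nat.Coprime.eq_one_of_dvd h5 h4)

/-- **Automorphisms stabilizing all subgroups of a given order.** An element `n` of order prime to
`p (p - 1)` normalizing a `p`-subgroup `Y` and all subgroups of `Y` of order `p ^ d`, and of order
`4` if `p ^ d = 2`, where `1 < p ^ d < |Y|`, centralizes `Y`. -/
theorem comm_of_stable {Y : Subgroup G} (hY : IsPGroup p Y) {n : G}
    (hn : n ∈ normalizer (Y : Set G)) (hnp : (orderOf n).Coprime p)
    (hnp1 : (orderOf n).Coprime (p - 1)) {d : ℕ} (hd : 0 < d) (hDY : p ^ d < Nat.card Y)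
    (hE : ∀ E : Subgroup G, E ≤ Y → (Nat.card E = p ^ d ∨ (p ^ d = 2 ∧ Nat.card E = 4)) →
      n ∈ normalizer (E : Set G)) :
    ∀ y ∈ Y, n * y = y * n := by
  classical
  obtain ⟨e, m, hde, hme, hpm, hpm2, hesmall⟩ := exists_exponent (p := p) hd
  set S : Set G := {x | x ∈ Y ∧ x ^ p ^ e = 1} with hS
  set T := closure S with hT
  have hTY : T ≤ Y := (closure_le _).mpr fun x hx => hx.1
  have hTp : IsPGroup p T := hY.to_le hTY
  have hSn : ∀ x ∈ S, n * x * n⁻¹ ∈ S := by
    intro x hx
    refine ⟨(mem_normalizer_iff.mp hn x).mp hx.1, ?_⟩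
    rw [conj_pow, hx.2]
    group
  have hTn : n ∈ normalizer (T : Set G) := by
    apply mem_normalizer_of_conj_mem
    intro q hq
    induction hq using closure_induction with
    | mem x hx => exact subset_closure (hSn x hx)
    | one => simp
    | mul x y _ _ hx hy =>
      have : n * (x * y) * n⁻¹ = (n * x * n⁻¹) * (n * y * n⁻¹) := by group
      rw [this]
      exact mul_mem hx hy
    | inv x _ hx =>
      have : n * x⁻¹ * n⁻¹ = (n * x * n⁻¹)⁻¹ := by group
      rw [this]
      exact inv_mem hx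
  have hT1 : conjAut T n hTn = 1 := by
    by_cases hcyc : IsCyclic T
    · exact comm_of_isCyclic hTp hcyc hTn hnp hnp1
    -- `T` has more than `p ^ d` elements
    have hcard : p ^ d < Nat.card T := by
      by_cases hTY' : T = Y
      · rw [hTY']; exact hDY
      obtain ⟨z, hzY, hzT⟩ := SetLike.exists_of_lt (lt_of_le_of_ne hTY hTY')
      obtain ⟨a, ha⟩ := IsPGroup.iff_orderOf.mp hY ⟨z, hzY⟩
      have hza : orderOf z = p ^ a := by rw [← ha, Subgroup.orderOf_mk]
      have hea : e < a := by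
        by_contra hlt
        have : z ^ p ^ e = 1 := by
          rw [← orderOf_dvd_iff_pow_eq_one, hza]
          exact pow_dvd_pow p (by omega)
        exact hzT (subset_closure ⟨hzY, this⟩)
      set z' := z ^ p ^ (a - e) with hz'
      have hoz' : orderOf z' = p ^ e := by
        rw [hz', orderOf_pow_of_dvd (pow_pos hp.out.pos _).ne'
          (by rw [hza]; exact pow_dvd_pow p (by omega)), hza]
        have e1 : p ^ a = p ^ (a - e) * p ^ e := by
          rw [← pow_add]
          congr 1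
          omega
        rw [e1]
        exact Nat.mul_div_cancel_left _ (pow_pos hp.out.pos _)
      have hz'S : z' ∈ S :=
        ⟨pow_mem hzY _, by rw [← hoz']; exact pow_orderOf_eq_one z'⟩
      have hle : zpowers z' ≤ T := (zpowers_le).mpr (subset_closure hz'S)
      have hcz : Nat.card (zpowers z') = p ^ e := by rw [Nat.card_zpowers, hoz']
      have h1 : p ^ e ≤ Nat.card T := by
        rw [← hcz]
        exact Nat.le_of_dvd Nat.card_pos (Subgroup.card_dvd_of_le hle)
      have h2 : p ^ d ≤ p ^ e := Nat.pow_le_pow_right hp.out.pos hde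
      by_contra hlt
      have h3 : Nat.card T = p ^ e := by omega
      apply hcyc
      have h4 : zpowers z' = T := Subgroup.eq_of_le_of_card_ge hle (by rw [h3, hcz])
      rw [← h4]
      infer_instance
    apply conjAut_eq_one_of_coatom hT.symm hTp hTn hnp hnp1
    intro w hw M hM hwM
    have hα : ((conjAut T n hTn w : T) : G) = n * w * n⁻¹ := rfl
    set B := M.map T.subtype with hB
    have hwB : (w : G) ∈ B := ⟨w, hwM, rfl⟩
    have hBT : B ≤ T := map_subtype_le _
    have hBY : B ≤ Y := hBT.trans hTY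
    suffices h : (n * w * n⁻¹ : G) ∈ B by
      obtain ⟨x, hx, hxe⟩ := h
      have : conjAut T n hTn w = x := Subtype.ext (by rw [hα]; exact hxe.symm)
      rw [this]
      exact hx
    -- the order of `B`
    have hBcard : p * Nat.card B = Nat.card T := by
      have h1 : M.index = p := index_eq_of_isCoatom hTp hM
      have h2 := Subgroup.card_mul_index M
      rw [h1] at h2
      rw [hB, Subgroup.card_map_of_injective T.subtype_injective, mul_comm]
      exact h2
    obtain ⟨t, ht⟩ := IsPGroup.iff_card.mp hTp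
    have hBcard' : p ^ d ∣ Nat.card B := by
      have hdt : d < t := by
        rw [ht] at hcard
        exact (Nat.pow_lt_pow_iff_right hp.out.one_lt).mp hcard
      have h1 : Nat.card B = p ^ (t - 1) := by
        apply Nat.eq_of_mul_eq_mul_left hp.out.pos
        rw [hBcard, ht, ← pow_succ']
        congr 1
        omega
      rw [h1]
      exact pow_dvd_pow p (by omega)
    obtain ⟨a, ha⟩ := IsPGroup.iff_orderOf.mp hTp w
    have hwa : orderOf (w : G) = p ^ a := by rw [← ha, Subgroup.orderOf_coe]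
    have hae : a ≤ e := by
      have h1 : orderOf (w : G) ∣ p ^ e := orderOf_dvd_of_pow_eq_one hw.2
      rw [hwa] at h1
      exact (Nat.pow_dvd_pow_iff_le_right hp.out.one_lt).mp h1
    rcases hesmall a hae with had | ⟨h2, ha2⟩
    · -- an intermediate subgroup of order `p ^ d`
      have hA : Nat.card (zpowers (w : G)) = p ^ a := by rw [Nat.card_zpowers, hwa]
      obtain ⟨E, hAE, hEB, hEc⟩ := exists_between_card ((zpowers_le).mpr hwB) hA had hBcard'
      have hnE := hE E (hEB.trans hBY) (Or.inl hEc)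
      exact hEB ((mem_normalizer_iff.mp hnE w).mp (hAE (mem_zpowers _)))
    · -- a cyclic subgroup of order `4`
      have hp2 : p = 2 := by
        have := (Nat.prime_dvd_prime_iff_eq hp.out Nat.prime_two).mp
          (h2 ▸ dvd_pow_self p hd.ne')
        exact this
      have hA : Nat.card (zpowers (w : G)) = 4 := by
        rw [Nat.card_zpowers, hwa, ha2, hp2]
        norm_num
      have hnE := hE (zpowers (w : G)) ((zpowers_le).mpr (hBY hwB)) (Or.inr ⟨h2, hA⟩)
      have h3 := (mem_normalizer_iff.mp hnE w).mp (mem_zpowers _)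
      exact ((zpowers_le).mpr hwB) h3
  -- from `T` to `Y`
  have hfix : ∀ x ∈ S, n * x * n⁻¹ = x := by
    intro x hx
    have h1 := congrArg (fun φ : MulAut T => ((φ ⟨x, subset_closure hx⟩ : T) : G)) hT1
    exact h1
  have hY1 : conjAut Y n hn = 1 := by
    refine Cfsg.Agent.Lib.PGroup.Critical.coprime_aut_eq_one_of_fixes hY _
      (Nat.Coprime.coprime_dvd_left (orderOf_conjAut_dvd Y n hn) hnp) hpm hpm2 ?_
    intro x hx
    apply Subtype.ext
    rw [conjAut_apply_coe]
    apply hfix
    refine ⟨x.2, ?_⟩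
    obtain ⟨c, hc⟩ := hme
    rw [hc, pow_mul]
    have : (x : G) ^ m = 1 := by
      have := congrArg (fun y : Y => (y : G)) hx
      simpa using this
    rw [this, one_pow]
  intro y hy
  have h1 := congrArg (fun φ : MulAut Y => ((φ ⟨y, hy⟩ : Y) : G)) hY1
  have h2 : n * y * n⁻¹ = y := h1
  calc n * y = n * y * n⁻¹ * n := by group
    _ = y * n := by rw [h2]

end Cfsg.Agent.Lib.Transfer.AutSmall
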