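import Mathlib
import Cfsg.Prelude.Def_LocalEven
import Cfsg.Agent.Lib.Transfer.FunctorComplement

set_option autoImplicit false
universe u
open Cfsg

namespace Cfsg.Agent.Lib.Transfer.ControlLocal

open Subgroup Cfsg.Agent.Lib.Basic.PCore Cfsg.Agent.Lib.Transfer.FunctorComplement

variable {p : ℕ} [hp : Fact p.Prime] {W : ∀ (Q : Type u) [Group Q], Subgroup Q}

/-- Control of strong fusion forces `W(T)` for a maximal Sylow `T` in a constrained group to be normal. -/
theorem normal_of_control (hW : IsCharPFunctor.{u} p W) {X : Type u} [Group X] [Finite X]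
    (hc : centralizer ((pCore p X : Subgroup X) : Set X) ≤ pCore p X)
    (T : Sylow p X) (hT : IsCoatom (T : Subgroup X))
    (hctl : ControlsStrongFusion p (inducedFunctor W (T : Subgroup X))) :
    (inducedFunctor W (T : Subgroup X)).Normal := by
  obtain ⟨T', hU, hcf⟩ := hctl
  have hTN : (T : Subgroup X) ≤ normalizer (inducedFunctor W (T : Subgroup X) : Set X) :=
    le_normalizer.trans (normalizer_le_iW hW T.isPGroup')
  rw [← Subgroup.normalizer_eq_top_iff]
  by_contra hne
  have hNT : normalizer (inducedFunctor W (T : Subgroup X) : Set X) = (T : Subgroup X) :=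
    (hTN.eq_or_lt.resolve_right (fun h => hne (hT.2 _ h))).symm
  apply hT.1
  rw [eq_top_iff]
  intro g _
  have hQ : ((pCore p X : Subgroup X) : Set X) ⊆ (T' : Subgroup X) :=
    pCore_le_sylow (p := p) T'
  obtain ⟨x, hx, hxa⟩ := (hcf _ hQ).2 g (by
    rintro _ ⟨a, ha, rfl⟩
    exact hQ ((pCore_normal p X).conj_mem a ha g))
  rw [hNT] at hx
  have hm : x⁻¹ * g ∈ centralizer ((pCore p X : Subgroup X) : Set X) := by
    rw [Subgroup.mem_centralizer_iff]
    intro a ha
    have h1 := hxa a ha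
    have h2 : x⁻¹ * g * a * (x⁻¹ * g)⁻¹ = a := by
      calc x⁻¹ * g * a * (x⁻¹ * g)⁻¹ = x⁻¹ * (g * a * g⁻¹) * x := by group
        _ = x⁻¹ * (x * a * x⁻¹) * x := by rw [h1]
        _ = a := by group
    calc a * (x⁻¹ * g) = (x⁻¹ * g * a * (x⁻¹ * g)⁻¹) * (x⁻¹ * g) := by rw [h2]
      _ = x⁻¹ * g * a := by group
  have hm2 : x⁻¹ * g ∈ (T : Subgroup X) := pCore_le_sylow (p := p) T (hc hm)
  have : g = x * (x⁻¹ * g) := by group
  rw [this]
  exact mul_mem hx hm2

end Cfsg.Agent.Lib.Transfer.ControlLocal
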