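import Mathlib
import Cfsg.Agent.Lib.Solvable.AxB
import Cfsg.Agent.Lib.Coprime.InvSylow
import Cfsg.Agent.Lib.Solvable.PSeries
import Cfsg.Agent.Lib.Components.Fitting
import Cfsg.Agent.Lib.Nilpotent.Fitting

/-!
# Control of `q'`-cores under a coprime action

Centralizers of `q`-elements and `q'`-cores: with `O_{q'}(H) = 1` and `K ⊴ H` solvable, a
`q'`-subgroup normal in the centralizer of a `q`-element centralizes `F(K) = O_q(K)`.
-/

set_option autoImplicit false
set_option linter.style.haveILetI false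
set_option linter.unusedVariables false
set_option linter.unusedSectionVars false

namespace Cfsg.Agent.Lib.Transfer.CoreControl

open Subgroup
open scoped commutatorElement

variable {Γ : Type*} [Group Γ] [Finite Γ]

/-- Fixed points in a coset for a `q`-group of automorphisms induced by conjugation. -/
theorem exists_fixed_mul_of_pgroup {q : ℕ} [hq : Fact q.Prime] {A N : Subgroup Γ}
    (hA : IsPGroup q A) (hAN : ∀ a ∈ A, ∀ n ∈ N, a * n * a⁻¹ ∈ N) (hN : ¬ q ∣ Nat.card N) {t : Γ}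
    (ht : ∀ a ∈ A, t⁻¹ * (a * t * a⁻¹) ∈ N) : ∃ n ∈ N, ∀ a ∈ A, a * (t * n) * a⁻¹ = t * n := by
  classical
  letI act : MulAction A N :=
    { smul := fun a n => ⟨t⁻¹ * ((a : Γ) * (t * n) * (a : Γ)⁻¹), by
        have e : t⁻¹ * ((a : Γ) * (t * (n : Γ)) * (a : Γ)⁻¹) =
            (t⁻¹ * ((a : Γ) * t * (a : Γ)⁻¹)) * ((a : Γ) * n * (a : Γ)⁻¹) := by group
        rw [e]
        exact mul_mem (ht a a.2) (hAN a a.2 n n.2)⟩
      one_smul := fun n => by
        apply Subtype.ext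
        change t⁻¹ * (((1 : A) : Γ) * (t * (n : Γ)) * ((1 : A) : Γ)⁻¹) = n
        simp
      mul_smul := fun a b n => by
        apply Subtype.ext
        change t⁻¹ * (((a * b : A) : Γ) * (t * (n : Γ)) * ((a * b : A) : Γ)⁻¹) =
          t⁻¹ * ((a : Γ) * (t * (t⁻¹ * ((b : Γ) * (t * (n : Γ)) * (b : Γ)⁻¹))) * (a : Γ)⁻¹)
        simp only [Subgroup.coe_mul]
        group }
  obtain ⟨n, hn⟩ := hA.nonempty_fixed_point_of_prime_not_dvd_card N hN
  refine ⟨n, n.2, ?_⟩
  intro a ha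
  have h1 := congrArg Subtype.val (hn ⟨a, ha⟩)
  change t⁻¹ * (a * (t * (n : Γ)) * a⁻¹) = n at h1
  calc a * (t * (n : Γ)) * a⁻¹ = t * (t⁻¹ * (a * (t * (n : Γ)) * a⁻¹)) := by group
    _ = t * n := by rw [h1]

section core

variable (q : ℕ) [hq : Fact q.Prime] (K : Subgroup Γ) [hKn : K.Normal]

/-- The `q`-core of `K` as a subgroup of the ambient group. -/
noncomputable def qCoreOf : Subgroup Γ := (Cfsg.pCore q K).map K.subtype

theorem qCoreOf_normal : (qCoreOf q K).Normal := by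
  haveI := Cfsg.Agent.Lib.Basic.PCore.pCore_char q K
  exact Cfsg.Agent.Lib.Basic.PCore.map_subtype_normal_of_characteristic _

theorem qCoreOf_isP : IsPGroup q (qCoreOf q K) :=
  (Cfsg.Agent.Lib.Basic.PCore.pCore_isPGroup q (G := K)).map _

theorem qCoreOf_le : qCoreOf q K ≤ K := Subgroup.map_subtype_le _

variable {q K} {H : Subgroup Γ}

theorem coprime_of_isP {q r : ℕ} {N : Subgroup Γ} [Fact q.Prime] [Fact r.Prime] (hr : r ≠ q)
    (h : IsPGroup r N) : (Nat.card N).Coprime q := by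
  obtain ⟨k, hk⟩ := IsPGroup.iff_card.mp h
  rw [hk]
  exact Nat.Coprime.pow_left k ((Nat.coprime_primes (Fact.out) (Fact.out)).mpr hr)

/-- `C_K(O_q(K)) ≤ O_q(K)` if `O_{q'}(H) = 1`. -/
theorem mem_qCoreOf_of_commute [hKs : Group.IsSolvable K] (hKH : K ≤ H)
    (hO : ∀ N : Subgroup Γ, N ≤ H → (∀ h ∈ H, ∀ n ∈ N, h * n * h⁻¹ ∈ N) →
      (Nat.card N).Coprime q → N = ⊥) {t : Γ} (ht : t ∈ K)
    (hc : ∀ u ∈ qCoreOf q K, t * u = u * t) : t ∈ qCoreOf q K := by
  have hF : Cfsg.fittingSubgroup K ≤ Cfsg.pCore q K := by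
    rw [Cfsg.Agent.Lib.Nilpotent.Fitting.fittingSubgroup_eq_iSup_primes]
    apply iSup_le
    rintro ⟨r, hr⟩
    by_cases hrq : r = q
    · subst hrq; exact le_rfl
    · haveI : Fact r.Prime := ⟨hr⟩
      haveI := Cfsg.Agent.Lib.Basic.PCore.pCore_char r K
      have hn : ((Cfsg.pCore r K).map K.subtype).Normal :=
        Cfsg.Agent.Lib.Basic.PCore.map_subtype_normal_of_characteristic _
      have hbot := hO _ ((Subgroup.map_subtype_le _).trans hKH)
        (fun h _ n hn' => hn.conj_mem n hn' h)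
        (coprime_of_isP hrq ((Cfsg.Agent.Lib.Basic.PCore.pCore_isPGroup r (G := K)).map _))
      have h2 : Cfsg.pCore r K = ⊥ :=
        (Subgroup.map_eq_bot_iff_of_injective _ K.subtype_injective).mp hbot
      change Cfsg.pCore r K ≤ _
      rw [h2]; exact bot_le
  have hle : Subgroup.centralizer (Cfsg.fittingSubgroup K : Set K) ≤ Cfsg.fittingSubgroup K := by
    refine Cfsg.Agent.Lib.Components.Fitting.le_fitting_of_solvable_of_le_centralizer _ le_rfl ?_
      inferInstance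
    exact Subgroup.le_normalizer
  have h1 : (⟨t, ht⟩ : K) ∈ Cfsg.fittingSubgroup K := by
    apply hle
    rw [Subgroup.mem_centralizer_iff]
    intro u hu
    apply Subtype.ext
    exact (hc u ⟨u, hF hu, rfl⟩).symm
  exact ⟨⟨t, ht⟩, hF h1, rfl⟩

/-- Part one: a `q'`-subgroup normal in the centraliser of a `q`-element centralises `O_q(K)`. -/
theorem commute_qCoreOf (hKH : K ≤ H) {D : Subgroup Γ} {z : Γ} (hz : IsPGroup q (zpowers z))
    (hDH : D ≤ H) (hDq : (Nat.card D).Coprime q) (hDz : ∀ d ∈ D, d * z = z * d)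
    (hDn : ∀ x ∈ H, x * z = z * x → ∀ d ∈ D, x * d * x⁻¹ ∈ D) {d u : Γ} (hd : d ∈ D)
    (hu : u ∈ qCoreOf q K) : d * u = u * d := by
  have hQn := qCoreOf_normal q K
  have hQle := (qCoreOf_le q K).trans hKH
  have hDQ : ∀ t ∈ D, t ∈ qCoreOf q K → t = 1 := by
    intro t ht ht'
    have h1 : orderOf t ∣ Nat.card D := Subgroup.orderOf_dvd_natCard D ht
    obtain ⟨k, hk⟩ := IsPGroup.iff_orderOf.mp (qCoreOf_isP q K) ⟨t, ht'⟩
    rw [Subgroup.orderOf_mk] at hk
    have h2 : (orderOf t).Coprime q := Nat.Coprime.coprime_dvd_left h1 hDq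
    rw [hk] at h2
    by_cases hk0 : k = 0
    · rw [hk0, pow_zero] at hk
      exact orderOf_eq_one_iff.mp hk
    · exfalso
      have h3 := Nat.Coprime.coprime_dvd_left (dvd_pow_self q hk0) h2
      exact (Fact.out : q.Prime).one_lt.ne' ((Nat.coprime_self q).mp h3)
  have hmain : qCoreOf q K ≤ centralizer (D : Set Γ) := by
    refine Cfsg.Agent.Lib.Solvable.AxB.ab_lemma (p := q) (A := D) (B := zpowers z)
      (qCoreOf_isP q K) hz hDq ?_ ?_ ?_ ?_
    · intro d' hd'
      rw [mem_centralizer_iff]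
      intro y hy
      obtain ⟨k, rfl⟩ := mem_zpowers_iff.mp hy
      exact (Commute.zpow_left (show Commute z d' from (hDz d' hd').symm) k)
    · rw [normalizer_eq_top_iff.mpr hQn]; exact le_top
    · rw [normalizer_eq_top_iff.mpr hQn]; exact le_top
    · rintro x ⟨hx, hxz⟩
      rw [mem_centralizer_iff]
      intro d' hd'
      have hxz' : z * x = x * z := (mem_centralizer_iff.mp hxz) z (mem_zpowers z)
      have h1 : x * d' * x⁻¹ ∈ D := hDn x (hQle hx) hxz'.symm d' hd'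
      have h2 : ⁅x, d'⁆ ∈ D := by
        rw [commutatorElement_def]; exact mul_mem h1 (inv_mem hd')
      have h3 : ⁅x, d'⁆ ∈ qCoreOf q K := by
        rw [commutatorElement_def]
        have e : x * d' * x⁻¹ * d'⁻¹ = x * (d' * x⁻¹ * d'⁻¹) := by group
        rw [e]
        exact mul_mem hx (hQn.conj_mem _ (inv_mem hx) d')
      exact (commutatorElement_eq_one_iff_mul_comm.mp (hDQ _ h2 h3)).symm
  exact (mem_centralizer_iff.mp (hmain hu)) d hd

/-- Part one, continued. -/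
theorem inf_K_eq_bot [Group.IsSolvable K] (hKH : K ≤ H)
    (hO : ∀ N : Subgroup Γ, N ≤ H → (∀ h ∈ H, ∀ n ∈ N, h * n * h⁻¹ ∈ N) →
      (Nat.card N).Coprime q → N = ⊥)
    {D : Subgroup Γ} {z : Γ} (hz : IsPGroup q (zpowers z))
    (hDH : D ≤ H) (hDq : (Nat.card D).Coprime q) (hDz : ∀ d ∈ D, d * z = z * d)
    (hDn : ∀ x ∈ H, x * z = z * x → ∀ d ∈ D, x * d * x⁻¹ ∈ D) : D ⊓ K = ⊥ := by
  rw [eq_bot_iff]
  rintro t ⟨ht, htK⟩
  have h1 := mem_qCoreOf_of_commute hKH hO htK
    (fun u hu => commute_qCoreOf hKH hz hDH hDq hDz hDn ht hu)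
  rw [mem_bot]
  have h2 : orderOf t ∣ Nat.card D := Subgroup.orderOf_dvd_natCard D ht
  obtain ⟨k, hk⟩ := IsPGroup.iff_orderOf.mp (qCoreOf_isP q K) ⟨t, h1⟩
  rw [Subgroup.orderOf_mk] at hk
  have h3 : (orderOf t).Coprime q := Nat.Coprime.coprime_dvd_left h2 hDq
  rw [hk] at h3
  by_cases hk0 : k = 0
  · rw [hk0, pow_zero] at hk
    exact orderOf_eq_one_iff.mp hk
  · exfalso
    have h4 := Nat.Coprime.coprime_dvd_left (dvd_pow_self q hk0) h3
    exact (Fact.out : q.Prime).one_lt.ne' ((Nat.coprime_self q).mp h4)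

/-- Part two. -/
theorem inf_L_eq_bot [Group.IsSolvable K] (hKH : K ≤ H)
    (hO : ∀ N : Subgroup Γ, N ≤ H → (∀ h ∈ H, ∀ n ∈ N, h * n * h⁻¹ ∈ N) →
      (Nat.card N).Coprime q → N = ⊥)
    {C L : Subgroup Γ} (hCH : C ≤ H) (hLH : L ≤ H) (hLq : (Nat.card L).Coprime q)
    (hCn : ∀ c ∈ C, ∀ l ∈ L, c * l * c⁻¹ ∈ L) (hsup : ∀ h ∈ H, ∃ c ∈ C, ∃ k ∈ K, h = c * k)
    [hHn : H.Normal] :
    L ⊓ centralizer (qCoreOf q K : Set Γ) = ⊥ := by
  have hQn := qCoreOf_normal q K
  set Q := qCoreOf q K with hQ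
  have hZ : (centralizer (Q : Set Γ)).Normal := inferInstance
  apply hO
  · exact inf_le_left.trans hLH
  · rintro h hh n ⟨hn, hnc⟩
    obtain ⟨c, hc, k, hk, rfl⟩ := hsup h hh
    have hcom : ∀ a ∈ L ⊓ centralizer (Q : Set Γ), ∀ k ∈ K, a * k = k * a := by
      rintro a ⟨ha, hac⟩ k hk
      have hu : ⁅a, k⁆ ∈ Q := by
        apply mem_qCoreOf_of_commute hKH hO
        · rw [commutatorElement_def]
          exact mul_mem (hKn.conj_mem _ hk a) (inv_mem hk)
        · intro u hu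
          have h1 : ⁅a, k⁆ ∈ centralizer (Q : Set Γ) := by
            rw [commutatorElement_def]
            have e : a * k * a⁻¹ * k⁻¹ = a * (k * a⁻¹ * k⁻¹) := by group
            rw [e]
            exact mul_mem hac (hZ.conj_mem _ (inv_mem hac) k)
          exact ((mem_centralizer_iff.mp h1) u hu).symm
      have hau : a * ⁅a, k⁆ * a⁻¹ = ⁅a, k⁆ := by
        have := (mem_centralizer_iff.mp hac) _ hu
        rw [← this]; group
      have hak : a * k * a⁻¹ = ⁅a, k⁆ * k := by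
        rw [commutatorElement_def]; group
      have hn : ∀ m : ℕ, a ^ m * k * (a ^ m)⁻¹ = ⁅a, k⁆ ^ m * k := by
        intro m
        induction m with
        | zero => simp
        | succ m ih =>
          have h1 : a * ⁅a, k⁆ ^ m * a⁻¹ = ⁅a, k⁆ ^ m := by rw [← conj_pow, hau]
          calc a ^ (m + 1) * k * (a ^ (m + 1))⁻¹ = a * (a ^ m * k * (a ^ m)⁻¹) * a⁻¹ := by
                rw [pow_succ']; group
            _ = (a * ⁅a, k⁆ ^ m * a⁻¹) * (a * k * a⁻¹) := by rw [ih]; group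
            _ = ⁅a, k⁆ ^ m * (⁅a, k⁆ * k) := by rw [h1, hak]
            _ = ⁅a, k⁆ ^ (m + 1) * k := by rw [pow_succ, mul_assoc]
      have h2 := hn (orderOf a)
      rw [pow_orderOf_eq_one] at h2
      simp only [one_mul, inv_one, mul_one] at h2
      have h3 : ⁅a, k⁆ ^ orderOf a = 1 := by
        have : ⁅a, k⁆ ^ orderOf a * k = 1 * k := by rw [one_mul]; exact h2.symm
        exact mul_right_cancel this
      have h4 : orderOf ⁅a, k⁆ ∣ orderOf a := orderOf_dvd_of_pow_eq_one h3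
      have h5 : (orderOf a).Coprime q :=
        Nat.Coprime.coprime_dvd_left (Subgroup.orderOf_dvd_natCard L ha) hLq
      obtain ⟨k', hk'⟩ := IsPGroup.iff_orderOf.mp (qCoreOf_isP q K) ⟨_, hu⟩
      rw [Subgroup.orderOf_mk] at hk'
      have h6 : (orderOf ⁅a, k⁆).Coprime q := Nat.Coprime.coprime_dvd_left h4 h5
      rw [hk'] at h6
      have h7 : ⁅a, k⁆ = 1 := by
        by_cases hk0 : k' = 0
        · rw [hk0, pow_zero] at hk'
          exact orderOf_eq_one_iff.mp hk'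
        · exfalso
          have h8 := Nat.Coprime.coprime_dvd_left (dvd_pow_self q hk0) h6
          exact (Fact.out : q.Prime).one_lt.ne' ((Nat.coprime_self q).mp h8)
      exact commutatorElement_eq_one_iff_mul_comm.mp h7
    have hcn : c * n * c⁻¹ ∈ L ⊓ centralizer (Q : Set Γ) :=
      Subgroup.mem_inf.mpr ⟨hCn c hc n hn, hZ.conj_mem _ hnc c⟩
    have e : c * k * n * (c * k)⁻¹ = c * n * c⁻¹ := by
      have h1 := hcom n ⟨hn, hnc⟩ k hk
      calc c * k * n * (c * k)⁻¹ = c * (k * n) * k⁻¹ * c⁻¹ := by group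
        _ = c * (n * k) * k⁻¹ * c⁻¹ := by rw [h1]
        _ = _ := by group
    rw [e]
    exact hcn
  · exact Nat.Coprime.coprime_dvd_left (Subgroup.card_dvd_of_le inf_le_left) hLq

end core

end Cfsg.Agent.Lib.Transfer.CoreControl
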