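import Mathlib
import Cfsg.Agent.Lib.Coprime.InvSylow
import Cfsg.Agent.Lib.PGroup.Basic

/-!
# Fixed points of a coprime automorphism of prime order in commutator subgroups

Basic calculus for an automorphism `x` with `x ^ p = 1` of a finite group of order prime to `p`:
the subgroups `[h, x]`, `[B, x]`, fixed points and the passage to invariant subgroups and quotients.
-/

set_option autoImplicit false
set_option linter.style.haveILetI false
set_option linter.unusedVariables false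

namespace Cfsg.Agent.Lib.Transfer.FixedComm

open Subgroup
open scoped commutatorElement

universe u

variable {H : Type u} [Group H]

/-- Fixed points of an automorphism. -/
def Fx (x : MulAut H) : Subgroup H := (x : H →* H).eqLocus (MonoidHom.id H)

theorem mem_Fx {x : MulAut H} {g : H} : g ∈ Fx x ↔ x g = g := Iff.rfl

/-- `[h, x]`. -/
def Yy (x : MulAut H) (h : H) : Subgroup H := closure {c : H | ∃ i : ℕ, c = h⁻¹ * (x ^ i) h}

/-- `[B, x]`. -/
def Cm (x : MulAut H) (B : Subgroup H) : Subgroup H :=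
  closure {c : H | ∃ b ∈ B, ∃ i : ℕ, c = b⁻¹ * (x ^ i) b}

/-- The subgroup generated by fixed points of all the `[h, x]`. -/
def Rg (x : MulAut H) : Subgroup H := ⨆ h : H, Yy x h ⊓ Fx x

/-- `x`-invariance. -/
def XInv (x : MulAut H) (D : Subgroup H) : Prop := ∀ g ∈ D, x g ∈ D

theorem pow_succ_apply (x : MulAut H) (i : ℕ) (g : H) : (x ^ (i + 1)) g = x ((x ^ i) g) := by
  rw [pow_succ', MulAut.mul_apply]

theorem pow_succ_apply' (x : MulAut H) (i : ℕ) (g : H) : (x ^ (i + 1)) g = (x ^ i) (x g) := by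
  rw [pow_succ, MulAut.mul_apply]

theorem XInv.pow {x : MulAut H} {D : Subgroup H} (hD : XInv x D) {g : H} (hg : g ∈ D) (i : ℕ) :
    (x ^ i) g ∈ D := by
  induction i with
  | zero => simpa using hg
  | succ i ih => rw [pow_succ_apply]; exact hD _ ih

theorem xinv_top (x : MulAut H) : XInv x ⊤ := fun _ _ => mem_top _

theorem xinv_bot (x : MulAut H) : XInv x ⊥ := fun g hg => by
  rw [mem_bot] at hg ⊢; rw [hg, map_one]

theorem xinv_Fx (x : MulAut H) : XInv x (Fx x) := fun g hg => by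
  rw [mem_Fx] at hg ⊢; rw [hg, hg]

theorem XInv.inf {x : MulAut H} {A B : Subgroup H} (hA : XInv x A) (hB : XInv x B) :
    XInv x (A ⊓ B) := fun g hg => ⟨hA g hg.1, hB g hg.2⟩

theorem XInv.sup {x : MulAut H} {A B : Subgroup H} (hA : XInv x A) (hB : XInv x B) :
    XInv x (A ⊔ B) := by
  intro g hg
  have h : A ⊔ B ≤ (A ⊔ B).comap (x : H →* H) := by
    apply sup_le
    · intro a ha; exact (le_sup_left : A ≤ A ⊔ B) (hA a ha)
    · intro a ha; exact (le_sup_right : B ≤ A ⊔ B) (hB a ha)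
  exact h hg

theorem XInv.commutator {x : MulAut H} {A B : Subgroup H} (hA : XInv x A) (hB : XInv x B) :
    XInv x ⁅A, B⁆ := by
  intro g hg
  have h : ⁅A, B⁆ ≤ (⁅A, B⁆ : Subgroup H).comap (x : H →* H) := by
    rw [commutator_le]
    intro a ha b hb
    change x ⁅a, b⁆ ∈ (⁅A, B⁆ : Subgroup H)
    rw [map_commutatorElement]
    exact commutator_mem_commutator (hA a ha) (hB b hb)
  exact h hg

theorem xinv_iSup {ι : Sort*} {x : MulAut H} {A : ι → Subgroup H} (hA : ∀ i, XInv x (A i)) :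
    XInv x (⨆ i, A i) := by
  intro g hg
  have h : (⨆ i, A i) ≤ (⨆ i, A i).comap (x : H →* H) := by
    apply iSup_le
    intro i a ha
    exact (le_iSup A i) (hA i a ha)
  exact h hg

theorem xinv_Yy (x : MulAut H) (h : H) : XInv x (Yy x h) := by
  intro g hg
  have hle : Yy x h ≤ (Yy x h).comap (x : H →* H) := by
    rw [Yy, closure_le]
    rintro _ ⟨i, rfl⟩
    change x (h⁻¹ * (x ^ i) h) ∈ Yy x h
    have e : x (h⁻¹ * (x ^ i) h) = (h⁻¹ * (x ^ 1) h)⁻¹ * (h⁻¹ * (x ^ (i + 1)) h) := by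
      rw [pow_one, pow_succ_apply, map_mul, map_inv]
      group
    rw [e]
    exact mul_mem (inv_mem (subset_closure ⟨1, rfl⟩)) (subset_closure ⟨i + 1, rfl⟩)
  exact hle hg

theorem xinv_Cm (x : MulAut H) {B : Subgroup H} (hB : XInv x B) : XInv x (Cm x B) := by
  intro g hg
  have hle : Cm x B ≤ (Cm x B).comap (x : H →* H) := by
    rw [Cm, closure_le]
    rintro _ ⟨b, hb, i, rfl⟩
    change x (b⁻¹ * (x ^ i) b) ∈ Cm x B
    have e : x (b⁻¹ * (x ^ i) b) = (x b)⁻¹ * (x ^ i) (x b) := by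
      rw [map_mul, map_inv, ← pow_succ_apply, pow_succ_apply']
    rw [e]
    exact subset_closure ⟨x b, hB b hb, i, rfl⟩
  exact hle hg

theorem Cm_mono (x : MulAut H) {A B : Subgroup H} (h : A ≤ B) : Cm x A ≤ Cm x B := by
  apply Subgroup.closure_mono
  rintro _ ⟨b, hb, i, rfl⟩
  exact ⟨b, h hb, i, rfl⟩

theorem Cm_le {x : MulAut H} {B : Subgroup H} (hB : XInv x B) : Cm x B ≤ B := by
  rw [Cm, closure_le]
  rintro _ ⟨b, hb, i, rfl⟩
  exact mul_mem (inv_mem hb) (hB.pow hb i)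

theorem Yy_le_of_mem {x : MulAut H} {B : Subgroup H} {y : H} (hy : y ∈ B) : Yy x y ≤ Cm x B := by
  apply Subgroup.closure_mono
  rintro _ ⟨i, rfl⟩
  exact ⟨y, hy, i, rfl⟩

theorem Yy_le_Rg_of_fixed {x : MulAut H} {y g : H} (hg : g ∈ Yy x y) (hf : g ∈ Fx x) : g ∈ Rg x :=
  (le_iSup (fun h : H => Yy x h ⊓ Fx x) y) ⟨hg, hf⟩

/-- `[B, x]` is normalised by `B`. -/
theorem Cm_conj {x : MulAut H} {B : Subgroup H} {b g : H} (hb : b ∈ B) (hg : g ∈ Cm x B) :
    b * g * b⁻¹ ∈ Cm x B := by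
  induction hg using closure_induction with
  | mem c hc =>
    obtain ⟨b₀, hb₀, i, rfl⟩ := hc
    have e : b * (b₀⁻¹ * (x ^ i) b₀) * b⁻¹ =
        ((b₀ * b⁻¹)⁻¹ * (x ^ i) (b₀ * b⁻¹)) * ((b⁻¹)⁻¹ * (x ^ i) (b⁻¹))⁻¹ := by
      simp only [map_mul, map_inv]
      group
    rw [e]
    exact mul_mem (subset_closure ⟨_, mul_mem hb₀ (inv_mem hb), i, rfl⟩)
      (inv_mem (subset_closure ⟨_, inv_mem hb, i, rfl⟩))
  | one => simp [one_mem]
  | mul u v _ _ hu hv =>
    have e : b * (u * v) * b⁻¹ = (b * u * b⁻¹) * (b * v * b⁻¹) := by group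
    rw [e]; exact mul_mem hu hv
  | inv u _ hu =>
    have e : b * u⁻¹ * b⁻¹ = (b * u * b⁻¹)⁻¹ := by group
    rw [e]; exact inv_mem hu

section coprime

variable [Finite H] {p : ℕ} {x : MulAut H}

/-- `[y, x] = [[y, x], x]`. -/
theorem Yy_le_Cm (hxp : x ^ p = 1) (hcop : (Nat.card H).Coprime p) (y : H) :
    Yy x y ≤ Cm x (Yy x y) := by
  set Y := Yy x y with hY
  set K := Cm x Y with hK
  have hxY : XInv x Y := xinv_Yy x y
  set u : H := y⁻¹ * x y with hu
  have huY : u ∈ Y := subset_closure ⟨1, by rw [pow_one]⟩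
  have ha : ∀ e ∈ Y, e⁻¹ * x e ∈ K := fun e he => subset_closure ⟨e, he, 1, by rw [pow_one]⟩
  have hb : ∀ i : ℕ, ∃ k ∈ K, (x ^ i) u = u * k := by
    intro i
    induction i with
    | zero => exact ⟨1, one_mem _, by simp⟩
    | succ i ih =>
      obtain ⟨k, hk, e⟩ := ih
      refine ⟨k * ((x ^ i) u)⁻¹ * x ((x ^ i) u), ?_, ?_⟩
      · rw [mul_assoc]
        exact mul_mem hk (ha _ (hxY.pow huY i))
      · rw [pow_succ_apply]
        nth_rewrite 1 [← mul_inv_cancel_left ((x ^ i) u) (x ((x ^ i) u))]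
        nth_rewrite 1 [e]
        group
  have hc : ∀ i : ℕ, ∃ k ∈ K, y⁻¹ * (x ^ i) y = u ^ i * k := by
    intro i
    induction i with
    | zero => exact ⟨1, one_mem _, by simp⟩
    | succ i ih =>
      obtain ⟨k, hk, e⟩ := ih
      obtain ⟨k', hk', e'⟩ := hb i
      have hstep : y⁻¹ * (x ^ (i + 1)) y = (y⁻¹ * (x ^ i) y) * (x ^ i) u := by
        rw [hu, map_mul, map_inv, pow_succ_apply']
        group
      refine ⟨(u⁻¹ * k * (u⁻¹)⁻¹) * k', mul_mem (Cm_conj (inv_mem huY) hk) hk', ?_⟩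
      rw [hstep, e, e', pow_succ]
      group
  obtain ⟨k, hk, e⟩ := hc p
  have hup : u ^ p ∈ K := by
    have h1 : y⁻¹ * (x ^ p) y = 1 := by rw [hxp]; simp
    rw [h1] at e
    have : u ^ p = k⁻¹ := by
      rw [eq_inv_iff_mul_eq_one]; exact e.symm
    rw [this]; exact inv_mem hk
  have hcopu : (orderOf u).Coprime p :=
    Nat.Coprime.coprime_dvd_left (orderOf_dvd_natCard u) hcop
  obtain ⟨m, hm⟩ := exists_pow_eq_self_of_coprime hcopu.symm
  have huK : u ∈ K := by rw [← hm]; exact pow_mem hup m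
  rw [hY, Yy, closure_le]
  rintro _ ⟨i, rfl⟩
  obtain ⟨k₁, hk₁, e₁⟩ := hc i
  change y⁻¹ * (x ^ i) y ∈ K
  rw [e₁]
  exact mul_mem (pow_mem huK i) hk₁

theorem top_le_iSup_Yy (x : MulAut H) : Cm x ⊤ ≤ ⨆ y, Yy x y := by
  rw [Cm, closure_le]
  rintro _ ⟨b, -, i, rfl⟩
  exact (le_iSup (Yy x) b) (subset_closure ⟨i, rfl⟩)

/-- A fixed point in a coset. -/
theorem exists_fixed_coset [hp : Fact p.Prime] (hxp : x ^ p = 1) {E : Subgroup H} (hE : XInv x E)
    (hcop : ¬ p ∣ Nat.card E) {a : H} (ha : a⁻¹ * x a ∈ E) : ∃ e ∈ E, x (a * e) = a * e := by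
  classical
  haveI : Fintype E := Fintype.ofFinite E
  let f : E → E := fun e => ⟨a⁻¹ * x (a * e), by
    rw [map_mul, ← mul_assoc]
    exact mul_mem ha (hE _ e.2)⟩
  have hinj : Function.Injective f := by
    intro e₁ e₂ h
    have h' := congrArg Subtype.val h
    change a⁻¹ * x (a * e₁) = a⁻¹ * x (a * e₂) at h'
    have h2 := x.injective (mul_left_cancel h')
    exact Subtype.ext (mul_left_cancel h2)
  let σ : Equiv.Perm E := Equiv.ofBijective f (Finite.injective_iff_bijective.mp hinj)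
  have hσ : ∀ e : E, ((σ e : E) : H) = a⁻¹ * x (a * e) := fun e => rfl
  have hf : ∀ n : ℕ, ∀ e : E, (((σ ^ n) e : E) : H) = a⁻¹ * (x ^ n) (a * e) := by
    intro n
    induction n with
    | zero => intro e; simp
    | succ n ih =>
      intro e
      rw [pow_succ', Equiv.Perm.mul_apply, hσ, ih, pow_succ_apply]
      simp
  have hfp : σ ^ p ^ 1 = 1 := by
    rw [pow_one]
    ext e
    rw [hf, hxp]
    simp
  obtain ⟨e, he⟩ := Equiv.Perm.exists_fixed_point_of_prime (by
    rwa [← Nat.card_eq_fintype_card]) hfp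
  refine ⟨e, e.2, ?_⟩
  have h := congrArg Subtype.val he
  rw [hσ] at h
  calc x (a * e) = a * (a⁻¹ * x (a * e)) := by group
    _ = a * e := by rw [h]

/-- If `g ^ p` lies in `K` then so does `g`. -/
theorem mem_of_pow_mem (hcop : (Nat.card H).Coprime p) {K : Subgroup H} {g : H} (hg : g ^ p ∈ K) :
    g ∈ K := by
  have hcopu : (orderOf g).Coprime p :=
    Nat.Coprime.coprime_dvd_left (orderOf_dvd_natCard g) hcop
  obtain ⟨m, hm⟩ := exists_pow_eq_self_of_coprime hcopu.symm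
  rw [← hm]; exact pow_mem hg m

theorem not_dvd_card (hp : p.Prime) (hcop : (Nat.card H).Coprime p) (E : Subgroup H) :
    ¬ p ∣ Nat.card E := by
  intro h
  have h1 : p ∣ Nat.card H := h.trans (Subgroup.card_subgroup_dvd_card E)
  have h2 : p ∣ Nat.gcd (Nat.card H) p := Nat.dvd_gcd h1 dvd_rfl
  rw [hcop] at h2
  exact hp.one_lt.ne' (Nat.dvd_one.mp h2)

/-- Restriction of an automorphism to an invariant subgroup. -/
noncomputable def resAut (x : MulAut H) (B : Subgroup H) (hB : XInv x B) : MulAut B :=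
  MulEquiv.ofBijective
    (((x : H →* H).comp B.subtype).codRestrict B (fun b => hB b b.2))
    (Finite.injective_iff_bijective.mp (by
      intro a b h
      have := congrArg Subtype.val h
      exact Subtype.ext (x.injective this)))

theorem resAut_coe (B : Subgroup H) (hB : XInv x B) (b : B) :
    ((resAut x B hB b : B) : H) = x b := rfl

theorem resAut_pow_coe (B : Subgroup H) (hB : XInv x B) (i : ℕ) (b : B) :
    (((resAut x B hB) ^ i) b : B) = (x ^ i) (b : H) := by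
  induction i with
  | zero => simp
  | succ i ih => rw [pow_succ_apply, resAut_coe, ih, pow_succ_apply]

theorem resAut_pow (B : Subgroup H) (hB : XInv x B) (hxp : x ^ p = 1) : (resAut x B hB) ^ p = 1 := by
  ext b
  rw [resAut_pow_coe, hxp]
  simp

/-- Transfer to an invariant subgroup. -/
theorem ts_transfer (B : Subgroup H) (hB : XInv x B)
    (IH : Cm (resAut x B hB) ⊤ ⊓ Fx (resAut x B hB) ≤ Rg (resAut x B hB)) :
    Cm x B ⊓ Fx x ≤ Rg x := by
  set y := resAut x B hB with hy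
  have h1 : Cm x B ≤ (Cm y ⊤).map B.subtype := by
    rw [Cm, closure_le]
    rintro _ ⟨b, hb, i, rfl⟩
    refine ⟨(⟨b, hb⟩ : B)⁻¹ * (y ^ i) ⟨b, hb⟩, subset_closure ⟨⟨b, hb⟩, mem_top _, i, rfl⟩, ?_⟩
    simp only [map_mul, map_inv, coe_subtype, hy, resAut_pow_coe]
  have h2 : (Rg y).map B.subtype ≤ Rg x := by
    rw [Rg, Subgroup.map_iSup]
    apply iSup_le
    intro h
    rintro _ ⟨a, ⟨ha, hf⟩, rfl⟩
    refine Yy_le_Rg_of_fixed (y := (h : H)) ?_ ?_
    · have h3 : (Yy y h).map B.subtype ≤ Yy x (h : H) := by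
        rw [map_le_iff_le_comap, Yy, closure_le]
        rintro _ ⟨i, rfl⟩
        change ((h⁻¹ * (y ^ i) h : B) : H) ∈ Yy x (h : H)
        have e : ((h⁻¹ * (y ^ i) h : B) : H) = (h : H)⁻¹ * (x ^ i) (h : H) := by
          rw [Subgroup.coe_mul, Subgroup.coe_inv, hy, resAut_pow_coe]
        rw [e]
        exact subset_closure ⟨i, rfl⟩
      exact h3 ⟨a, ha, rfl⟩
    · have : y a = a := hf
      have h4 := congrArg Subtype.val this
      exact h4
  rintro g ⟨hg, hf⟩
  obtain ⟨a, ha, rfl⟩ := h1 hg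
  refine h2 ⟨a, IH ⟨ha, ?_⟩, rfl⟩
  apply Subtype.ext
  exact hf

/-- The automorphism induced on a quotient. -/
noncomputable def quoAut (x : MulAut H) (D : Subgroup H) [D.Normal] (hD : XInv x D) : MulAut (H ⧸ D) :=
  QuotientGroup.congr D D x (by
    apply Subgroup.eq_of_le_of_card_ge
    · rintro _ ⟨g, hg, rfl⟩; exact hD g hg
    · rw [Subgroup.card_map_of_injective x.injective])

theorem quoAut_mk (D : Subgroup H) [D.Normal] (hD : XInv x D) (g : H) :
    quoAut x D hD (QuotientGroup.mk g) = QuotientGroup.mk (x g) := rfl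

theorem quoAut_pow_mk (D : Subgroup H) [D.Normal] (hD : XInv x D) (i : ℕ) (g : H) :
    ((quoAut x D hD) ^ i) (QuotientGroup.mk g) = QuotientGroup.mk ((x ^ i) g) := by
  induction i with
  | zero => simp
  | succ i ih => rw [pow_succ_apply, ih, quoAut_mk, pow_succ_apply]

theorem quoAut_pow (D : Subgroup H) [D.Normal] (hD : XInv x D) (hxp : x ^ p = 1) :
    (quoAut x D hD) ^ p = 1 := by
  ext g
  induction g using QuotientGroup.induction_on with
  | H g =>
    rw [quoAut_pow_mk, hxp]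
    simp

theorem Rg_le_Fx (x : MulAut H) : Rg x ≤ Fx x := iSup_le fun _ => inf_le_right

/-- Transfer to a quotient. -/
theorem tq_transfer [hp : Fact p.Prime] (hxp : x ^ p = 1) (hcop : (Nat.card H).Coprime p)
    (D : Subgroup H) [D.Normal] (hD : XInv x D)
    (IH : Cm (quoAut x D hD) ⊤ ⊓ Fx (quoAut x D hD) ≤ Rg (quoAut x D hD))
    (htop : Cm x ⊤ = ⊤) {c : H} (hc : c ∈ Fx x) :
    ∃ r ∈ Rg x, ∃ d ∈ D ⊓ Fx x, c = r * d := by
  set y := quoAut x D hD with hy
  have hmk : ∀ g, (QuotientGroup.mk' D) g = (QuotientGroup.mk g : H ⧸ D) := fun _ => rfl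
  have h1 : (Cm x ⊤).map (QuotientGroup.mk' D) ≤ Cm y ⊤ := by
    rw [map_le_iff_le_comap, Cm, closure_le]
    rintro _ ⟨b, -, i, rfl⟩
    change (QuotientGroup.mk (b⁻¹ * (x ^ i) b) : H ⧸ D) ∈ Cm y ⊤
    have e : (QuotientGroup.mk (b⁻¹ * (x ^ i) b) : H ⧸ D) =
        (QuotientGroup.mk b : H ⧸ D)⁻¹ * (y ^ i) (QuotientGroup.mk b) := by
      rw [hy, quoAut_pow_mk]; rfl
    rw [e]
    exact subset_closure ⟨_, mem_top _, i, rfl⟩
  have h2 : Rg y ≤ (Rg x).map (QuotientGroup.mk' D) := by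
    apply iSup_le
    intro hq
    induction hq using QuotientGroup.induction_on with
    | H h =>
    rintro e ⟨he, hf⟩
    have h3 : Yy y (QuotientGroup.mk h) ≤ (Yy x h).map (QuotientGroup.mk' D) := by
      rw [Yy, closure_le]
      rintro _ ⟨i, rfl⟩
      refine ⟨h⁻¹ * (x ^ i) h, subset_closure ⟨i, rfl⟩, ?_⟩
      rw [hy, quoAut_pow_mk]; rfl
    obtain ⟨a, ha, rfl⟩ := h3 he
    have hfa : x a⁻¹ * a ∈ D := by
      have hf' : y (QuotientGroup.mk a) = QuotientGroup.mk a := hf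
      rw [hy, quoAut_mk] at hf'
      have := QuotientGroup.eq.mp hf'
      simpa using this
    have hfa' : a⁻¹ * x a ∈ D := by
      have := inv_mem hfa
      simpa using this
    have hxY := xinv_Yy x h
    obtain ⟨d, ⟨hd1, hd2⟩, hd⟩ := exists_fixed_coset (E := Yy x h ⊓ D) hxp (hxY.inf hD)
      (not_dvd_card hp.out hcop _) (a := a) (Subgroup.mem_inf.mpr ⟨mul_mem (inv_mem ha) (hxY a ha), hfa'⟩)
    refine ⟨a * d, Yy_le_Rg_of_fixed (mul_mem ha hd1) hd, ?_⟩
    rw [hmk, hmk]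
    rw [QuotientGroup.eq]
    simp only [mul_inv_rev, inv_inv]
    have : d⁻¹ * a⁻¹ * a = d⁻¹ := by group
    rw [this]
    exact inv_mem hd2
  have hc1 : (QuotientGroup.mk c : H ⧸ D) ∈ Cm y ⊤ := h1 ⟨c, by rw [htop]; trivial, rfl⟩
  have hc2 : (QuotientGroup.mk c : H ⧸ D) ∈ Fx y := by
    rw [mem_Fx, hy, quoAut_mk, mem_Fx.mp hc]
  obtain ⟨r, hr, hrc⟩ := h2 (IH ⟨hc1, hc2⟩)
  refine ⟨r, hr, r⁻¹ * c, Subgroup.mem_inf.mpr ⟨?_, ?_⟩, by group⟩
  · rw [hmk] at hrc
    exact QuotientGroup.eq.mp hrc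
  · rw [mem_Fx, map_mul, map_inv, mem_Fx.mp (Rg_le_Fx x hr), mem_Fx.mp hc]

/-- `Rg` is normalised by the fixed points. -/
theorem Rg_conj {t r : H} (ht : t ∈ Fx x) (hr : r ∈ Rg x) : t * r * t⁻¹ ∈ Rg x := by
  have hle : Rg x ≤ (Rg x).comap (MulAut.conj t).toMonoidHom := by
    apply iSup_le
    intro h
    rintro g ⟨hg, hf⟩
    change t * g * t⁻¹ ∈ Rg x
    refine Yy_le_Rg_of_fixed (y := t * h * t⁻¹) ?_ ?_
    · have h3 : Yy x h ≤ (Yy x (t * h * t⁻¹)).comap (MulAut.conj t).toMonoidHom := by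
        rw [Yy, closure_le]
        rintro _ ⟨i, rfl⟩
        change t * (h⁻¹ * (x ^ i) h) * t⁻¹ ∈ Yy x (t * h * t⁻¹)
        have hti : (x ^ i) t = t := by
          induction i with
          | zero => simp
          | succ i ih => rw [pow_succ_apply, ih]; exact ht
        refine subset_closure ⟨i, ?_⟩
        simp only [map_mul, map_inv, hti]
        group
      exact h3 hg
    · rw [mem_Fx, map_mul, map_mul, map_inv, mem_Fx.mp ht, mem_Fx.mp hf]
  exact hle hr

end coprime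

/-- The trace `w · x(w) ⋯ x^{n-1}(w)`. -/
def trn (x : MulAut H) (w : H) : ℕ → H
  | 0 => 1
  | n + 1 => trn x w n * (x ^ n) w

theorem trn_zero (x : MulAut H) (w : H) : trn x w 0 = 1 := rfl

theorem trn_succ (x : MulAut H) (w : H) (n : ℕ) : trn x w (n + 1) = trn x w n * (x ^ n) w := rfl

theorem trn_mem {x : MulAut H} {D : Subgroup H} (hD : XInv x D) {w : H} (hw : w ∈ D) (n : ℕ) :
    trn x w n ∈ D := by
  induction n with
  | zero => exact one_mem _
  | succ n ih => exact mul_mem ih (hD.pow hw n)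

theorem trn_mul {x : MulAut H} {W : Subgroup H} (hW : XInv x W)
    (hab : ∀ a ∈ W, ∀ b ∈ W, a * b = b * a) {a b : H} (ha : a ∈ W) (hb : b ∈ W) (n : ℕ) :
    trn x (a * b) n = trn x a n * trn x b n := by
  induction n with
  | zero => simp [trn_zero]
  | succ n ih =>
    rw [trn_succ, trn_succ, trn_succ, ih, map_mul]
    have h := hab _ (trn_mem hW hb n) _ (hW.pow ha n)
    calc trn x a n * trn x b n * ((x ^ n) a * (x ^ n) b)
        = trn x a n * (trn x b n * (x ^ n) a) * (x ^ n) b := by group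
      _ = trn x a n * ((x ^ n) a * trn x b n) * (x ^ n) b := by rw [h]
      _ = _ := by group

theorem trn_inv {x : MulAut H} {W : Subgroup H} (hW : XInv x W)
    (hab : ∀ a ∈ W, ∀ b ∈ W, a * b = b * a) {a : H} (ha : a ∈ W) (n : ℕ) :
    trn x a⁻¹ n = (trn x a n)⁻¹ := by
  have h1 : trn x (1 : H) n = 1 := by
    induction n with
    | zero => rfl
    | succ n ih => rw [trn_succ, ih, map_one, one_mul]
  have h := trn_mul hW hab (inv_mem ha) ha n
  rw [inv_mul_cancel] at h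
  rw [h1] at h
  exact eq_inv_of_mul_eq_one_left h.symm

theorem trn_fixed {x : MulAut H} {w : H} (hw : w ∈ Fx x) (n : ℕ) : trn x w n = w ^ n := by
  have hi : ∀ i : ℕ, (x ^ i) w = w := by
    intro i
    induction i with
    | zero => simp
    | succ i ih => rw [pow_succ_apply, ih]; exact hw
  induction n with
  | zero => simp [trn_zero]
  | succ n ih => rw [trn_succ, ih, hi, pow_succ]

theorem x_trn {x : MulAut H} {W : Subgroup H} {p : ℕ} (hW : XInv x W)
    (hab : ∀ a ∈ W, ∀ b ∈ W, a * b = b * a) (hxp : x ^ p = 1) {w : H} (hw : w ∈ W) :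
    trn x w p ∈ Fx x := by
  have h : ∀ n : ℕ, w * x (trn x w n) = trn x w (n + 1) := by
    intro n
    induction n with
    | zero => simp [trn_zero, trn_succ]
    | succ n ih =>
      calc w * x (trn x w (n + 1)) = w * x (trn x w n * (x ^ n) w) := by rw [trn_succ]
        _ = (w * x (trn x w n)) * x ((x ^ n) w) := by rw [map_mul]; group
        _ = trn x w (n + 1) * (x ^ (n + 1)) w := by rw [ih, pow_succ_apply]
        _ = trn x w (n + 1 + 1) := rfl
  have h1 := h p
  rw [trn_succ, hxp] at h1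
  simp only [MulAut.one_apply] at h1
  rw [mem_Fx]
  have h2 := hab _ (trn_mem hW hw p) _ hw
  rw [h2] at h1
  exact mul_left_cancel h1

theorem trn_conj_fixed {x : MulAut H} {a : H} (ha : a ∈ Fx x) (v : H) (n : ℕ) :
    trn x (a * v * a⁻¹) n = a * trn x v n * a⁻¹ := by
  have hi : ∀ i : ℕ, (x ^ i) a = a := by
    intro i
    induction i with
    | zero => simp
    | succ i ih => rw [pow_succ_apply, ih]; exact ha
  induction n with
  | zero => simp [trn_zero]
  | succ n ih =>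
    rw [trn_succ, trn_succ, ih]
    simp only [map_mul, map_inv, hi]
    group

/-- The trace of a commutator with a fixed element. -/
theorem trn_comm_fixed {x : MulAut H} {W : Subgroup H} [W.Normal] (hW : XInv x W)
    (hab : ∀ a ∈ W, ∀ b ∈ W, a * b = b * a) {a w : H} (ha : a ∈ Fx x) (hw : w ∈ W) (n : ℕ) :
    trn x ⁅w, a⁆ n = ⁅trn x w n, a⁆ := by
  have hv : a * w⁻¹ * a⁻¹ ∈ W := Subgroup.Normal.conj_mem ‹_› _ (inv_mem hw) a
  have e : ⁅w, a⁆ = w * (a * w⁻¹ * a⁻¹) := by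
    rw [commutatorElement_def]; group
  rw [e, trn_mul hW hab hw hv, trn_conj_fixed ha, trn_inv hW hab hw, commutatorElement_def]
  group

end Cfsg.Agent.Lib.Transfer.FixedComm
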