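import Mathlib
import Cfsg.Agent.Lib.Transfer.FixedComm

/-!
# An operator identity for abelian groups carrying commuting endomorphisms

The computation behind the fixed point theorem for automorphisms of odd prime order.
-/

set_option autoImplicit false
set_option linter.style.haveILetI false

namespace Cfsg.Agent.Lib.Transfer.FixedComm

open Subgroup
open scoped commutatorElement

/-- abstract operator trick -/
theorem op_trick_core {S A : Type*} [CommRing S] [AddCommGroup A] [Module S A]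
    {Y : Type*} [CommGroup Y] (r : Y →* S) (τ : A →+ A) (σ : Y →* Y)
    (hτ : ∀ a v, τ (r a • v) = r (σ a) • τ v)
    (hτs : Function.Surjective τ)
    (hF : ∀ (y : Y) (v : A), (1 - r (σ (σ y) * y⁻¹)) • (τ v - v) =
      (1 - r (σ y * y⁻¹)) • (τ (τ v) - v))
    (y a b : Y) (w : A) :
    ((1 - r (σ y * y⁻¹)) * (r (σ (σ a)) - r a) * (r (σ (σ b)) - r (σ b))) • w = 0 := by
  have G : ∀ (a : Y) (v : A), ((1 - r (σ (σ y) * y⁻¹)) * (r (σ a) - r a)) • τ v =
      ((1 - r (σ y * y⁻¹)) * (r (σ (σ a)) - r a)) • τ (τ v) := by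
    intro a v
    have h1 := hF y (r a • v)
    simp only [hτ] at h1
    have h2 := congrArg (fun z => r a • z) (hF y v)
    linear_combination (norm := module) h1 - h2
  obtain ⟨u, rfl⟩ := hτs w
  obtain ⟨v, rfl⟩ := hτs u
  have h1 := G a (r b • v)
  simp only [hτ] at h1
  have h2 := congrArg (fun z => r (σ b) • z) (G a v)
  linear_combination (norm := module) h2 - h1

theorem op_trick_cube {S A : Type*} [CommRing S] [AddCommGroup A] [Module S A]
    {Y : Type*} [CommGroup Y] (r : Y →* S) (τ : A →+ A) (σ : Y →* Y)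
    (hτ : ∀ a v, τ (r a • v) = r (σ a) • τ v)
    (hτs : Function.Surjective τ)
    (hF : ∀ (y : Y) (v : A), (1 - r (σ (σ y) * y⁻¹)) • (τ v - v) =
      (1 - r (σ y * y⁻¹)) • (τ (τ v) - v))
    (hσ : Function.Surjective σ)
    (h1 : ∀ g, ∃ y, σ y * y⁻¹ = g) (h2 : ∀ g, ∃ a, σ (σ a) * a⁻¹ = g) (g : Y) (w : A) :
    ((r g - 1) ^ 3) • w = 0 := by
  obtain ⟨y, hy⟩ := h1 g
  obtain ⟨a, ha⟩ := h2 g
  obtain ⟨c, hc⟩ := h1 g
  obtain ⟨b, rfl⟩ := hσ c
  have h := op_trick_core r τ σ hτ hτs hF y a b (r (a⁻¹ * (σ b)⁻¹) • w)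
  have e1 : σ (σ a) = g * a := by rw [← ha]; group
  have e2 : σ (σ b) = g * σ b := by rw [← hc]; group
  rw [hy, e1, e2, map_mul, map_mul, map_mul] at h
  have ea : r a * r a⁻¹ = 1 := by rw [← map_mul]; simp
  have eb : r (σ b) * r (σ b)⁻¹ = 1 := by rw [← map_mul]; simp
  rw [smul_smul] at h
  have e3 : ((1 - r g) * (r g * r a - r a) * (r g * r (σ b) - r (σ b)) * (r a⁻¹ * r (σ b)⁻¹))
      = - (r g - 1) ^ 3 * ((r a * r a⁻¹) * (r (σ b) * r (σ b)⁻¹)) := by ring
  rw [e3, ea, eb] at h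
  simp only [mul_one, neg_smul, neg_eq_zero] at h
  exact h

/-- Operator trick on an abelian group with a commuting family of endomorphisms. -/
theorem op_trick_end {A : Type*} [AddCommGroup A] {Y : Type*} [CommGroup Y]
    (ρ : Y →* AddMonoid.End A) (τ : A →+ A) (σ : Y →* Y)
    (hτ : ∀ a v, τ (ρ a v) = ρ (σ a) (τ v))
    (hτs : Function.Surjective τ)
    (hF : ∀ (y : Y) (v : A), (τ v - v) - ρ (σ (σ y) * y⁻¹) (τ v - v) =
      (τ (τ v) - v) - ρ (σ y * y⁻¹) (τ (τ v) - v))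
    (hσ : Function.Surjective σ)
    (h1 : ∀ g, ∃ y, σ y * y⁻¹ = g) (h2 : ∀ g, ∃ a, σ (σ a) * a⁻¹ = g) (g : Y) (w : A) :
    (ρ g (ρ g (ρ g w - w) - (ρ g w - w)) - (ρ g (ρ g w - w) - (ρ g w - w))) = 0 := by
  classical
  let φ : MonoidAlgebra ℤ Y →+* AddMonoid.End A :=
    (MonoidAlgebra.lift ℤ (AddMonoid.End A) Y ρ).toRingHom
  letI : Module (MonoidAlgebra ℤ Y) A := Module.compHom A φ
  let r : Y →* MonoidAlgebra ℤ Y := MonoidAlgebra.of ℤ Y
  have hr : ∀ (a : Y) (v : A), r a • v = ρ a v := by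
    intro a v
    change φ (MonoidAlgebra.of ℤ Y a) v = ρ a v
    simp [φ]
  have hsub : ∀ (t : MonoidAlgebra ℤ Y) (v : A), (1 - t) • v = v - t • v := by
    intro t v; rw [sub_smul, one_smul]
  have := op_trick_cube r τ σ
    (by intro a v; rw [hr, hr, hτ]) hτs
    (by intro y v; rw [hsub, hsub, hr, hr]; exact hF y v) hσ h1 h2 g w
  have e : ((r g - 1) ^ 3) • w =
      (ρ g (ρ g (ρ g w - w) - (ρ g w - w)) - (ρ g (ρ g w - w) - (ρ g w - w))) := by
    have hs : ∀ v : A, (r g - 1) • v = ρ g v - v := by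
      intro v; rw [sub_smul, one_smul, hr]
    rw [pow_succ, pow_succ, pow_one, mul_smul, mul_smul, hs, hs, hs]
  rw [← e]; exact this

theorem cube_of_commuting {H : Type*} [Group H] (x : MulAut H) {W Y : Subgroup H} [hWn : W.Normal]
    (hW : XInv x W) (hY : XInv x Y) (habW : ∀ a ∈ W, ∀ b ∈ W, a * b = b * a)
    (habY : ∀ a ∈ Y, ∀ b ∈ Y, a * b = b * a)
    (hWs : ∀ g ∈ W, ∃ g' ∈ W, x g' = g) (hYs : ∀ g ∈ Y, ∃ g' ∈ Y, x g' = g)
    (h1 : ∀ g ∈ Y, ∃ y ∈ Y, x y * y⁻¹ = g) (h2 : ∀ g ∈ Y, ∃ a ∈ Y, x (x a) * a⁻¹ = g)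
    (hF : ∀ y ∈ Y, ∀ v ∈ W, (v⁻¹ * x v) * ((x y * y⁻¹) * (v⁻¹ * x (x v)) * (x y * y⁻¹)⁻¹) =
      (v⁻¹ * x (x v)) * ((x (x y) * y⁻¹) * (v⁻¹ * x v) * (x (x y) * y⁻¹)⁻¹))
    {g w : H} (hg : g ∈ Y) (hw : w ∈ W) : ⁅g, ⁅g, ⁅g, w⁆⁆⁆ = 1 := by
  letI cW : CommGroup W :=
    { (inferInstance : Group W) with mul_comm := fun a b => Subtype.ext (habW a a.2 b b.2) }
  letI cY : CommGroup Y :=
    { (inferInstance : Group Y) with mul_comm := fun a b => Subtype.ext (habY a a.2 b b.2) }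
  let conjW : Y → W →* W := fun a =>
    { toFun := fun v => ⟨(a : H) * v * (a : H)⁻¹, hWn.conj_mem _ v.2 _⟩
      map_one' := by ext; simp
      map_mul' := fun u v => by
        apply Subtype.ext
        change (a : H) * ((u : H) * v) * (a : H)⁻¹ = ((a : H) * u * (a : H)⁻¹) * ((a : H) * v * (a : H)⁻¹)
        group }
  let ρ : Y →* AddMonoid.End (Additive W) :=
    { toFun := fun a => MonoidHom.toAdditive (conjW a)
      map_one' := by
        ext v
        change (1 : H) * (v.toMul : H) * (1 : H)⁻¹ = v.toMul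
        group
      map_mul' := fun a b => by
        ext v
        change ((a : H) * b) * (v.toMul : H) * ((a : H) * b)⁻¹ =
          (a : H) * ((b : H) * (v.toMul : H) * (b : H)⁻¹) * (a : H)⁻¹
        group }
  let τ0 : W →* W :=
    { toFun := fun v => ⟨x v, hW _ v.2⟩
      map_one' := by ext; simp
      map_mul' := fun u v => by ext; simp }
  let τ : Additive W →+ Additive W := MonoidHom.toAdditive τ0
  let σ : Y →* Y :=
    { toFun := fun v => ⟨x v, hY _ v.2⟩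
      map_one' := by ext; simp
      map_mul' := fun u v => by ext; simp }
  have hρ : ∀ (a : Y) (v : W), ((ρ a (Additive.ofMul v)).toMul : H) = a * v * (a : H)⁻¹ := fun _ _ => rfl
  have hτ0 : ∀ v : W, ((τ (Additive.ofMul v)).toMul : H) = x v := fun _ => rfl
  have key := op_trick_end ρ τ σ
    (by
      intro a v
      apply Additive.toMul.injective
      apply Subtype.ext
      change x ((a : H) * (v.toMul : H) * (a : H)⁻¹) = x a * x v.toMul * (x a)⁻¹
      simp)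
    (by
      intro v
      obtain ⟨g', hg', e⟩ := hWs _ v.toMul.2
      refine ⟨Additive.ofMul ⟨g', hg'⟩, ?_⟩
      apply Additive.toMul.injective
      apply Subtype.ext
      exact e)
    (by
      intro y v
      apply Additive.toMul.injective
      have hv := v.toMul.2
      have h0 := hF y y.2 _ hv
      change (_ : W) / _ = (_ : W) / _
      rw [div_eq_div_iff_mul_eq_mul]
      apply Subtype.ext
      change ((x v.toMul : H) / (v.toMul : H)) * (((x y * (y : H)⁻¹) * ((x (x v.toMul) : H) / (v.toMul : H)) * (x y * (y : H)⁻¹)⁻¹)) = ((x (x v.toMul) : H) / (v.toMul : H)) * (((x (x y) * (y : H)⁻¹) * ((x v.toMul : H) / (v.toMul : H)) * (x (x y) * (y : H)⁻¹)⁻¹))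
      rw [div_eq_mul_inv, div_eq_mul_inv, habW _ (hW _ hv) _ (inv_mem hv),
        habW _ (hW _ (hW _ hv)) _ (inv_mem hv)]
      exact h0)
    (by
      intro y
      obtain ⟨g', hg', e⟩ := hYs _ y.2
      exact ⟨⟨g', hg'⟩, Subtype.ext e⟩)
    (by
      intro y
      obtain ⟨g', hg', e⟩ := h1 _ y.2
      exact ⟨⟨g', hg'⟩, Subtype.ext e⟩)
    (by
      intro y
      obtain ⟨g', hg', e⟩ := h2 _ y.2
      exact ⟨⟨g', hg'⟩, Subtype.ext e⟩)
    ⟨g, hg⟩ (Additive.ofMul ⟨w, hw⟩)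
  have hd : ∀ u : Additive W, ((ρ ⟨g, hg⟩ u - u).toMul : H) = ⁅g, (u.toMul : H)⁆ := by
    intro u
    change ((g * (u.toMul : H) * g⁻¹) / (u.toMul : H)) = _
    rw [commutatorElement_def, div_eq_mul_inv]
  have e1 := hd (Additive.ofMul ⟨w, hw⟩)
  have e2 := hd (ρ ⟨g, hg⟩ (Additive.ofMul ⟨w, hw⟩) - Additive.ofMul ⟨w, hw⟩)
  have e3 := hd (ρ ⟨g, hg⟩ (ρ ⟨g, hg⟩ (Additive.ofMul ⟨w, hw⟩) - Additive.ofMul ⟨w, hw⟩) -
    (ρ ⟨g, hg⟩ (Additive.ofMul ⟨w, hw⟩) - Additive.ofMul ⟨w, hw⟩))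
  have e4 : ((Additive.ofMul (⟨w, hw⟩ : W)).toMul : H) = w := rfl
  rw [key] at e3
  rw [e4] at e1
  rw [e1] at e2
  rw [e2] at e3
  exact e3.symm

/-- If `[g, [g, u]] = 1`, `g ^ s = 1` and `s` is prime to the order of `W`, then `[g, u] = 1`. -/
theorem comm_eq_one_of_comm_comm {H : Type*} [Group H] [Finite H] {W : Subgroup H} [hWn : W.Normal]
    (habW : ∀ a ∈ W, ∀ b ∈ W, a * b = b * a) {g u : H} {s : ℕ} (hu : u ∈ W) (hgs : g ^ s = 1)
    (hcop : s.Coprime (Nat.card W)) (h : ⁅g, ⁅g, u⁆⁆ = 1) : ⁅g, u⁆ = 1 := by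
  set c := ⁅g, u⁆ with hc
  have hcW : c ∈ W := by
    rw [hc, commutatorElement_def]
    have : g * u * g⁻¹ * u⁻¹ = (g * u * g⁻¹) * u⁻¹ := rfl
    rw [this]
    exact mul_mem (hWn.conj_mem _ hu _) (inv_mem hu)
  have hgc : g * c * g⁻¹ = c := by
    have h' := h
    rw [commutatorElement_def] at h'
    exact mul_inv_eq_one.mp h'
  have hgu : g * u * g⁻¹ = c * u := by
    rw [hc, commutatorElement_def]; group
  have hn : ∀ n : ℕ, g ^ n * u * (g ^ n)⁻¹ = c ^ n * u := by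
    intro n
    induction n with
    | zero => simp
    | succ n ih =>
      have hgcn : g * c ^ n * g⁻¹ = c ^ n := by
        rw [← conj_pow, hgc]
      calc g ^ (n + 1) * u * (g ^ (n + 1))⁻¹ = g * (g ^ n * u * (g ^ n)⁻¹) * g⁻¹ := by
            rw [pow_succ']; group
        _ = (g * c ^ n * g⁻¹) * (g * u * g⁻¹) := by rw [ih]; group
        _ = c ^ n * (c * u) := by rw [hgcn, hgu]
        _ = c ^ (n + 1) * u := by rw [pow_succ, mul_assoc]
  have h1 := hn s
  rw [hgs] at h1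
  simp only [one_mul, inv_one, mul_one] at h1
  have h2 : c ^ s = 1 := by
    have : c ^ s * u = 1 * u := by rw [one_mul]; exact h1.symm
    exact mul_right_cancel this
  have hcop' : (orderOf c).Coprime s := by
    have hd : orderOf c ∣ Nat.card W := by
      have := orderOf_dvd_natCard (⟨c, hcW⟩ : W)
      rwa [Subgroup.orderOf_mk] at this
    exact Nat.Coprime.coprime_dvd_left hd hcop.symm
  have h3 : orderOf c ∣ s := orderOf_dvd_of_pow_eq_one h2
  have h4 : orderOf c = 1 := by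
    have := Nat.Coprime.eq_one_of_dvd hcop' h3
    exact this
  exact orderOf_eq_one_iff.mp h4

end Cfsg.Agent.Lib.Transfer.FixedComm
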