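import Mathlib
import Cfsg.Agent.Lib.Transfer.FixedCommOp

/-!
# Minimal counterexamples to the fixed point theorem: the abelian normal section

For an automorphism `x` of odd prime order `p` of a solvable group of order prime to `p`, suppose
every proper invariant subgroup and proper quotient satisfies the fixed point theorem, but the
group itself does not. This file studies an abelian normal invariant subgroup which is not central.
-/

set_option autoImplicit false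
set_option linter.style.haveILetI false
set_option linter.unusedVariables false
set_option linter.unusedSectionVars false

namespace Cfsg.Agent.Lib.Transfer.FixedComm

open Subgroup
open scoped commutatorElement

universe u

variable {H : Type u} [Group H] [Finite H] {p : ℕ} {x : MulAut H}

/-- The data of a minimal counterexample. -/
structure Setup (x : MulAut H) (p : ℕ) : Prop where
  hp : p.Prime
  hp2 : p ≠ 2
  hcop : (Nat.card H).Coprime p
  hxp : x ^ p = 1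
  hsol : Group.IsSolvable H
  htop : Cm x ⊤ = ⊤
  hB : ∀ B : Subgroup H, XInv x B → B ≠ ⊤ → Cm x B ⊓ Fx x ≤ Rg x
  hQ : ∀ D : Subgroup H, D.Normal → XInv x D → D ≠ ⊥ →
    ∀ c ∈ Fx x, ∃ r ∈ Rg x, ∃ d ∈ D ⊓ Fx x, c = r * d
  hnot : ¬ Fx x ≤ Rg x

/-- Normality from normalisation by two subgroups generating the group. -/
theorem normal_of_sup {A W E : Subgroup H} (h : A ⊔ W = ⊤)
    (hA : ∀ a ∈ A, ∀ e ∈ E, a * e * a⁻¹ ∈ E) (hW : ∀ a ∈ W, ∀ e ∈ E, a * e * a⁻¹ ∈ E) :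
    E.Normal := by
  rw [← normalizer_eq_top_iff, eq_top_iff, ← h]
  exact sup_le (Coprime.InvSylow.le_normalizer_of_forall_conj_mem hA)
    (Coprime.InvSylow.le_normalizer_of_forall_conj_mem hW)

theorem commW_le_Cm {W Y : Subgroup H} (h : Y ≤ Cm x Y) : ⁅W, Y⁆ ≤ Cm x (Y ⊔ W) := by
  rw [commutator_le]
  intro w hw a ha
  have ha' : a ∈ Cm x (Y ⊔ W) := Cm_mono x le_sup_left (h ha)
  rw [commutatorElement_def]
  exact mul_mem (Cm_conj (mem_sup_right hw) ha') (inv_mem ha')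

/-- Preimages under `x` in an invariant subgroup. -/
theorem XInv.exists_preimage (hp : p.Prime) (hxp : x ^ p = 1) {D : Subgroup H} (hD : XInv x D)
    {g : H} (hg : g ∈ D) : ∃ g' ∈ D, x g' = g := by
  refine ⟨(x ^ (p - 1)) g, hD.pow hg _, ?_⟩
  rw [← pow_succ_apply, Nat.sub_add_cancel hp.one_lt.le, hxp]
  simp

theorem trn_one (x : MulAut H) (n : ℕ) : trn x (1 : H) n = 1 := by
  induction n with
  | zero => rfl
  | succ n ih => rw [trn_succ, ih, map_one, one_mul]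

/-- A hom-like trace: a closure whose generators have traces in `K`. -/
theorem trn_closure {W K : Subgroup H} {p : ℕ} (hW : XInv x W)
    (hab : ∀ a ∈ W, ∀ b ∈ W, a * b = b * a) {T : Set H} (hT : T ⊆ W)
    (h : ∀ t ∈ T, trn x t p ∈ K) {m : H} (hm : m ∈ closure T) : trn x m p ∈ K := by
  have h1 : closure T ≤ W := (closure_le _).mpr hT
  induction hm using closure_induction with
  | mem t ht => exact h t ht
  | one =>
    rw [trn_one]; exact one_mem _
  | mul u v hu hv iu iv =>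
    rw [trn_mul hW hab (h1 hu) (h1 hv)]
    exact mul_mem iu iv
  | inv u hu iu =>
    rw [trn_inv hW hab (h1 hu)]
    exact inv_mem iu

namespace Setup

variable (S : Setup x p)
include S

theorem fact_prime : Fact p.Prime := ⟨S.hp⟩

theorem gp {D : Subgroup H} (hn : D.Normal) (hD : XInv x D) (hle : D ⊓ Fx x ≤ Rg x) : D = ⊥ := by
  by_contra hne
  apply S.hnot
  intro c hc
  obtain ⟨r, hr, d, hd, rfl⟩ := S.hQ D hn hD hne c hc
  exact mul_mem hr (hle hd)

theorem fix_le_of_trn {D : Subgroup H} (ht : ∀ d ∈ D, trn x d p ∈ Rg x) :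
    D ⊓ Fx x ≤ Rg x := by
  rintro c ⟨hcD, hcF⟩
  have h := ht c hcD
  rw [trn_fixed hcF] at h
  exact mem_of_pow_mem S.hcop h

theorem iSup_Yy : (⨆ y, Yy x y) = ⊤ := by
  rw [eq_top_iff, ← S.htop]
  exact top_le_iSup_Yy x

theorem Yy_le_self (y : H) : Yy x y ≤ Cm x (Yy x y) := Yy_le_Cm S.hxp S.hcop y

/-- Step 1: a subgroup `[y, x]` supplements `W`. -/
theorem exists_Yy_sup {W : Subgroup H} [hWn : W.Normal] (hW : XInv x W)
    (hab : ∀ a ∈ W, ∀ b ∈ W, a * b = b * a) (hnc : ¬ W ≤ center H) :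
    ∃ y, Yy x y ⊔ W = ⊤ := by
  set M : Subgroup H := ⨆ y, ⁅W, Yy x y⁆ with hM
  have hMW : M ≤ W := iSup_le fun y => commutator_le_left W _
  have hMx : XInv x M := xinv_iSup fun y => hW.commutator (xinv_Yy x y)
  have hMn : M.Normal := by
    rw [← normalizer_eq_top_iff, eq_top_iff, ← S.iSup_Yy]
    refine iSup_le fun y => Coprime.InvSylow.le_normalizer_of_forall_conj_mem ?_
    intro a ha m hm
    have h1 : a * m * a⁻¹ = ⁅a, m⁆ * m := by rw [commutatorElement_def]; group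
    rw [h1]
    refine mul_mem ?_ hm
    have h2 : ⁅a, m⁆ ∈ ⁅W, Yy x y⁆ := by
      rw [commutator_comm]
      exact commutator_mem_commutator ha (hMW hm)
    exact (le_iSup (fun y => ⁅W, Yy x y⁆) y) h2
  have hMne : M ≠ ⊥ := by
    intro hbot
    apply hnc
    have h1 : ∀ y, Yy x y ≤ centralizer (W : Set H) := by
      intro y
      have h2 : ⁅W, Yy x y⁆ = ⊥ := by
        rw [eq_bot_iff, ← hbot]
        exact le_iSup (fun y => ⁅W, Yy x y⁆) y
      rw [commutator_eq_bot_iff_le_centralizer] at h2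
      intro g hg
      rw [mem_centralizer_iff]
      intro w hw
      exact ((mem_centralizer_iff.mp (h2 hw)) g hg).symm
    have h3 : (⊤ : Subgroup H) ≤ centralizer (W : Set H) := by
      rw [← S.iSup_Yy]; exact iSup_le h1
    intro w hw
    rw [mem_center_iff]
    intro g
    exact ((mem_centralizer_iff.mp (h3 (mem_top g))) w hw).symm
  by_contra hall
  have hall' : ∀ y, ⁅W, Yy x y⁆ ⊓ Fx x ≤ Rg x := by
    intro y
    by_contra hnle
    apply hall
    refine ⟨y, ?_⟩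
    by_contra hne
    apply hnle
    refine le_trans (inf_le_inf_right _ (commW_le_Cm (S.Yy_le_self y))) ?_
    exact S.hB _ ((xinv_Yy x y).sup hW) hne
  apply hMne
  apply S.gp hMn hMx
  apply S.fix_le_of_trn
  intro d hd
  have hC : d ∈ W ∧ trn x d p ∈ Rg x := by
    refine Subgroup.iSup_induction (fun y => ⁅W, Yy x y⁆)
      (C := fun m => m ∈ W ∧ trn x m p ∈ Rg x) hd ?_ ?_ ?_
    · intro y m hm
      have hmW : m ∈ W := commutator_le_left W _ hm
      refine ⟨hmW, hall' y ⟨?_, ?_⟩⟩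
      · exact trn_mem (hW.commutator (xinv_Yy x y)) hm p
      · exact x_trn hW hab S.hxp hmW
    · refine ⟨one_mem _, ?_⟩
      rw [trn_one]; exact one_mem _
    · rintro a b ⟨ha, ia⟩ ⟨hb, ib⟩
      refine ⟨mul_mem ha hb, ?_⟩
      rw [trn_mul hW hab ha hb]
      exact mul_mem ia ib
  exact hC.2


omit S in
theorem xinv_centralizer (hp : p.Prime) (hxp : x ^ p = 1) {W : Subgroup H} (hW : XInv x W) :
    XInv x (centralizer (W : Set H)) := by
  intro c hc
  rw [mem_centralizer_iff] at hc ⊢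
  intro w hw
  obtain ⟨w', hw', rfl⟩ := XInv.exists_preimage hp hxp hW hw
  rw [← map_mul, ← map_mul, hc w' hw']

/-- If `x ^ 2` fixes `w` then so does `x` (`p` odd). -/
theorem fixed_of_sq {w : H} (h : x (x w) = w) : x w = w := by
  obtain ⟨k, hk⟩ : 2 ∣ p + 1 := by
    have h2 : Odd p := S.hp.odd_of_ne_two S.hp2
    exact (Odd.add_one h2).two_dvd
  have h1 : ∀ n : ℕ, (x ^ (2 * n)) w = w := by
    intro n
    induction n with
    | zero => simp
    | succ n ih =>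
      have e : 2 * (n + 1) = 2 * n + 1 + 1 := by ring
      rw [e, pow_succ_apply', pow_succ_apply', h, ih]
  have h2 := h1 k
  rw [← hk, pow_succ_apply, S.hxp] at h2
  simpa using h2

/-- The situation of an invariant supplement `Y` of an abelian normal subgroup `W`. -/
structure YW (x : MulAut H) (Y W : Subgroup H) : Prop where
  hW : XInv x W
  hWn : W.Normal
  hab : ∀ a ∈ W, ∀ b ∈ W, a * b = b * a
  hY : XInv x Y
  hYc : Y ≤ Cm x Y
  hYf : Y ⊓ Fx x ≤ Rg x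
  hsup : Y ⊔ W = ⊤

variable {Y W : Subgroup H}

/-- Step 2. -/
theorem inf_centralizer (T : YW x Y W) : Y ⊓ centralizer (W : Set H) = ⊥ := by
  haveI := T.hWn
  apply S.gp
  · apply normal_of_sup T.hsup
    · intro a ha e he
      refine Subgroup.mem_inf.mpr ⟨mul_mem (mul_mem ha he.1) (inv_mem ha), ?_⟩
      exact (inferInstance : (centralizer (W : Set H)).Normal).conj_mem _ he.2 a
    · intro a ha e he
      have h1 := mem_centralizer_iff.mp he.2 a ha
      have : a * e * a⁻¹ = e := by rw [h1]; group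
      rw [this]; exact he
  · exact T.hY.inf (xinv_centralizer S.hp S.hxp T.hW)
  · rintro c ⟨⟨hc1, _⟩, hc2⟩
    exact T.hYf ⟨hc1, hc2⟩

theorem inf_W (T : YW x Y W) : Y ⊓ W = ⊥ := by
  rw [eq_bot_iff, ← S.inf_centralizer T]
  rintro c ⟨hc1, hc2⟩
  refine Subgroup.mem_inf.mpr ⟨hc1, ?_⟩
  rw [mem_centralizer_iff]
  intro w hw
  exact T.hab w hw c hc2

/-- Step 3. -/
theorem Y0_eq_bot (T : YW x Y W) {Y₀ : Subgroup H} (hle : Y₀ ≤ Y) (hx : XInv x Y₀)
    (hn : ∀ a ∈ Y, ∀ g ∈ Y₀, a * g * a⁻¹ ∈ Y₀) (hne : Y₀ ≠ Y) : Y₀ = ⊥ := by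
  haveI hWn := T.hWn
  haveI := S.fact_prime
  have hB₀ : Y₀ ⊔ W ≠ ⊤ := by
    intro htop
    apply hne
    apply le_antisymm hle
    intro y hy
    have h1 : y ∈ Y₀ ⊔ W := by rw [htop]; trivial
    obtain ⟨a, ha, w, hw, rfl⟩ := mem_sup_of_normal_right.mp h1
    have hwY : w ∈ Y := by
      have := mul_mem (inv_mem (hle ha)) hy
      simpa using this
    have h2 : w ∈ Y ⊓ W := ⟨hwY, hw⟩
    rw [S.inf_W T, mem_bot] at h2
    rw [h2, mul_one]; exact ha
  have hC := S.hB _ (hx.sup T.hW) hB₀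
  have hEx : XInv x (Cm x Y₀) := xinv_Cm x hx
  have hEY₀ : Cm x Y₀ ≤ Y₀ := Cm_le hx
  have hWE : ⁅W, Cm x Y₀⁆ ≤ Cm x (Y₀ ⊔ W) := by
    rw [commutator_le]
    intro w hw a ha
    have ha' : a ∈ Cm x (Y₀ ⊔ W) := Cm_mono x le_sup_left ha
    rw [commutatorElement_def]
    exact mul_mem (Cm_conj (mem_sup_right hw) ha') (inv_mem ha')
  have htrn : ∀ d ∈ ⁅W, Y₀⁆, trn x d p ∈ Rg x := by
    intro d hd
    rw [Subgroup.commutator_def] at hd
    refine trn_closure T.hW T.hab ?_ ?_ hd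
    · rintro _ ⟨w, hw, g, hg, rfl⟩
      exact commutator_le_left W Y₀ (commutator_mem_commutator hw hg)
    · rintro _ ⟨w, hw, g, hg, rfl⟩
      have hg1 : g⁻¹ * x g ∈ Cm x Y₀ := subset_closure ⟨g, hg, 1, by rw [pow_one]⟩
      obtain ⟨e, he, hf⟩ := exists_fixed_coset S.hxp hEx (not_dvd_card S.hp S.hcop _) hg1
      have haY₀ : g * e ∈ Y₀ := mul_mem hg (hEY₀ he)
      have haR : g * e ∈ Rg x := T.hYf ⟨hle haY₀, hf⟩
      have e1 : ⁅w, g⁆ = ⁅w, g * e⁆ * ((g * e) * ⁅w, e⁻¹⁆ * (g * e)⁻¹) := by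
        simp only [commutatorElement_def]; group
      have hm : ⁅w, e⁻¹⁆ ∈ ⁅W, Cm x Y₀⁆ := commutator_mem_commutator hw (inv_mem he)
      have hmW : ⁅w, e⁻¹⁆ ∈ W := commutator_le_left W _ hm
      rw [e1, trn_mul T.hW T.hab (commutator_le_left W Y₀ (commutator_mem_commutator hw haY₀))
        (hWn.conj_mem _ hmW _), trn_comm_fixed T.hW T.hab hf hw, trn_conj_fixed hf]
      refine mul_mem ?_ (Rg_conj hf ?_)
      · have ht : trn x w p ∈ Fx x := x_trn T.hW T.hab S.hxp hw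
        rw [commutatorElement_def]
        exact mul_mem (Rg_conj ht haR) (inv_mem haR)
      · apply hC
        refine Subgroup.mem_inf.mpr ⟨?_, x_trn T.hW T.hab S.hxp hmW⟩
        exact hWE (trn_mem (T.hW.commutator hEx) hm p)
  have hDn : (⁅W, Y₀⁆ : Subgroup H).Normal := by
    apply normal_of_sup T.hsup
    · intro a ha d hd
      have h1 : ⁅W, Y₀⁆ ≤ (⁅W, Y₀⁆ : Subgroup H).comap (MulAut.conj a).toMonoidHom := by
        rw [commutator_le]
        intro w hw g hg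
        change a * ⁅w, g⁆ * a⁻¹ ∈ (⁅W, Y₀⁆ : Subgroup H)
        have e : a * ⁅w, g⁆ * a⁻¹ = ⁅a * w * a⁻¹, a * g * a⁻¹⁆ := by
          simp only [commutatorElement_def]; group
        rw [e]
        exact commutator_mem_commutator (hWn.conj_mem _ hw a) (hn a ha g hg)
      exact h1 hd
    · intro a ha d hd
      have hdW : d ∈ W := commutator_le_left W Y₀ hd
      have : a * d * a⁻¹ = d := by rw [T.hab a ha d hdW]; group
      rw [this]; exact hd
  have hbot := S.gp hDn (T.hW.commutator hx) (S.fix_le_of_trn htrn)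
  rw [commutator_eq_bot_iff_le_centralizer] at hbot
  rw [eq_bot_iff, ← S.inf_centralizer T]
  intro g hg
  refine Subgroup.mem_inf.mpr ⟨hle hg, ?_⟩
  rw [mem_centralizer_iff]
  intro w hw
  exact ((mem_centralizer_iff.mp (hbot hw)) g hg).symm

/-- Step 4: `Y` is abelian. -/
theorem Y_abelian (T : YW x Y W) : ∀ a ∈ Y, ∀ b ∈ Y, a * b = b * a := by
  haveI := S.hsol
  have hY0 : (⁅Y, Y⁆ : Subgroup H) = ⊥ := by
    by_cases hY : Y = ⊥
    · rw [hY, commutator_bot_left]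
    · have hlt := Group.IsSolvable.commutator_lt_of_ne_bot hY
      refine S.Y0_eq_bot T hlt.le (T.hY.commutator T.hY) ?_ hlt.ne
      intro a ha d hd
      have h1 : ⁅Y, Y⁆ ≤ (⁅Y, Y⁆ : Subgroup H).comap (MulAut.conj a).toMonoidHom := by
        rw [commutator_le]
        intro w hw g hg
        change a * ⁅w, g⁆ * a⁻¹ ∈ (⁅Y, Y⁆ : Subgroup H)
        have e : a * ⁅w, g⁆ * a⁻¹ = ⁅a * w * a⁻¹, a * g * a⁻¹⁆ := by
          simp only [commutatorElement_def]; group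
        rw [e]
        exact commutator_mem_commutator (mul_mem (mul_mem ha hw) (inv_mem ha))
          (mul_mem (mul_mem ha hg) (inv_mem ha))
      exact h1 hd
  intro a ha b hb
  have h1 : ⁅a, b⁆ ∈ (⁅Y, Y⁆ : Subgroup H) := commutator_mem_commutator ha hb
  rw [hY0, mem_bot] at h1
  exact commutatorElement_eq_one_iff_mul_comm.mp h1

/-- A subgroup of `Y` which is invariant is trivial or everything, as `Y` is abelian. -/
theorem Y0_eq_bot_ab (T : YW x Y W) {Y₀ : Subgroup H} (hle : Y₀ ≤ Y) (hx : XInv x Y₀)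
    (hne : Y₀ ≠ Y) : Y₀ = ⊥ := by
  refine S.Y0_eq_bot T hle hx ?_ hne
  intro a ha g hg
  have : a * g * a⁻¹ = g := by rw [S.Y_abelian T a ha g (hle hg)]; group
  rw [this]; exact hg

theorem Y_exponent (T : YW x Y W) (hne : Y ≠ ⊥) : ∃ s : ℕ, s.Prime ∧ ∀ a ∈ Y, a ^ s = 1 := by
  have hab := S.Y_abelian T
  have h1 : Nat.card Y ≠ 1 := by
    intro h
    exact hne (Subgroup.eq_bot_of_card_eq Y h)
  obtain ⟨s, hs, hd⟩ := Nat.exists_prime_and_dvd h1
  refine ⟨s, hs, ?_⟩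
  haveI : Fact s.Prime := ⟨hs⟩
  obtain ⟨g, hg⟩ := exists_prime_orderOf_dvd_card' s hd
  let Y₁ : Subgroup H :=
    { carrier := {a | a ∈ Y ∧ a ^ s = 1}
      one_mem' := ⟨one_mem _, one_pow _⟩
      mul_mem' := by
        rintro a b ⟨ha, ha1⟩ ⟨hb, hb1⟩
        refine ⟨mul_mem ha hb, ?_⟩
        rw [(show Commute a b from hab a ha b hb).mul_pow, ha1, hb1, one_mul]
      inv_mem' := by
        rintro a ⟨ha, ha1⟩
        exact ⟨inv_mem ha, by rw [inv_pow, ha1, inv_one]⟩ }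
  have hY₁ : Y₁ = Y := by
    by_contra hne'
    have hbot := S.Y0_eq_bot_ab T (show Y₁ ≤ Y from fun a ha => ha.1) (by
      rintro a ⟨ha, ha1⟩
      refine ⟨T.hY a ha, ?_⟩
      rw [← map_pow, ha1, map_one]) hne'
    have hgmem : (g : H) ∈ Y₁ := by
      refine ⟨g.2, ?_⟩
      have := pow_orderOf_eq_one g
      rw [hg] at this
      have h2 := congrArg Subtype.val this
      simpa using h2
    rw [hbot, mem_bot] at hgmem
    have hg1 : g = 1 := Subtype.ext hgmem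
    rw [hg1, orderOf_one] at hg
    exact hs.one_lt.ne hg
  intro a ha
  rw [← hY₁] at ha
  exact ha.2

theorem inf_Fx (T : YW x Y W) (hne : Y ≠ ⊥) : Y ⊓ Fx x = ⊥ := by
  by_contra hne'
  have h1 : Y ⊓ Fx x = Y := by
    by_contra h2
    exact hne' (S.Y0_eq_bot_ab T inf_le_left (T.hY.inf (xinv_Fx x)) h2)
  have h2 : Y ≤ Fx x := inf_eq_left.mp h1
  apply hne
  rw [eq_bot_iff]
  refine T.hYc.trans ?_
  rw [Cm, closure_le]
  rintro _ ⟨b, hb, i, rfl⟩
  have hi : ∀ i : ℕ, (x ^ i) b = b := by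
    intro i
    induction i with
    | zero => simp
    | succ i ih => rw [pow_succ_apply, ih]; exact h2 hb
  rw [hi]
  simp

omit S in
theorem surj_of_inj {Y : Subgroup H} (f : H → H) (hf : ∀ a ∈ Y, f a ∈ Y)
    (hinj : ∀ a ∈ Y, ∀ b ∈ Y, f a = f b → a = b) : ∀ g ∈ Y, ∃ y ∈ Y, f y = g := by
  let F : Y → Y := fun a => ⟨f a, hf a a.2⟩
  have hF : Function.Injective F := by
    intro a b h
    have := congrArg Subtype.val h
    exact Subtype.ext (hinj a a.2 b b.2 this)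
  have hs := Finite.surjective_of_injective hF
  intro g hg
  obtain ⟨a, ha⟩ := hs ⟨g, hg⟩
  exact ⟨a, a.2, congrArg Subtype.val ha⟩

theorem surj1 (T : YW x Y W) (hF : Y ⊓ Fx x = ⊥) : ∀ g ∈ Y, ∃ y ∈ Y, x y * y⁻¹ = g := by
  refine surj_of_inj (fun y => x y * y⁻¹) (fun a ha => mul_mem (T.hY a ha) (inv_mem ha)) ?_
  intro a ha b hb h
  have h1 : b⁻¹ * a ∈ Y ⊓ Fx x := by
    refine Subgroup.mem_inf.mpr ⟨mul_mem (inv_mem hb) ha, ?_⟩
    rw [mem_Fx, map_mul, map_inv]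
    have h2 : x a = x b * b⁻¹ * a := by
      rw [← (show x a * a⁻¹ = x b * b⁻¹ from h)]; group
    rw [h2]; group
  rw [hF, mem_bot] at h1
  exact (inv_mul_eq_one.mp h1).symm

theorem surj2 (T : YW x Y W) (hF : Y ⊓ Fx x = ⊥) : ∀ g ∈ Y, ∃ y ∈ Y, x (x y) * y⁻¹ = g := by
  refine surj_of_inj (fun y => x (x y) * y⁻¹)
    (fun a ha => mul_mem (T.hY _ (T.hY a ha)) (inv_mem ha)) ?_
  intro a ha b hb h
  have h1 : b⁻¹ * a ∈ Y ⊓ Fx x := by
    refine Subgroup.mem_inf.mpr ⟨mul_mem (inv_mem hb) ha, ?_⟩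
    apply S.fixed_of_sq
    rw [map_mul, map_mul, map_inv, map_inv]
    have h2 : x (x a) = x (x b) * b⁻¹ * a := by
      rw [← (show x (x a) * a⁻¹ = x (x b) * b⁻¹ from h)]; group
    rw [h2]; group
  rw [hF, mem_bot] at h1
  exact (inv_mul_eq_one.mp h1).symm

/-- `H / W` is abelian. -/
theorem comm_mem_W (T : YW x Y W) (a b : H) : ⁅a, b⁆ ∈ W := by
  haveI := T.hWn
  have hab := S.Y_abelian T
  have hsup : ∀ g : H, ∃ y ∈ Y, ∃ w ∈ W, y * w = g := by
    intro g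
    have h1 : g ∈ Y ⊔ W := by rw [T.hsup]; trivial
    exact mem_sup_of_normal_right.mp h1
  obtain ⟨y₁, hy₁, w₁, hw₁, rfl⟩ := hsup a
  obtain ⟨y₂, hy₂, w₂, hw₂, rfl⟩ := hsup b
  rw [← QuotientGroup.eq_one_iff]
  have h2 : ∀ g : H, (QuotientGroup.mk g : H ⧸ W) = QuotientGroup.mk' W g := fun _ => rfl
  rw [h2, map_commutatorElement, map_mul, map_mul]
  have h3 : ∀ w ∈ W, QuotientGroup.mk' W w = 1 := by
    intro w hw
    rw [← h2]; exact (QuotientGroup.eq_one_iff w).mpr hw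
  rw [h3 w₁ hw₁, h3 w₂ hw₂, mul_one, mul_one, ← map_commutatorElement]
  rw [commutatorElement_eq_one_iff_mul_comm.mpr (hab y₁ hy₁ y₂ hy₂), map_one]

/-- Step 5. -/
theorem commute_g (T : YW x Y W) (hne : Y ≠ ⊥) {y v : H} (hy : y ∈ Y) (hv : v ∈ W) :
    ((v * y)⁻¹ * x (v * y)) * ((v * y)⁻¹ * x (x (v * y))) =
      ((v * y)⁻¹ * x (x (v * y))) * ((v * y)⁻¹ * x (v * y)) := by
  haveI hWn := T.hWn
  have hF := S.inf_Fx T hne
  by_cases hy1 : y = 1
  · subst hy1
    rw [mul_one]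
    exact T.hab _ (mul_mem (inv_mem hv) (T.hW _ hv)) _ (mul_mem (inv_mem hv) (T.hW _ (T.hW _ hv)))
  have hYy : Yy x y = Y := by
    by_contra h
    have h1 := S.Y0_eq_bot_ab T ((Yy_le_of_mem hy).trans (Cm_le T.hY)) (xinv_Yy x y) h
    have h2 : y⁻¹ * (x ^ 1) y ∈ Yy x y := subset_closure ⟨1, rfl⟩
    rw [h1, mem_bot, pow_one] at h2
    have h3 : y ∈ Y ⊓ Fx x := by
      refine Subgroup.mem_inf.mpr ⟨hy, ?_⟩
      rw [mem_Fx]
      exact (inv_mul_eq_one.mp h2).symm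
    rw [hF, mem_bot] at h3
    exact hy1 h3
  set h := v * y with hh
  have hpow : ∀ i : ℕ, y⁻¹ * (x ^ i) y ∈ Yy x h ⊔ W := by
    intro i
    have he : y⁻¹ * (v⁻¹ * (x ^ i) v) * y ∈ W := by
      have := hWn.conj_mem _ (mul_mem (inv_mem hv) (T.hW.pow hv i)) y⁻¹
      simpa using this
    have e : y⁻¹ * (x ^ i) y = (y⁻¹ * (v⁻¹ * (x ^ i) v) * y)⁻¹ * (h⁻¹ * (x ^ i) h) := by
      rw [hh, map_mul]; group
    rw [e]
    exact mul_mem (mem_sup_right (inv_mem he)) (mem_sup_left (subset_closure ⟨i, rfl⟩))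
  have hsup' : Yy x h ⊔ W = ⊤ := by
    rw [eq_top_iff, ← T.hsup]
    refine sup_le ?_ le_sup_right
    rw [← hYy, Yy, closure_le]
    rintro _ ⟨i, rfl⟩
    exact hpow i
  have hE : Yy x h ⊓ W = ⊥ := by
    apply S.gp
    · apply normal_of_sup hsup'
      · intro a ha e he
        exact Subgroup.mem_inf.mpr ⟨mul_mem (mul_mem ha he.1) (inv_mem ha), hWn.conj_mem _ he.2 a⟩
      · intro a ha e he
        have : a * e * a⁻¹ = e := by rw [T.hab a ha e he.2]; group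
        rw [this]; exact he
    · exact (xinv_Yy x h).inf T.hW
    · rintro c ⟨⟨hc1, _⟩, hc2⟩
      exact Yy_le_Rg_of_fixed hc1 hc2
  have hg1 : h⁻¹ * x h ∈ Yy x h := subset_closure ⟨1, by rw [pow_one]⟩
  have hg2 : h⁻¹ * x (x h) ∈ Yy x h := subset_closure ⟨2, by
    rw [pow_two, MulAut.mul_apply]⟩
  have h3 : ⁅h⁻¹ * x h, h⁻¹ * x (x h)⁆ ∈ Yy x h ⊓ W :=
    Subgroup.mem_inf.mpr ⟨mul_mem (mul_mem (mul_mem hg1 hg2) (inv_mem hg1)) (inv_mem hg2),
      S.comm_mem_W T _ _⟩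
  rw [hE, mem_bot] at h3
  exact commutatorElement_eq_one_iff_mul_comm.mp h3

/-- Step 6. -/
theorem F_identity (T : YW x Y W) (hne : Y ≠ ⊥) {y v : H} (hy : y ∈ Y) (hv : v ∈ W) :
    (v⁻¹ * x v) * ((x y * y⁻¹) * (v⁻¹ * x (x v)) * (x y * y⁻¹)⁻¹) =
      (v⁻¹ * x (x v)) * ((x (x y) * y⁻¹) * (v⁻¹ * x v) * (x (x y) * y⁻¹)⁻¹) := by
  have hab := S.Y_abelian T
  have h := S.commute_g T hne hy hv
  have hy1 := T.hY y hy
  have hy2 := T.hY _ hy1
  simp only [map_mul] at h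
  have h1 : (v⁻¹ * x v) * ((x y * y⁻¹) * (v⁻¹ * x (x v)) * (x y * y⁻¹)⁻¹) * (x y * y⁻¹ * x (x y)) =
      (v⁻¹ * x (x v)) * ((x (x y) * y⁻¹) * (v⁻¹ * x v) * (x (x y) * y⁻¹)⁻¹) *
        (x (x y) * y⁻¹ * x y) := by
    have h2 := congrArg (fun z => y * z) h
    calc _ = y * ((v * y)⁻¹ * (x v * x y) * ((v * y)⁻¹ * (x (x v) * x (x y)))) := by group
      _ = y * ((v * y)⁻¹ * (x (x v) * x (x y)) * ((v * y)⁻¹ * (x v * x y))) := h2
      _ = _ := by group
  have h4 : x y * y⁻¹ * x (x y) = x (x y) * y⁻¹ * x y := by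
    have h5 : x y * y⁻¹ = y⁻¹ * x y := hab _ hy1 _ (inv_mem hy)
    rw [h5, mul_assoc, hab _ hy1 _ hy2]
    calc y⁻¹ * (x (x y) * x y) = (y⁻¹ * x (x y)) * x y := by group
      _ = (x (x y) * y⁻¹) * x y := by rw [hab _ (inv_mem hy) _ hy2]
  rw [h4] at h1
  exact mul_right_cancel h1

/-- Proposition A. -/
theorem propA {W : Subgroup H} [hWn : W.Normal] (hW : XInv x W)
    (hab : ∀ a ∈ W, ∀ b ∈ W, a * b = b * a) (hnc : ¬ W ≤ center H) :
    ∃ (Y : Subgroup H) (s : ℕ), s.Prime ∧ Y ⊔ W = ⊤ ∧ (∀ a ∈ Y, ∀ b ∈ Y, a * b = b * a) ∧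
      (∀ a ∈ Y, a ^ s = 1) ∧ ¬ s.Coprime (Nat.card W) := by
  obtain ⟨y, hy⟩ := S.exists_Yy_sup hW hab hnc
  have T : YW x (Yy x y) W := by
    refine ⟨hW, hWn, hab, xinv_Yy x y, S.Yy_le_self y, ?_, hy⟩
    rintro c ⟨hc1, hc2⟩
    exact Yy_le_Rg_of_fixed hc1 hc2
  have hne : Yy x y ≠ ⊥ := by
    intro hbot
    apply hnc
    rw [hbot, bot_sup_eq] at hy
    intro w hw
    rw [mem_center_iff]
    intro g
    exact hab g (by rw [hy]; trivial) w hw
  obtain ⟨s, hs, hes⟩ := S.Y_exponent T hne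
  refine ⟨Yy x y, s, hs, hy, S.Y_abelian T, hes, ?_⟩
  intro hcop
  have hF := S.inf_Fx T hne
  have hcube : ∀ g ∈ Yy x y, ∀ w ∈ W, ⁅g, ⁅g, ⁅g, w⁆⁆⁆ = 1 := by
    intro g hg w hw
    exact cube_of_commuting x hW T.hY hab (S.Y_abelian T)
      (fun g hg => XInv.exists_preimage S.hp S.hxp hW hg)
      (fun g hg => XInv.exists_preimage S.hp S.hxp T.hY hg)
      (S.surj1 T hF) (S.surj2 T hF)
      (fun y' hy' v hv => S.F_identity T hne hy' hv) hg hw
  have hcomm : ∀ g ∈ Yy x y, ∀ w ∈ W, ⁅g, w⁆ = 1 := by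
    intro g hg w hw
    have hg1 := hes g hg
    have hmem : ∀ u ∈ W, ⁅g, u⁆ ∈ W := fun u hu => commutator_le_right _ _
      (commutator_mem_commutator (mem_top g) hu)
    have h1 := comm_eq_one_of_comm_comm hab (hmem _ hw) hg1 hcop (hcube g hg w hw)
    exact comm_eq_one_of_comm_comm hab hw hg1 hcop h1
  apply hne
  rw [eq_bot_iff, ← S.inf_centralizer T]
  intro g hg
  refine Subgroup.mem_inf.mpr ⟨hg, ?_⟩
  rw [mem_centralizer_iff]
  intro w hw
  exact (commutatorElement_eq_one_iff_mul_comm.mp (hcomm g hg w hw)).symm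

end Setup

end Cfsg.Agent.Lib.Transfer.FixedComm
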