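import Mathlib
import Cfsg.Agent.Lib.Transfer.FixedCommA

/-!
# Minimal counterexamples to the fixed point theorem: central sections and the end of the proof
-/

set_option autoImplicit false
set_option linter.style.haveILetI false
set_option linter.unusedVariables false
set_option linter.unusedSectionVars false

namespace Cfsg.Agent.Lib.Transfer.FixedComm

open Subgroup
open scoped commutatorElement

universe u

variable {H : Type u} [Group H] [Finite H] {p : ℕ} {x : MulAut H}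

/-- Normal invariant subgroups. -/
def PN (x : MulAut H) (D : Subgroup H) : Prop := D.Normal ∧ XInv x D

theorem exists_min_above {N₀ : Subgroup H} (hN₀ : PN x N₀) (hne : N₀ ≠ ⊤) :
    ∃ W, PN x W ∧ N₀ < W ∧ ∀ D, PN x D → N₀ < D → D ≤ W → D = W := by
  have hfin : {D : Subgroup H | PN x D ∧ N₀ < D}.Finite := Set.toFinite _
  have hne' : {D : Subgroup H | PN x D ∧ N₀ < D}.Nonempty :=
    ⟨⊤, ⟨⟨inferInstance, xinv_top x⟩, lt_top_iff_ne_top.mpr hne⟩⟩
  obtain ⟨W, hW⟩ := hfin.exists_minimal hne'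
  refine ⟨W, hW.1.1, hW.1.2, ?_⟩
  intro D hD hlt hle
  exact le_antisymm hle (hW.2 ⟨hD, hlt⟩ hle)

theorem normal_of_le_center {D : Subgroup H} (h : D ≤ center H) : D.Normal := by
  constructor
  intro n hn g
  have : g * n * g⁻¹ = n := by
    rw [(mem_center_iff.mp (h hn)) g]; group
  rw [this]; exact hn

theorem xinv_center (x : MulAut H) : XInv x (center H) := by
  intro z hz
  rw [mem_center_iff] at hz ⊢
  intro g
  obtain ⟨g', rfl⟩ := x.surjective g
  rw [← map_mul, ← map_mul, hz g']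

theorem xinv_of_le_Fx {D : Subgroup H} (h : D ≤ Fx x) : XInv x D := by
  intro g hg
  rw [mem_Fx.mp (h hg)]; exact hg

theorem trn_pow_apply (x : MulAut H) (b : H) (i n : ℕ) :
    trn x ((x ^ i) b) n = (x ^ i) (trn x b n) := by
  induction n with
  | zero => simp [trn_zero]
  | succ n ih =>
    rw [trn_succ, trn_succ, ih, map_mul]
    congr 1
    rw [← MulAut.mul_apply, ← MulAut.mul_apply, ← pow_add, ← pow_add, add_comm]

theorem comm_mul_left {a b d : H} (h : ⁅b, d⁆ ∈ center H) : ⁅a * b, d⁆ = ⁅a, d⁆ * ⁅b, d⁆ := by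
  have h1 : ⁅a, d⁆ * ⁅b, d⁆ = ⁅b, d⁆ * ⁅a, d⁆ := (mem_center_iff.mp h) _
  rw [h1]
  have h2 : ⁅b, d⁆ * (a * d * a⁻¹ * d⁻¹) = a * ⁅b, d⁆ * d * a⁻¹ * d⁻¹ := by
    have h3 := (mem_center_iff.mp h) a
    calc ⁅b, d⁆ * (a * d * a⁻¹ * d⁻¹) = (⁅b, d⁆ * a) * d * a⁻¹ * d⁻¹ := by group
      _ = (a * ⁅b, d⁆) * d * a⁻¹ * d⁻¹ := by rw [h3]
  simp only [commutatorElement_def] at h2 ⊢
  rw [h2]; group

theorem comm_mul_right {a b d : H} (h : ⁅a, d⁆ ∈ center H) : ⁅a, b * d⁆ = ⁅a, b⁆ * ⁅a, d⁆ := by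
  have h3 := (mem_center_iff.mp h) b⁻¹
  have h4 : ⁅a, b * d⁆ = a * b * a⁻¹ * ⁅a, d⁆ * b⁻¹ := by
    simp only [commutatorElement_def]; group
  rw [h4, mul_assoc (a * b * a⁻¹), ← h3]
  simp only [commutatorElement_def]; group

theorem comm_inv_left {a d : H} (h : ⁅a, d⁆ ∈ center H) : ⁅a⁻¹, d⁆ = ⁅a, d⁆⁻¹ := by
  have h1 := comm_mul_left (a := a⁻¹) h
  rw [inv_mul_cancel, commutatorElement_one_left] at h1
  exact eq_inv_of_mul_eq_one_left h1.symm

theorem comm_inv_right {a d : H} (h : ⁅a, d⁆ ∈ center H) : ⁅a, d⁻¹⁆ = ⁅a, d⁆⁻¹ := by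
  have h1 := comm_mul_right (b := d⁻¹) h
  rw [inv_mul_cancel, commutatorElement_one_right] at h1
  exact eq_inv_of_mul_eq_one_left h1.symm

theorem comm_pow_left {a d : H} (h : ⁅a, d⁆ ∈ center H) (n : ℕ) : ⁅a ^ n, d⁆ = ⁅a, d⁆ ^ n := by
  induction n with
  | zero => simp
  | succ n ih => rw [pow_succ, comm_mul_left h, ih, pow_succ]

theorem comm_pow_right {a d : H} (h : ⁅a, d⁆ ∈ center H) (n : ℕ) : ⁅a, d ^ n⁆ = ⁅a, d⁆ ^ n := by
  induction n with
  | zero => simp
  | succ n ih => rw [pow_succ, comm_mul_right h, ih, pow_succ]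

theorem comm_mul_central {a b n m : H} (hn : n ∈ center H) (hm : m ∈ center H) :
    ⁅a * n, b * m⁆ = ⁅a, b⁆ := by
  have h1 := mem_center_iff.mp hn
  have h2 := mem_center_iff.mp hm
  have h3 := mem_center_iff.mp (inv_mem hn)
  simp only [commutatorElement_def]
  calc a * n * (b * m) * (a * n)⁻¹ * (b * m)⁻¹
      = a * (n * b) * m * n⁻¹ * a⁻¹ * m⁻¹ * b⁻¹ := by group
    _ = a * b * n * (m * n⁻¹) * a⁻¹ * m⁻¹ * b⁻¹ := by rw [← h1 b]; group
    _ = a * b * n * (n⁻¹ * m) * a⁻¹ * m⁻¹ * b⁻¹ := by rw [h3 m]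
    _ = a * b * (m * a⁻¹) * m⁻¹ * b⁻¹ := by group
    _ = a * b * (a⁻¹ * m) * m⁻¹ * b⁻¹ := by rw [← h2 a⁻¹]
    _ = _ := by group

/-- The data of a central minimal normal invariant subgroup outside the fixed point subgroup. -/
structure MC (x : MulAut H) (N : Subgroup H) (c : H) (r : ℕ) : Prop where
  hr : r.Prime
  hNn : N.Normal
  hNx : XInv x N
  hNc : N ≤ center H
  hNF : N ≤ Fx x
  hcN : c ∈ N
  hcR : c ∉ Rg x
  hgen : ∀ n ∈ N, n ≠ 1 → c ∈ zpowers n
  hrN : ∀ n ∈ N, n ^ r = 1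

namespace Setup

variable (S : Setup x p)
include S

theorem not_top_le_Fx : ¬ (⊤ : Subgroup H) ≤ Fx x := by
  intro h
  apply S.hnot
  have h1 : Cm x ⊤ = ⊥ := by
    rw [eq_bot_iff, Cm, closure_le]
    rintro _ ⟨b, hb, i, rfl⟩
    have hi : ∀ i : ℕ, (x ^ i) b = b := by
      intro i
      induction i with
      | zero => simp
      | succ i ih => rw [pow_succ_apply, ih]; exact h (mem_top b)
    rw [hi]
    simp
  rw [S.htop] at h1
  intro g hg
  have h2 : g ∈ (⊤ : Subgroup H) := mem_top g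
  rw [h1, mem_bot] at h2
  rw [h2]; exact one_mem _

theorem center_le_Fx : center H ≤ Fx x := by
  have hZx := xinv_center x
  have habZ : ∀ a ∈ center H, ∀ b ∈ center H, a * b = b * a := fun a ha b hb =>
    ((mem_center_iff.mp ha) b).symm
  have h1 : Cm x (center H) ≤ center H := Cm_le hZx
  have ht : ∀ d ∈ Cm x (center H), trn x d p ∈ (⊥ : Subgroup H) := by
    intro d hd
    refine trn_closure hZx habZ ?_ ?_ hd
    · exact (closure_le _).mp h1
    · rintro _ ⟨b, hb, i, rfl⟩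
      rw [trn_mul hZx habZ (inv_mem hb) (hZx.pow hb i), trn_inv hZx habZ hb, trn_pow_apply]
      have hi : ∀ i : ℕ, (x ^ i) (trn x b p) = trn x b p := by
        intro i
        induction i with
        | zero => simp
        | succ i ih => rw [pow_succ_apply, ih]; exact x_trn hZx habZ S.hxp hb
      rw [hi, inv_mul_cancel]
      exact one_mem _
  have h2 : Cm x (center H) = ⊥ := by
    apply S.gp (normal_of_le_center h1) (xinv_Cm x hZx)
    rintro d ⟨hd, hf⟩
    have h3 := ht d hd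
    rw [trn_fixed hf] at h3
    have h4 : d ∈ (⊥ : Subgroup H) := mem_of_pow_mem S.hcop h3
    rw [mem_bot] at h4
    rw [h4]; exact one_mem _
  intro z hz
  have h3 : z⁻¹ * (x ^ 1) z ∈ Cm x (center H) := subset_closure ⟨z, hz, 1, rfl⟩
  rw [h2, mem_bot, pow_one] at h3
  exact (inv_mul_eq_one.mp h3).symm

variable {N : Subgroup H} {c : H} {r : ℕ} (M : MC x N c r)
include M

theorem Rg_inf_N {n : H} (hn : n ∈ N) (hr : n ∈ Rg x) : n = 1 := by
  by_contra h1
  have h2 := M.hgen n hn h1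
  exact M.hcR ((zpowers_le.mpr hr) h2)

theorem N_ne_bot : N ≠ ⊥ := by
  intro h
  have h1 := M.hcN
  rw [h, mem_bot] at h1
  exact M.hcR (by rw [h1]; exact one_mem _)

theorem mul_decomp {t : H} (ht : t ∈ Fx x) : ∃ r₀ ∈ Rg x, ∃ n ∈ N, t = r₀ * n := by
  obtain ⟨r₀, hr₀, d, hd, e⟩ := S.hQ N M.hNn M.hNx (S.N_ne_bot M) t ht
  exact ⟨r₀, hr₀, d, hd.1, e⟩

theorem comm_Fx {a b : H} (ha : a ∈ Fx x) (hb : b ∈ Fx x) : ⁅a, b⁆ ∈ Rg x := by
  obtain ⟨r₁, hr₁, n₁, hn₁, rfl⟩ := S.mul_decomp M ha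
  obtain ⟨r₂, hr₂, n₂, hn₂, rfl⟩ := S.mul_decomp M hb
  rw [comm_mul_central (M.hNc hn₁) (M.hNc hn₂), commutatorElement_def]
  exact mul_mem (mul_mem (mul_mem hr₁ hr₂) (inv_mem hr₁)) (inv_mem hr₂)

theorem center_le_N : center H ≤ N := by
  have h1 : Rg x ⊓ center H = ⊥ := by
    apply S.gp
    · exact normal_of_le_center inf_le_right
    · exact xinv_of_le_Fx (inf_le_left.trans (Rg_le_Fx x))
    · rintro t ⟨⟨ht, _⟩, _⟩
      exact ht
  intro z hz
  obtain ⟨r₀, hr₀, n, hn, e⟩ := S.mul_decomp M (S.center_le_Fx hz)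
  have h2 : r₀ ∈ Rg x ⊓ center H := by
    refine Subgroup.mem_inf.mpr ⟨hr₀, ?_⟩
    have : r₀ = z * n⁻¹ := by rw [e]; group
    rw [this]
    exact mul_mem hz (M.hNc (inv_mem hn))
  rw [h1, mem_bot] at h2
  rw [e, h2, one_mul]; exact hn

/-- The polarisation argument: no such group is nilpotent of class two over `N`. -/
theorem polar (hall : ∀ a b : H, ⁅a, b⁆ ∈ N) : False := by
  have hZ : ∀ a b : H, ⁅a, b⁆ ∈ center H := fun a b => M.hNc (hall a b)
  have hinv : ∀ a b : H, ⁅x a, x b⁆ = ⁅a, b⁆ := by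
    intro a b
    rw [← map_commutatorElement]
    exact M.hNF (hall a b)
  have hpowinv : ∀ (i : ℕ) (a b : H), ⁅(x ^ i) a, (x ^ i) b⁆ = ⁅a, b⁆ := by
    intro i
    induction i with
    | zero => simp
    | succ i ih =>
      intro a b
      rw [pow_succ_apply, pow_succ_apply, hinv, ih]
  have hu : ∀ (h : H) (i j : ℕ), ⁅h⁻¹ * (x ^ i) h, h⁻¹ * (x ^ j) h⁆ = 1 := by
    intro h i j
    by_contra hne
    have h1 := M.hgen _ (hall (h⁻¹ * (x ^ i) h) (h⁻¹ * (x ^ j) h)) hne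
    have h2 : ⁅h⁻¹ * (x ^ i) h, h⁻¹ * (x ^ j) h⁆ ∈ Yy x h := by
      have hi : h⁻¹ * (x ^ i) h ∈ Yy x h := subset_closure ⟨i, rfl⟩
      have hj : h⁻¹ * (x ^ j) h ∈ Yy x h := subset_closure ⟨j, rfl⟩
      rw [commutatorElement_def]
      exact mul_mem (mul_mem (mul_mem hi hj) (inv_mem hi)) (inv_mem hj)
    exact M.hcR (Yy_le_Rg_of_fixed ((zpowers_le.mpr h2) h1) (M.hNF M.hcN))
  -- `φ_k = [h, x^k h]`
  have hphi : ∀ (h : H) (k : ℕ), ⁅h, (x ^ k) h⁆ = ⁅h, x h⁆ ^ k := by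
    intro h k
    induction k with
    | zero => simp
    | succ k ih =>
      have h1 := hu h 1 (k + 1)
      rw [pow_one, comm_mul_right (hZ _ _), comm_mul_left (hZ _ _), comm_mul_left (hZ _ _)] at h1
      have e1 : ⁅h⁻¹, h⁻¹⁆ = 1 := commutatorElement_self _
      have e2 : ⁅x h, h⁻¹⁆ = ⁅h, x h⁆ := by
        rw [comm_inv_right (hZ _ _)]; exact commutatorElement_inv _ _
      have e3 : ⁅h⁻¹, (x ^ (k + 1)) h⁆ = ⁅h, (x ^ (k + 1)) h⁆⁻¹ := comm_inv_left (hZ _ _)
      have h2 : ⁅x h, (x ^ (k + 1)) h⁆ = ⁅h, (x ^ k) h⁆ := by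
        rw [pow_succ_apply, hinv]
      rw [e1, one_mul, e2, e3, h2, ih] at h1
      have h4 := (mem_center_iff.mp (hZ h (x h))) (⁅h, (x ^ (k + 1)) h⁆⁻¹)
      rw [← mul_assoc, ← h4, mul_assoc, inv_mul_eq_one] at h1
      rw [h1]
      exact (pow_succ' _ _).symm
  have h1x : ∀ h : H, ⁅h, x h⁆ = 1 := by
    intro h
    have h2 := hphi h p
    rw [S.hxp] at h2
    simp only [MulAut.one_apply, commutatorElement_self] at h2
    have h3 : ⁅h, x h⁆ ∈ (⊥ : Subgroup H) :=
      mem_of_pow_mem S.hcop (by rw [← h2]; exact one_mem _)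
    simpa using h3
  have hpol : ∀ a b : H, ⁅a, x b⁆ = ⁅x a, b⁆ := by
    intro a b
    have h2 := h1x (a * b)
    rw [map_mul, comm_mul_left (hZ _ _), comm_mul_right (hZ _ _), comm_mul_right (hZ _ _), h1x a,
      h1x b, one_mul, mul_one] at h2
    have h3 : ⁅x a, b⁆ = ⁅b, x a⁆⁻¹ := (commutatorElement_inv _ _).symm
    rw [h3]
    exact eq_inv_of_mul_eq_one_left h2
  have hcen : ∀ b : H, x (x b) * b⁻¹ ∈ center H := by
    intro b
    rw [mem_center_iff]
    intro a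
    have h2 : ⁅a, x (x b)⁆ = ⁅a, b⁆ := by rw [hpol, hinv]
    have h3 : ⁅a, x (x b) * b⁻¹⁆ = 1 := by
      rw [comm_mul_right (hZ _ _), comm_inv_right (hZ _ _), h2, mul_inv_cancel]
    exact commutatorElement_eq_one_iff_mul_comm.mp h3
  have hev : ∀ (b : H) (k : ℕ), (x ^ (2 * k)) b * b⁻¹ ∈ center H := by
    intro b k
    induction k with
    | zero => simp [one_mem]
    | succ k ih =>
      have e : 2 * (k + 1) = 2 * k + 1 + 1 := by ring
      rw [e, pow_succ_apply, pow_succ_apply]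
      have h2 := hcen ((x ^ (2 * k)) b)
      have h3 : x (x ((x ^ (2 * k)) b)) * b⁻¹ =
          (x (x ((x ^ (2 * k)) b)) * ((x ^ (2 * k)) b)⁻¹) * ((x ^ (2 * k)) b * b⁻¹) := by group
      rw [h3]; exact mul_mem h2 ih
  obtain ⟨k, hk⟩ : 2 ∣ p + 1 := (Odd.add_one (S.hp.odd_of_ne_two S.hp2)).two_dvd
  have h1 : ∀ b : H, x b * b⁻¹ ∈ center H := by
    intro b
    have h2 := hev b k
    rw [← hk, pow_succ_apply, S.hxp] at h2
    simpa using h2
  have h2 : ∀ (b : H) (i : ℕ), (x ^ i) b * b⁻¹ ∈ center H := by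
    intro b i
    induction i with
    | zero => simp [one_mem]
    | succ i ih =>
      rw [pow_succ_apply]
      have h3 : x ((x ^ i) b) * b⁻¹ = (x ((x ^ i) b) * ((x ^ i) b)⁻¹) * ((x ^ i) b * b⁻¹) := by group
      rw [h3]; exact mul_mem (h1 _) ih
  apply S.not_top_le_Fx
  refine le_trans ?_ S.center_le_Fx
  rw [← S.htop, Cm, closure_le]
  rintro _ ⟨b, -, i, rfl⟩
  have h3 := (inferInstance : (center H).Normal).conj_mem _ (h2 b i) b⁻¹
  have e : b⁻¹ * ((x ^ i) b * b⁻¹) * b⁻¹⁻¹ = b⁻¹ * (x ^ i) b := by group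
  rw [e] at h3
  exact h3

omit M in
/-- Proposition A for a `r`-subgroup. -/
theorem propA_p {W : Subgroup H} [hWn : W.Normal] (hW : XInv x W)
    (hab : ∀ a ∈ W, ∀ b ∈ W, a * b = b * a) (hnc : ¬ W ≤ center H) {r : ℕ} [hr : Fact r.Prime]
    (hWp : IsPGroup r W) :
    IsPGroup r H ∧ ∃ Y : Subgroup H, Y ⊔ W = ⊤ ∧ (∀ a ∈ Y, ∀ b ∈ Y, a * b = b * a) := by
  obtain ⟨Y, s, hs, hsup, hYab, hYs, hcop⟩ := S.propA hW hab hnc
  have hsr : s = r := by
    have h1 : s ∣ Nat.card W := (Nat.Prime.dvd_iff_not_coprime hs).mpr hcop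
    obtain ⟨k, hk⟩ := IsPGroup.iff_card.mp hWp
    rw [hk] at h1
    exact (Nat.prime_dvd_prime_iff_eq hs hr.out).mp (hs.dvd_of_dvd_pow h1)
  subst hsr
  have hYp : IsPGroup s Y := fun a => ⟨1, Subtype.ext (by simpa using hYs a a.2)⟩
  have hsupP := IsPGroup.to_sup_of_normal_right' hYp hWp (by
    rw [normalizer_eq_top_iff.mpr hWn]; exact le_top)
  rw [hsup] at hsupP
  exact ⟨hsupP.of_equiv Subgroup.topEquiv, Y, hsup, hYab⟩

omit M in
/-- There is a central minimal subgroup outside the fixed point subgroup. -/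
theorem exists_N : ∃ (N : Subgroup H) (c : H) (r : ℕ), MC x N c r ∧
    ∀ D, PN x D → ⊥ < D → D ≤ N → D = N := by
  haveI := S.hsol
  have hbt : (⊥ : Subgroup H) ≠ ⊤ := by
    intro h
    apply S.hnot
    intro g _
    have h1 : g ∈ (⊥ : Subgroup H) := by rw [h]; trivial
    rw [mem_bot] at h1
    rw [h1]; exact one_mem _
  obtain ⟨N, hPN, hlt, hmin⟩ := exists_min_above (N₀ := ⊥) (x := x) ⟨inferInstance, xinv_bot x⟩ hbt
  haveI hNn := hPN.1
  have hNne : N ≠ ⊥ := hlt.ne'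
  have hcc : (⁅N, N⁆ : Subgroup H) = ⊥ := by
    by_contra h
    have h1 := hmin ⁅N, N⁆ ⟨inferInstance, hPN.2.commutator hPN.2⟩ (bot_lt_iff_ne_bot.mpr h)
      (commutator_le_left N N)
    exact (Group.IsSolvable.commutator_lt_of_ne_bot hNne).ne h1
  have hab : ∀ a ∈ N, ∀ b ∈ N, a * b = b * a := by
    intro a ha b hb
    have h1 : ⁅a, b⁆ ∈ (⁅N, N⁆ : Subgroup H) := commutator_mem_commutator ha hb
    rw [hcc, mem_bot] at h1
    exact commutatorElement_eq_one_iff_mul_comm.mp h1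
  have h1 : Nat.card N ≠ 1 := fun h => hNne (Subgroup.eq_bot_of_card_eq N h)
  obtain ⟨r, hr, hd⟩ := Nat.exists_prime_and_dvd h1
  haveI : Fact r.Prime := ⟨hr⟩
  obtain ⟨g, hg⟩ := exists_prime_orderOf_dvd_card' r hd
  let N₁ : Subgroup H :=
    { carrier := {a | a ∈ N ∧ a ^ r = 1}
      one_mem' := ⟨one_mem _, one_pow _⟩
      mul_mem' := by
        rintro a b ⟨ha, ha1⟩ ⟨hb, hb1⟩
        refine ⟨mul_mem ha hb, ?_⟩
        rw [(show Commute a b from hab a ha b hb).mul_pow, ha1, hb1, one_mul]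
      inv_mem' := by
        rintro a ⟨ha, ha1⟩
        exact ⟨inv_mem ha, by rw [inv_pow, ha1, inv_one]⟩ }
  have hN₁ : N₁ = N := by
    apply hmin N₁ ⟨⟨?_⟩, ?_⟩ ?_ (fun a ha => ha.1)
    · rintro n ⟨hn, hn1⟩ g
      exact ⟨hNn.conj_mem n hn g, by rw [conj_pow, hn1]; group⟩
    · rintro a ⟨ha, ha1⟩
      exact ⟨hPN.2 a ha, by rw [← map_pow, ha1, map_one]⟩
    · rw [bot_lt_iff_ne_bot, Subgroup.ne_bot_iff_exists_ne_one]
      refine ⟨⟨(g : H), g.2, ?_⟩, ?_⟩
      · have := pow_orderOf_eq_one g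
        rw [hg] at this
        have h2 := congrArg Subtype.val this
        simpa using h2
      · intro h3
        have h4 : (g : H) = 1 := congrArg Subtype.val h3
        have hg1 : g = 1 := Subtype.ext h4
        rw [hg1, orderOf_one] at hg
        exact hr.one_lt.ne hg
  have hrN : ∀ n ∈ N, n ^ r = 1 := by
    intro n hn
    rw [← hN₁] at hn
    exact hn.2
  have hNp : IsPGroup r N := fun a => ⟨1, Subtype.ext (by simpa using hrN a a.2)⟩
  have hNc : N ≤ center H := by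
    by_contra hnc
    obtain ⟨hHp, -⟩ := S.propA_p hPN.2 hab hnc hNp
    have h2 := PGroup.Basic.inf_center_ne_bot hHp hNne
    have h3 := hmin (N ⊓ center H) ⟨inferInstance, hPN.2.inf (xinv_center x)⟩
      (bot_lt_iff_ne_bot.mpr h2) inf_le_left
    exact hnc (inf_eq_left.mp h3)
  have hnle : ¬ N ⊓ Fx x ≤ Rg x := fun h => hNne (S.gp hNn hPN.2 h)
  obtain ⟨c, hc, hcR⟩ := SetLike.not_le_iff_exists.mp hnle
  have hc1 : c ≠ 1 := fun h => hcR (by rw [h]; exact one_mem _)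
  have hzc : zpowers c = N := by
    apply hmin
    · have h2 : zpowers c ≤ Fx x := zpowers_le.mpr hc.2
      exact ⟨normal_of_le_center ((zpowers_le.mpr hc.1).trans hNc), xinv_of_le_Fx h2⟩
    · rw [bot_lt_iff_ne_bot, Ne, zpowers_eq_bot]
      exact hc1
    · exact zpowers_le.mpr hc.1
  have hNF : N ≤ Fx x := by
    rw [← hzc]; exact zpowers_le.mpr hc.2
  refine ⟨N, c, r, ⟨hr, hNn, hPN.2, hNc, hNF, hc.1, hcR, ?_, hrN⟩, hmin⟩
  intro n hn hn1
  have h2 : zpowers n = N := by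
    apply hmin
    · exact ⟨normal_of_le_center ((zpowers_le.mpr hn).trans hNc),
        xinv_of_le_Fx ((zpowers_le.mpr hn).trans hNF)⟩
    · rw [bot_lt_iff_ne_bot, Ne, zpowers_eq_bot]
      exact hn1
    · exact zpowers_le.mpr hn
  rw [h2]; exact hc.1

omit M in
/-- A minimal counterexample does not exist. -/
theorem false_of_setup : False := by
  haveI := S.hsol
  haveI := S.fact_prime
  obtain ⟨N, c, r, M, hminN⟩ := S.exists_N
  haveI hrf : Fact r.Prime := ⟨M.hr⟩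
  haveI hNn := M.hNn
  have hNtop : N ≠ ⊤ := fun h => S.not_top_le_Fx (h ▸ M.hNF)
  obtain ⟨W, hPW, hlt, hminW⟩ := exists_min_above (x := x) ⟨M.hNn, M.hNx⟩ hNtop
  haveI hWn := hPW.1
  have hWx := hPW.2
  have hNW := hlt.le
  -- `W' ≤ N`
  have hWW : ⁅W, W⁆ ≤ N := by
    by_contra hle
    have hD : PN x (⁅W, W⁆ ⊔ N) := ⟨inferInstance, (hWx.commutator hWx).sup M.hNx⟩
    have hlt' : N < ⁅W, W⁆ ⊔ N := lt_of_le_of_ne le_sup_right (fun h => hle (sup_eq_right.mp h.symm))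
    have hEq := hminW _ hD hlt' (sup_le (commutator_le_left W W) hNW)
    have h2 : ⁅W, W⁆ ≤ ⁅⁅W, W⁆, ⁅W, W⁆⁆ := by
      rw [commutator_le]
      intro a ha b hb
      rw [← hEq] at ha hb
      obtain ⟨a₁, ha₁, n₁, hn₁, rfl⟩ := mem_sup_of_normal_right.mp ha
      obtain ⟨b₁, hb₁, n₂, hn₂, rfl⟩ := mem_sup_of_normal_right.mp hb
      rw [comm_mul_central (M.hNc hn₁) (M.hNc hn₂)]
      exact commutator_mem_commutator ha₁ hb₁
    have h3 : (⁅W, W⁆ : Subgroup H) = ⊥ := by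
      by_contra h4
      exact (Group.IsSolvable.commutator_lt_of_ne_bot h4).not_ge h2
    exact hle (h3 ▸ bot_le)
  have hZW : ∀ a ∈ W, ∀ b ∈ W, ⁅a, b⁆ ∈ center H := fun a ha b hb =>
    M.hNc (hWW (commutator_mem_commutator ha hb))
  -- `W` is an `r`-group
  have hWp : IsPGroup r W := by
    have hcard : Nat.card W ≠ 0 := Nat.card_pos.ne'
    obtain ⟨e, m, hm, hem⟩ := Nat.exists_eq_pow_mul_and_not_dvd hcard r M.hr.ne_one
    have hcop : r.Coprime m := (Nat.Prime.coprime_iff_not_dvd M.hr).mpr hm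
    let K : Subgroup H :=
      { carrier := {a | a ∈ W ∧ a ^ m = 1}
        one_mem' := ⟨one_mem _, one_pow _⟩
        mul_mem' := by
          rintro a b ⟨ha, ha1⟩ ⟨hb, hb1⟩
          refine ⟨mul_mem ha hb, ?_⟩
          have h1 : ⁅a, b⁆ ^ m = 1 := by
            rw [← comm_pow_left (hZW a ha b hb), ha1, commutatorElement_one_left]
          have h2 : ⁅a, b⁆ ^ r = 1 := M.hrN _ (hWW (commutator_mem_commutator ha hb))
          have h3 : ⁅a, b⁆ = 1 := by
            have h4 : orderOf ⁅a, b⁆ ∣ Nat.gcd r m :=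
              Nat.dvd_gcd (orderOf_dvd_of_pow_eq_one h2) (orderOf_dvd_of_pow_eq_one h1)
            rw [hcop, Nat.dvd_one, orderOf_eq_one_iff] at h4
            exact h4
          rw [(show Commute a b from commutatorElement_eq_one_iff_mul_comm.mp h3).mul_pow, ha1, hb1,
            one_mul]
        inv_mem' := by
          rintro a ⟨ha, ha1⟩
          exact ⟨inv_mem ha, by rw [inv_pow, ha1, inv_one]⟩ }
    have hK : K = ⊥ := by
      apply S.gp
      · constructor
        rintro n ⟨hn, hn1⟩ g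
        exact ⟨hWn.conj_mem n hn g, by rw [conj_pow, hn1]; group⟩
      · rintro a ⟨ha, ha1⟩
        exact ⟨hWx a ha, by rw [← map_pow, ha1, map_one]⟩
      · rintro t ⟨⟨ht, ht1⟩, hf⟩
        obtain ⟨r₀, hr₀, n, hn, e₁⟩ := S.mul_decomp M hf
        have h1 : t ^ r = r₀ ^ r := by
          rw [e₁, (show Commute r₀ n from ((mem_center_iff.mp (M.hNc hn)) r₀)).mul_pow,
            M.hrN n hn, mul_one]
        have h2 : t ^ r ∈ Rg x := by rw [h1]; exact pow_mem hr₀ r
        have hco : r.Coprime (orderOf t) :=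
          Nat.Coprime.coprime_dvd_right (orderOf_dvd_of_pow_eq_one ht1) hcop
        obtain ⟨k, hk⟩ := exists_pow_eq_self_of_coprime hco
        rw [← hk]
        exact pow_mem h2 k
    intro g
    refine ⟨e, Subtype.ext ?_⟩
    have h1 : ((g : H) ^ r ^ e) ∈ K := by
      refine ⟨pow_mem g.2 _, ?_⟩
      rw [← pow_mul, ← hem]
      have h2 := congrArg Subtype.val (pow_card_eq_one' (x := g))
      rwa [Subgroup.coe_pow, Subgroup.coe_one] at h2
    rw [hK, mem_bot] at h1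
    simpa using h1
  by_cases hWtop : W = ⊤
  · refine S.polar M fun a b => hWW (commutator_mem_commutator ?_ ?_)
    · rw [hWtop]; trivial
    · rw [hWtop]; trivial
  have hE := S.hB W hWx hWtop
  have hEx := xinv_Cm x hWx
  have hEW : Cm x W ≤ W := Cm_le hWx
  have hdec : ∀ a ∈ W, ∃ a₀ ∈ W, ∃ a₁ ∈ Cm x W, x a₀ = a₀ ∧ a = a₀ * a₁ := by
    intro a ha
    have h1 : a⁻¹ * x a ∈ Cm x W := subset_closure ⟨a, ha, 1, by rw [pow_one]⟩
    obtain ⟨e, he, hf⟩ := exists_fixed_coset S.hxp hEx (not_dvd_card S.hp S.hcop _) h1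
    exact ⟨a * e, mul_mem ha (hEW he), e⁻¹, inv_mem he, hf, by group⟩
  have hfixcomm : ∀ a₀ ∈ W, x a₀ = a₀ → ∀ t ∈ Cm x W, ⁅a₀, t⁆ = 1 := by
    intro a₀ ha₀ hf t ht
    have hle : Cm x W ≤ centralizer ({a₀} : Set H) := by
      rw [Cm, closure_le]
      rintro _ ⟨g, hg, i, rfl⟩
      rw [SetLike.mem_coe, mem_centralizer_iff]
      intro a₁ ha₁
      have ha₁' : a₁ = a₀ := ha₁
      subst ha₁'
      have hi : ∀ (i : ℕ) (n : H), x n = n → (x ^ i) n = n := by
        intro i n hn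
        induction i with
        | zero => simp
        | succ i ih => rw [pow_succ_apply, ih]; exact hn
      have h1 : ⁅a₁, (x ^ i) g⁆ = ⁅a₁, g⁆ := by
        have h2 := hi i _ (M.hNF (hWW (commutator_mem_commutator ha₀ hg)))
        rw [map_commutatorElement, hi i a₁ hf] at h2
        exact h2
      have h3 : ⁅a₁, g⁻¹ * (x ^ i) g⁆ = 1 := by
        rw [comm_mul_right (hZW _ ha₀ _ (hWx.pow hg i)), comm_inv_right (hZW _ ha₀ _ hg), h1,
          inv_mul_cancel]
      exact commutatorElement_eq_one_iff_mul_comm.mp h3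
    exact commutatorElement_eq_one_iff_mul_comm.mpr
      ((mem_centralizer_iff.mp (hle ht)) a₀ rfl)
  have habW : ∀ a ∈ W, ∀ b ∈ W, a * b = b * a := by
    intro a ha b hb
    obtain ⟨a₀, ha₀, a₁, ha₁, hfa, rfl⟩ := hdec a ha
    obtain ⟨b₀, hb₀, b₁, hb₁, hfb, rfl⟩ := hdec b hb
    have ha₁W := hEW ha₁
    have hb₁W := hEW hb₁
    apply commutatorElement_eq_one_iff_mul_comm.mp
    rw [comm_mul_left (hZW _ ha₁W _ (mul_mem hb₀ hb₁W)), comm_mul_right (hZW _ ha₀ _ hb₁W),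
      comm_mul_right (hZW _ ha₁W _ hb₁W)]
    have h1 : ⁅a₀, b₀⁆ = 1 :=
      S.Rg_inf_N M (hWW (commutator_mem_commutator ha₀ hb₀)) (S.comm_Fx M hfa hfb)
    have h2 : ⁅a₀, b₁⁆ = 1 := hfixcomm a₀ ha₀ hfa b₁ hb₁
    have h3 : ⁅a₁, b₀⁆ = 1 := by
      have h4 := hfixcomm b₀ hb₀ hfb a₁ ha₁
      exact commutatorElement_eq_one_iff_mul_comm.mpr
        (commutatorElement_eq_one_iff_mul_comm.mp h4).symm
    have h4 : ⁅a₁, b₁⁆ = 1 := by
      have h5 : ⁅a₁, b₁⁆ ∈ N := hWW (commutator_mem_commutator ha₁W hb₁W)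
      apply S.Rg_inf_N M h5
      apply hE
      refine Subgroup.mem_inf.mpr ⟨?_, M.hNF h5⟩
      rw [commutatorElement_def]
      exact mul_mem (mul_mem (mul_mem ha₁ hb₁) (inv_mem ha₁)) (inv_mem hb₁)
    rw [h1, h2, h3, h4]
    simp
  have hnc : ¬ W ≤ center H := fun h => hlt.not_ge (h.trans (S.center_le_N M))
  obtain ⟨hHp, Y, hsup, hYab⟩ := S.propA_p hWx habW hnc hWp
  -- `W / N` is central in `H / N`
  have hmk : ∀ g : H, (QuotientGroup.mk g : H ⧸ N) = QuotientGroup.mk' N g := fun _ => rfl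
  have hcen : ∀ w : H, QuotientGroup.mk' N w ∈ center (H ⧸ N) ↔ ∀ g, ⁅w, g⁆ ∈ N := by
    intro w
    constructor
    · intro h g
      rw [← QuotientGroup.eq_one_iff, hmk, map_commutatorElement]
      exact commutatorElement_eq_one_iff_mul_comm.mpr ((mem_center_iff.mp h) _).symm
    · intro h
      rw [mem_center_iff]
      intro q
      induction q using QuotientGroup.induction_on with
      | H g =>
      have h1 := (QuotientGroup.eq_one_iff _).mpr (h g)
      rw [hmk, map_commutatorElement] at h1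
      exact (commutatorElement_eq_one_iff_mul_comm.mp h1).symm
  have hT : ∀ w ∈ W, ∀ g, ⁅w, g⁆ ∈ N := by
    let T : Subgroup H := W ⊓ (center (H ⧸ N)).comap (QuotientGroup.mk' N)
    have hTW : T = W := by
      apply hminW T
      · refine ⟨inferInstance, ?_⟩
        rintro w ⟨hw, hwc⟩
        refine Subgroup.mem_inf.mpr ⟨hWx w hw, ?_⟩
        change QuotientGroup.mk' N (x w) ∈ center (H ⧸ N)
        rw [hcen]
        intro g
        obtain ⟨g', rfl⟩ := x.surjective g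
        rw [← map_commutatorElement]
        exact M.hNx _ ((hcen w).mp hwc g')
      · refine lt_of_le_of_ne ?_ ?_
        · intro n hn
          refine Subgroup.mem_inf.mpr ⟨hNW hn, ?_⟩
          change QuotientGroup.mk' N n ∈ center (H ⧸ N)
          rw [hcen]
          intro g
          have h1 : ⁅n, g⁆ = 1 := commutatorElement_eq_one_iff_mul_comm.mpr
            ((mem_center_iff.mp (M.hNc hn)) g).symm
          rw [h1]; exact one_mem _
        · intro heq
          have hQp : IsPGroup r (H ⧸ N) := hHp.to_quotient N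
          have hWb : W.map (QuotientGroup.mk' N) ≠ ⊥ := by
            intro h
            rw [Subgroup.map_eq_bot_iff, QuotientGroup.ker_mk'] at h
            exact hlt.not_ge h
          haveI : (W.map (QuotientGroup.mk' N)).Normal :=
            Subgroup.Normal.map hWn _ (QuotientGroup.mk'_surjective N)
          have h1 := PGroup.Basic.inf_center_ne_bot hQp hWb
          obtain ⟨⟨q, hq⟩, hq1'⟩ := Subgroup.ne_bot_iff_exists_ne_one.mp h1
          have hq1 : q ≠ 1 := fun h => hq1' (Subtype.ext h)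
          obtain ⟨w, hw, rfl⟩ := hq.1
          have hwT : w ∈ T := Subgroup.mem_inf.mpr ⟨hw, hq.2⟩
          rw [← heq] at hwT
          apply hq1
          exact (QuotientGroup.eq_one_iff w).mpr hwT
      · exact inf_le_left
    intro w hw
    rw [← hTW] at hw
    exact (hcen w).mp hw.2
  refine S.polar M fun a b => ?_
  have hs : ∀ g : H, ∃ y ∈ Y, ∃ w ∈ W, y * w = g := by
    intro g
    have h1 : g ∈ Y ⊔ W := by rw [hsup]; trivial
    exact mem_sup_of_normal_right.mp h1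
  obtain ⟨y₁, hy₁, w₁, hw₁, rfl⟩ := hs a
  obtain ⟨y₂, hy₂, w₂, hw₂, rfl⟩ := hs b
  rw [← QuotientGroup.eq_one_iff, hmk, map_commutatorElement, map_mul, map_mul]
  have hc : ∀ w ∈ W, QuotientGroup.mk' N w ∈ center (H ⧸ N) := fun w hw => (hcen w).mpr (hT w hw)
  have c11 : Commute (QuotientGroup.mk' N y₁) (QuotientGroup.mk' N y₂) := by
    change _ * _ = _ * _
    rw [← map_mul, ← map_mul, hYab y₁ hy₁ y₂ hy₂]
  have c12 : Commute (QuotientGroup.mk' N y₁) (QuotientGroup.mk' N w₂) :=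
    (mem_center_iff.mp (hc w₂ hw₂)) _
  have c21 : Commute (QuotientGroup.mk' N w₁) (QuotientGroup.mk' N y₂) :=
    ((mem_center_iff.mp (hc w₁ hw₁)) _).symm
  have c22 : Commute (QuotientGroup.mk' N w₁) (QuotientGroup.mk' N w₂) :=
    (mem_center_iff.mp (hc w₂ hw₂)) _
  exact commutatorElement_eq_one_iff_mul_comm.mpr
    (Commute.mul_left (c11.mul_right c12) (c21.mul_right c22))

end Setup

/-- The fixed point theorem, by induction on the order. -/
theorem fixed_main (n : ℕ) : ∀ (H : Type u) [Group H] [Finite H] [Group.IsSolvable H] (p : ℕ)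
    (x : MulAut H), Nat.card H = n → p.Prime → p ≠ 2 → (Nat.card H).Coprime p → x ^ p = 1 →
    Cm x ⊤ ⊓ Fx x ≤ Rg x := by
  induction n using Nat.strong_induction_on with
  | _ n IH =>
  intro H _ _ _ p x hn hp hp2 hcop hxp
  haveI : Fact p.Prime := ⟨hp⟩
  have hsub : ∀ B : Subgroup H, B ≠ ⊤ → (hB : XInv x B) → Cm x B ⊓ Fx x ≤ Rg x := by
    intro B hne hB
    apply ts_transfer B hB
    have hlt : Nat.card B < n := by
      rw [← hn, ← Subgroup.card_mul_index B]
      have h1 : B.index ≠ 1 := fun h => hne (Subgroup.index_eq_one.mp h)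
      have h2 : B.index ≠ 0 := Subgroup.index_ne_zero_of_finite
      have h3 : 0 < Nat.card B := Nat.card_pos
      have h4 : 2 ≤ B.index := by omega
      nlinarith
    exact IH _ hlt B p (resAut x B hB) rfl hp hp2
      (Nat.Coprime.coprime_dvd_left (Subgroup.card_subgroup_dvd_card B) hcop)
      (resAut_pow B hB hxp)
  by_cases htop : Cm x ⊤ = ⊤
  · rw [htop, top_inf_eq]
    by_contra hnot
    refine (Setup.false_of_setup (x := x) (p := p) ⟨hp, hp2, hcop, hxp, inferInstance, htop,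
      fun B hB hne => hsub B hne hB, ?_, hnot⟩)
    intro D hDn hD hne c hc
    haveI := hDn
    apply tq_transfer hxp hcop D hD ?_ htop hc
    have hlt : Nat.card (H ⧸ D) < n := by
      rw [← hn, ← Subgroup.card_mul_index D]
      have h1 : Nat.card D ≠ 1 := fun h => hne (Subgroup.eq_bot_of_card_eq D h)
      have h3 : 0 < Nat.card D := Nat.card_pos
      have h2 : 0 < D.index := Nat.pos_of_ne_zero Subgroup.index_ne_zero_of_finite
      have h4 : 2 ≤ Nat.card D := by omega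
      change D.index < _
      nlinarith
    exact IH _ hlt (H ⧸ D) p (quoAut x D hD) rfl hp hp2
      (Nat.Coprime.coprime_dvd_left (Subgroup.card_quotient_dvd_card D) hcop)
      (quoAut_pow D hD hxp)
  · have hle : Cm x ⊤ ≤ Cm x (Cm x ⊤) := by
      refine (top_le_iSup_Yy x).trans (iSup_le fun y => ?_)
      have h1 : Yy x y ≤ Cm x ⊤ := Yy_le_of_mem (mem_top y)
      exact (Yy_le_Cm hxp hcop y).trans (Cm_mono x h1)
    exact (inf_le_inf_right _ hle).trans (hsub _ htop (xinv_Cm x (xinv_top x)))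

end Cfsg.Agent.Lib.Transfer.FixedComm
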