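import Mathlib
import Cfsg.Prelude.Def_Transfer
import Cfsg.Agent.Lib.Transfer.Frobenius
import Cfsg.Agent.Lib.Transfer.WellPlaced

set_option autoImplicit false

/-!
# A Frattini argument and small tools around the Frobenius hypothesis

* `frat_gen`: `T ≤ H` a `p`-subgroup of index prime to `p`, `C ≤ H` normalized by `H`: each `g ∈ H`
  lies in `C · N_H(T ∩ C)`.
* `mem_of_coprime_pow`: `g` is in each subgroup containing `g ^ m`, for `m` prime to the order of `g`.
* `mem_centralizer_of_complement`: a `p'`-element of a `p`-nilpotent subgroup `X` normalizing a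
  `p`-subgroup of `X` centralizes it.
-/

namespace Cfsg.Agent.Lib.Transfer.FrattiniGen

open Cfsg.Agent.Lib.Transfer.Frobenius Cfsg.Agent.Lib.Transfer.WellPlaced

variable {G : Type*} [Group G]

theorem mem_of_coprime_pow {g : G} {m : ℕ} (hc : Nat.Coprime m (orderOf g)) {K : Subgroup G}
    (h : g ^ m ∈ K) : g ∈ K := by
  have hb := Nat.gcd_eq_gcd_ab m (orderOf g)
  rw [Nat.Coprime.gcd_eq_one hc, Nat.cast_one] at hb
  have e : g = (g ^ m) ^ (Nat.gcdA m (orderOf g)) := by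
    conv_lhs => rw [← zpow_one g, hb]
    rw [zpow_add, zpow_mul, zpow_mul, zpow_natCast, zpow_natCast, pow_orderOf_eq_one, one_zpow,
      mul_one]
  rw [e]
  exact K.zpow_mem h _

/-- A set-level decomposition of `R ⊔ E` when `R` normalizes `E`. -/
theorem exists_mul_of_mem_sup {R E : Subgroup G} (h : ∀ r ∈ R, ∀ e ∈ E, r * e * r⁻¹ ∈ E) {w : G}
    (hw : w ∈ R ⊔ E) : ∃ e ∈ E, ∃ r ∈ R, w = e * r := by
  let M : Subgroup G :=
    { carrier := {x | ∃ e ∈ E, ∃ r ∈ R, x = e * r}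
      one_mem' := ⟨1, E.one_mem, 1, R.one_mem, by simp⟩
      mul_mem' := by
        rintro _ _ ⟨e, he, r, hr, rfl⟩ ⟨e', he', r', hr', rfl⟩
        refine ⟨e * (r * e' * r⁻¹), E.mul_mem he (h r hr e' he'), r * r', R.mul_mem hr hr', ?_⟩
        group
      inv_mem' := by
        rintro _ ⟨e, he, r, hr, rfl⟩
        refine ⟨r⁻¹ * e⁻¹ * r⁻¹⁻¹, h _ (R.inv_mem hr) _ (E.inv_mem he), r⁻¹, R.inv_mem hr, ?_⟩
        group }
  have hle : R ⊔ E ≤ M := by
    refine sup_le ?_ ?_
    · intro r hr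
      exact ⟨1, E.one_mem, r, hr, by simp⟩
    · intro e he
      exact ⟨e, he, 1, R.one_mem, by simp⟩
  exact hle hw

variable [Finite G] {p : ℕ} [hp : Fact p.Prime]

/-- **Frattini argument**, for a `p`-subgroup `T` of index prime to `p` in `H` and a subgroup `C` of
`H` normalized by `H`. -/
theorem frat_gen {T H C : Subgroup G} (hTH : T ≤ H) (hTp : IsPGroup p T)
    (hi : ¬ p ∣ T.relIndex H) (hCH : C ≤ H) (hCn : ∀ h ∈ H, ∀ x ∈ C, h * x * h⁻¹ ∈ C) {g : G}
    (hg : g ∈ H) : ∃ d ∈ C, d * g ∈ Subgroup.normalizer ((T ⊓ C : Subgroup G) : Set G) := by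
  set A : Subgroup G := T ⊓ C with hA
  have hAC : A ≤ C := inf_le_right
  have hAp : IsPGroup p A := hTp.to_le inf_le_left
  have hmax : ∀ R : Subgroup G, R ≤ C → IsPGroup p R → Nat.card R ≤ Nat.card A := by
    intro R hRC hRp
    obtain ⟨h, hh, hle⟩ := exists_conj_le_of_sylow hTH hTp hi (hRC.trans hCH) hRp
    have hle2 : cj h R ≤ A := by
      refine le_inf hle ?_
      rintro _ ⟨r, hr, rfl⟩
      exact hCn h hh r (hRC hr)
    rw [← card_cj h R]
    exact Subgroup.card_le_of_le hle2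
  have mk : ∀ U : Subgroup G, U ≤ C → IsPGroup p U → Nat.card U = Nat.card A →
      ∃ P : Sylow p C, (P : Subgroup C) = U.subgroupOf C := by
    intro U hUC hUp hUc
    refine ⟨⟨U.subgroupOf C, hUp.comap_of_injective _ C.subtype_injective, ?_⟩, rfl⟩
    intro Q' hQ' hle
    have hcardT : Nat.card (U.subgroupOf C) = Nat.card U :=
      Nat.card_congr (Subgroup.subgroupOfEquivOfLe hUC).toEquiv
    have hR := hmax (Q'.map C.subtype) (Subgroup.map_subtype_le _) (hQ'.map C.subtype)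
    rw [Subgroup.card_map_of_injective C.subtype_injective] at hR
    symm
    apply Subgroup.eq_of_le_of_card_ge hle
    rw [hcardT, hUc]
    exact hR
  obtain ⟨P₁, hP₁⟩ := mk A hAC hAp rfl
  have hXC : cj g A ≤ C := by
    rintro _ ⟨r, hr, rfl⟩
    exact hCn g hg r (hAC hr)
  obtain ⟨P₂, hP₂⟩ := mk (cj g A) hXC (IsPGroup_cj hAp g) (card_cj g A)
  obtain ⟨d, hd⟩ := MulAction.exists_smul_eq C P₂ P₁
  refine ⟨d, d.2, ?_⟩
  apply mem_normalizer_of_conj_mem
  intro q hq
  have h1 : (⟨g * q * g⁻¹, hXC (conj_mem_cj hq)⟩ : C) ∈ (P₂ : Subgroup C) := by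
    rw [hP₂, Subgroup.mem_subgroupOf]
    exact conj_mem_cj hq
  have h2 : d * (⟨g * q * g⁻¹, hXC (conj_mem_cj hq)⟩ : C) * d⁻¹ ∈ ((d • P₂ : Sylow p C) : Subgroup C) := by
    rw [Sylow.coe_subgroup_smul]
    exact ⟨_, h1, rfl⟩
  rw [hd, hP₁, Subgroup.mem_subgroupOf] at h2
  have e : ((d * (⟨g * q * g⁻¹, hXC (conj_mem_cj hq)⟩ : C) * d⁻¹ : C) : G)
      = (d : G) * g * q * ((d : G) * g)⁻¹ := by
    simp only [Subgroup.coe_mul, Subgroup.coe_inv]
    group
  rw [e] at h2
  exact h2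

/-- In a `p`-nilpotent subgroup `X`, a `p'`-element normalizing a `p`-subgroup of `X` centralizes it. -/
theorem mem_centralizer_of_complement {X : Subgroup G} (hX : Cfsg.HasNormalPComplement p X)
    {Q : Subgroup G} (hQX : Q ≤ X) (hQ : IsPGroup p Q) {g : G} (hgX : g ∈ X)
    (hgN : g ∈ Subgroup.normalizer (Q : Set G)) (hc : Nat.Coprime (orderOf g) p) :
    g ∈ Subgroup.centralizer (Q : Set G) := by
  have F := frobeniusHyp_of_hasNormalPComplement hX
  have hQ' : IsPGroup p (Q.subgroupOf X) := hQ.comap_of_injective _ X.subtype_injective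
  have hg' : (⟨g, hgX⟩ : X) ∈ Subgroup.normalizer ((Q.subgroupOf X : Subgroup X) : Set X) := by
    rw [Subgroup.mem_normalizer_iff]
    intro z
    rw [Subgroup.mem_subgroupOf, Subgroup.mem_subgroupOf]
    exact Subgroup.mem_normalizer_iff.mp hgN z
  have hc' : Nat.Coprime (orderOf (⟨g, hgX⟩ : X)) p := by
    rwa [Subgroup.orderOf_mk]
  have h := F _ hQ' _ hg' hc'
  rw [Subgroup.mem_centralizer_iff] at h ⊢
  intro q hq
  have h2 := h ⟨q, hQX hq⟩ (by
    show (⟨q, hQX hq⟩ : X) ∈ Q.subgroupOf X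
    rw [Subgroup.mem_subgroupOf]
    exact hq)
  exact congrArg Subtype.val h2

end Cfsg.Agent.Lib.Transfer.FrattiniGen
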