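import Mathlib
import Cfsg.Agent.Lib.Transfer.TransferReduction

/-!
# Strong fusion in sections: conversions and the step modulo a normal `p'`-subgroup
-/

set_option autoImplicit false
set_option linter.unusedSectionVars false
set_option linter.style.haveILetI false
set_option linter.unusedVariables false

universe u

namespace Cfsg.Agent.Lib.Transfer.FusionBasic

open Subgroup Cfsg Cfsg.Agent.Lib.Transfer.WellPlaced Cfsg.Agent.Lib.Transfer.WellPlacedControl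
open Cfsg.Agent.Lib.Transfer.FamilyControl Cfsg.Agent.Lib.Transfer.SectionBasic
open Cfsg.Agent.Lib.Transfer.TransferReduction
open Cfsg.Agent.Lib.Basic.PCore Cfsg.Agent.Lib.Basic.SylowUtil
open scoped commutatorElement

variable {p : ℕ}

/-- The family induced on `Y`. -/
abbrev IF (𝓦 : Set WT.{u}) (Y : Type u) [Group Y] : Set (Subgroup Y → Subgroup Y) :=
  (fun W => inducedFunctor (G := Y) W) '' 𝓦

/-- The fusion relation at every Sylow subgroup. -/
def FF (p : ℕ) (𝓦 : Set WT.{u}) (Y : Type u) [Group Y] : Prop :=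
  ∀ S : Sylow p Y, ∀ B : Subgroup Y, B ≤ S → ∀ g : Y, cj g B ≤ S → fusionRel (IF 𝓦 Y) S B g

section rel

variable {Y : Type u} [Group Y] [Finite Y] {𝓕 : Set (Subgroup Y → Subgroup Y)} {S₀ : Subgroup Y}

theorem FR_target {B : Subgroup Y} {g : Y} (h : fusionRel 𝓕 S₀ B g) : cj g B ≤ S₀ := by
  obtain ⟨c, h1, h2⟩ := h
  rw [← cj_eq_of_agree h2]
  exact h1.target

theorem FR_le {B : Subgroup Y} {g : Y} (h : fusionRel 𝓕 S₀ B g) : B ≤ S₀ := by
  obtain ⟨c, h1, -⟩ := h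
  exact h1.le

theorem FR_congr {B : Subgroup Y} {g k : Y} (h : fusionRel 𝓕 S₀ B g)
    (hgk : ∀ b ∈ B, g * b * g⁻¹ = k * b * k⁻¹) : fusionRel 𝓕 S₀ B k := by
  obtain ⟨c, h1, h2⟩ := h
  exact ⟨c, h1, fun b hb => (h2 b hb).trans (hgk b hb)⟩

theorem FR_one {B : Subgroup Y} (h : B ≤ S₀) : fusionRel 𝓕 S₀ B 1 :=
  ⟨1, GChain.nil h, fun _ _ => rfl⟩

theorem FR_of_chain {B : Subgroup Y} {c : Y} (h : GChain 𝓕 S₀ B c) : fusionRel 𝓕 S₀ B c :=
  ⟨c, h, fun _ _ => rfl⟩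

end rel

section finite

variable {𝓦 : Set WT.{u}} {Y : Type u} [Group Y] [Finite Y] [hp : Fact p.Prime]

theorem isConj_IF (h𝓦 : ∀ W ∈ 𝓦, IsCharPFunctor.{u} p W) :
    ∀ W ∈ IF 𝓦 Y, IsConjugacyFunctor p W := by
  rintro _ ⟨W, hW, rfl⟩
  exact isConjugacyFunctor_iW (h𝓦 W hW)

/-- Family control of strong fusion in a subgroup containing `S` gives the relation. -/
theorem fusionRel_of_control (h𝓦 : ∀ W ∈ 𝓦, IsCharPFunctor.{u} p W) {H : Subgroup Y}
    (hc : FamilyControlsStrongFusionIn p (IF 𝓦 Y) H) (S : Sylow p Y)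
    (hSH : (S : Subgroup Y) ≤ H) {B : Subgroup Y} (hB : B ≤ S) {g : Y} (hg : g ∈ H)
    (hgB : cj g B ≤ S) : fusionRel (IF 𝓦 Y) S B g := by
  obtain ⟨n, c, h0, hstep, hconj, hlast⟩ := familyControlsFusion_at (IF 𝓦 Y) (isConj_IF h𝓦) hc
    hSH S.isPGroup' (not_dvd_relIndex_of_le S hSH) (B : Set Y) g hg (fun a ha => hB ha)
    (by
      rintro _ ⟨a, ha, rfl⟩
      exact hgB (conj_mem_cj ha))
  have hconj' : ∀ i : Fin (n + 1), cj (c i) B ≤ S := by
    rintro i _ ⟨a, ha, rfl⟩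
    exact hconj i ⟨a, ha, rfl⟩
  have h1 : ∀ i : Fin (n + 1), fusionRel (IF 𝓦 Y) S B (c i) := by
    refine fusionRel_of_fin (IF 𝓦 Y) (isRel_fusionRel _ _) (FR_one hB) h0 ?_
    intro i
    obtain ⟨W, hW, hi⟩ := hstep i
    refine FR_of_chain (GChain.one_step (hconj' _) ?_ hW hi.2)
    rw [← cj_mul]
    simpa using hconj' i.succ
  exact FR_congr (h1 (Fin.last n)) hlast

/-- `FF` from the definition. -/
theorem FF_of_control (h𝓦 : ∀ W ∈ 𝓦, IsCharPFunctor.{u} p W)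
    (hc : FamilyControlsStrongFusionIn p (IF 𝓦 Y) ⊤) : FF p 𝓦 Y :=
  fun S B hB g hg => fusionRel_of_control h𝓦 hc S le_top hB (Subgroup.mem_top g) hg

/-- `FF` of a subgroup gives the family control in this subgroup. -/
theorem control_of_FF_subgroup (h𝓦 : ∀ W ∈ 𝓦, IsCharPFunctor.{u} p W) (H : Subgroup Y)
    (hFF : FF p 𝓦 H) : FamilyControlsStrongFusionIn p (IF 𝓦 Y) H := by
  obtain ⟨T₀⟩ : Nonempty (Sylow p H) := inferInstance
  set R : Subgroup Y := (T₀ : Subgroup H).map H.subtype with hR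
  have hRH : R ≤ H := map_subtype_le _
  have hRp : IsPGroup p R := T₀.isPGroup'.map _
  have hsub : R.subgroupOf H = T₀ := by
    rw [hR]
    exact Subgroup.comap_map_eq_self_of_injective H.subtype_injective _
  have hRi : ¬ p ∣ R.relIndex H := by
    rw [Subgroup.relIndex, hsub]
    exact T₀.not_dvd_index
  refine ⟨R, hRH, hRp, hRi, ?_⟩
  intro A h hh hA hhA
  let A₀ : Set H := H.subtype ⁻¹' A
  let B₀ : Subgroup H := closure A₀
  let h₀ : H := ⟨h, hh⟩
  have hmemR : ∀ x : H, (x : Y) ∈ R → x ∈ (T₀ : Subgroup H) := by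
    intro x hx
    obtain ⟨y, hy, hyx⟩ := hx
    have : y = x := Subtype.ext hyx
    rwa [← this]
  have hB₀ : B₀ ≤ T₀ := (closure_le _).2 fun a ha => hmemR a (hA ha)
  have hhB₀ : cj h₀ B₀ ≤ T₀ := by
    rw [cj, MonoidHom.map_closure, closure_le]
    rintro _ ⟨a, ha, rfl⟩
    refine hmemR _ (hhA ⟨a, ha, rfl⟩)
  obtain ⟨c₀, hc₀, hag⟩ := hFF T₀ B₀ hB₀ h₀ hhB₀
  obtain ⟨n, c, h0, hstep, hconj, hlast⟩ := hc₀.toFin
  have hT₀p : IsPGroup p (T₀ : Subgroup H) := T₀.isPGroup'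
  refine ⟨n, fun i => (c i : Y), by simp [h0], ?_, ?_, ?_⟩
  · intro i
    obtain ⟨_, ⟨W, hW, rfl⟩, hi⟩ := hstep i
    refine ⟨_, ⟨W, hW, rfl⟩, ?_⟩
    have hi' : c i.succ * (c i.castSucc)⁻¹ ∈ Nz (inducedFunctor (G := H) W (T₀ : Subgroup H)) := hi
    refine ⟨((c i.succ * (c i.castSucc)⁻¹ : H) : H).2, ?_⟩
    have e : inducedFunctor (G := Y) W R = (inducedFunctor (G := H) W (T₀ : Subgroup H)).map H.subtype :=
      iW_map_of_injOn (h𝓦 W hW) H.subtype hT₀p (fun a _ b _ h => H.subtype_injective h)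
    show _ ∈ Nz (inducedFunctor (G := Y) W R)
    rw [e]
    exact Subgroup.le_normalizer_map H.subtype ⟨_, hi', rfl⟩
  · rintro i _ ⟨a, ha, rfl⟩
    have haH : a ∈ H := hRH (hA ha)
    have ha' : (⟨a, haH⟩ : H) ∈ B₀ := subset_closure ha
    have := hconj i (conj_mem_cj ha')
    exact ⟨_, this, rfl⟩
  · intro a ha
    have haH : a ∈ H := hRH (hA ha)
    have ha' : (⟨a, haH⟩ : H) ∈ B₀ := subset_closure ha
    have h3 := hag _ ha'
    rw [← hlast] at h3
    have := congrArg (fun x : H => (x : Y)) h3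
    simpa using this

/-- Family control in the group from `FF`. -/
theorem control_of_FF (h𝓦 : ∀ W ∈ 𝓦, IsCharPFunctor.{u} p W)
    (hFF : FF p 𝓦 Y) : FamilyControlsStrongFusionIn p (IF 𝓦 Y) ⊤ := by
  obtain ⟨S⟩ : Nonempty (Sylow p Y) := inferInstance
  refine ⟨S, le_top, S.isPGroup', by rw [Subgroup.relIndex_top_right]; exact S.not_dvd_index, ?_⟩
  intro A h _ hA hhA
  have hB : closure A ≤ (S : Subgroup Y) := (closure_le _).2 hA
  have hhB : cj h (closure A) ≤ (S : Subgroup Y) := by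
    rw [cj, MonoidHom.map_closure, closure_le]
    rintro _ ⟨a, ha, rfl⟩
    exact hhA ⟨a, ha, rfl⟩
  obtain ⟨c₀, hc₀, hag⟩ := hFF S _ hB h hhB
  obtain ⟨n, c, h0, hstep, hconj, hlast⟩ := hc₀.toFin
  refine ⟨n, c, h0, ?_, ?_, ?_⟩
  · intro i
    obtain ⟨W, hW, hi⟩ := hstep i
    exact ⟨W, hW, ⟨Subgroup.mem_top _, hi⟩⟩
  · rintro i _ ⟨a, ha, rfl⟩
    exact hconj i (conj_mem_cj (subset_closure ha))
  · intro a ha
    rw [hlast]
    exact hag a (subset_closure ha)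

/-- A proper relation in a subgroup containing `S`. -/
theorem fusionRel_of_FF_subgroup (h𝓦 : ∀ W ∈ 𝓦, IsCharPFunctor.{u} p W) {H : Subgroup Y}
    (hFF : FF p 𝓦 H) (S : Sylow p Y) (hSH : (S : Subgroup Y) ≤ H) {B : Subgroup Y}
    (hB : B ≤ S) {g : Y} (hg : g ∈ H) (hgB : cj g B ≤ S) : fusionRel (IF 𝓦 Y) S B g :=
  fusionRel_of_control h𝓦 (control_of_FF_subgroup h𝓦 H hFF) S hSH hB hg hgB

/-! ### Isomorphisms -/

variable {X : Type u} [Group X] [Finite X]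

theorem map_cj_equiv (e : X ≃* Y) (g : X) (B : Subgroup X) :
    (cj g B).map e.toMonoidHom = cj (e g) (B.map e.toMonoidHom) := by
  ext y
  constructor
  · rintro ⟨_, ⟨b, hb, rfl⟩, rfl⟩
    exact ⟨e b, ⟨b, hb, rfl⟩, by simp⟩
  · rintro ⟨_, ⟨b, hb, rfl⟩, rfl⟩
    exact ⟨_, ⟨b, hb, rfl⟩, by simp⟩

theorem GChain_map_equiv (h𝓦 : ∀ W ∈ 𝓦, IsCharPFunctor.{u} p W) (e : X ≃* Y) {P : Subgroup X}
    (hP : IsPGroup p P) {B : Subgroup X} {c : X} (h : GChain (IF 𝓦 X) P B c) :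
    GChain (IF 𝓦 Y) (P.map e.toMonoidHom) (B.map e.toMonoidHom) (e c) := by
  induction h with
  | nil hB =>
    simpa using GChain.nil (map_mono hB)
  | @cons B W x c hB hW hx _ ih =>
    obtain ⟨W₀, hW₀, rfl⟩ := hW
    rw [map_mul]
    refine GChain.cons (map_mono hB) ⟨W₀, hW₀, rfl⟩ ?_ ?_
    · have hx' : x ∈ Nz (inducedFunctor (G := X) W₀ P) := hx
      show e x ∈ Nz (inducedFunctor (G := Y) W₀ (P.map e.toMonoidHom))
      rw [iW_map_equiv (h𝓦 W₀ hW₀) e hP]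
      exact Subgroup.le_normalizer_map e.toMonoidHom ⟨x, hx', rfl⟩
    · have := ih
      rwa [map_cj_equiv] at this

theorem FF_congr (h𝓦 : ∀ W ∈ 𝓦, IsCharPFunctor.{u} p W) (e : X ≃* Y) (h : FF p 𝓦 X) : FF p 𝓦 Y := by
  intro S B hB g hg
  let S₁ : Sylow p X := Sylow.mapSurjective (f := e.symm.toMonoidHom) e.symm.surjective S
  have hS₁ : (S₁ : Subgroup X).map e.toMonoidHom = S := by
    show ((S : Subgroup Y).map e.symm.toMonoidHom).map e.toMonoidHom = S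
    ext y
    simp
  have hBB : (B.map e.symm.toMonoidHom).map e.toMonoidHom = B := by
    ext y
    simp
  have h1 : B.map e.symm.toMonoidHom ≤ S₁ := map_mono hB
  have h2 : cj (e.symm g) (B.map e.symm.toMonoidHom) ≤ S₁ := by
    have := map_mono (f := e.symm.toMonoidHom) hg
    rwa [show (cj g B).map e.symm.toMonoidHom = cj (e.symm g) (B.map e.symm.toMonoidHom) from
      map_cj_equiv e.symm g B] at this
  obtain ⟨c, hc, hag⟩ := h S₁ _ h1 _ h2
  have h3 := GChain_map_equiv h𝓦 e S₁.isPGroup' hc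
  rw [hS₁, hBB] at h3
  refine ⟨e c, h3, fun b hb => ?_⟩
  have h4 := hag (e.symm b) ⟨b, hb, rfl⟩
  have h5 := congrArg e h4
  simpa using h5

/-! ### The step modulo a normal `p'`-subgroup -/

theorem lift_pprime (h𝓦 : ∀ W ∈ 𝓦, IsCharPFunctor.{u} p W) (S : Sylow p Y) (D : Subgroup Y)
    [hDn : D.Normal] (hD : (Nat.card D).Coprime p) {Bq : Subgroup (Y ⧸ D)} {cq : Y ⧸ D}
    (hch : GChain (IF 𝓦 (Y ⧸ D)) ((S : Subgroup Y).map (QuotientGroup.mk' D)) Bq cq) :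
    ∀ B : Subgroup Y, B ≤ S → B.map (QuotientGroup.mk' D) = Bq →
      ∃ c : Y, GChain (IF 𝓦 Y) S B c ∧ QuotientGroup.mk' D c = cq := by
  induction hch with
  | nil hB =>
    intro B hBS _
    exact ⟨1, GChain.nil hBS, map_one _⟩
  | @cons Bq W xq cq hB hW hx hrest ih =>
    intro B hBS hBmap
    obtain ⟨W₀, hW₀, rfl⟩ := hW
    set π : Y →* Y ⧸ D := QuotientGroup.mk' D with hπ
    have hπs : Function.Surjective π := QuotientGroup.mk'_surjective D
    have hinjS : ∀ a ∈ (S : Subgroup Y), ∀ b ∈ (S : Subgroup Y), π a = π b → a = b := by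
      intro a ha b hb hab
      have hker : a⁻¹ * b ∈ D := QuotientGroup.eq.1 hab
      have hS : a⁻¹ * b ∈ (S : Subgroup Y) := (S : Subgroup Y).mul_mem ((S : Subgroup Y).inv_mem ha) hb
      have := eq_one_of_coprime hD S.isPGroup' hker hS
      have h2 : a = b := by
        have h3 : a⁻¹ * b = 1 := this
        exact (inv_mul_eq_one.1 h3)
      exact h2
    have hmapW : inducedFunctor (G := Y ⧸ D) W₀ ((S : Subgroup Y).map π) =
        (inducedFunctor (G := Y) W₀ (S : Subgroup Y)).map π :=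
      iW_map_of_injOn (h𝓦 W₀ hW₀) π S.isPGroup' hinjS
    obtain ⟨x, rfl⟩ := hπs xq
    have hx' : π x ∈ Nz ((inducedFunctor (G := Y) W₀ (S : Subgroup Y)).map π) := by
      rw [← hmapW]
      exact hx
    have hWp : IsPGroup p (inducedFunctor (G := Y) W₀ (S : Subgroup Y)) :=
      S.isPGroup'.to_le (W_le (isConjugacyFunctor_iW (X := Y) (h𝓦 W₀ hW₀)) S.isPGroup')
    obtain ⟨d₀, hd₀, n, hn, rfl⟩ := exists_mul_of_map_normalizer hWp hD hx'
    have hπn : π (d₀ * n) = π n := by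
      rw [map_mul, show π d₀ = 1 from (QuotientGroup.eq_one_iff _).2 hd₀, one_mul]
    rw [hπn] at hrest ih hx'
    set N : Subgroup Y := Nz (inducedFunctor (G := Y) W₀ (S : Subgroup Y)) with hN
    have hSN : (S : Subgroup Y) ≤ N :=
      (le_Nz_self _).trans (Nz_le_Nz_W (isConjugacyFunctor_iW (X := Y) (h𝓦 W₀ hW₀)) S.isPGroup')
    -- the image of `cj n B`
    have hmapcj : ∀ y : Y, π y = π n → (cj y B).map π = cj (π n) Bq := by
      intro y hy
      rw [← hBmap]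
      ext z
      constructor
      · rintro ⟨_, ⟨b, hb, rfl⟩, rfl⟩
        refine ⟨π b, ⟨b, hb, rfl⟩, ?_⟩
        show π n * π b * (π n)⁻¹ = π (y * b * y⁻¹)
        simp [hy]
      · rintro ⟨_, ⟨b, hb, rfl⟩, rfl⟩
        refine ⟨_, ⟨b, hb, rfl⟩, ?_⟩
        show π (y * b * y⁻¹) = π n * π b * (π n)⁻¹
        simp [hy]
    have hBmem : ∀ y : Y, π y = π n → cj y B ≤ (S : Subgroup Y) ⊔ D := by
      intro y hy b hb
      have h1 : π b ∈ (S : Subgroup Y).map π := by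
        have h2 : cj (π n) Bq ≤ (S : Subgroup Y).map π := hrest.le
        rw [← hmapcj y hy] at h2
        exact h2 ⟨b, hb, rfl⟩
      obtain ⟨s, hs, hsb⟩ := h1
      have h3 : s⁻¹ * b ∈ D := QuotientGroup.eq.1 hsb
      have e : b = s * (s⁻¹ * b) := by group
      rw [e]
      exact (Subgroup.mul_mem _ (Subgroup.mem_sup_left hs) (Subgroup.mem_sup_right h3))
    set M : Subgroup Y := N ⊓ ((S : Subgroup Y) ⊔ D) with hM
    have hSM : (S : Subgroup Y) ≤ M := le_inf hSN le_sup_left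
    have hB₁M : cj n B ≤ M := by
      refine le_inf ?_ (hBmem n rfl)
      rintro _ ⟨b, hb, rfl⟩
      exact N.mul_mem (N.mul_mem hn (hSN (hBS hb))) (N.inv_mem hn)
    have hB₁p : IsPGroup p (cj n B) := IsPGroup_cj (S.isPGroup'.to_le hBS) n
    obtain ⟨y, hyM, hy⟩ := exists_conj_le_of_sylow hSM S.isPGroup' (not_dvd_relIndex_of_le S hSM)
      hB₁M hB₁p
    have hyS : y ∈ ((S : Subgroup Y) ⊔ D : Subgroup Y) := hyM.2
    have hyS' : y ∈ (((S : Subgroup Y) ⊔ D : Subgroup Y) : Set Y) := hyS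
    rw [Subgroup.mul_normal] at hyS'
    obtain ⟨s, hs, d, hd, rfl⟩ := Set.mem_mul.1 hyS'
    have hdN : d ∈ N := by
      have h1 : s * d ∈ N := hyM.1
      have e : d = s⁻¹ * (s * d) := by group
      rw [e]
      exact N.mul_mem (N.inv_mem (hSN hs)) h1
    set n' : Y := d * n with hn'
    have hn'N : n' ∈ N := N.mul_mem hdN hn
    have hπn' : π n' = π n := by
      rw [hn', map_mul, show π d = 1 from (QuotientGroup.eq_one_iff _).2 hd, one_mul]
    have hBn' : cj n' B ≤ (S : Subgroup Y) := by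
      have e : cj n' B = cj s⁻¹ (cj (s * d) (cj n B)) := by
        rw [← cj_mul, ← cj_mul, hn']
        congr 1
        group
      rw [e]
      intro z hz
      obtain ⟨w, hw, rfl⟩ := hz
      exact (S : Subgroup Y).mul_mem ((S : Subgroup Y).mul_mem ((S : Subgroup Y).inv_mem hs) (hy hw))
        ((S : Subgroup Y).inv_mem ((S : Subgroup Y).inv_mem hs))
    obtain ⟨c, hc1, hc2⟩ := ih (cj n' B) hBn' (hmapcj n' hπn')
    refine ⟨c * n', GChain.cons hBS ⟨W₀, hW₀, rfl⟩ hn'N hc1, ?_⟩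
    rw [map_mul, hc2, hπn', hπn]

/-- The step modulo a normal `p'`-subgroup. -/
theorem ff_step_pprime (h𝓦 : ∀ W ∈ 𝓦, IsCharPFunctor.{u} p W) (D : Subgroup Y) [hDn : D.Normal]
    (hD : (Nat.card D).Coprime p) (hq : FF p 𝓦 (Y ⧸ D)) : FF p 𝓦 Y := by
  intro S B hB g hg
  set π : Y →* Y ⧸ D := QuotientGroup.mk' D with hπ
  have hπs : Function.Surjective π := QuotientGroup.mk'_surjective D
  let S' : Sylow p (Y ⧸ D) := S.mapSurjective hπs
  have hS' : (S' : Subgroup (Y ⧸ D)) = (S : Subgroup Y).map π := rfl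
  have h1 : B.map π ≤ S' := map_mono hB
  have hmapg : (cj g B).map π = cj (π g) (B.map π) := by
    ext z
    constructor
    · rintro ⟨_, ⟨b, hb, rfl⟩, rfl⟩
      exact ⟨π b, ⟨b, hb, rfl⟩, by simp⟩
    · rintro ⟨_, ⟨b, hb, rfl⟩, rfl⟩
      exact ⟨_, ⟨b, hb, rfl⟩, by simp⟩
  have h2 : cj (π g) (B.map π) ≤ S' := by
    rw [← hmapg]
    exact map_mono hg
  obtain ⟨cq, hcq, hag⟩ := hq S' _ h1 _ h2
  obtain ⟨c, hc1, hc2⟩ := lift_pprime h𝓦 S D hD hcq B hB rfl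
  refine ⟨c, hc1, fun b hb => ?_⟩
  have h3 : π (c * b * c⁻¹) = π (g * b * g⁻¹) := by
    have := hag (π b) ⟨b, hb, rfl⟩
    rw [map_mul, map_mul, map_inv, map_mul, map_mul, map_inv, hc2]
    exact this
  have hker : (c * b * c⁻¹)⁻¹ * (g * b * g⁻¹) ∈ D := QuotientGroup.eq.1 h3
  have hcS : c * b * c⁻¹ ∈ (S : Subgroup Y) := hc1.target (conj_mem_cj hb)
  have hgS : g * b * g⁻¹ ∈ (S : Subgroup Y) := hg (conj_mem_cj hb)
  have := eq_one_of_coprime hD S.isPGroup' hker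
    ((S : Subgroup Y).mul_mem ((S : Subgroup Y).inv_mem hcS) hgS)
  exact inv_mul_eq_one.1 this

end finite

end Cfsg.Agent.Lib.Transfer.FusionBasic
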