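import Mathlib
import Cfsg.Agent.Lib.Transfer.FusionBasic

/-!
# Strong fusion in sections: the reduction to constrained sections
-/

set_option autoImplicit false
set_option linter.unusedSectionVars false
set_option linter.style.haveILetI false
set_option linter.unusedVariables false

universe u

namespace Cfsg.Agent.Lib.Transfer.FusionCore

open Subgroup Cfsg Cfsg.Agent.Lib.Transfer.WellPlaced Cfsg.Agent.Lib.Transfer.WellPlacedControl
open Cfsg.Agent.Lib.Transfer.FamilyControl Cfsg.Agent.Lib.Transfer.SectionBasic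
open Cfsg.Agent.Lib.Transfer.TransferReduction Cfsg.Agent.Lib.Transfer.FusionBasic
open Cfsg.Agent.Lib.Basic.PCore Cfsg.Agent.Lib.Basic.SylowUtil
open scoped commutatorElement

variable {p : ℕ} [hp : Fact p.Prime]

section action

variable {Y : Type*} [Group Y] [Finite Y]

/-- If `Y = S C_Y(Q)`, every element acting trivially on `U` modulo `Q` has a power centralizing `U`
of `p`-power exponent. -/
theorem exists_pow_centralizes (S : Sylow p Y) {Q U : Subgroup Y} [hQn : Q.Normal]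
    (hQ : IsPGroup p Q) (hSC : (S : Subgroup Y) ⊔ centralizer (Q : Set Y) = ⊤)
    {y : Y} (hyU : ∀ k : ℕ, ∀ u ∈ U, y ^ k * u * (y ^ k)⁻¹ * u⁻¹ ∈ Q) :
    ∃ k : ℕ, y ^ (p ^ k) ∈ centralizer (U : Set Y) := by
  haveI hCn : (centralizer (Q : Set Y)).Normal := by infer_instance
  -- `y` has a `p`-power in `C`
  have hq : IsPGroup p (Y ⧸ centralizer (Q : Set Y)) := by
    have hsurj : Function.Surjective
        ((QuotientGroup.mk' (centralizer (Q : Set Y))).comp (S : Subgroup Y).subtype) := by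
      intro z
      obtain ⟨x, rfl⟩ := QuotientGroup.mk'_surjective _ z
      have hx : x ∈ (((S : Subgroup Y) ⊔ centralizer (Q : Set Y) : Subgroup Y) : Set Y) := by
        rw [hSC]; trivial
      rw [Subgroup.mul_normal] at hx
      obtain ⟨s, hs, c, hc, rfl⟩ := Set.mem_mul.1 hx
      refine ⟨⟨s, hs⟩, ?_⟩
      show QuotientGroup.mk' _ s = QuotientGroup.mk' _ (s * c)
      rw [map_mul, show QuotientGroup.mk' (centralizer (Q : Set Y)) c = 1 from
        (QuotientGroup.eq_one_iff _).2 hc, mul_one]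
    exact S.isPGroup'.of_surjective _ hsurj
  obtain ⟨a, ha⟩ := hq (QuotientGroup.mk' _ y)
  have hyC : y ^ (p ^ a) ∈ centralizer (Q : Set Y) := by
    rw [← map_pow] at ha
    exact (QuotientGroup.eq_one_iff _).1 ha
  obtain ⟨b, hb⟩ := IsPGroup.iff_card.1 hQ
  refine ⟨a + b, ?_⟩
  rw [Subgroup.mem_centralizer_iff]
  intro u hu
  set y₁ : Y := y ^ (p ^ a) with hy₁
  set z : Y := y₁ * u * y₁⁻¹ * u⁻¹ with hz
  have hzQ : z ∈ Q := hyU _ u hu
  have hcz : y₁ * z = z * y₁ := (Subgroup.mem_centralizer_iff.1 hyC z hzQ).symm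
  have hpow : ∀ n : ℕ, y₁ ^ n * u * (y₁ ^ n)⁻¹ = z ^ n * u := by
    intro n
    induction n with
    | zero => simp
    | succ n ih =>
      have e1 : y₁ ^ (n + 1) * u * (y₁ ^ (n + 1))⁻¹ = y₁ * (y₁ ^ n * u * (y₁ ^ n)⁻¹) * y₁⁻¹ := by
        rw [pow_succ']
        group
      rw [e1, ih]
      have hcz' : ∀ n : ℕ, y₁ * z ^ n = z ^ n * y₁ := by
        intro n
        exact (Commute.pow_right hcz n)
      have e2 : y₁ * (z ^ n * u) * y₁⁻¹ = z ^ n * (y₁ * u * y₁⁻¹) := by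
        calc y₁ * (z ^ n * u) * y₁⁻¹ = (y₁ * z ^ n) * u * y₁⁻¹ := by group
          _ = (z ^ n * y₁) * u * y₁⁻¹ := by rw [hcz' n]
          _ = z ^ n * (y₁ * u * y₁⁻¹) := by group
      have e3 : y₁ * u * y₁⁻¹ = z * u := by
        rw [hz]
        group
      rw [e2, e3, pow_succ]
      group
  have hz1 : z ^ (p ^ b) = 1 := by
    have := pow_card_eq_one' (x := (⟨z, hzQ⟩ : Q))
    rw [hb] at this
    exact congrArg (fun x : Q => (x : Y)) this
  have h1 := hpow (p ^ b)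
  rw [hz1, one_mul] at h1
  have e : y ^ p ^ (a + b) = y₁ ^ p ^ b := by
    rw [hy₁, ← pow_mul, pow_add]
  show u * y ^ p ^ (a + b) = y ^ p ^ (a + b) * u
  rw [e]
  calc u * y₁ ^ p ^ b = (y₁ ^ p ^ b * u * (y₁ ^ p ^ b)⁻¹) * y₁ ^ p ^ b := by rw [h1]
    _ = y₁ ^ p ^ b * u := by group

/-- In a group `Y = S C_Y(Q)`, an element acting trivially on `U/Q` acts on `U` as an element of
`N_S(U)` when `U` is fully normalized. -/
theorem exists_sylow_action (S : Sylow p Y) {Q U : Subgroup Y} [hQn : Q.Normal] (hQ : IsPGroup p Q)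
    (hSC : (S : Subgroup Y) ⊔ centralizer (Q : Set Y) = ⊤) (hfn : FN p (S : Subgroup Y) U)
    {x : Y} (hx : x ∈ Nz U) (hxc : ∀ u ∈ U, x * u * x⁻¹ * u⁻¹ ∈ Q) :
    ∃ s ∈ (S : Subgroup Y) ⊓ Nz U, ∀ u ∈ U, x * u * x⁻¹ = s * u * s⁻¹ := by
  set N : Subgroup Y := Nz U with hN
  have hconjU : ∀ y ∈ N, ∀ u ∈ U, y * u * y⁻¹ ∈ U := by
    intro y hy u hu
    exact (Subgroup.mem_normalizer_iff.1 hy u).1 hu
  have hconjU' : ∀ y ∈ N, ∀ u ∈ U, y⁻¹ * u * y ∈ U := by
    intro y hy u hu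
    have := hconjU y⁻¹ (N.inv_mem hy) u hu
    simpa using this
  -- the subgroup of elements acting trivially modulo `Q`
  let Y₁ : Subgroup N :=
    { carrier := {y | ∀ u ∈ U, (y : Y) * u * (y : Y)⁻¹ * u⁻¹ ∈ Q}
      one_mem' := by
        intro u hu
        simp
      mul_mem' := by
        intro a b ha hb u hu
        have h1 := hQn.conj_mem _ (hb u hu) a
        have h2 := ha u hu
        have e : ((a * b : N) : Y) * u * ((a * b : N) : Y)⁻¹ * u⁻¹ =
            ((a : Y) * ((b : Y) * u * (b : Y)⁻¹ * u⁻¹) * (a : Y)⁻¹) *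
              ((a : Y) * u * (a : Y)⁻¹ * u⁻¹) := by
          push_cast
          group
        rw [e]
        exact Q.mul_mem h1 h2
      inv_mem' := by
        intro a ha u hu
        have h1 := ha _ (hconjU' a a.2 u hu)
        have e : ((a⁻¹ : N) : Y) * u * ((a⁻¹ : N) : Y)⁻¹ * u⁻¹ =
            ((a : Y) * ((a : Y)⁻¹ * u * (a : Y)) * (a : Y)⁻¹ * ((a : Y)⁻¹ * u * (a : Y))⁻¹)⁻¹ := by
          push_cast
          group
        rw [e]
        exact Q.inv_mem h1 }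
  have hY₁mem : ∀ y : N, y ∈ Y₁ ↔ ∀ u ∈ U, (y : Y) * u * (y : Y)⁻¹ * u⁻¹ ∈ Q := fun _ => Iff.rfl
  haveI hY₁n : Y₁.Normal := by
    constructor
    intro a ha z u hu
    have h1 := ha _ (hconjU' z z.2 u hu)
    have h2 := hQn.conj_mem _ h1 z
    have e : ((z * a * z⁻¹ : N) : Y) * u * ((z * a * z⁻¹ : N) : Y)⁻¹ * u⁻¹ =
        (z : Y) * ((a : Y) * ((z : Y)⁻¹ * u * (z : Y)) * (a : Y)⁻¹ * ((z : Y)⁻¹ * u * (z : Y))⁻¹) * (z : Y)⁻¹ := by
      push_cast
      group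
    rw [e]
    exact h2
  -- the centralizer
  let Z : Subgroup N := (centralizer (U : Set Y)).subgroupOf N
  have hZmem : ∀ y : N, y ∈ Z ↔ (y : Y) ∈ centralizer (U : Set Y) := fun y => Subgroup.mem_subgroupOf
  haveI hZn : Z.Normal := by
    constructor
    intro a ha z
    rw [hZmem] at ha ⊢
    rw [Subgroup.mem_centralizer_iff] at ha ⊢
    intro u hu
    have h1 := ha _ (hconjU' z z.2 u hu)
    push_cast
    have e1 : u * ((z : Y) * (a : Y) * (z : Y)⁻¹) =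
        (z : Y) * (((z : Y)⁻¹ * u * (z : Y)) * (a : Y)) * (z : Y)⁻¹ := by group
    have e2 : (z : Y) * (a : Y) * (z : Y)⁻¹ * u =
        (z : Y) * ((a : Y) * ((z : Y)⁻¹ * u * (z : Y))) * (z : Y)⁻¹ := by group
    rw [e1, e2, h1]
  let π : N →* N ⧸ Z := QuotientGroup.mk' Z
  have hπs : Function.Surjective π := QuotientGroup.mk'_surjective Z
  -- the Sylow subgroup
  have hR' : IsPGroup p (((S : Subgroup Y) ⊓ Nz U).subgroupOf N) :=
    (isPGroup_inf S (Nz U)).comap_of_injective _ N.subtype_injective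
  let R₀ : Sylow p N := hR'.toSylow hfn
  have hR₀ : (R₀ : Subgroup N) = ((S : Subgroup Y) ⊓ Nz U).subgroupOf N := rfl
  let R₁ : Sylow p (N ⧸ Z) := R₀.mapSurjective hπs
  have hR₁ : (R₁ : Subgroup (N ⧸ Z)) = (R₀ : Subgroup N).map π := rfl
  -- the normal `p`-subgroup
  haveI hPn : (Y₁.map π).Normal := hY₁n.map π hπs
  have hPp : IsPGroup p (Y₁.map π) := by
    rintro ⟨_, y, hy, rfl⟩
    obtain ⟨k, hk⟩ := exists_pow_centralizes (U := U) S hQ hSC (y := (y : Y)) (by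
      intro k u hu
      have := (Y₁.pow_mem hy k) u hu
      simpa using this)
    refine ⟨k, ?_⟩
    apply Subtype.ext
    show (π y) ^ p ^ k = 1
    rw [← map_pow]
    refine (QuotientGroup.eq_one_iff _).2 ((hZmem _).2 ?_)
    simpa using hk
  have hPle : Y₁.map π ≤ R₁ := hPp.le_sylow_of_normal R₁
  let x₀ : N := ⟨x, hx⟩
  have hx₀ : x₀ ∈ Y₁ := hxc
  obtain ⟨r, hr, hrx⟩ := hPle ⟨x₀, hx₀, rfl⟩
  have hrS : (r : Y) ∈ (S : Subgroup Y) ⊓ Nz U := hr
  refine ⟨r, hrS, fun u hu => ?_⟩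
  have hker : r⁻¹ * x₀ ∈ Z := QuotientGroup.eq.1 hrx
  have h1 := Subgroup.mem_centralizer_iff.1 ((hZmem _).1 hker) u hu
  have h2 : u * ((r : Y)⁻¹ * x) = ((r : Y)⁻¹ * x) * u := by simpa [x₀] using h1
  have e : x = (r : Y) * ((r : Y)⁻¹ * x) := by group
  calc x * u * x⁻¹ = (r : Y) * (((r : Y)⁻¹ * x) * u) * ((r : Y)⁻¹ * x)⁻¹ * (r : Y)⁻¹ := by group
    _ = (r : Y) * (u * ((r : Y)⁻¹ * x)) * ((r : Y)⁻¹ * x)⁻¹ * (r : Y)⁻¹ := by rw [h2]
    _ = (r : Y) * u * (r : Y)⁻¹ := by group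

end action

section core

variable {𝓦 : Set WT.{u}} {Y : Type u} [Group Y] [Finite Y]

local notation "Qc" => pCore p Y

/-- Normalizers of preimages. -/
theorem mem_Nz_comap {D : Subgroup Y} [hD : D.Normal] {V : Subgroup (Y ⧸ D)} {x : Y}
    (hx : QuotientGroup.mk' D x ∈ Nz V) : x ∈ Nz (V.comap (QuotientGroup.mk' D)) := by
  rw [Subgroup.mem_normalizer_iff] at hx ⊢
  intro v
  have := hx (QuotientGroup.mk' D v)
  simp only [Subgroup.mem_comap] at this ⊢
  rw [this]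
  simp

/-- Lifting chains from `Y/O_p(Y)`. -/
theorem lift_core (h𝓦 : ∀ W ∈ 𝓦, IsCharPFunctor.{u} p W) (S : Sylow p Y)
    (hSQ : ¬ (S : Subgroup Y) ≤ pCore p Y) (hsub : ∀ H : Subgroup Y, H ≠ ⊤ → FF p 𝓦 H)
    {Bq : Subgroup (Y ⧸ pCore p Y)} {cq : Y ⧸ pCore p Y}
    (hch : GChain (IF 𝓦 (Y ⧸ pCore p Y)) ((S : Subgroup Y).map (QuotientGroup.mk' (pCore p Y))) Bq cq) :
    ∀ B : Subgroup Y, pCore p Y ≤ B → B ≤ S → B.map (QuotientGroup.mk' (pCore p Y)) = Bq →
      ∃ c : Y, fusionRel (IF 𝓦 Y) S B c ∧ QuotientGroup.mk' (pCore p Y) c = cq := by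
  induction hch with
  | nil hB =>
    intro B hQB hBS _
    exact ⟨1, FR_one hBS, map_one _⟩
  | @cons Bq W xq cq hB hW hx hrest ih =>
    intro B hQB hBS hBmap
    obtain ⟨W₀, hW₀, rfl⟩ := hW
    haveI hQn : (pCore p Y).Normal := pCore_normal p Y
    have hQS : pCore p Y ≤ S := pCore_le_sylow S
    set π : Y →* Y ⧸ pCore p Y := QuotientGroup.mk' (pCore p Y) with hπ
    have hπs : Function.Surjective π := QuotientGroup.mk'_surjective _
    have hker : π.ker = pCore p Y := QuotientGroup.ker_mk' _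
    have hcomapS : ((S : Subgroup Y).map π).comap π = S := by
      rw [Subgroup.comap_map_eq, hker]
      exact sup_eq_left.2 hQS
    obtain ⟨x, rfl⟩ := hπs xq
    set Sq : Subgroup (Y ⧸ pCore p Y) := (S : Subgroup Y).map π with hSq
    have hSqp : IsPGroup p Sq := S.isPGroup'.map _
    have hSqne : Sq ≠ ⊥ := by
      intro h
      apply hSQ
      intro s hs
      have h1 : π s ∈ Sq := ⟨s, hs, rfl⟩
      rw [h, Subgroup.mem_bot] at h1
      exact (QuotientGroup.eq_one_iff _).1 h1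
    have hWc := isConjugacyFunctor_iW (X := Y ⧸ pCore p Y) (h𝓦 W₀ hW₀)
    set V : Subgroup Y := (inducedFunctor (G := Y ⧸ pCore p Y) W₀ Sq).comap π with hV
    have hVS : V ≤ S := by
      have h1 : V ≤ Sq.comap π := Subgroup.comap_mono (W_le hWc hSqp)
      rwa [hSq, hcomapS] at h1
    have hxN : x ∈ Nz V := mem_Nz_comap hx
    have hSN : (S : Subgroup Y) ≤ Nz V := by
      intro s hs
      refine mem_Nz_comap ?_
      exact (le_Nz_self _).trans (Nz_le_Nz_W hWc hSqp) ⟨s, hs, rfl⟩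
    have hVp : IsPGroup p V := S.isPGroup'.to_le hVS
    have hne : Nz V ≠ ⊤ := by
      intro htop
      have hVn : V.Normal := Subgroup.normalizer_eq_top_iff.1 htop
      have hVQ : V ≤ pCore p Y := le_pCore hVn hVp
      apply W_ne_bot hWc hSqp hSqne
      rw [eq_bot_iff]
      intro w hw
      obtain ⟨v, rfl⟩ := hπs w
      have : v ∈ V := hw
      exact (Subgroup.mem_bot).2 ((QuotientGroup.eq_one_iff _).2 (hVQ this))
    have hcjxB : cj x B ≤ S := by
      rintro _ ⟨b, hb, rfl⟩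
      rw [← hcomapS]
      show π (x * b * x⁻¹) ∈ Sq
      apply hrest.le
      refine ⟨π b, ?_, ?_⟩
      · rw [← hBmap]
        exact ⟨b, hb, rfl⟩
      · simp
    have h1 : fusionRel (IF 𝓦 Y) S B x :=
      fusionRel_of_FF_subgroup h𝓦 (hsub _ hne) S hSN hBS hxN hcjxB
    have hQB₁ : pCore p Y ≤ cj x B := by
      intro q hq
      refine ⟨x⁻¹ * q * x, hQB ?_, by show x * (x⁻¹ * q * x) * x⁻¹ = q; group⟩
      have := hQn.conj_mem q hq x⁻¹
      simpa using this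
    have hmap₁ : (cj x B).map π = cj (π x) Bq := by
      rw [← hBmap]
      ext z
      constructor
      · rintro ⟨_, ⟨b, hb, rfl⟩, rfl⟩
        exact ⟨π b, ⟨b, hb, rfl⟩, by simp⟩
      · rintro ⟨_, ⟨b, hb, rfl⟩, rfl⟩
        exact ⟨_, ⟨b, hb, rfl⟩, by simp⟩
    obtain ⟨c, hc1, hc2⟩ := ih (cj x B) hQB₁ hcjxB hmap₁
    refine ⟨c * x, (isRel_fusionRel _ _).comp h1 hc1, ?_⟩
    rw [map_mul, hc2]

/-- The remainder: elements acting trivially on `B/Q`. -/
theorem remainder_core (h𝓦 : ∀ W ∈ 𝓦, IsCharPFunctor.{u} p W) (S : Sylow p Y)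
    (hS : (S : Subgroup Y) ≠ ⊤) (hsub : ∀ H : Subgroup Y, H ≠ ⊤ → FF p 𝓦 H)
    (hSC : (S : Subgroup Y) ⊔ centralizer ((pCore p Y : Subgroup Y) : Set Y) = ⊤)
    {B : Subgroup Y} (hQB : pCore p Y ≤ B) (hBS : B ≤ S)
    (hP : ∀ B₁ : Subgroup Y, pCore p Y ≤ B₁ → B₁ ≤ S → B < B₁ → ∀ k : Y, cj k B₁ ≤ S →
      fusionRel (IF 𝓦 Y) S B₁ k)
    {g : Y} (hg : g ∈ Nz B) (hgc : ∀ b ∈ B, g * b * g⁻¹ * b⁻¹ ∈ pCore p Y) :
    fusionRel (IF 𝓦 Y) S B g := by
  haveI hQn : (pCore p Y).Normal := pCore_normal p Y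
  have hRelY := isRel_fusionRel (IF 𝓦 Y) (S : Subgroup Y)
  obtain ⟨k, hk1, hk2, hk3⟩ : ∃ k : Y, cj k B ≤ S ∧ FN p (S : Subgroup Y) (cj k B) ∧
      fusionRel (IF 𝓦 Y) S B k := by
    by_cases hBtop : B = S
    · refine ⟨1, by rw [cj_one]; exact hBS, ?_, FR_one hBS⟩
      rw [cj_one]
      apply fn_of_le
      rw [hBtop]
      exact le_Nz_self _
    · have hlt : B < S := lt_of_le_of_ne hBS hBtop
      obtain ⟨k, h1, h2, h3⟩ := exists_fn_conj S hBS
      refine ⟨k, h1, h2, ?_⟩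
      have hlt' : B < (S : Subgroup Y) ⊓ Nz B := lt_inf_Nz S.isPGroup' hlt
      have h4 := hP _ (hQB.trans hlt'.le) inf_le_left hlt' k (h3.trans inf_le_left)
      exact hRelY.restrict h4 hlt'.le
  set U : Subgroup Y := cj k B with hU
  set x : Y := k * g * k⁻¹ with hx
  have hxN : x ∈ Nz U := by
    rw [hU, Nz_cj]
    exact conj_mem_cj hg
  have hxc : ∀ u ∈ U, x * u * x⁻¹ * u⁻¹ ∈ pCore p Y := by
    rintro _ ⟨b, hb, rfl⟩
    have h1 := hQn.conj_mem _ (hgc b hb) k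
    have e : x * (k * b * k⁻¹) * x⁻¹ * (k * b * k⁻¹)⁻¹ = k * (g * b * g⁻¹ * b⁻¹) * k⁻¹ := by
      rw [hx]
      group
    show x * (k * b * k⁻¹) * x⁻¹ * (k * b * k⁻¹)⁻¹ ∈ _
    rw [e]
    exact h1
  obtain ⟨s, hs, hsag⟩ := exists_sylow_action S (pCore_isPGroup p) hSC hk2 hxN hxc
  have hsU : cj s U ≤ S := by
    rintro _ ⟨u, hu, rfl⟩
    exact (S : Subgroup Y).mul_mem ((S : Subgroup Y).mul_mem hs.1 (hk1 hu)) ((S : Subgroup Y).inv_mem hs.1)
  have h1 : fusionRel (IF 𝓦 Y) S U s :=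
    fusionRel_of_FF_subgroup h𝓦 (hsub _ hS) S le_rfl hk1 hs.1 hsU
  have h2 : fusionRel (IF 𝓦 Y) S U x := FR_congr h1 fun u hu => (hsag u hu).symm
  have h3 : fusionRel (IF 𝓦 Y) S B (x * k) := hRelY.comp hk3 h2
  have hcj : cj (x * k) B = cj k B := by
    rw [cj_mul]
    exact mem_Nz_iff.1 hxN
  have h4 : fusionRel (IF 𝓦 Y) S (cj (x * k) B) k⁻¹ := by
    rw [hcj]
    exact hRelY.inv hk3
  have h5 := hRelY.comp h3 h4
  have e : k⁻¹ * (x * k) = g := by
    rw [hx]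
    group
  rwa [e] at h5

/-- The case `Y = S C_Y(O_p(Y))`. -/
theorem ff_core_case (h𝓦 : ∀ W ∈ 𝓦, IsCharPFunctor.{u} p W) (S : Sylow p Y)
    (hSQ : ¬ (S : Subgroup Y) ≤ pCore p Y) (hsub : ∀ H : Subgroup Y, H ≠ ⊤ → FF p 𝓦 H)
    (hquot : FF p 𝓦 (Y ⧸ pCore p Y))
    (hSC : (S : Subgroup Y) ⊔ centralizer ((pCore p Y : Subgroup Y) : Set Y) = ⊤) :
    ∀ B : Subgroup Y, B ≤ S → ∀ g : Y, cj g B ≤ S → fusionRel (IF 𝓦 Y) S B g := by
  haveI hQn : (pCore p Y).Normal := pCore_normal p Y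
  have hQS : pCore p Y ≤ S := pCore_le_sylow S
  have hRelY := isRel_fusionRel (IF 𝓦 Y) (S : Subgroup Y)
  have hS : (S : Subgroup Y) ≠ ⊤ := by
    intro h
    apply hSQ
    have hSn : (S : Subgroup Y).Normal := by rw [h]; infer_instance
    exact le_pCore hSn S.isPGroup'
  set π : Y →* Y ⧸ pCore p Y := QuotientGroup.mk' (pCore p Y) with hπ
  have hπs : Function.Surjective π := QuotientGroup.mk'_surjective _
  let S' : Sylow p (Y ⧸ pCore p Y) := S.mapSurjective hπs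
  have hS' : (S' : Subgroup (Y ⧸ pCore p Y)) = (S : Subgroup Y).map π := rfl
  have main : ∀ n : ℕ, ∀ B : Subgroup Y, pCore p Y ≤ B → B ≤ S →
      Nat.card (S : Subgroup Y) - Nat.card B = n → ∀ g : Y, cj g B ≤ S →
      fusionRel (IF 𝓦 Y) S B g := by
    intro n
    induction n using Nat.strong_induction_on with
    | _ n ih =>
      intro B hQB hBS hn g hg
      have hmapg : ∀ y : Y, (cj y B).map π = cj (π y) (B.map π) := by
        intro y
        ext z
        constructor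
        · rintro ⟨_, ⟨b, hb, rfl⟩, rfl⟩
          exact ⟨π b, ⟨b, hb, rfl⟩, by simp⟩
        · rintro ⟨_, ⟨b, hb, rfl⟩, rfl⟩
          exact ⟨_, ⟨b, hb, rfl⟩, by simp⟩
      have h2 : cj (π g) (B.map π) ≤ S' := by
        rw [← hmapg]
        exact map_mono hg
      obtain ⟨cq, hcq, hag⟩ := hquot S' _ (map_mono hBS) _ h2
      obtain ⟨c, hc1, hc2⟩ := lift_core h𝓦 S hSQ hsub hcq B hQB hBS rfl
      have hcB : cj c B ≤ S := FR_target hc1
      have hQcj : ∀ y : Y, pCore p Y ≤ cj y B := by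
        intro y q hq
        refine ⟨y⁻¹ * q * y, hQB ?_, by show y * (y⁻¹ * q * y) * y⁻¹ = q; group⟩
        have := hQn.conj_mem q hq y⁻¹
        simpa using this
      have hag' : ∀ b ∈ B, (c * b * c⁻¹)⁻¹ * (g * b * g⁻¹) ∈ pCore p Y := by
        intro b hb
        have h3 : π (c * b * c⁻¹) = π (g * b * g⁻¹) := by
          have := hag (π b) ⟨b, hb, rfl⟩
          rw [map_mul, map_mul, map_inv, map_mul, map_mul, map_inv, hc2]
          exact this
        exact QuotientGroup.eq.1 h3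
      -- the remainder
      have hcjeq : cj g B ≤ cj c B := by
        rintro _ ⟨b, hb, rfl⟩
        have h3 := hQcj c (hag' b hb)
        have h4 : c * b * c⁻¹ ∈ cj c B := conj_mem_cj hb
        have e : g * b * g⁻¹ = (c * b * c⁻¹) * ((c * b * c⁻¹)⁻¹ * (g * b * g⁻¹)) := by group
        show g * b * g⁻¹ ∈ _
        rw [e]
        exact (cj c B).mul_mem h4 h3
      have hcjeq' : cj g B = cj c B :=
        Subgroup.eq_of_le_of_card_ge hcjeq (by rw [card_cj, card_cj])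
      set g' : Y := g * c⁻¹ with hg'
      have hg'N : g' ∈ Nz (cj c B) := by
        rw [mem_Nz_iff, hg', ← cj_mul]
        rw [show g * c⁻¹ * c = g by group, hcjeq']
      have hg'c : ∀ b ∈ cj c B, g' * b * g'⁻¹ * b⁻¹ ∈ pCore p Y := by
        rintro _ ⟨b, hb, rfl⟩
        have h3 := hag' b hb
        have e : g' * (c * b * c⁻¹) * g'⁻¹ * (c * b * c⁻¹)⁻¹ =
            (c * b * c⁻¹) * ((c * b * c⁻¹)⁻¹ * (g * b * g⁻¹)) * (c * b * c⁻¹)⁻¹ := by
          rw [hg']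
          group
        show g' * (c * b * c⁻¹) * g'⁻¹ * (c * b * c⁻¹)⁻¹ ∈ _
        rw [e]
        exact hQn.conj_mem _ h3 _
      have hrem : fusionRel (IF 𝓦 Y) S (cj c B) g' := by
        refine remainder_core h𝓦 S hS hsub hSC (hQcj c) hcB ?_ hg'N hg'c
        intro B₁ hQB₁ hB₁S hlt k hk
        have hcard : Nat.card (cj c B) < Nat.card B₁ := card_lt_of_lt hlt
        rw [card_cj] at hcard
        have h5 : Nat.card B₁ ≤ Nat.card (S : Subgroup Y) := Subgroup.card_le_of_le hB₁S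
        exact ih _ (by omega) B₁ hQB₁ hB₁S rfl k hk
      have h6 := hRelY.comp hc1 hrem
      rwa [show g' * c = g by rw [hg']; group] at h6
  intro B hB g hg
  have h1 : B ≤ B ⊔ pCore p Y := le_sup_left
  have h2 : B ⊔ pCore p Y ≤ S := sup_le hB hQS
  have h3 : cj g (B ⊔ pCore p Y) ≤ S := by
    rw [cj, Subgroup.map_sup]
    refine sup_le hg ?_
    rintro _ ⟨q, hq, rfl⟩
    exact hQS (hQn.conj_mem q hq g)
  exact hRelY.restrict (main _ _ le_sup_right h2 rfl g h3) h1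

/-- The non-constrained case: the subgroup `L`. -/
theorem exists_L_of_not_constrained (S : Sylow p Y)
    (hnp : ∀ D : Subgroup Y, D.Normal → (Nat.card D).Coprime p → D = ⊥)
    (hnc : ¬ Constrained p Y) :
    ¬ (S : Subgroup Y) ≤ pCore p Y ∧
    ∃ L : Subgroup Y, L ≠ ⊤ ∧ (S : Subgroup Y) ≤ L ∧
      ∀ g : Y, ∃ c ∈ centralizer ((pCore p Y : Subgroup Y) : Set Y), ∃ l ∈ L, g = c * l := by
  set Q : Subgroup Y := pCore p Y with hQ
  haveI hQn : Q.Normal := pCore_normal p Y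
  set C : Subgroup Y := centralizer (Q : Set Y) with hC
  haveI hCn : C.Normal := by rw [hC]; infer_instance
  set N : Subgroup Y := C ⊔ Q with hN
  haveI hNn : N.Normal := Subgroup.sup_normal C Q
  have hQS : Q ≤ S := pCore_le_sylow S
  obtain ⟨P₀, hP₀⟩ := exists_sylow_inf_normal S N
  set L : Subgroup Y := Nz ((S : Subgroup Y) ⊓ N) with hL
  have hSL : (S : Subgroup Y) ≤ L := by
    intro s hs
    rw [hL, mem_Nz_iff, cj_inf, mem_Nz_iff.1 (le_Nz_self _ hs)]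
    congr 1
    exact mem_Nz_iff.1 (by
      rw [Nz, Subgroup.normalizer_eq_top_iff.2 hNn]; trivial)
  have hQP : Q ≤ (S : Subgroup Y) ⊓ N := le_inf hQS le_sup_right
  have hQL : Q ≤ L := hQP.trans (le_Nz_self _)
  have hfac : ∀ g : Y, ∃ c ∈ C, ∃ l ∈ L, g = c * l := by
    intro g
    obtain ⟨n, hn, h, hh, rfl⟩ := frattini_argument' P₀ g
    rw [hP₀] at hh
    have hn' : n ∈ ((C ⊔ Q : Subgroup Y) : Set Y) := hn
    rw [Subgroup.mul_normal] at hn'
    obtain ⟨c, hc, q, hq, rfl⟩ := Set.mem_mul.1 hn'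
    exact ⟨c, hc, q * h, L.mul_mem (hQL hq) hh, by group⟩
  have hcomm : ∀ c ∈ C, ∀ q ∈ Q, c * q = q * c := by
    intro c hc q hq
    exact (Subgroup.mem_centralizer_iff.1 hc q hq).symm
  -- `L` is a proper subgroup
  have hLne : L ≠ ⊤ := by
    intro hLtop
    apply hnc
    have hPn : ((S : Subgroup Y) ⊓ N).Normal := Subgroup.normalizer_eq_top_iff.1 hLtop
    have hPQ : (S : Subgroup Y) ⊓ N ≤ Q := le_pCore hPn (isPGroup_inf S N)
    have hSC : (S : Subgroup Y) ⊓ C ≤ Q :=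
      (inf_le_inf_left _ (le_sup_left : C ≤ N)).trans hPQ
    obtain ⟨P₁, hP₁⟩ := exists_sylow_inf_normal S C
    have hP₁Q : ∀ x : C, x ∈ (P₁ : Subgroup C) → (x : Y) ∈ Q := by
      intro x hx
      apply hSC
      rw [← hP₁]
      exact ⟨x, hx, rfl⟩
    have hcentral : normalizer ((P₁ : Subgroup C) : Set C) ≤ centralizer ((P₁ : Subgroup C) : Set C) := by
      intro y _
      rw [Subgroup.mem_centralizer_iff]
      intro x hx
      apply Subtype.ext
      exact (hcomm y y.2 x (hP₁Q x hx)).symm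
    have hcompl := MonoidHom.ker_transferSylow_isComplement' P₁ hcentral
    set E₀ : Subgroup C := (MonoidHom.transferSylow P₁ hcentral).ker with hE₀
    haveI hE₀n : E₀.Normal := MonoidHom.normal_ker _
    have hcop : (Nat.card E₀).Coprime p :=
      ((Nat.Prime.coprime_iff_not_dvd Fact.out).2 (MonoidHom.not_dvd_card_ker_transferSylow P₁ hcentral)).symm
    have hmemE : ∀ x : C, x ∈ E₀ ↔ Nat.Coprime (orderOf x) p :=
      Cfsg.Agent.Lib.Transfer.Basic.mem_iff_coprime_of_normal E₀ hcop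
        (Cfsg.Agent.Lib.Transfer.Basic.isPGroup_quotient_of_isComplement' hcompl)
    have hEn : (E₀.map C.subtype).Normal := by
      constructor
      rintro _ ⟨x, hx, rfl⟩ g
      have hxC : g * (x : Y) * g⁻¹ ∈ C := hCn.conj_mem _ x.2 g
      refine ⟨⟨_, hxC⟩, (hmemE _).2 ?_, rfl⟩
      have h1 := (hmemE x).1 hx
      rw [← Subgroup.orderOf_coe] at h1 ⊢
      rwa [show ((⟨g * (x : Y) * g⁻¹, hxC⟩ : C) : Y) = g * x * g⁻¹ from rfl,
        Cfsg.Agent.Lib.Transfer.Basic.orderOf_conj_eq]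
    have hEc : (Nat.card (E₀.map C.subtype)).Coprime p := by
      rwa [Subgroup.card_map_of_injective C.subtype_injective]
    have hEb := hnp _ hEn hEc
    have hE₀b : E₀ = ⊥ := (Subgroup.map_eq_bot_iff_of_injective _ C.subtype_injective).1 hEb
    rw [hE₀b] at hcompl
    have htop : (P₁ : Subgroup C) = ⊤ := by
      have := hcompl.card_mul_card
      rw [Subgroup.card_bot, one_mul] at this
      exact Subgroup.eq_top_of_card_eq _ this
    intro c hc
    exact hP₁Q ⟨c, hc⟩ (by rw [htop]; trivial)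
  refine ⟨?_, L, hLne, hSL, hfac⟩
  intro hSQ
  apply hLne
  rw [hL]
  have e : (S : Subgroup Y) ⊓ N = Q :=
    le_antisymm (inf_le_left.trans hSQ) hQP
  rw [e]
  exact Subgroup.normalizer_eq_top_iff.2 hQn

/-- The case `S C_Y(O_p(Y)) < Y`. -/
theorem ff_proper_case (h𝓦 : ∀ W ∈ 𝓦, IsCharPFunctor.{u} p W) (S : Sylow p Y)
    (hsub : ∀ H : Subgroup Y, H ≠ ⊤ → FF p 𝓦 H)
    (hSC : (S : Subgroup Y) ⊔ centralizer ((pCore p Y : Subgroup Y) : Set Y) ≠ ⊤)
    {L : Subgroup Y} (hLne : L ≠ ⊤) (hSL : (S : Subgroup Y) ≤ L)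
    (hfac : ∀ g : Y, ∃ c ∈ centralizer ((pCore p Y : Subgroup Y) : Set Y), ∃ l ∈ L, g = c * l) :
    ∀ B : Subgroup Y, B ≤ S → ∀ g : Y, cj g B ≤ S → fusionRel (IF 𝓦 Y) S B g := by
  intro B hBS g hg
  haveI hQn : (pCore p Y).Normal := pCore_normal p Y
  set C : Subgroup Y := centralizer ((pCore p Y : Subgroup Y) : Set Y) with hC
  haveI hCn : C.Normal := by rw [hC]; infer_instance
  have hRelY := isRel_fusionRel (IF 𝓦 Y) (S : Subgroup Y)
  obtain ⟨c, hc, l, hl, rfl⟩ := hfac g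
  set M : Subgroup Y := L ⊓ ((S : Subgroup Y) ⊔ C) with hM
  have hSM : (S : Subgroup Y) ≤ M := le_inf hSL le_sup_left
  have hB₁M : cj l B ≤ M := by
    refine le_inf ?_ ?_
    · rintro _ ⟨b, hb, rfl⟩
      exact L.mul_mem (L.mul_mem hl (hSL (hBS hb))) (L.inv_mem hl)
    · rintro _ ⟨b, hb, rfl⟩
      have h1 : (c * l) * b * (c * l)⁻¹ ∈ (S : Subgroup Y) := hg (conj_mem_cj hb)
      have e : l * b * l⁻¹ = c⁻¹ * ((c * l) * b * (c * l)⁻¹) * c := by group
      show l * b * l⁻¹ ∈ _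
      rw [e]
      have hcmem : c ∈ (S : Subgroup Y) ⊔ C := Subgroup.mem_sup_right hc
      exact Subgroup.mul_mem _ (Subgroup.mul_mem _ (Subgroup.inv_mem _ hcmem)
        (Subgroup.mem_sup_left h1)) hcmem
  obtain ⟨y, hyM, hy⟩ := exists_conj_le_of_sylow hSM S.isPGroup' (not_dvd_relIndex_of_le S hSM)
    hB₁M (IsPGroup_cj (S.isPGroup'.to_le hBS) l)
  have hyS' : y ∈ (((S : Subgroup Y) ⊔ C : Subgroup Y) : Set Y) := hyM.2
  rw [Subgroup.mul_normal] at hyS'
  obtain ⟨s, hs, e, he, rfl⟩ := Set.mem_mul.1 hyS'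
  have heL : e ∈ L := by
    have h1 : s * e ∈ L := hyM.1
    have e' : e = s⁻¹ * (s * e) := by group
    rw [e']
    exact L.mul_mem (L.inv_mem (hSL hs)) h1
  set l₂ : Y := e * l with hl₂
  have hl₂L : l₂ ∈ L := L.mul_mem heL hl
  have hBl₂ : cj l₂ B ≤ S := by
    have e' : cj l₂ B = cj s⁻¹ (cj (s * e) (cj l B)) := by
      rw [← cj_mul, ← cj_mul, hl₂]
      congr 1
      group
    rw [e']
    rintro _ ⟨w, hw, rfl⟩
    exact (S : Subgroup Y).mul_mem ((S : Subgroup Y).mul_mem ((S : Subgroup Y).inv_mem hs) (hy hw))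
      ((S : Subgroup Y).inv_mem ((S : Subgroup Y).inv_mem hs))
  have h1 : fusionRel (IF 𝓦 Y) S B l₂ :=
    fusionRel_of_FF_subgroup h𝓦 (hsub L hLne) S hSL hBS hl₂L hBl₂
  set c₂ : Y := c * e⁻¹ with hc₂
  have hc₂C : c₂ ∈ C := C.mul_mem hc (C.inv_mem he)
  have hgeq : c₂ * l₂ = c * l := by
    rw [hc₂, hl₂]
    group
  have h2 : fusionRel (IF 𝓦 Y) S (cj l₂ B) c₂ := by
    refine fusionRel_of_FF_subgroup h𝓦 (hsub _ hSC) S le_sup_left hBl₂ (Subgroup.mem_sup_right hc₂C) ?_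
    rw [← cj_mul, hgeq]
    exact hg
  have h3 := hRelY.comp h1 h2
  rwa [hgeq] at h3

/-- **One step of the reduction.** -/
theorem FF_of_local (h𝓦 : ∀ W ∈ 𝓦, IsCharPFunctor.{u} p W)
    (hsub : ∀ H : Subgroup Y, H ≠ ⊤ → FF p 𝓦 H)
    (hquot : ∀ (D : Subgroup Y) [D.Normal], D ≠ ⊥ → FF p 𝓦 (Y ⧸ D))
    (hconstr : Constrained p Y → FF p 𝓦 Y) : FF p 𝓦 Y := by
  by_cases hnp : ∃ D : Subgroup Y, D.Normal ∧ (Nat.card D).Coprime p ∧ D ≠ ⊥
  · obtain ⟨D, hDn, hDc, hD⟩ := hnp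
    exact ff_step_pprime h𝓦 D hDc (hquot D hD)
  by_cases hc : Constrained p Y
  · exact hconstr hc
  have hnp' : ∀ D : Subgroup Y, D.Normal → (Nat.card D).Coprime p → D = ⊥ := by
    intro D h1 h2
    by_contra h3
    exact hnp ⟨D, h1, h2, h3⟩
  intro S
  by_cases hQ : pCore p Y = ⊥
  · refine fusion_of_family S (IF 𝓦 Y) (isConj_IF h𝓦) ?_
    intro T hTS hT hfn
    refine control_of_FF_subgroup h𝓦 _ (hsub _ ?_)
    intro htop
    have hTn : T.Normal := Subgroup.normalizer_eq_top_iff.1 htop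
    have := le_pCore hTn (S.isPGroup'.to_le hTS)
    rw [hQ] at this
    exact hT (le_bot_iff.1 this)
  · obtain ⟨hSQ, L, hLne, hSL, hfac⟩ := exists_L_of_not_constrained S hnp' hc
    by_cases hSC : (S : Subgroup Y) ⊔ centralizer ((pCore p Y : Subgroup Y) : Set Y) = ⊤
    · haveI hQn : (pCore p Y).Normal := pCore_normal p Y
      exact ff_core_case h𝓦 S hSQ hsub (hquot _ hQ) hSC
    · exact ff_proper_case h𝓦 S hsub hSC hLne hSL hfac

/-- **The reduction over sections.** -/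
theorem FF_all {G : Type u} [Group G] [Finite G] (h𝓦 : ∀ W ∈ 𝓦, IsCharPFunctor.{u} p W)
    (hyp : ∀ (Y : Type u) [Group Y] [Finite Y], IsSec Y G → Constrained p Y →
      (∀ (Z : Type u) [Group Z] [Finite Z], IsSec Z Y → Nat.card Z < Nat.card Y → FF p 𝓦 Z) →
      FF p 𝓦 Y) :
    ∀ (Y : Type u) [Group Y] [Finite Y], IsSec Y G → FF p 𝓦 Y := by
  have main : ∀ (n : ℕ) (Y : Type u) [Group Y] [Finite Y], Nat.card Y = n → IsSec Y G → FF p 𝓦 Y := by
    intro n
    induction n using Nat.strong_induction_on with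
    | _ n ih =>
      intro Y _ _ hn hY
      have hIH : ∀ (Z : Type u) [Group Z] [Finite Z], IsSec Z Y → Nat.card Z < Nat.card Y →
          FF p 𝓦 Z := by
        intro Z _ _ hZ hlt
        exact ih _ (hn ▸ hlt) Z rfl (hZ.trans hY)
      refine FF_of_local h𝓦 ?_ ?_ ?_
      · intro H hH
        refine hIH H (IsSec.subgroup H) ?_
        have := card_lt_of_lt (lt_top_iff_ne_top.2 hH)
        rwa [Subgroup.card_top] at this
      · intro D _ hD
        refine hIH _ (IsSec.quotient D) ?_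
        have h1 := Subgroup.card_eq_card_quotient_mul_card_subgroup D
        have h2 : 1 < Nat.card D := by
          rw [Finite.one_lt_card_iff_nontrivial, Subgroup.nontrivial_iff_ne_bot]
          exact hD
        have h3 : 0 < Nat.card (Y ⧸ D) := Nat.card_pos
        rw [h1]
        nlinarith
      · intro hc
        exact hyp Y hY hc hIH
  intro Y _ _ hY
  exact main _ Y rfl hY

/-- The reduction, with hypotheses in the normal form of sections. -/
theorem FF_all_of_normal_form {G : Type u} [Group G] [Finite G]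
    (h𝓦 : ∀ W ∈ 𝓦, IsCharPFunctor.{u} p W)
    (hloc : ∀ (K R : Subgroup G) [hR : (R.subgroupOf K).Normal],
      Constrained p (K ⧸ R.subgroupOf K) → FF p 𝓦 (K ⧸ R.subgroupOf K)) :
    ∀ (Y : Type u) [Group Y] [Finite Y], IsSec Y G → FF p 𝓦 Y := by
  refine FF_all h𝓦 ?_
  intro Y _ _ hY hc _
  obtain ⟨K, R, hR, ⟨e⟩⟩ := hY.exists_equiv
  exact FF_congr h𝓦 e.symm (hloc K R (Constrained.of_equiv e hc))

end core

end Cfsg.Agent.Lib.Transfer.FusionCore
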