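import Mathlib
import Cfsg.Prelude.Def_LocalEven
import Cfsg.Agent.Lib.Transfer.FusionCore

/-!
# Strong fusion: applications of the reduction to a single functor; `p`-stability under isomorphisms
-/

set_option autoImplicit false
set_option linter.unusedSectionVars false
set_option linter.style.haveILetI false
set_option linter.unusedVariables false

universe u

namespace Cfsg.Agent.Lib.Transfer.FusionApps

open Subgroup Cfsg Cfsg.Agent.Lib.Transfer.WellPlaced Cfsg.Agent.Lib.Transfer.WellPlacedControl
open Cfsg.Agent.Lib.Transfer.FamilyControl Cfsg.Agent.Lib.Transfer.SectionBasic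
open Cfsg.Agent.Lib.Transfer.FusionBasic Cfsg.Agent.Lib.Transfer.FusionCore

variable {p : ℕ} [hp : Fact p.Prime]

section

variable {Y : Type u} [Group Y] [Finite Y] {W : WT.{u}}

theorem chain_single_mem {T : Subgroup Y} {B : Subgroup Y} {c : Y}
    (h : GChain (IF {W} Y) T B c) : c ∈ Nz (inducedFunctor (G := Y) W T) := by
  induction h with
  | nil h => exact Subgroup.one_mem _
  | cons h1 h2 h3 h4 ih =>
    obtain ⟨W₀, hW₀, rfl⟩ := h2
    have : W₀ = W := hW₀
    subst this
    exact Subgroup.mul_mem _ ih h3

/-- From the relation to `ControlsStrongFusion`. -/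
theorem controlsStrongFusion_of_FF (hW : IsCharPFunctor.{u} p W) (hFF : FF p {W} Y) (T : Sylow p Y) :
    ControlsStrongFusion p (inducedFunctor (G := Y) W (T : Subgroup Y)) := by
  have hW' := isConjugacyFunctor_iW (X := Y) hW
  refine ⟨T, W_le hW' T.isPGroup', fun A hA => ⟨hA, fun g hg => ?_⟩⟩
  have hB : closure A ≤ (T : Subgroup Y) := (closure_le _).2 hA
  have hgB : cj g (closure A) ≤ (T : Subgroup Y) := by
    rw [cj, MonoidHom.map_closure, closure_le]
    rintro _ ⟨a, ha, rfl⟩
    exact hg ⟨a, ha, rfl⟩
  obtain ⟨c, hc, hag⟩ := hFF T _ hB g hgB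
  exact ⟨c, chain_single_mem hc, fun a ha => (hag a (subset_closure ha)).symm⟩

/-- If `W(T)` is normal for the Sylow subgroups then the relation holds. -/
theorem FF_of_normal (hn : ∀ T : Sylow p Y, (inducedFunctor (G := Y) W (T : Subgroup Y)).Normal) :
    FF p {W} Y := by
  intro S B hB g hg
  have hg' : g ∈ Nz (inducedFunctor (G := Y) W (S : Subgroup Y)) := by
    rw [Nz, Subgroup.normalizer_eq_top_iff.2 (hn S)]
    trivial
  exact FR_of_chain (GChain.one_step hB hg ⟨W, rfl, rfl⟩ hg')

end

/-- The reduction for a single functor. -/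
theorem FF_single_all {G : Type u} [Group G] [Finite G] {W : WT.{u}} (hW : IsCharPFunctor.{u} p W)
    (hloc : ∀ (Y : Type u) [Group Y] [Finite Y], IsSec Y G → Constrained p Y →
      ∀ T : Sylow p Y, (inducedFunctor (G := Y) W (T : Subgroup Y)).Normal) :
    ∀ (Y : Type u) [Group Y] [Finite Y], IsSec Y G → FF p {W} Y := by
  refine FF_all ?_ ?_
  · rintro _ rfl
    exact hW
  · intro Y _ _ hY hc _
    exact FF_of_normal (hloc Y hY hc)

/-- `p`-stability under isomorphisms. -/
theorem normalizerPStable_of_equiv {X X' : Type u} [Group X] [Group X'] [Finite X]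
    (e : X ≃* X') (h : IsNormalizerPStable p X) : IsNormalizerPStable p X' := by
  intro P' hP' g' hg' hq
  haveI : Finite X' := Finite.of_equiv X e.toEquiv
  -- the preimage
  set P : Subgroup X := P'.map e.symm.toMonoidHom with hP
  have hPP' : P.map e.toMonoidHom = P' := by
    ext y
    simp [hP]
  have hPp : IsPGroup p P := hP'.map _
  set g : X := e.symm g' with hg
  have hNN : ∀ x : X, x ∈ normalizer (P : Set X) ↔ e x ∈ normalizer (P' : Set X') := by
    intro x
    rw [Subgroup.mem_normalizer_iff, Subgroup.mem_normalizer_iff]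
    constructor
    · intro h1 y
      have h2 := h1 (e.symm y)
      have h3 : ∀ z : X', z ∈ P' ↔ e.symm z ∈ P := by
        intro z
        rw [hP]
        simp
      rw [h3, h3, h2]
      simp
    · intro h1 y
      have h2 := h1 (e y)
      have h3 : ∀ z : X, z ∈ P ↔ e z ∈ P' := by
        intro z
        rw [← hPP']
        simp
      rw [h3, h3, h2]
      simp
  have hCC : ∀ x : X, x ∈ centralizer (P : Set X) ↔ e x ∈ centralizer (P' : Set X') := by
    intro x
    rw [Subgroup.mem_centralizer_iff, Subgroup.mem_centralizer_iff]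
    constructor
    · intro h1 y hy
      have h2 : e.symm y ∈ P := by
        rw [hP]
        exact ⟨y, hy, rfl⟩
      have h3 := h1 _ h2
      have h4 := congrArg e h3
      simpa using h4
    · intro h1 y hy
      have h2 : e y ∈ P' := by
        rw [← hPP']
        exact ⟨y, hy, rfl⟩
      have h3 := h1 _ h2
      apply e.injective
      simpa using h3
  have hgN : g ∈ normalizer (P : Set X) := (hNN g).2 (by rw [hg, MulEquiv.apply_symm_apply]; exact hg')
  have hq' : ⁅⁅P, zpowers g⁆, zpowers g⁆ = ⊥ := by
    have e1 : zpowers g' = (zpowers g).map e.toMonoidHom := by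
      rw [MonoidHom.map_zpowers]
      simp [hg]
    rw [e1, ← hPP', ← Subgroup.map_commutator, ← Subgroup.map_commutator] at hq
    exact (Subgroup.map_eq_bot_iff_of_injective _ e.injective).1 hq
  have h1 := h P hPp g hgN hq'
  -- the isomorphism of the normalizers
  let φ : normalizer (P : Set X) ≃* normalizer (P' : Set X') :=
    { toFun := fun x => ⟨e x, (hNN x).1 x.2⟩
      invFun := fun y => ⟨e.symm y, (hNN _).2 (by rw [MulEquiv.apply_symm_apply]; exact y.2)⟩
      left_inv := fun x => Subtype.ext (by simp)
      right_inv := fun y => Subtype.ext (by simp)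
      map_mul' := fun a b => Subtype.ext (by simp) }
  have hmapC : ((centralizer (P : Set X)).subgroupOf (normalizer (P : Set X))).map φ.toMonoidHom =
      (centralizer (P' : Set X')).subgroupOf (normalizer (P' : Set X')) := by
    ext y
    constructor
    · rintro ⟨x, hx, rfl⟩
      exact (hCC _).1 hx
    · intro hy
      refine ⟨φ.symm y, ?_, by simp⟩
      refine (hCC _).2 ?_
      show e (e.symm (y : X')) ∈ centralizer (P' : Set X')
      rw [MulEquiv.apply_symm_apply]
      exact hy
  let ψ := QuotientGroup.congr _ _ φ hmapC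
  have h2 := map_pCore_equiv (p := p) ψ
  rw [← h2]
  refine ⟨_, h1, ?_⟩
  have h3 : φ ⟨g, hgN⟩ = ⟨g', hg'⟩ := Subtype.ext (e.apply_symm_apply g')
  show (QuotientGroup.mk (φ ⟨g, hgN⟩) : _ ⧸ (centralizer (P' : Set X')).subgroupOf (normalizer (P' : Set X'))) = _
  rw [h3]

end Cfsg.Agent.Lib.Transfer.FusionApps
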