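import Mathlib
import Cfsg.Agent.Lib.Transfer.Basic
import Cfsg.Agent.Lib.Transfer.Frobenius

/-!
# Functions on a Sylow subgroup invariant under fusion

A function `χ` on the Sylow subgroup `P` which is invariant under `N_G(Y)` for every fully
normalized `Y ≤ P` is invariant under all of the `G`-fusion in `P`.  This is a concrete form of
Alperin's fusion theorem, not requiring the theory of fusion systems.
-/

set_option autoImplicit false

namespace Cfsg.Agent.Lib.Transfer.FusionInvariant

open Subgroup Cfsg.Agent.Lib.Transfer.Basic Cfsg.Agent.Lib.Transfer.Frobenius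

variable {G : Type*} [Group G] [Finite G] {p : ℕ} [hp : Fact p.Prime]

/-- `Y` is fully normalized with respect to `P`: all `p`-subgroups of `N(Y)` containing `N_P(Y)`
lie in `P`. -/
def FullyNormalized (p : ℕ) (P Y : Subgroup G) : Prop :=
  ∀ T : Subgroup G, IsPGroup p T → T ≤ normalizer (Y : Set G) → P ⊓ normalizer (Y : Set G) ≤ T →
    T ≤ P

/-- The fully normalized property is all that is needed to see `N_P(Y)` as a Sylow subgroup of
`N(Y)`. -/
noncomputable def FullyNormalized.sylow {P : Sylow p G} {Y : Subgroup G}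
    (hY : FullyNormalized p (P : Subgroup G) Y) : Sylow p (normalizer (Y : Set G)) where
  toSubgroup := ((P : Subgroup G) ⊓ normalizer (Y : Set G)).subgroupOf (normalizer (Y : Set G))
  isPGroup' := (P.isPGroup'.to_inf_left : IsPGroup p _).comap_subtype
  is_maximal' := by
    intro Q hQ hle
    apply le_antisymm _ hle
    intro x hx
    have hTp : IsPGroup p (Q.map (normalizer (Y : Set G)).subtype) := hQ.map _
    have h1 := hY _ hTp (map_subtype_le _) (by
      intro z hz
      have hz2 : z ∈ normalizer (Y : Set G) := hz.2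
      refine ⟨⟨z, hz2⟩, hle (mem_subgroupOf.mpr hz), rfl⟩)
    exact mem_subgroupOf.mpr ⟨h1 ⟨x, hx, rfl⟩, x.2⟩

theorem fusion_invariant_aux (P : Sylow p G) {X : Type*} (χ : G → X)
    (h : ∀ Y : Subgroup G, Y ≤ (P : Subgroup G) → FullyNormalized p (P : Subgroup G) Y →
      ∀ n ∈ normalizer (Y : Set G), ∀ y ∈ Y, χ (n * y * n⁻¹) = χ y) :
    ∀ (n : ℕ) (Q : Subgroup G), Q ≤ (P : Subgroup G) →
      Nat.card (P : Subgroup G) - Nat.card Q = n → ∀ g : G,
        (∀ q ∈ Q, g * q * g⁻¹ ∈ (P : Subgroup G)) →
          ∀ q ∈ Q, χ (g * q * g⁻¹) = χ q := by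
  intro n
  induction n using Nat.strong_induction_on with
  | _ n ih =>
    intro Q hQP hn g hg
    by_cases hQ : Q = (P : Subgroup G)
    · subst hQ
      have hgN : g ∈ normalizer ((P : Subgroup G) : Set G) := mem_normalizer_of_conj_mem hg
      refine h _ le_rfl ?_ g hgN
      intro T hT _ hPT
      have hle : (P : Subgroup G) ≤ T := fun x hx => hPT ⟨hx, le_normalizer hx⟩
      exact (P.is_maximal' hT hle).le
    · have hQlt : Q < (P : Subgroup G) := lt_of_le_of_ne hQP hQ
      set R := Q.map (MulAut.conj g).toMonoidHom with hRdef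
      have hRQ : ∀ q ∈ Q, g * q * g⁻¹ ∈ R := by
        intro q hq
        exact Subgroup.mem_map_of_mem _ hq
      have hRP : R ≤ (P : Subgroup G) := by
        rintro _ ⟨q, hq, rfl⟩
        exact hg q hq
      have hRcard : Nat.card R = Nat.card Q :=
        Subgroup.card_map_of_injective (MulAut.conj g).injective
      have hRlt : R < (P : Subgroup G) := by
        refine lt_of_le_of_ne hRP ?_
        intro h
        have : Nat.card Q = Nat.card (P : Subgroup G) := by rw [← hRcard, h]
        exact hQ (Subgroup.eq_of_le_of_card_ge hQP this.ge)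
      set MQ := (P : Subgroup G) ⊓ normalizer (Q : Set G) with hMQ
      set MR := (P : Subgroup G) ⊓ normalizer (R : Set G) with hMR
      have hQMQ : Q < MQ := lt_inf_normalizer P.isPGroup' hQlt
      have hRMR : R < MR := lt_inf_normalizer P.isPGroup' hRlt
      have hMQP : MQ ≤ (P : Subgroup G) := inf_le_left
      have hMRP : MR ≤ (P : Subgroup G) := inf_le_left
      have hcardP : Nat.card (P : Subgroup G) > 0 := Nat.card_pos
      have hMQn : Nat.card (P : Subgroup G) - Nat.card MQ < n := by
        have h1 : Nat.card Q < Nat.card MQ := card_lt_of_lt hQMQ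
        have h2 : Nat.card MQ ≤ Nat.card (P : Subgroup G) :=
          Nat.le_of_dvd Nat.card_pos (Subgroup.card_dvd_of_le hMQP)
        omega
      have hMRn : Nat.card (P : Subgroup G) - Nat.card MR < n := by
        have h1 : Nat.card R < Nat.card MR := card_lt_of_lt hRMR
        have h2 : Nat.card MR ≤ Nat.card (P : Subgroup G) :=
          Nat.le_of_dvd Nat.card_pos (Subgroup.card_dvd_of_le hMRP)
        omega
      set K := normalizer (R : Set G) with hK
      have hMR' : IsPGroup p (MR.subgroupOf K) :=
        (P.isPGroup'.to_inf_left : IsPGroup p MR).comap_subtype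
      obtain ⟨T, hT⟩ := hMR'.exists_le_sylow
      have hTG : IsPGroup p ((T : Subgroup K).map K.subtype) := T.isPGroup'.map _
      obtain ⟨x, hx⟩ := exists_conj_mem_of_isPGroup P hTG
      have hWK : MQ.map (MulAut.conj g).toMonoidHom ≤ K := by
        rintro _ ⟨m, hm, rfl⟩
        have hmN : m ∈ normalizer (Q : Set G) := hm.2
        rw [hK, Subgroup.mem_normalizer_iff]
        intro h
        rw [hRdef]
        rw [mem_map_conj_iff, mem_map_conj_iff]
        have := (Subgroup.mem_normalizer_iff.mp hmN) (g⁻¹ * h * g)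
        rw [this]
        have e : g⁻¹ * ((MulAut.conj g).toMonoidHom m * h * ((MulAut.conj g).toMonoidHom m)⁻¹) * g
            = m * (g⁻¹ * h * g) * m⁻¹ := by
          simp only [MulEquiv.coe_toMonoidHom, MulAut.conj_apply]
          group
        rw [e]
      have hW : IsPGroup p ((MQ.map (MulAut.conj g).toMonoidHom).subgroupOf K) :=
        ((P.isPGroup'.to_inf_left : IsPGroup p MQ).map _).comap_subtype
      obtain ⟨y, hy⟩ := exists_conj_mem_of_isPGroup T hW
      have hg1 : ∀ m ∈ MQ, (x * y * g) * m * (x * y * g)⁻¹ ∈ (P : Subgroup G) := by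
        intro m hm
        have h1 : (MulAut.conj g).toMonoidHom m ∈ K := hWK (Subgroup.mem_map_of_mem _ hm)
        have h2 := hy ⟨_, h1⟩ (Subgroup.mem_subgroupOf.mpr (Subgroup.mem_map_of_mem _ hm))
        have h3 := hx _ (Subgroup.mem_map_of_mem K.subtype h2)
        have e : x * K.subtype (y * ⟨_, h1⟩ * y⁻¹) * x⁻¹ = (x * y * g) * m * (x * y * g)⁻¹ := by
          simp only [Subgroup.subtype_apply, Subgroup.coe_mul, Subgroup.coe_inv,
            MulEquiv.coe_toMonoidHom, MulAut.conj_apply]
          group
        rwa [e] at h3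
      -- the fully normalized conjugate of `R`
      set R' := R.map (MulAut.conj x).toMonoidHom with hR'
      have hR'P : R' ≤ (P : Subgroup G) := by
        rintro _ ⟨r, hr, rfl⟩
        have hr2 : r ∈ MR := hRMR.le hr
        have h2 : (⟨r, hr2.2⟩ : K) ∈ (T : Subgroup K) := hT (Subgroup.mem_subgroupOf.mpr hr2)
        exact hx _ (Subgroup.mem_map_of_mem K.subtype h2)
      have hR'mem : ∀ z, z ∈ R' ↔ x⁻¹ * z * x ∈ R := fun z => mem_map_conj_iff R x z
      have hconjN : ∀ k ∈ K, x * k * x⁻¹ ∈ normalizer (R' : Set G) := by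
        intro k hk
        rw [Subgroup.mem_normalizer_iff]
        intro h
        rw [hR'mem, hR'mem]
        have := (Subgroup.mem_normalizer_iff.mp hk) (x⁻¹ * h * x)
        rw [this]
        have e : x⁻¹ * (x * k * x⁻¹ * h * (x * k * x⁻¹)⁻¹) * x = k * (x⁻¹ * h * x) * k⁻¹ := by
          group
        rw [e]
      have hfull : FullyNormalized p (P : Subgroup G) R' := by
        intro T' hT' hT'N hPT'
        -- pull `T'` back to `K`
        set T'' := T'.map (MulAut.conj x⁻¹).toMonoidHom with hT''
        have hT''p : IsPGroup p (T''.subgroupOf K) := (hT'.map _).comap_subtype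
        have hT''K : T'' ≤ K := by
          rintro _ ⟨t, ht, rfl⟩
          have ht' := hT'N ht
          rw [hK, Subgroup.mem_normalizer_iff]
          intro h
          have h1 := (Subgroup.mem_normalizer_iff.mp ht') (x * h * x⁻¹)
          rw [hR'mem, hR'mem] at h1
          simp only [MulEquiv.coe_toMonoidHom, MulAut.conj_apply]
          convert h1 using 2 <;> group
        have hle : (T : Subgroup K) ≤ T''.subgroupOf K := by
          intro t ht
          rw [mem_subgroupOf]
          have h1 : x * (t : G) * x⁻¹ ∈ (P : Subgroup G) :=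
            hx _ (Subgroup.mem_map_of_mem K.subtype ht)
          have h2 : x * (t : G) * x⁻¹ ∈ T' := hPT' ⟨h1, hconjN _ t.2⟩
          refine ⟨_, h2, ?_⟩
          simp only [MulEquiv.coe_toMonoidHom, MulAut.conj_apply]
          group
        have heq := T.is_maximal' hT''p hle
        intro t' ht'
        have h1 : x⁻¹ * t' * x ∈ T'' := by
          refine ⟨t', ht', ?_⟩
          simp only [MulEquiv.coe_toMonoidHom, MulAut.conj_apply]
          group
        have h2 : (⟨_, hT''K h1⟩ : K) ∈ (T : Subgroup K) := by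
          rw [← heq]; exact mem_subgroupOf.mpr h1
        have h3 := hx _ (Subgroup.mem_map_of_mem K.subtype h2)
        have e : x * K.subtype ⟨x⁻¹ * t' * x, hT''K h1⟩ * x⁻¹ = t' := by
          simp only [Subgroup.subtype_apply]
          group
        rwa [e] at h3
      -- the chain
      have hx1 : ∀ m ∈ MR, x * m * x⁻¹ ∈ (P : Subgroup G) := by
        intro m hm
        have h1 : m ∈ K := hm.2
        have h2 : (⟨m, h1⟩ : K) ∈ (T : Subgroup K) := hT (Subgroup.mem_subgroupOf.mpr hm)
        exact hx _ (Subgroup.mem_map_of_mem K.subtype h2)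
      intro q hq
      have hqMQ : q ∈ MQ := hQMQ.le hq
      have hrR : g * q * g⁻¹ ∈ R := hRQ q hq
      have hrMR : g * q * g⁻¹ ∈ MR := hRMR.le hrR
      have e1 := ih _ hMQn MQ hMQP rfl (x * y * g) hg1 q hqMQ
      have e3 := ih _ hMRn MR hMRP rfl x hx1 (g * q * g⁻¹) hrMR
      have e2 := h R' hR'P hfull (x * (y : G) * x⁻¹) (hconjN _ y.2) (x * (g * q * g⁻¹) * x⁻¹)
        (Subgroup.mem_map_of_mem (MulAut.conj x).toMonoidHom hrR)
      have e4 : x * (y : G) * x⁻¹ * (x * (g * q * g⁻¹) * x⁻¹) * (x * (y : G) * x⁻¹)⁻¹ =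
          x * (y : G) * g * q * (x * (y : G) * g)⁻¹ := by
        group
      rw [e4, e1, e3] at e2
      exact e2.symm

/-- A function on a Sylow subgroup invariant under all `N(Y)` with `Y` fully normalized is invariant
under all `G`-conjugations inside `P`. -/
theorem fusion_invariant (P : Sylow p G) {X : Type*} (χ : G → X)
    (h : ∀ Y : Subgroup G, Y ≤ (P : Subgroup G) → FullyNormalized p (P : Subgroup G) Y →
      ∀ n ∈ normalizer (Y : Set G), ∀ y ∈ Y, χ (n * y * n⁻¹) = χ y)
    {x : G} (hx : x ∈ (P : Subgroup G)) (g : G) (hg : g * x * g⁻¹ ∈ (P : Subgroup G)) :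
    χ (g * x * g⁻¹) = χ x := by
  refine fusion_invariant_aux P χ h _ (zpowers x) ((zpowers_le).mpr hx) rfl g ?_ x (mem_zpowers x)
  intro q hq
  obtain ⟨i, rfl⟩ := mem_zpowers_iff.mp hq
  have : g * x ^ i * g⁻¹ = (g * x * g⁻¹) ^ i := by
    simp [conj_zpow]
  rw [this]
  exact zpow_mem hg i

end Cfsg.Agent.Lib.Transfer.FusionInvariant
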