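import Mathlib
import Cfsg.Prelude.Def_SolvableStructure
import Cfsg.Agent.Lib.PGroup.Basic
import Cfsg.Agent.Lib.Transfer.Basic
import Cfsg.Agent.Lib.Transfer.Frobenius
import Cfsg.Agent.Lib.Solvable.Supersolvable
import Cfsg.Agent.Lib.Solvable.Supersolvable2

/-!
# Normal `p`-subgroups on which `G` acts by an abelian group of exponent dividing `p - 1`

Let `P` be a normal `p`-subgroup of `G` and `B` a normal subgroup of `G` with `G / B` abelian of
exponent dividing `p - 1`, all of whose elements of order prime to `p` centralize `P`.  Then `G` has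
a normal subgroup of order `p` in `P` (if `P ≠ 1`), and `G` is supersolvable if `G / P` is.
-/

set_option autoImplicit false
set_option linter.style.haveILetI false

namespace Cfsg.Agent.Lib.Transfer.ScalarAction

open Subgroup Cfsg Cfsg.Agent.Lib.Transfer.Basic Cfsg.Agent.Lib.Transfer.Frobenius
open Cfsg.Agent.Lib.Solvable.Supersolvable Cfsg.Agent.Lib.Solvable.Supersolvable2

universe u

/-- An endomorphism of a nontrivial `ZMod p`-module whose `(p - 1)`-st iterate is the
identity has an eigenvector. -/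
theorem exists_eigen_add {V : Type*} [AddCommGroup V] [Finite V] [Nontrivial V] {p : ℕ}
    [hp : Fact p.Prime] [Module (ZMod p) V] (σ : V →+ V) (hσ : ∀ x, σ^[p - 1] x = x) :
    ∃ (a : ℕ) (x : V), x ≠ 0 ∧ σ x = a • x := by
  classical
  let T : Module.End (ZMod p) V := σ.toZModLinearMap p
  have hTit : ∀ (k : ℕ) (x : V), (T ^ k) x = σ^[k] x := by
    intro k x
    rw [Module.End.pow_apply]
    rfl
  have hT : T ^ (p - 1) = 1 := by
    apply LinearMap.ext
    intro x
    rw [hTit, hσ]
    rfl
  haveI : Module.Finite (ZMod p) V := Module.Finite.of_finite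
  haveI : Fintype (ZMod p) := ZMod.fintype p
  have hp1 : 1 < p := hp.out.one_lt
  set f : Polynomial (ZMod p) := Polynomial.X ^ p - Polynomial.X with hf
  have hcardZ : Fintype.card (ZMod p) = p := ZMod.card p
  have hroots : Multiset.card f.roots = f.natDegree := by
    have h1 := FiniteField.roots_X_pow_card_sub_X (ZMod p)
    rw [hcardZ] at h1
    rw [hf, h1, FiniteField.X_pow_card_sub_X_natDegree_eq _ hp1]
    simp [hcardZ]
  have hmonic : f.Monic := by
    rw [hf]
    apply Polynomial.monic_X_pow_sub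
    rw [Polynomial.degree_X]
    exact_mod_cast hp1
  have hprod := Polynomial.prod_multiset_X_sub_C_of_monic_of_roots_card_eq hmonic hroots
  have hnu : ¬IsUnit (Polynomial.aeval T
      (Multiset.map (fun x : ZMod p => Polynomial.X - Polynomial.C x) f.roots).prod) := by
    rw [hprod]
    have h0 : Polynomial.aeval T f = 0 := by
      rw [hf]
      simp only [map_sub, map_pow, Polynomial.aeval_X]
      have e : T ^ p = T * T ^ (p - 1) := by
        rw [← pow_succ']
        congr 1
        omega
      rw [e, hT, mul_one, sub_self]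
    rw [h0]
    exact not_isUnit_zero
  obtain ⟨μ, hμ, -⟩ := spectrum.exists_mem_of_not_isUnit_aeval_prod (R := ZMod p)
    (A := Module.End (ZMod p) V) hnu
  have hev : Module.End.HasEigenvalue T μ := Module.End.hasEigenvalue_iff_mem_spectrum.mpr hμ
  obtain ⟨v, hv⟩ := hev.exists_hasEigenvector
  refine ⟨μ.val, v, hv.2, ?_⟩
  have h1 : T v = μ • v := hv.apply_eq_smul
  have h2 : μ • v = (μ.val) • v := by
    conv_lhs => rw [← ZMod.natCast_zmod_val μ]
    exact Nat.cast_smul_eq_nsmul _ _ _
  rw [h2] at h1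
  exact h1

/-- An endomorphism of a nontrivial elementary abelian `p`-group whose `(p - 1)`-st iterate is the
identity has an eigenvector. -/
theorem exists_eigen {V : Type*} [CommGroup V] [Finite V] [Nontrivial V] {p : ℕ} [hp : Fact p.Prime]
    (hV : ∀ x : V, x ^ p = 1) (σ : V →* V) (hσ : ∀ x, σ^[p - 1] x = x) :
    ∃ (a : ℕ) (x : V), x ≠ 1 ∧ σ x = x ^ a := by
  have hpow : ∀ x : Additive V, p • x = 0 := by
    intro x
    have := hV (Additive.toMul x)
    exact congrArg Additive.ofMul this
  obtain ⟨a, x, hx, hxa⟩ := @exists_eigen_add (Additive V) _ _ _ p _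
    (AddCommGroup.zmodModule hpow) (MonoidHom.toAdditive σ) (by
      intro x
      exact congrArg Additive.ofMul (hσ (Additive.toMul x)))
  exact ⟨a, Additive.toMul x, hx, congrArg Additive.toMul hxa⟩

variable {G : Type*} [Group G] [Finite G] {p : ℕ} [hp : Fact p.Prime]

/-- A normal subgroup of prime order in `P`. -/
theorem exists_normal_card_prime (P : Subgroup G) [hPn : P.Normal] (hP : IsPGroup p P)
    (hP1 : P ≠ ⊥) (B : Subgroup G) [hBn : B.Normal] (hB1 : ∀ x y : G, x * y * x⁻¹ * y⁻¹ ∈ B)
    (hB2 : ∀ x : G, x ^ (p - 1) ∈ B)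
    (hB3 : ∀ c ∈ B, Nat.Coprime (orderOf c) p → ∀ x ∈ P, c * x = x * c) :
    ∃ N : Subgroup G, N ≤ P ∧ N.Normal ∧ Nat.card N = p := by
  classical
  let S : Set (Subgroup G) := {N | N ≤ P ∧ N.Normal ∧ N ≠ ⊥}
  obtain ⟨W, hWmin⟩ := (Set.toFinite S).exists_minimal ⟨P, le_rfl, hPn, hP1⟩
  obtain ⟨⟨hWP, hWn, hW1⟩, hmin⟩ := hWmin
  haveI := hWn
  have hmin' : ∀ N : Subgroup G, N ≤ W → N.Normal → N ≠ ⊥ → N = W := fun N hNW hNn hN1 =>
    le_antisymm hNW (hmin ⟨hNW.trans hWP, hNn, hN1⟩ hNW)
  have hWp : IsPGroup p W := hP.to_le hWP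
  -- `W` is central in `P`
  have hWC : W ≤ centralizer (P : Set G) := by
    have h1 : W ⊓ centralizer (P : Set G) = W := by
      apply hmin' _ inf_le_left inferInstance
      haveI : (W.subgroupOf P).Normal := inferInstance
      have hne : W.subgroupOf P ≠ ⊥ := by
        intro h
        apply hW1
        rw [eq_bot_iff]
        intro x hx
        have : (⟨x, hWP hx⟩ : P) ∈ W.subgroupOf P := mem_subgroupOf.mpr hx
        rw [h, mem_bot] at this
        simpa using congrArg Subtype.val this
      have h2 := Cfsg.Agent.Lib.PGroup.Basic.inf_center_ne_bot hP hne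
      intro hbot
      apply h2
      rw [eq_bot_iff]
      intro x hx
      have hx1 : (x : G) ∈ W := mem_subgroupOf.mp (mem_inf.mp hx).1
      have hx2 : (x : G) ∈ centralizer (P : Set G) := by
        rw [mem_centralizer_iff]
        intro y hy
        have := (mem_center_iff.mp (mem_inf.mp hx).2) ⟨y, hy⟩
        exact (congrArg Subtype.val this)
      have : (x : G) ∈ W ⊓ centralizer (P : Set G) := mem_inf.mpr ⟨hx1, hx2⟩
      rw [hbot, mem_bot] at this
      rw [mem_bot]
      exact Subtype.ext this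
    exact inf_eq_left.mp h1
  have hcomm : ∀ x ∈ W, ∀ y ∈ W, x * y = y * x := by
    intro x hx y hy
    exact (mem_centralizer_iff.mp (hWC hx) y (hWP hy)).symm
  have hcardW : p ∣ Nat.card W := by
    rcases hWp.card_eq_or_dvd with h | h
    · exact absurd ((Subgroup.eq_bot_iff_card W).mpr h) hW1
    · exact h
  -- `W` is elementary abelian
  have hWel : ∀ x ∈ W, x ^ p = 1 := by
    let Ω : Subgroup G :=
      { carrier := {x | x ∈ W ∧ x ^ p = 1}
        one_mem' := ⟨one_mem _, one_pow _⟩
        mul_mem' := by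
          rintro a b ⟨ha, ha'⟩ ⟨hb, hb'⟩
          refine ⟨mul_mem ha hb, ?_⟩
          have hc : Commute a b := hcomm a ha b hb
          rw [hc.mul_pow, ha', hb', one_mul]
        inv_mem' := by
          rintro a ⟨ha, ha'⟩
          exact ⟨inv_mem ha, by rw [inv_pow, ha', inv_one]⟩ }
    have hΩn : Ω.Normal := by
      refine ⟨fun n hn g => ⟨hWn.conj_mem n hn.1 g, ?_⟩⟩
      rw [conj_pow, hn.2]
      group
    have hΩ : Ω = W := by
      apply hmin' Ω (fun x hx => hx.1) hΩn
      obtain ⟨x, hx⟩ := exists_prime_orderOf_dvd_card' p hcardW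
      intro hbot
      have h1 : (x : G) ∈ Ω := ⟨x.2, by
        have := pow_orderOf_eq_one x
        rw [hx] at this
        simpa using congrArg Subtype.val this⟩
      rw [hbot, mem_bot] at h1
      have h2 : x = 1 := Subtype.ext h1
      rw [h2, orderOf_one] at hx
      exact hp.out.one_lt.ne hx
    intro x hx
    rw [← hΩ] at hx
    exact hx.2
  -- `B` centralizes `W`
  have hWB : ∀ b ∈ B, ∀ x ∈ W, b * x = x * b := by
    let σ : G →* MulAut W := MulAut.conjNormal
    have hσ : ∀ (g : G) (x : W), ((σ g x : W) : G) = g * x * g⁻¹ := fun g x => rfl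
    let R : Subgroup (MulAut W) := B.map σ
    have hR : IsPGroup p R := by
      rintro ⟨_, b, hb, rfl⟩
      obtain ⟨a, c, rfl, -, -, hc, ⟨j, hj⟩, hc'⟩ := exists_pPart_decomp (p := p) b
      refine ⟨j, Subtype.ext ?_⟩
      have hcB : c ∈ B := (zpowers_le.mpr hb) hc
      have hσc : σ c = 1 := by
        ext x
        rw [hσ]
        have := hB3 c hcB hc' x (hWP x.2)
        rw [this]
        simp
      simp only [Subgroup.coe_pow, OneMemClass.coe_one, map_mul, hσc, mul_one]
      rw [← map_pow, ← hj, pow_orderOf_eq_one, map_one]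
    have hfix := hR.card_modEq_card_fixedPoints (α := W)
    have hdvd : p ∣ Nat.card (MulAction.fixedPoints R W) :=
      Nat.modEq_zero_iff_dvd.mp (hfix.symm.trans (Nat.modEq_zero_iff_dvd.mpr hcardW))
    have hne : Nonempty (MulAction.fixedPoints R W) := by
      refine ⟨⟨1, fun g => ?_⟩⟩
      exact map_one (g : MulAut W)
    have hcard2 : 1 < Nat.card (MulAction.fixedPoints R W) :=
      lt_of_lt_of_le hp.out.one_lt (Nat.le_of_dvd Nat.card_pos hdvd)
    haveI : Nontrivial (MulAction.fixedPoints R W) := Finite.one_lt_card_iff_nontrivial.mp hcard2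
    obtain ⟨x, hx⟩ := exists_ne (⟨1, fun g => map_one (g : MulAut W)⟩ : MulAction.fixedPoints R W)
    have hxne : ((x : W) : G) ≠ 1 := by
      intro h
      apply hx
      apply Subtype.ext
      exact Subtype.ext h
    have hxfix : ∀ b ∈ B, b * ((x : W) : G) * b⁻¹ = ((x : W) : G) := by
      intro b hb
      have h1 := x.2 ⟨σ b, b, hb, rfl⟩
      exact congrArg Subtype.val h1
    have hWCB : W ⊓ centralizer (B : Set G) = W := by
      apply hmin' _ inf_le_left inferInstance
      intro hbot
      apply hxne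
      have : ((x : W) : G) ∈ W ⊓ centralizer (B : Set G) := by
        refine mem_inf.mpr ⟨(x : W).2, mem_centralizer_iff.mpr fun b hb => ?_⟩
        have := hxfix b hb
        rw [mul_inv_eq_iff_eq_mul] at this
        exact this
      rw [hbot, mem_bot] at this
      exact this
    intro b hb y hy
    rw [← hWCB] at hy
    exact (mem_centralizer_iff.mp (mem_inf.mp hy).2 b hb).symm ▸ rfl
  -- every element of `G` acts as a scalar on `W`
  have hscalar : ∀ g : G, ∃ a : ℕ, ∀ y ∈ W, g * y * g⁻¹ = y ^ a := by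
    intro g
    letI : CommGroup W :=
      { (inferInstance : Group W) with
        mul_comm := fun x y => Subtype.ext (hcomm x x.2 y y.2) }
    haveI : Nontrivial W := Finite.one_lt_card_iff_nontrivial.mp
      (lt_of_lt_of_le hp.out.one_lt (Nat.le_of_dvd Nat.card_pos hcardW))
    have hV : ∀ x : W, x ^ p = 1 := fun x => Subtype.ext (by simpa using hWel x x.2)
    let τ : W →* W := (MulAut.conjNormal g : MulAut W).toMonoidHom
    have hit : ∀ (k : ℕ) (x : W), ((τ^[k] x : W) : G) = g ^ k * x * (g ^ k)⁻¹ := by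
      intro k x
      induction k with
      | zero => simp
      | succ k ih =>
        rw [Function.iterate_succ_apply']
        show g * ((τ^[k] x : W) : G) * g⁻¹ = _
        rw [ih, pow_succ']
        group
    have hτ' : ∀ x, τ^[p - 1] x = x := fun x => Subtype.ext (by
      rw [hit]
      have := hWB _ (hB2 g) x x.2
      rw [this]
      group)
    obtain ⟨a, x, hx1, hxa⟩ := exists_eigen hV τ hτ'
    refine ⟨a, ?_⟩
    let Eg : Subgroup G :=
      { carrier := {y | y ∈ W ∧ g * y * g⁻¹ = y ^ a}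
        one_mem' := ⟨one_mem _, by simp⟩
        mul_mem' := by
          rintro u v ⟨hu, hu'⟩ ⟨hv, hv'⟩
          refine ⟨mul_mem hu hv, ?_⟩
          have hc : Commute u v := hcomm u hu v hv
          rw [hc.mul_pow, ← hu', ← hv']
          group
        inv_mem' := by
          rintro u ⟨hu, hu'⟩
          refine ⟨inv_mem hu, ?_⟩
          rw [inv_pow, ← hu']
          group }
    have hEn : Eg.Normal := by
      refine ⟨fun n hn h => ⟨hWn.conj_mem n hn.1 h, ?_⟩⟩
      have hc : g⁻¹ * h⁻¹ * g * h ∈ B := by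
        have := hB1 g⁻¹ h⁻¹
        simpa using this
      have hc' := hWB _ hc n hn.1
      have e : g * (h * n * h⁻¹) * g⁻¹ =
          h * g * ((g⁻¹ * h⁻¹ * g * h) * n * (g⁻¹ * h⁻¹ * g * h)⁻¹) * (h * g)⁻¹ := by
        group
      rw [e, hc']
      have e2 : h * g * (n * (g⁻¹ * h⁻¹ * g * h) * (g⁻¹ * h⁻¹ * g * h)⁻¹) * (h * g)⁻¹ =
          h * (g * n * g⁻¹) * h⁻¹ := by
        group
      rw [e2, hn.2, conj_pow]
    have hEb : Eg ≠ ⊥ := by
      intro hbot
      have h1 : (x : G) ∈ Eg := ⟨x.2, congrArg Subtype.val hxa⟩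
      rw [hbot, mem_bot] at h1
      exact hx1 (Subtype.ext h1)
    have hE : Eg = W := hmin' Eg (fun y hy => hy.1) hEn hEb
    intro y hy
    rw [← hE] at hy
    exact hy.2
  obtain ⟨x, hx⟩ := Subgroup.ne_bot_iff_exists_ne_one.mp hW1
  have hx' : (x : G) ≠ 1 := fun h => hx (Subtype.ext h)
  have hzn : (zpowers (x : G)).Normal := by
    refine ⟨fun n hn h => ?_⟩
    obtain ⟨i, rfl⟩ := mem_zpowers_iff.mp hn
    obtain ⟨a, ha⟩ := hscalar h
    have e : h * (x : G) ^ i * h⁻¹ = (h * (x : G) * h⁻¹) ^ i := by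
      rw [conj_zpow]
    rw [e, ha x x.2, ← zpow_natCast, ← zpow_mul]
    exact zpow_mem (mem_zpowers _) _
  have hzb : zpowers (x : G) ≠ ⊥ := by
    intro hbot
    rw [zpowers_eq_bot] at hbot
    exact hx' hbot
  have hz := hmin' _ (zpowers_le.mpr x.2) hzn hzb
  refine ⟨W, hWP, hWn, ?_⟩
  rw [← hz, Nat.card_zpowers]
  exact orderOf_eq_prime (hWel x x.2) hx'

/-- **Normal `p`-subgroups with scalar action.** -/
theorem isSupersolvable_of_acts {p : ℕ} [hp : Fact p.Prime] (n : ℕ) :
    ∀ (G : Type u) [Group G] [Finite G], Nat.card G = n → ∀ (P : Subgroup G) [P.Normal],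
      IsPGroup p P → ∀ (B : Subgroup G) [B.Normal], (∀ x y : G, x * y * x⁻¹ * y⁻¹ ∈ B) →
      (∀ x : G, x ^ (p - 1) ∈ B) →
      (∀ c ∈ B, Nat.Coprime (orderOf c) p → ∀ x ∈ P, c * x = x * c) →
      IsSupersolvable (G ⧸ P) → IsSupersolvable G := by
  induction n using Nat.strong_induction_on with
  | _ n ih =>
    intro G _ _ hn P hPn hP B hBn hB1 hB2 hB3 hq
    by_cases hP1 : P = ⊥
    · subst hP1
      exact IsSupersolvable.of_mulEquiv (QuotientGroup.quotientBot : G ⧸ (⊥ : Subgroup G) ≃* G) hq
    obtain ⟨N, hNP, hNn, hNc⟩ := exists_normal_card_prime P hP hP1 B hB1 hB2 hB3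
    haveI := hNn
    haveI : IsCyclic N := isCyclic_of_prime_card hNc
    apply IsSupersolvable.of_normal_cyclic N
    have hNb : N ≠ ⊥ := ne_bot_of_card_prime (by rw [hNc]; exact hp.out)
    let f := QuotientGroup.mk' N
    have hf : Function.Surjective f := QuotientGroup.mk'_surjective N
    haveI hP'n : (P.map f).Normal := Subgroup.Normal.map hPn f hf
    haveI hB'n : (B.map f).Normal := Subgroup.Normal.map hBn f hf
    refine ih _ ?_ (G ⧸ N) rfl (P.map f) (hP.map f) (B.map f) ?_ ?_ ?_ ?_
    · rw [← hn]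
      exact card_quotient_lt N hNb
    · intro x y
      obtain ⟨x, rfl⟩ := hf x
      obtain ⟨y, rfl⟩ := hf y
      exact ⟨_, hB1 x y, by simp⟩
    · intro x
      obtain ⟨x, rfl⟩ := hf x
      exact ⟨_, hB2 x, by simp⟩
    · rintro _ ⟨b, hb, rfl⟩ hc _ ⟨x, hx, rfl⟩
      obtain ⟨a, c, rfl, -, ha, hc1, ⟨j, hj⟩, hc'⟩ := exists_pPart_decomp (p := p) b
      -- the image of the `p`-part is trivial
      have h1 : f a = 1 := by
        have h2 : orderOf (f a) ∣ p ^ j := by
          rw [← hj]
          exact orderOf_map_dvd f a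
        have h3 : orderOf (f a) ∣ orderOf (f (a * c)) := by
          have : f a ∈ zpowers (f (a * c)) := by
            have h6 := Subgroup.mem_map_of_mem f ha
            rwa [MonoidHom.map_zpowers] at h6
          exact orderOf_dvd_of_mem_zpowers this
        have h4 : Nat.Coprime (orderOf (f a)) (p ^ j) :=
          Nat.Coprime.pow_right j (Nat.Coprime.coprime_dvd_left h3 hc)
        exact orderOf_eq_one_iff.mp (Nat.Coprime.eq_one_of_dvd h4 h2)
      have hcB : c ∈ B := (zpowers_le.mpr hb) hc1
      have h5 := hB3 c hcB hc' x hx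
      rw [map_mul, h1, one_mul, ← map_mul, h5, map_mul]
    · have hle : P ≤ (P.map f).comap f := Subgroup.le_comap_map f P
      refine IsSupersolvable.of_surjective (QuotientGroup.map P (P.map f) f hle) ?_ hq
      intro y
      obtain ⟨y, rfl⟩ := QuotientGroup.mk_surjective y
      obtain ⟨x, rfl⟩ := hf y
      exact ⟨x, rfl⟩

end Cfsg.Agent.Lib.Transfer.ScalarAction
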