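import Mathlib
import Cfsg.Prelude.Def_SolvableStructure
import Cfsg.Agent.Lib.Transfer.AutSmall
import Cfsg.Agent.Lib.Transfer.ScalarAction

/-!
# Normal `p`-subgroups all of whose subgroups of a given order are normal

If `P` is a normal `p`-subgroup of `G` with `G / P` supersolvable and all subgroups of `P` of order
`p ^ d` (and also all those of order `4` if `p ^ d = 2`) are normal in `G`, where `1 < p ^ d < |P|`,
then `G` is supersolvable.
-/

set_option autoImplicit false
set_option linter.style.haveILetI false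

namespace Cfsg.Agent.Lib.Transfer.NormalStable

open Subgroup Cfsg Cfsg.Agent.Lib.PGroup.Basic Cfsg.Agent.Lib.Coprime.OmegaOne
open Cfsg.Agent.Lib.Coprime.FrattiniAct Cfsg.Agent.Lib.PGroup.ZJStable
open Cfsg.Agent.Lib.Transfer.Frobenius Cfsg.Agent.Lib.Transfer.AutSmall
open Cfsg.Agent.Lib.Transfer.ScalarAction Cfsg.Agent.Lib.Transfer.Basic

universe u

variable {G : Type u} [Group G] [Finite G] {p : ℕ} [hp : Fact p.Prime]

/-- In a cyclic group, the elements of a maximal subgroup of a `p`-group are `p`-th powers. -/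
theorem exists_pow_eq_of_mem_coatom {T : Type*} [Group T] [Finite T] [IsCyclic T]
    (hT : IsPGroup p T) {M : Subgroup T} (hM : IsCoatom M) {w : T} (hw : w ∈ M) :
    ∃ s : T, w = s ^ p := by
  obtain ⟨t, ht⟩ := IsCyclic.exists_generator (α := T)
  obtain ⟨i, rfl⟩ := mem_zpowers_iff.mp (ht w)
  by_cases hpi : (p : ℤ) ∣ i
  · obtain ⟨c, rfl⟩ := hpi
    exact ⟨t ^ c, by rw [← zpow_natCast, ← zpow_mul, mul_comm]⟩
  · exfalso
    have hcop : IsCoprime (p : ℤ) i :=
      (Nat.prime_iff_prime_int.mp hp.out).coprime_iff_not_dvd.mpr hpi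
    obtain ⟨a, b, hab⟩ := hcop
    have h1 : t ^ p ∈ M := Cfsg.Agent.Lib.PGroup.FrattiniBasis.pow_mem_coatom hT hM t
    have h2 : t = (t ^ p) ^ a * (t ^ i) ^ b := by
      rw [← zpow_natCast, ← zpow_mul, ← zpow_mul, ← zpow_add]
      rw [show (p : ℤ) * a + i * b = a * p + b * i by ring, hab, zpow_one]
    have h3 : t ∈ M := by
      rw [h2]
      exact mul_mem (zpow_mem h1 a) (zpow_mem hw b)
    apply hM.1
    rw [eq_top_iff]
    intro x _
    obtain ⟨j, rfl⟩ := mem_zpowers_iff.mp (ht x)
    exact zpow_mem h3 j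

/-- An element of order prime to `p` acting trivially on the Frattini quotient of a `p`-subgroup
acts trivially. -/
theorem conjAut_eq_one_of_frattini {S : Set G} {T : Subgroup G} (hTS : T = closure S)
    (hT : IsPGroup p T) {n : G}
    (hn : n ∈ normalizer (T : Set G)) (hnp : (orderOf n).Coprime p)
    (hw1 : ∀ (w : T), (w : G) ∈ S → conjAut T n hn w * w⁻¹ ∈ frattini T) :
    conjAut T n hn = 1 := by
  subst hTS
  set T := closure S with hTdef
  set α := conjAut T n hn with hα
  have hall : ∀ (x : T), α x * x⁻¹ ∈ frattini T := by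
    let π := QuotientGroup.mk' (frattini T)
    have hπ : ∀ x : T, π (α x) = π x ↔ α x * x⁻¹ ∈ frattini T := by
      intro x
      rw [← QuotientGroup.eq_one_iff, QuotientGroup.mk_mul, QuotientGroup.mk_inv,
        mul_inv_eq_one]
      rfl
    intro ⟨x, hx⟩
    rw [← hπ]
    induction hx using closure_induction with
    | mem x hx => exact (hπ _).mpr (hw1 ⟨x, subset_closure hx⟩ hx)
    | one =>
      have : (⟨1, one_mem _⟩ : T) = 1 := rfl
      rw [this, map_one, map_one]
    | mul x y hx hy h1 h2 =>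
      have : (⟨x * y, mul_mem hx hy⟩ : T) = ⟨x, hx⟩ * ⟨y, hy⟩ := rfl
      rw [this, map_mul, map_mul, map_mul, h1, h2]
    | inv x hx h1 =>
      have : (⟨x⁻¹, inv_mem hx⟩ : T) = ⟨x, hx⟩⁻¹ := rfl
      rw [this, map_inv, map_inv, map_inv, h1]
  have hmem : α ∈ trivFrattini T := hall
  obtain ⟨k, hk⟩ := trivFrattini_isPGroup hT ⟨α, hmem⟩
  have h3 : α ^ p ^ k = 1 := congrArg Subtype.val hk
  have h4 : orderOf α ∣ p ^ k := orderOf_dvd_of_pow_eq_one h3
  have h5 : (orderOf α).Coprime (p ^ k) :=
    Nat.Coprime.pow_right _ (Nat.Coprime.coprime_dvd_left (orderOf_conjAut_dvd T n hn) hnp)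
  exact orderOf_eq_one_iff.mp (Nat.Coprime.eq_one_of_dvd h5 h4)

/-- **All subgroups of a given order normal.** -/
theorem isSupersolvable_of_normal_subgroups (P : Subgroup G) [hPn : P.Normal] (hP : IsPGroup p P)
    (hq : IsSupersolvable (G ⧸ P)) {d : ℕ} (hd : 0 < d) (hDP : p ^ d < Nat.card P)
    (hF : ∀ F : Subgroup G, F ≤ P → (Nat.card F = p ^ d ∨ (p ^ d = 2 ∧ Nat.card F = 4)) → F.Normal) :
    IsSupersolvable G := by
  classical
  obtain ⟨e, m, hde, hme, hpm, hpm2, hesmall⟩ := exists_exponent (p := p) hd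
  set S : Set G := {x | x ∈ P ∧ x ^ p ^ e = 1} with hS
  set T := closure S with hT
  have hTP : T ≤ P := (closure_le _).mpr fun x hx => hx.1
  have hTp : IsPGroup p T := hP.to_le hTP
  have hSn : ∀ x ∈ S, ∀ g : G, g * x * g⁻¹ ∈ S := by
    intro x hx g
    refine ⟨hPn.conj_mem x hx.1 g, ?_⟩
    rw [conj_pow, hx.2]
    group
  haveI hTn : T.Normal := closure_normal_of_conj_invariant hSn
  have hTN : ∀ g : G, g ∈ normalizer (T : Set G) := fun g => by
    rw [normalizer_eq_top_iff.mpr hTn]
    trivial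
  -- the coatom condition
  have hcoatom : ∀ (g : G) (w : T), (w : G) ∈ S → ∀ M : Subgroup T, IsCoatom M → w ∈ M →
      conjAut T g (hTN g) w ∈ M := by
    intro g w hw M hM hwM
    by_cases hcyc : IsCyclic T
    · obtain ⟨s, rfl⟩ := exists_pow_eq_of_mem_coatom hTp hM hwM
      rw [map_pow]
      exact Cfsg.Agent.Lib.PGroup.FrattiniBasis.pow_mem_coatom hTp hM _
    have hcard : p ^ d < Nat.card T := by
      by_cases hTY' : T = P
      · rw [hTY']; exact hDP
      obtain ⟨z, hzY, hzT⟩ := SetLike.exists_of_lt (lt_of_le_of_ne hTP hTY')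
      obtain ⟨a, ha⟩ := IsPGroup.iff_orderOf.mp hP ⟨z, hzY⟩
      have hza : orderOf z = p ^ a := by rw [← ha, Subgroup.orderOf_mk]
      have hea : e < a := by
        by_contra hlt
        have : z ^ p ^ e = 1 := by
          rw [← orderOf_dvd_iff_pow_eq_one, hza]
          exact pow_dvd_pow p (by omega)
        exact hzT (subset_closure ⟨hzY, this⟩)
      set z' := z ^ p ^ (a - e) with hz'
      have hoz' : orderOf z' = p ^ e := by
        rw [hz', orderOf_pow_of_dvd (pow_pos hp.out.pos _).ne'
          (by rw [hza]; exact pow_dvd_pow p (by omega)), hza]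
        have e1 : p ^ a = p ^ (a - e) * p ^ e := by
          rw [← pow_add]
          congr 1
          omega
        rw [e1]
        exact Nat.mul_div_cancel_left _ (pow_pos hp.out.pos _)
      have hz'S : z' ∈ S :=
        ⟨pow_mem hzY _, by rw [← hoz']; exact pow_orderOf_eq_one z'⟩
      have hle : zpowers z' ≤ T := (zpowers_le).mpr (subset_closure hz'S)
      have hcz : Nat.card (zpowers z') = p ^ e := by rw [Nat.card_zpowers, hoz']
      have h1 : p ^ e ≤ Nat.card T := by
        rw [← hcz]
        exact Nat.le_of_dvd Nat.card_pos (Subgroup.card_dvd_of_le hle)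
      have h2 : p ^ d ≤ p ^ e := Nat.pow_le_pow_right hp.out.pos hde
      by_contra hlt
      have h3 : Nat.card T = p ^ e := by omega
      apply hcyc
      have h4 : zpowers z' = T := Subgroup.eq_of_le_of_card_ge hle (by rw [h3, hcz])
      rw [← h4]
      infer_instance
    have hα : ((conjAut T g (hTN g) w : T) : G) = g * w * g⁻¹ := rfl
    set B := M.map T.subtype with hB
    have hwB : (w : G) ∈ B := ⟨w, hwM, rfl⟩
    have hBT : B ≤ T := map_subtype_le _
    have hBY : B ≤ P := hBT.trans hTP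
    suffices h : (g * w * g⁻¹ : G) ∈ B by
      obtain ⟨x, hx, hxe⟩ := h
      have : conjAut T g (hTN g) w = x := Subtype.ext (by rw [hα]; exact hxe.symm)
      rw [this]
      exact hx
    have hBcard : p * Nat.card B = Nat.card T := by
      have h1 : M.index = p := index_eq_of_isCoatom hTp hM
      have h2 := Subgroup.card_mul_index M
      rw [h1] at h2
      rw [hB, Subgroup.card_map_of_injective T.subtype_injective, mul_comm]
      exact h2
    obtain ⟨t, ht⟩ := IsPGroup.iff_card.mp hTp
    have hBcard' : p ^ d ∣ Nat.card B := by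
      have hdt : d < t := by
        rw [ht] at hcard
        exact (Nat.pow_lt_pow_iff_right hp.out.one_lt).mp hcard
      have h1 : Nat.card B = p ^ (t - 1) := by
        apply Nat.eq_of_mul_eq_mul_left hp.out.pos
        rw [hBcard, ht, ← pow_succ']
        congr 1
        omega
      rw [h1]
      exact pow_dvd_pow p (by omega)
    obtain ⟨a, ha⟩ := IsPGroup.iff_orderOf.mp hTp w
    have hwa : orderOf (w : G) = p ^ a := by rw [← ha, Subgroup.orderOf_coe]
    have hae : a ≤ e := by
      have h1 : orderOf (w : G) ∣ p ^ e := orderOf_dvd_of_pow_eq_one hw.2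
      rw [hwa] at h1
      exact (Nat.pow_dvd_pow_iff_le_right hp.out.one_lt).mp h1
    rcases hesmall a hae with had | ⟨h2, ha2⟩
    · have hA : Nat.card (zpowers (w : G)) = p ^ a := by rw [Nat.card_zpowers, hwa]
      obtain ⟨E, hAE, hEB, hEc⟩ := exists_between_card ((zpowers_le).mpr hwB) hA had hBcard'
      have hnE := hF E (hEB.trans hBY) (Or.inl hEc)
      exact hEB (hnE.conj_mem _ (hAE (mem_zpowers _)) g)
    · have hp2 : p = 2 := by
        have := (Nat.prime_dvd_prime_iff_eq hp.out Nat.prime_two).mp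
          (h2 ▸ dvd_pow_self p hd.ne')
        exact this
      have hA : Nat.card (zpowers (w : G)) = 4 := by
        rw [Nat.card_zpowers, hwa, ha2, hp2]
        norm_num
      have hnE := hF (zpowers (w : G)) ((zpowers_le).mpr (hBY hwB)) (Or.inr ⟨h2, hA⟩)
      exact ((zpowers_le).mpr hwB) (hnE.conj_mem _ (mem_zpowers _) g)
  -- the Frattini subgroup of `T` is normal in `G`
  set FT := (frattini T).map T.subtype with hFT
  haveI hFTn : FT.Normal := by
    rw [← normalizer_eq_top_iff, eq_top_iff]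
    intro g _
    exact map_char_mem_normalizer _ inferInstance (hTN g)
  have hFTmem : ∀ w : T, (w : G) ∈ FT ↔ w ∈ frattini T := by
    intro w
    constructor
    · rintro ⟨v, hv, hvw⟩
      have : v = w := Subtype.ext hvw
      exact this ▸ hv
    · intro hw
      exact ⟨w, hw, rfl⟩
  have hdiag : ∀ (g : G) (w : T), (w : G) ∈ S →
      ∃ k : ℕ, (((w : G) ^ k)⁻¹ * (g * w * g⁻¹)) ∈ FT := by
    intro g w hw
    obtain ⟨k, hk⟩ := exists_pow_of_forall_coatom hTp (hcoatom g w hw)
    exact ⟨k, (hFTmem _).mpr hk⟩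
  -- the subgroup `B`
  set B : Subgroup G := closure ({z | ∃ x y : G, z = x * y * x⁻¹ * y⁻¹} ∪ {z | ∃ x : G, z = x ^ (p - 1)})
    with hB
  haveI hBn : B.Normal := by
    apply closure_normal_of_conj_invariant
    rintro z (⟨x, y, rfl⟩ | ⟨x, rfl⟩) g
    · left
      refine ⟨g * x * g⁻¹, g * y * g⁻¹, ?_⟩
      group
    · right
      refine ⟨g * x * g⁻¹, ?_⟩
      rw [conj_pow]
  have hB1 : ∀ x y : G, x * y * x⁻¹ * y⁻¹ ∈ B := fun x y =>
    subset_closure (Or.inl ⟨x, y, rfl⟩)
  have hB2 : ∀ x : G, x ^ (p - 1) ∈ B := fun x => subset_closure (Or.inr ⟨x, rfl⟩)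
  -- `B` acts trivially on the Frattini quotient of `T`
  have hBact : ∀ c ∈ B, ∀ w : T, (w : G) ∈ S → (w : G)⁻¹ * (c * w * c⁻¹) ∈ FT := by
    intro c hc w hw
    by_cases hwF : (w : G) ∈ FT
    · exact mul_mem (inv_mem hwF) (hFTn.conj_mem _ hwF c)
    let π := QuotientGroup.mk' FT
    set L := zpowers (π w) with hL
    have hπw1 : π w ≠ 1 := by
      intro h
      exact hwF ((QuotientGroup.eq_one_iff _).mp h)
    have hπwp : π w ^ p = 1 := by
      rw [← map_pow]
      apply (QuotientGroup.eq_one_iff _).mpr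
      exact (hFTmem (w ^ p)).mpr (Cfsg.Agent.Lib.PGroup.Basic.pow_mem_frattini hTp w)
    have hord : orderOf (π w) = p := orderOf_eq_prime hπwp hπw1
    have hLc : Nat.card L = p := by rw [hL, Nat.card_zpowers, hord]
    haveI hLcyc : IsCyclic L := by
      rw [hL]
      infer_instance
    haveI hLn : L.Normal := by
      refine ⟨fun n hn g => ?_⟩
      obtain ⟨g', rfl⟩ := QuotientGroup.mk'_surjective FT g
      obtain ⟨i, rfl⟩ := mem_zpowers_iff.mp hn
      obtain ⟨k, hk⟩ := hdiag g' w hw
      have h1 : π (g' * w * g'⁻¹) = π w ^ k := by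
        symm
        rw [← map_pow]
        exact QuotientGroup.eq.mpr hk
      have e1 : π g' * π w ^ i * (π g')⁻¹ = (π (g' * w * g'⁻¹)) ^ i := by
        simp only [map_mul, map_inv]
        rw [conj_zpow]
      change π g' * π w ^ i * (π g')⁻¹ ∈ L
      rw [e1, h1, ← zpow_natCast, ← zpow_mul]
      exact zpow_mem (mem_zpowers _) _
    let ψ : G →* MulAut L := (MulAut.conjNormal : (G ⧸ FT) →* MulAut L).comp π
    have hcomm : ∀ α β : MulAut L, α * β = β * α := fun α β =>
      (IsCyclic.mulAutMulEquiv L).injective (by rw [map_mul, map_mul, mul_comm])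
    have hcardA : Nat.card (MulAut L) = p - 1 := by
      rw [IsCyclic.card_mulAut, hLc, Nat.totient_prime hp.out]
    have hBker : B ≤ ψ.ker := by
      rw [hB, closure_le]
      rintro z (⟨x, y, rfl⟩ | ⟨x, rfl⟩)
      · rw [SetLike.mem_coe, MonoidHom.mem_ker]
        simp only [map_mul, map_inv]
        rw [hcomm (ψ x) (ψ y)]
        group
      · rw [SetLike.mem_coe, MonoidHom.mem_ker, map_pow, ← hcardA]
        exact pow_card_eq_one'
    have hψc : ψ c = 1 := hBker hc
    have h1 := congrArg (fun φ : MulAut L => ((φ ⟨π w, mem_zpowers _⟩ : L) : G ⧸ FT)) hψc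
    have h2 : π c * π w * (π c)⁻¹ = π w := h1
    have h3 : π (c * w * c⁻¹) = π w := by
      simpa only [map_mul, map_inv] using h2
    have h4 : π w = π (c * w * c⁻¹) := h3.symm
    exact QuotientGroup.eq.mp h4
  -- `p'`-elements of `B` centralize `P`
  have hBfix : ∀ c ∈ B, Nat.Coprime (orderOf c) p → ∀ x ∈ P, c * x = x * c := by
    intro c hc hcp
    have hT1 : conjAut T c (hTN c) = 1 := by
      apply conjAut_eq_one_of_frattini hT.symm hTp (hTN c) hcp
      intro w hw
      have h1 := hBact c hc w hw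
      have h2 : w⁻¹ * conjAut T c (hTN c) w ∈ frattini T := (hFTmem _).mp h1
      have h3 : conjAut T c (hTN c) w * w⁻¹ = w * (w⁻¹ * conjAut T c (hTN c) w) * w⁻¹ := by
        group
      rw [h3]
      exact (inferInstance : (frattini T).Normal).conj_mem _ h2 w
    have hfix : ∀ x ∈ S, c * x * c⁻¹ = x := by
      intro x hx
      have h1 := congrArg (fun φ : MulAut T => ((φ ⟨x, subset_closure hx⟩ : T) : G)) hT1
      exact h1
    have hcP : c ∈ normalizer (P : Set G) := by
      rw [normalizer_eq_top_iff.mpr hPn]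
      trivial
    have hY1 : conjAut P c hcP = 1 := by
      refine Cfsg.Agent.Lib.PGroup.Critical.coprime_aut_eq_one_of_fixes hP _
        (Nat.Coprime.coprime_dvd_left (orderOf_conjAut_dvd P c hcP) hcp) hpm hpm2 ?_
      intro x hx
      apply Subtype.ext
      rw [conjAut_apply_coe]
      apply hfix
      refine ⟨x.2, ?_⟩
      obtain ⟨k, hk⟩ := hme
      rw [hk, pow_mul]
      have : (x : G) ^ m = 1 := by
        have := congrArg (fun y : P => (y : G)) hx
        simpa using this
      rw [this, one_pow]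
    intro y hy
    have h1 := congrArg (fun φ : MulAut P => ((φ ⟨y, hy⟩ : P) : G)) hY1
    have h2 : c * y * c⁻¹ = y := h1
    calc c * y = c * y * c⁻¹ * c := by group
      _ = y * c := by rw [h2]
  exact isSupersolvable_of_acts _ G rfl P hP B hB1 hB2 hBfix hq

end Cfsg.Agent.Lib.Transfer.NormalStable
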