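import Mathlib
import Cfsg.Prelude.Def_Transfer
import Cfsg.Agent.Lib.Transfer.Frobenius
import Cfsg.Agent.Lib.Coprime.OmegaOne

set_option autoImplicit false

/-!
The Frobenius hypothesis only needs to be checked for elements of prime power order.
-/

namespace Cfsg.Agent.Lib.Transfer.PrimePowerHyp

open Cfsg.Agent.Lib.Transfer.Frobenius Cfsg.Agent.Lib.Coprime.OmegaOne

variable {G : Type*} [Group G] [Finite G] {p : ℕ} [hp : Fact p.Prime]

/-- An element of order prime to `p` normalizing `Q` centralizes it as soon as all of its powers of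
prime power order do. -/
theorem mem_centralizer_of_prime_power (Q : Subgroup G) {g : G}
    (hg : g ∈ Subgroup.normalizer (Q : Set G)) (hc : Nat.Coprime (orderOf g) p)
    (h : ∀ (q c : ℕ) (x : G), q.Prime → q ≠ p → x ∈ Subgroup.normalizer (Q : Set G) →
      x ^ q ^ c = 1 → x ∈ Subgroup.centralizer (Q : Set G)) :
    g ∈ Subgroup.centralizer (Q : Set G) := by
  by_contra hgc
  have hm1 : orderOf (conjAut Q g hg) ≠ 1 := by
    intro h1
    rw [orderOf_eq_one_iff] at h1
    apply hgc
    rw [Subgroup.mem_centralizer_iff]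
    intro q hq
    have h2 := congrArg (fun φ : MulAut Q => ((φ ⟨q, hq⟩ : Q) : G)) h1
    simp only [conjAut_apply_coe, MulAut.one_apply] at h2
    calc q * g = (g * q * g⁻¹) * g := by rw [h2]
      _ = g * q := by group
  obtain ⟨q, hq, hqm⟩ := Nat.exists_prime_and_dvd hm1
  have hqo : q ∣ orderOf g := hqm.trans (orderOf_conjAut_dvd Q g hg)
  have ho : orderOf g ≠ 0 := (orderOf_pos g).ne'
  obtain ⟨c, b, hb, hcb⟩ := Nat.exists_eq_pow_mul_and_not_dvd ho q hq.ne_one
  have hqp : q ≠ p := by
    rintro rfl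
    have := Nat.Coprime.eq_one_of_dvd hc.symm hqo
    exact hq.ne_one this
  have hgb : g ^ b ∈ Subgroup.normalizer (Q : Set G) := Subgroup.pow_mem _ hg b
  have hxo : (g ^ b) ^ q ^ c = 1 := by
    rw [← pow_mul, mul_comm, ← hcb, pow_orderOf_eq_one]
  have hcen := h q c (g ^ b) hq hqp hgb hxo
  have hpow : (conjAut Q g hg) ^ b = 1 := by
    ext t
    have h1 : ∀ n : ℕ, ∀ t : Q, (((conjAut Q g hg) ^ n) t : G) = g ^ n * t * (g ^ n)⁻¹ := by
      intro n
      induction n with
      | zero => intro t; simp
      | succ n ih =>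
        intro t
        rw [pow_succ, MulAut.mul_apply, ih, conjAut_apply_coe]
        group
    rw [h1, MulAut.one_apply]
    have := (Subgroup.mem_centralizer_iff.mp hcen) t t.2
    rw [← this]
    group
  have hdvd := orderOf_dvd_of_pow_eq_one hpow
  exact hb (hqm.trans hdvd)

/-- Frobenius' theorem, with the hypothesis only for elements of prime power order inside one Sylow
subgroup. -/
theorem hasNormalPComplement_of_prime_power (P : Sylow p G)
    (h : ∀ Q : Subgroup G, Q ≤ (P : Subgroup G) → ∀ (q c : ℕ) (x : G), q.Prime → q ≠ p →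
      x ∈ Subgroup.normalizer (Q : Set G) → x ^ q ^ c = 1 → x ∈ Subgroup.centralizer (Q : Set G)) :
    Cfsg.HasNormalPComplement p G :=
  hasNormalPComplement_of_hyp (frobeniusHyp_of_sylow P fun Q hQ _ hg hc =>
    mem_centralizer_of_prime_power Q hg hc (h Q hQ))

end Cfsg.Agent.Lib.Transfer.PrimePowerHyp
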