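import Cfsg.Agent.Lib.Transfer.Frobenius
import Cfsg.Agent.Lib.Basic.SylowUtil

/-!
# Groups whose non-abelian subgroups are self-normalizing

In a finite simple non-abelian group all of whose non-abelian subgroups are self-normalizing, the
Sylow subgroups are abelian and all centralizers of non-identity elements are abelian.
-/

set_option autoImplicit false
set_option linter.unusedSectionVars false

namespace Cfsg.Agent.Lib.Transfer.SelfNorm

open Subgroup Cfsg.Agent.Lib.Transfer.Basic Cfsg.Agent.Lib.Transfer.Frobenius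
open scoped Pointwise

variable {G : Type*} [Group G]

/-- Non-abelian subgroups are self-normalizing. -/
def SN (G : Type*) [Group G] : Prop :=
  ∀ H : Subgroup G, ¬ IsMulCommutative H → normalizer (H : Set G) = H

theorem isComm_iff {H : Subgroup G} : IsMulCommutative H ↔ ∀ a ∈ H, ∀ b ∈ H, a * b = b * a := by
  constructor
  · intro h a ha b hb
    have := h.is_comm.comm ⟨a, ha⟩ ⟨b, hb⟩
    exact congrArg Subtype.val this
  · intro h
    exact ⟨⟨fun a b => Subtype.ext (h a a.2 b b.2)⟩⟩

theorem SN.le_of_le_normalizer (hS : SN G) {H K : Subgroup G} (hH : ¬ IsMulCommutative H)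
    (hK : K ≤ normalizer (H : Set G)) : K ≤ H := by
  rw [hS H hH] at hK
  exact hK

theorem SN.comm_of_le_normalizer (hS : SN G) {H K : Subgroup G}
    (hK : K ≤ normalizer (H : Set G)) (hn : ¬ K ≤ H) : IsMulCommutative H := by
  by_contra h
  exact hn (hS.le_of_le_normalizer h hK)

/-- The `p`-part of a subgroup all of whose elements commute. -/
def pPart (A : Subgroup G) (hA : ∀ a ∈ A, ∀ b ∈ A, a * b = b * a) (p : ℕ) : Subgroup G where
  carrier := {x | x ∈ A ∧ ∃ k : ℕ, x ^ (p ^ k) = 1}
  one_mem' := ⟨A.one_mem, 0, by simp⟩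
  mul_mem' := by
    rintro a b ⟨ha, k, hk⟩ ⟨hb, l, hl⟩
    refine ⟨A.mul_mem ha hb, k + l, ?_⟩
    have hc : Commute a b := hA a ha b hb
    rw [hc.mul_pow, pow_add, pow_mul, hk, one_pow, mul_comm (p ^ k), pow_mul, hl, one_pow, one_mul]
  inv_mem' := by
    rintro a ⟨ha, k, hk⟩
    exact ⟨A.inv_mem ha, k, by rw [inv_pow, hk, inv_one]⟩

theorem isPGroup_pPart (A : Subgroup G) (hA : ∀ a ∈ A, ∀ b ∈ A, a * b = b * a) (p : ℕ) :
    IsPGroup p (pPart A hA p) := by
  rintro ⟨x, hx, k, hk⟩
  exact ⟨k, Subtype.ext (by simpa using hk)⟩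

/-- An element whose order is prime to `p` is trivial when it is a `p`-element. -/
theorem eq_one_of_coprime_of_pow {p : ℕ} {g : G} (hc : (orderOf g).Coprime p) {k : ℕ}
    (hk : g ^ (p ^ k) = 1) : g = 1 := by
  have h1 : orderOf g ∣ p ^ k := orderOf_dvd_of_pow_eq_one hk
  have h2 : (orderOf g).Coprime (p ^ k) := Nat.Coprime.pow_right k hc
  have h3 : orderOf g = 1 := Nat.Coprime.eq_one_of_dvd h2 h1
  exact orderOf_eq_one_iff.mp h3

variable [Finite G] {p : ℕ} [hp : Fact p.Prime]

/-- Burnside's transfer theorem in the quotient by a normal subgroup. -/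
theorem burnside_final {Γ : Type*} [Group Γ] [Finite Γ] (C : Subgroup Γ) [C.Normal] (P : Sylow p Γ)
    (hN : normalizer ((P : Subgroup Γ) : Set Γ) ≤ P)
    (hcard : Nat.card (P : Subgroup Γ) = p * Nat.card ((P : Subgroup Γ) ⊓ C : Subgroup Γ))
    (hmax : ∀ E : Subgroup Γ, E.Normal → C ≤ E → E ≠ ⊤ → E ≤ C) (g : Γ)
    (hg : (orderOf g).Coprime p) : g ∈ C := by
  classical
  have hpp : p.Prime := hp.out
  let π : Γ →* Γ ⧸ C := QuotientGroup.mk' C
  have hπ : Function.Surjective π := QuotientGroup.mk'_surjective C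
  have hker : π.ker = C := QuotientGroup.ker_mk' C
  let Pb : Sylow p (Γ ⧸ C) := P.mapSurjective hπ
  have hPb : (Pb : Subgroup (Γ ⧸ C)) = (P : Subgroup Γ).map π := Sylow.coe_mapSurjective hπ P
  -- the order of the image
  have hcardb : Nat.card (Pb : Subgroup (Γ ⧸ C)) = p := by
    rw [hPb]
    let f : (P : Subgroup Γ) →* Γ ⧸ C := π.comp (P : Subgroup Γ).subtype
    have h1 : Nat.card f.range = Nat.card ((P : Subgroup Γ).map π) := by
      have : f.range = (P : Subgroup Γ).map π := by
        ext y
        constructor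
        · rintro ⟨z, rfl⟩
          exact ⟨z, z.2, rfl⟩
        · rintro ⟨z, hz, rfl⟩
          exact ⟨⟨z, hz⟩, rfl⟩
      rw [this]
    have h2 : Nat.card f.ker = Nat.card ((P : Subgroup Γ) ⊓ C : Subgroup Γ) := by
      have : f.ker = (C ⊓ (P : Subgroup Γ)).subgroupOf (P : Subgroup Γ) := by
        ext z
        rw [MonoidHom.mem_ker, Subgroup.mem_subgroupOf]
        constructor
        · intro hz
          refine ⟨?_, z.2⟩
          have hz' : (z : Γ) ∈ π.ker := hz
          rw [hker] at hz'
          exact hz'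
        · rintro ⟨hz, -⟩
          have hz' : (z : Γ) ∈ C := hz
          rw [← hker] at hz'
          exact hz'
      rw [this, inf_comm]
      exact Nat.card_congr (Subgroup.subgroupOfEquivOfLe (H := (P : Subgroup Γ) ⊓ C)
        (K := (P : Subgroup Γ)) inf_le_left).toEquiv
    have h3 := Subgroup.card_mul_index f.ker
    rw [Subgroup.index_ker, h1, h2, hcard, mul_comm] at h3
    have hpos : 0 < Nat.card ((P : Subgroup Γ) ⊓ C : Subgroup Γ) := Nat.card_pos
    exact Nat.eq_of_mul_eq_mul_right hpos h3
  haveI : Fact (Nat.card (Pb : Subgroup (Γ ⧸ C))).Prime := ⟨by rw [hcardb]; exact hpp⟩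
  haveI hcyc : IsCyclic (Pb : Subgroup (Γ ⧸ C)) := isCyclic_of_prime_card rfl
  -- `N(Pb) ≤ Pb`
  have hNb : normalizer ((Pb : Subgroup (Γ ⧸ C)) : Set (Γ ⧸ C)) ≤ (Pb : Subgroup (Γ ⧸ C)) := by
    intro y hy
    obtain ⟨z, rfl⟩ := hπ y
    change π z ∈ (Pb : Subgroup (Γ ⧸ C))
    rw [hPb]
    let W : Subgroup Γ := (P : Subgroup Γ) ⊔ C
    have hmemW : ∀ u : Γ, π u ∈ (P : Subgroup Γ).map π → u ∈ W := by
      rintro u ⟨v, hv, hvu⟩
      have h1 : v⁻¹ * u ∈ C := by
        rw [← hker, MonoidHom.mem_ker, map_mul, map_inv, hvu, inv_mul_cancel]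
      have : u = v * (v⁻¹ * u) := by group
      rw [this]
      exact W.mul_mem (mem_sup_left hv) (mem_sup_right h1)
    have hmem2 : ∀ u ∈ W, π u ∈ (P : Subgroup Γ).map π := by
      intro u hu
      have hle : W ≤ ((P : Subgroup Γ).map π).comap π := by
        refine sup_le (Subgroup.le_comap_map _ _) ?_
        intro c hc
        rw [← hker] at hc
        change π c ∈ (P : Subgroup Γ).map π
        rw [MonoidHom.mem_ker.mp hc]
        exact one_mem _
      exact hle hu
    apply hmem2
    have hP1 : (P : Subgroup Γ) ≤ W := le_sup_left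
    let S : Sylow p Γ := z • P
    have hS : (S : Subgroup Γ) ≤ W := by
      intro s hs
      have hs' : s ∈ (MulAut.conj z • (P : Subgroup Γ) : Subgroup Γ) := hs
      rw [Subgroup.mem_smul_pointwise_iff_exists] at hs'
      obtain ⟨v, hv, rfl⟩ := hs'
      apply hmemW
      have e : π (MulAut.conj z • v) = π z * π v * (π z)⁻¹ := by
        simp [MulAut.smul_def]
      rw [e, ← hPb]
      have := (Subgroup.mem_normalizer_iff.mp hy (π v)).mp
        (by rw [hPb]; exact Subgroup.mem_map_of_mem _ hv)
      exact this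
    obtain ⟨x, hx⟩ := exists_conj_mem_sylow (P.subtype hP1) (S.subtype hS)
    have hxz : (x : Γ)⁻¹ * z ∈ normalizer ((P : Subgroup Γ) : Set Γ) := by
      apply mem_normalizer_of_conj_mem
      intro q hq
      have hzq : z * q * z⁻¹ ∈ (S : Subgroup Γ) := by
        change _ ∈ (MulAut.conj z • (P : Subgroup Γ) : Subgroup Γ)
        rw [Subgroup.mem_smul_pointwise_iff_exists]
        exact ⟨q, hq, by simp [MulAut.smul_def]⟩
      have hw : z * q * z⁻¹ ∈ W := hS hzq
      have h1 := hx ⟨_, hw⟩ (by
        rw [Sylow.coe_subtype, Subgroup.mem_subgroupOf]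
        exact hzq)
      rw [Sylow.coe_subtype, Subgroup.mem_subgroupOf] at h1
      have e : (x : Γ)⁻¹ * z * q * ((x : Γ)⁻¹ * z)⁻¹ = (x : Γ)⁻¹ * (z * q * z⁻¹) * x := by group
      rw [e]
      simpa using h1
    have h2 : (x : Γ)⁻¹ * z ∈ W := hP1 (hN hxz)
    have : z = x * ((x : Γ)⁻¹ * z) := by group
    rw [this]
    exact W.mul_mem x.2 h2
  have hNc : normalizer ((Pb : Subgroup (Γ ⧸ C)) : Set (Γ ⧸ C)) ≤
      centralizer ((Pb : Subgroup (Γ ⧸ C)) : Set (Γ ⧸ C)) := by
    intro y hy
    have hy' := hNb hy
    rw [Subgroup.mem_centralizer_iff]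
    intro h hh
    have := (IsCyclic.commGroup : CommGroup (Pb : Subgroup (Γ ⧸ C))).mul_comm ⟨h, hh⟩ ⟨y, hy'⟩
    exact congrArg Subtype.val this
  have hcompl := MonoidHom.ker_transferSylow_isComplement' Pb hNc
  set Kb := (MonoidHom.transferSylow Pb hNc).ker with hKb
  have hKbne : Kb ≠ ⊤ := by
    intro htop
    rw [htop, Subgroup.isComplement'_top_left] at hcompl
    have h1 : Nat.card (Pb : Subgroup (Γ ⧸ C)) = 1 := by
      rw [hcompl]; exact Subgroup.card_bot
    rw [hcardb] at h1
    exact hpp.one_lt.ne' h1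
  have hKbbot : Kb = ⊥ := by
    have h1 : Kb.comap π ≤ C := by
      apply hmax _ inferInstance
      · intro c hc
        have : π c = 1 := by
          rw [← MonoidHom.mem_ker, hker]; exact hc
        change π c ∈ Kb
        rw [this]
        exact one_mem _
      · intro htop
        apply hKbne
        rw [eq_top_iff]
        intro y _
        obtain ⟨z, rfl⟩ := hπ y
        have : z ∈ Kb.comap π := by rw [htop]; trivial
        exact this
    rw [eq_bot_iff]
    intro y hy
    obtain ⟨z, rfl⟩ := hπ y
    have h2 : z ∈ C := h1 hy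
    rw [← hker] at h2
    exact h2
  rw [hKbbot, Subgroup.isComplement'_bot_left] at hcompl
  have hQ : IsPGroup p (Γ ⧸ C) := by
    have := Pb.isPGroup'
    rw [hcompl] at this
    exact this.of_equiv Subgroup.topEquiv
  have := map_eq_one_of_coprime hQ π hg
  rwa [← MonoidHom.mem_ker, hker] at this

/-- Proper subgroups of `p`-groups are abelian. -/
theorem SN.comm_of_lt (hS : SN G) {T A : Subgroup G} (hA : IsPGroup p A) (h : T < A) :
    IsMulCommutative T := by
  by_contra hn
  have h1 := lt_inf_normalizer hA h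
  obtain ⟨z, hz, hzT⟩ := SetLike.exists_of_lt h1
  have hz2 : z ∈ normalizer (T : Set G) := hz.2
  rw [hS T hn] at hz2
  exact hzT hz2

/-- Conjugates of a Sylow subgroup of `SN`-type. -/
theorem nonabelian_all_sylow (P : Sylow p G) (hP : ¬ IsMulCommutative (P : Subgroup G))
    (R : Sylow p G) : ¬ IsMulCommutative (R : Subgroup G) := by
  intro hR
  apply hP
  rw [isComm_iff] at hR ⊢
  obtain ⟨x, hx⟩ := exists_conj_mem_sylow R P
  intro a ha b hb
  have h := hR _ (hx a ha) _ (hx b hb)
  have e1 : x⁻¹ * a * x * (x⁻¹ * b * x) = x⁻¹ * (a * b) * x := by group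
  have e2 : x⁻¹ * b * x * (x⁻¹ * a * x) = x⁻¹ * (b * a) * x := by group
  rw [e1, e2] at h
  exact mul_left_cancel (mul_right_cancel h)

/-- A maximal `p`-subgroup of a given subgroup containing a given `p`-subgroup. -/
theorem exists_max_pgroup_in (N Q : Subgroup G) (hQ : IsPGroup p Q) (hQN : Q ≤ N) :
    ∃ T : Subgroup G, Q ≤ T ∧ T ≤ N ∧ IsPGroup p T ∧
      ∀ U : Subgroup G, IsPGroup p U → T ≤ U → U ≤ N → U ≤ T := by
  have h1 : IsPGroup p (Q.subgroupOf N) := hQ.comap_subtype
  obtain ⟨S, hS⟩ := h1.exists_le_sylow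
  refine ⟨(S : Subgroup N).map N.subtype, ?_, map_subtype_le _, S.isPGroup'.map _, ?_⟩
  · intro q hq
    exact ⟨⟨q, hQN hq⟩, hS (Subgroup.mem_subgroupOf.mpr hq), rfl⟩
  · intro U hU hTU hUN u hu
    have h2 : IsPGroup p (U.subgroupOf N) := hU.comap_subtype
    have h3 : (S : Subgroup N) ≤ U.subgroupOf N := by
      intro s hs
      exact Subgroup.mem_subgroupOf.mpr (hTU ⟨s, hs, rfl⟩)
    have h4 := S.is_maximal' h2 h3
    have h5 : (⟨u, hUN hu⟩ : N) ∈ U.subgroupOf N := Subgroup.mem_subgroupOf.mpr hu
    rw [h4] at h5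
    exact ⟨_, h5, rfl⟩

/-- A maximal subgroup of a `p`-group has index `p`. -/
theorem card_eq_of_max {A Q : Subgroup G} (hA : IsPGroup p A) (hQ : Q < A)
    (hmax : ∀ K : Subgroup G, Q ≤ K → K < A → K ≤ Q) : Nat.card A = p * Nat.card Q := by
  have hpp : p.Prime := hp.out
  obtain ⟨n, hn⟩ := IsPGroup.iff_card.mp (hA.to_le hQ.le)
  obtain ⟨m, hm⟩ := IsPGroup.iff_card.mp hA
  have hlt := card_lt_of_lt hQ
  rw [hn, hm] at hlt
  have hnm : n < m := (Nat.pow_lt_pow_iff_right hpp.one_lt).mp hlt
  have hdvd : p ^ (n + 1) ∣ Nat.card A := by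
    rw [hm]; exact pow_dvd_pow p hnm
  have hH : Nat.card (Q.subgroupOf A) = p ^ n := by
    rw [← hn]
    exact Nat.card_congr (Subgroup.subgroupOfEquivOfLe hQ.le).toEquiv
  obtain ⟨K, hK, hQK⟩ := Sylow.exists_subgroup_card_pow_succ hdvd hH
  have hKc : Nat.card (K.map A.subtype) = p ^ (n + 1) := by
    rw [Subgroup.card_map_of_injective A.subtype_injective, hK]
  have hKA : K.map A.subtype ≤ A := map_subtype_le _
  by_cases heq : K.map A.subtype = A
  · rw [← heq, hKc, hn, pow_succ, mul_comm]
  · exfalso
    have hle : K.map A.subtype ≤ Q := by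
      apply hmax _ _ (lt_of_le_of_ne hKA heq)
      intro q hq
      exact ⟨⟨q, hQ.le hq⟩, hQK (Subgroup.mem_subgroupOf.mpr hq), rfl⟩
    have := Nat.le_of_dvd Nat.card_pos (Subgroup.card_dvd_of_le hle)
    rw [hKc, hn] at this
    have h2 : n + 1 ≤ n := (Nat.pow_le_pow_iff_right hpp.one_lt).mp this
    omega

theorem normalizer_le_normalizer_centralizer' (Q : Subgroup G) :
    normalizer (Q : Set G) ≤ normalizer ((centralizer (Q : Set G) : Subgroup G) : Set G) := by
  intro n hn
  apply mem_normalizer_of_conj_mem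
  intro c hc
  rw [Subgroup.mem_centralizer_iff] at hc ⊢
  intro q hq
  have h1 : n⁻¹ * q * n ∈ Q := by
    have := (Subgroup.mem_normalizer_iff.mp (inv_mem hn) q).mp hq
    simpa using this
  have h2 := hc _ h1
  calc q * (n * c * n⁻¹) = n * ((n⁻¹ * q * n) * c) * n⁻¹ := by group
    _ = n * (c * (n⁻¹ * q * n)) * n⁻¹ := by rw [h2]
    _ = n * c * n⁻¹ * q := by group

theorem centralizer_le_normalizer' (Q : Subgroup G) :
    centralizer (Q : Set G) ≤ normalizer (Q : Set G) := by
  intro c hc
  apply mem_normalizer_of_conj_mem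
  intro q hq
  have := (Subgroup.mem_centralizer_iff.mp hc q hq)
  have e : c * q * c⁻¹ = q := by rw [← this]; group
  rw [e]; exact hq

theorem pPart_normal {A : Subgroup G} (hA : ∀ a ∈ A, ∀ b ∈ A, a * b = b * a) {n : G}
    (hn : n ∈ normalizer (A : Set G)) : n ∈ normalizer ((pPart A hA p : Subgroup G) : Set G) := by
  apply mem_normalizer_of_conj_mem
  rintro q ⟨hq, k, hk⟩
  refine ⟨(Subgroup.mem_normalizer_iff.mp hn q).mp hq, k, ?_⟩
  rw [conj_pow, hk]
  group

theorem mem_pPart {A : Subgroup G} (hA : ∀ a ∈ A, ∀ b ∈ A, a * b = b * a) {T : Subgroup G}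
    (hT : IsPGroup p T) (hTA : T ≤ A) : T ≤ pPart A hA p := by
  intro t ht
  obtain ⟨k, hk⟩ := hT ⟨t, ht⟩
  refine ⟨hTA ht, k, ?_⟩
  simpa using congrArg Subtype.val hk

/-- A nonabelian Sylow subgroup forces the Frobenius hypothesis. -/
theorem frobeniusHyp_of_nonabelian (hS : SN G)
    (hall : ∀ R : Sylow p G, ¬ IsMulCommutative (R : Subgroup G)) : FrobeniusHyp p G := by
  have hpp : p.Prime := hp.out
  have key : ∀ (n : ℕ) (Q : Subgroup G), Nat.card G - Nat.card Q = n → IsPGroup p Q →
      ∀ g ∈ normalizer (Q : Set G), Nat.Coprime (orderOf g) p → g ∈ centralizer (Q : Set G) := by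
    intro n
    induction n using Nat.strong_induction_on with
    | _ n ih =>
      intro Q hn hQ g hgN hgc
      by_contra hgC
      -- `Q` is abelian
      have hQcomm : IsMulCommutative Q := by
        by_contra hQn
        have hgQ : g ∈ Q := by
          have := hgN
          rwa [hS Q hQn] at this
        obtain ⟨k, hk⟩ := hQ ⟨g, hgQ⟩
        have hk' : g ^ p ^ k = 1 := by simpa using congrArg Subtype.val hk
        have : g = 1 := eq_one_of_coprime_of_pow hgc hk'
        exact hgC (by rw [this]; exact one_mem _)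
      have hQc := isComm_iff.mp hQcomm
      set N := normalizer (Q : Set G) with hN
      set C := centralizer (Q : Set G) with hC
      have hCN : C ≤ N := centralizer_le_normalizer' Q
      have hNC : N ≤ normalizer (C : Set G) := normalizer_le_normalizer_centralizer' Q
      have hCcomm : IsMulCommutative C := SN.comm_of_le_normalizer hS hNC (fun h => hgC (h hgN))
      have hCc := isComm_iff.mp hCcomm
      set R := pPart C hCc p with hR
      have hRp : IsPGroup p R := isPGroup_pPart C hCc p
      have hQC : Q ≤ C := by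
        intro q hq
        rw [hC, Subgroup.mem_centralizer_iff]
        intro r hr
        exact hQc r hr q hq
      have hQR : Q ≤ R := mem_pPart hCc hQ hQC
      have hNR : N ≤ normalizer (R : Set G) := fun z hz => pPart_normal hCc (hNC hz)
      have hRC : R ≤ C := fun r hr => hr.1
      obtain ⟨T, hQT, hTN, hTp, hTmax⟩ := exists_max_pgroup_in N Q hQ
        (hQC.trans hCN)
      -- `R ≤ T`
      have hRT : R ≤ T := by
        have h1 : IsPGroup p (R ⊔ T : Subgroup G) :=
          hRp.to_sup_of_normal_left' hTp (hTN.trans hNR)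
        have h2 : R ⊔ T ≤ N := sup_le (hRC.trans hCN) hTN
        exact le_sup_left.trans (hTmax _ h1 le_sup_right h2)
      obtain ⟨P'', hP''⟩ := hTp.exists_le_sylow
      have hP''nc := hall P''
      have hQP : Q < (P'' : Subgroup G) := by
        refine lt_of_le_of_ne (hQT.trans hP'') ?_
        intro h
        apply hP''nc
        rw [← h]
        exact hQcomm
      have hQT' : Q < T := by
        have h1 := lt_inf_normalizer P''.isPGroup' hQP
        have h2 : (P'' : Subgroup G) ⊓ normalizer (Q : Set G) ≤ T :=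
          hTmax _ P''.isPGroup'.to_inf_left (le_inf hP'' hTN) inf_le_right
        exact lt_of_lt_of_le h1 h2
      by_cases hRQ : R = Q
      · -- the hard case
        have hTnc : ¬ IsMulCommutative T := by
          intro hTc
          have hTc' := isComm_iff.mp hTc
          have h1 : T ≤ C := by
            intro t ht
            rw [hC, Subgroup.mem_centralizer_iff]
            intro q hq
            exact hTc' q (hQT hq) t ht
          have h2 : T ≤ R := mem_pPart hCc hTp h1
          rw [hRQ] at h2
          exact absurd hQT' (not_lt_of_ge h2)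
        have hTP : T = (P'' : Subgroup G) := by
          by_contra hne
          exact hTnc (SN.comm_of_lt hS P''.isPGroup' (lt_of_le_of_ne hP'' hne))
        have hPN : (P'' : Subgroup G) ≤ N := hTP ▸ hTN
        have hPC : (P'' : Subgroup G) ⊓ C ≤ Q := by
          rw [← hRQ]
          exact mem_pPart hCc P''.isPGroup'.to_inf_left inf_le_right
        have hcard : Nat.card (P'' : Subgroup G) = p * Nat.card Q := by
          apply card_eq_of_max P''.isPGroup' hQP
          intro K hQK hKP
          have hKc := isComm_iff.mp (SN.comm_of_lt hS P''.isPGroup' hKP)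
          have h1 : K ≤ C := by
            intro t ht
            rw [hC, Subgroup.mem_centralizer_iff]
            intro q hq
            exact hKc q (hQK hq) t ht
          exact (le_inf hKP.le h1).trans hPC
        haveI hCnorm : (C.subgroupOf N).Normal := normal_subgroupOf_of_le_normalizer hNC
        have hfinal := burnside_final (C.subgroupOf N) (P''.subtype hPN) ?_ ?_ ?_
          ⟨g, hgN⟩ (by rwa [Subgroup.orderOf_mk])
        · exact hgC (Subgroup.mem_subgroupOf.mp hfinal)
        · -- normalizer
          intro z hz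
          rw [Sylow.coe_subtype, Subgroup.mem_subgroupOf]
          have h1 : (z : G) ∈ normalizer ((P'' : Subgroup G) : Set G) := by
            apply mem_normalizer_of_conj_mem
            intro q hq
            have hmem : ∀ w : N, w ∈ ((P''.subtype hPN : Sylow p N) : Subgroup N) ↔
                (w : G) ∈ (P'' : Subgroup G) := by
              intro w
              rw [Sylow.coe_subtype, Subgroup.mem_subgroupOf]
            have h2 := (Subgroup.mem_normalizer_iff.mp hz ⟨q, hPN hq⟩).mp ((hmem _).mpr hq)
            have h3 := (hmem _).mp h2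
            simpa using h3
          rw [hS _ hP''nc] at h1
          exact h1
        · -- cardinality
          rw [Sylow.coe_subtype]
          have e1 : Nat.card ((P'' : Subgroup G).subgroupOf N) = Nat.card (P'' : Subgroup G) :=
            Nat.card_congr (Subgroup.subgroupOfEquivOfLe hPN).toEquiv
          have e2 : (P'' : Subgroup G).subgroupOf N ⊓ C.subgroupOf N = Q.subgroupOf N := by
            ext z
            simp only [Subgroup.mem_inf, Subgroup.mem_subgroupOf]
            exact ⟨fun h => hPC h, fun h => ⟨hQP.le h, hQC h⟩⟩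
          have e3 : Nat.card (Q.subgroupOf N) = Nat.card Q :=
            Nat.card_congr (Subgroup.subgroupOfEquivOfLe (hQC.trans hCN)).toEquiv
          rw [e1, e2, e3, hcard]
        · -- maximality
          intro E hE hCE hEtop
          have hE' : (E.map N.subtype) ≤ N := map_subtype_le _
          have hEnorm : N ≤ normalizer ((E.map N.subtype : Subgroup G) : Set G) := by
            intro z hz
            apply mem_normalizer_of_conj_mem
            rintro _ ⟨e, he, rfl⟩
            refine ⟨⟨z, hz⟩ * e * ⟨z, hz⟩⁻¹, hE.conj_mem e he _, ?_⟩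
            simp
          have hEcomm : IsMulCommutative (E.map N.subtype) := by
            by_contra hn
            apply hEtop
            rw [eq_top_iff]
            intro z _
            obtain ⟨e, he, hez⟩ := hS.le_of_le_normalizer hn hEnorm z.2
            have : e = z := Subtype.ext hez
            rw [← this]
            exact he
          have hEc := isComm_iff.mp hEcomm
          intro e he
          rw [Subgroup.mem_subgroupOf, hC, Subgroup.mem_centralizer_iff]
          intro q hq
          have hqC : (⟨q, hQC.trans hCN hq⟩ : N) ∈ C.subgroupOf N :=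
            Subgroup.mem_subgroupOf.mpr (hQC hq)
          exact hEc _ ⟨_, hCE hqC, rfl⟩ _ ⟨_, he, rfl⟩
      · -- `R` strictly larger
        have hlt : Q < R := lt_of_le_of_ne hQR (Ne.symm hRQ)
        have h1 := card_lt_of_lt hlt
        have h2 : Nat.card R ≤ Nat.card G := Subgroup.card_le_card_group R
        have h3 := ih _ (by omega) R rfl hRp g (hNR hgN) hgc
        apply hgC
        rw [hC, Subgroup.mem_centralizer_iff]
        intro q hq
        exact (Subgroup.mem_centralizer_iff.mp h3) q (hQR hq)
  intro Q hQ g hg hc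
  exact key _ Q rfl hQ g hg hc

/-- In a simple non-abelian `SN` group all Sylow subgroups are abelian. -/
theorem sylow_comm [IsSimpleGroup G] (hna : ¬ IsMulCommutative G) (hS : SN G) (P : Sylow p G) :
    IsMulCommutative (P : Subgroup G) := by
  by_contra hP
  have hH := frobeniusHyp_of_nonabelian hS (nonabelian_all_sylow P hP)
  obtain ⟨N, hn, h1, h2⟩ := hasNormalPComplement_iff.mp (hasNormalPComplement_of_hyp hH)
  rcases hn.eq_bot_or_eq_top with h | h
  · -- `G` is a `p`-group
    subst h
    have hG : IsPGroup p G := h2.of_equiv (QuotientGroup.quotientBot)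
    have hnt : Nontrivial G := IsSimpleGroup.toNontrivial
    haveI := hG.center_nontrivial
    have hc : center G = ⊤ := by
      rcases (inferInstance : (center G).Normal).eq_bot_or_eq_top with h | h
      · have := (Subgroup.nontrivial_iff_ne_bot (center G)).mp inferInstance
        exact absurd h this
      · exact h
    apply hna
    refine ⟨⟨fun a b => ?_⟩⟩
    have : a ∈ center G := by rw [hc]; trivial
    exact (Subgroup.mem_center_iff.mp this b).symm
  · subst h
    rw [Subgroup.card_top] at h1
    have h3 : Nat.card (P : Subgroup G) = 1 := by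
      obtain ⟨m, hm⟩ := IsPGroup.iff_card.mp P.isPGroup'
      have h4 : Nat.card (P : Subgroup G) ∣ Nat.card G := Subgroup.card_subgroup_dvd_card _
      have h5 : (Nat.card (P : Subgroup G)).Coprime p := Nat.Coprime.coprime_dvd_left h4 h1
      rw [hm] at h5 ⊢
      cases m with
      | zero => simp
      | succ m =>
        exfalso
        rw [pow_succ] at h5
        have : p ∣ Nat.gcd (p ^ m * p) p := Nat.dvd_gcd (Dvd.intro_left _ rfl) dvd_rfl
        rw [h5] at this
        exact hp.out.one_lt.ne' (Nat.dvd_one.mp this)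
    apply hP
    rw [isComm_iff]
    have hb : (P : Subgroup G) = ⊥ := Subgroup.eq_bot_of_card_eq _ h3
    rw [hb]
    intro a ha b hb
    rw [Subgroup.mem_bot] at ha hb
    rw [ha, hb]

end Cfsg.Agent.Lib.Transfer.SelfNorm
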