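import Cfsg.Agent.Lib.Transfer.SelfNorm

/-!
# Groups whose non-abelian subgroups are self-normalizing, part 2

All centralizers of non-identity elements are abelian.
-/

set_option autoImplicit false
set_option linter.unusedSectionVars false

namespace Cfsg.Agent.Lib.Transfer.SelfNorm

open Subgroup Cfsg.Agent.Lib.Transfer.Basic Cfsg.Agent.Lib.Transfer.Frobenius
open scoped Pointwise

variable {G : Type*} [Group G] [Finite G] {p : ℕ} [hp : Fact p.Prime]

/-- An element of an abelian Sylow subgroup fixed by the normalizer of `P` survives in the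
abelianization. -/
theorem eq_one_of_normalizer_fixes (P : Sylow p G) (hP : IsMulCommutative (P : Subgroup G))
    (htop : commutator G = ⊤) {x : G} (hx : x ∈ (P : Subgroup G))
    (hfix : ∀ n ∈ normalizer ((P : Subgroup G) : Set G), n * x * n⁻¹ = x) : x = 1 := by
  classical
  have hPc := isComm_iff.mp hP
  letI : CommGroup (P : Subgroup G) :=
    { (inferInstance : Group (P : Subgroup G)) with
      mul_comm := fun a b => Subtype.ext (hPc a a.2 b b.2) }
  haveI : (P : Subgroup G).FiniteIndex := inferInstance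
  let ϕ : (P : Subgroup G) →* (P : Subgroup G) := MonoidHom.id _
  have h1 : MonoidHom.transfer ϕ x = ϕ ⟨x, hx⟩ ^ (P : Subgroup G).index := by
    apply transfer_eq_pow_of_fusion (P : Subgroup G) ϕ ⟨x, hx⟩
    intro k g₀ h
    apply Subtype.ext
    have hxk : x ^ k ∈ (P : Subgroup G) := pow_mem hx k
    obtain ⟨n, hn, hnx⟩ := Cfsg.Agent.Lib.Basic.SylowUtil.burnside_fusion P {x ^ k} g₀⁻¹
      (by
        rintro _ rfl y hy
        exact hPc _ hxk _ hy)
      (by
        rintro _ rfl y hy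
        have : g₀⁻¹ * x ^ k * g₀⁻¹⁻¹ ∈ (P : Subgroup G) := by simpa using h
        exact hPc _ this _ hy)
    have h2 := hnx (x ^ k) rfl
    have hnk : n * x ^ k * n⁻¹ = x ^ k := by rw [← conj_pow, hfix n hn]
    rw [hnk] at h2
    simpa [ϕ] using h2.symm
  have h2 : x ∈ (MonoidHom.transfer ϕ).ker := by
    apply commutator_le_ker_transfer (P : Subgroup G) ϕ
    rw [htop]; trivial
  rw [MonoidHom.mem_ker, h1] at h2
  have h3 : x ^ (P : Subgroup G).index = 1 := by
    simpa [ϕ] using congrArg Subtype.val h2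
  obtain ⟨k, hk⟩ := P.isPGroup' ⟨x, hx⟩
  have hk' : x ^ p ^ k = 1 := by simpa using congrArg Subtype.val hk
  have hc : (orderOf x).Coprime p := by
    have h4 : orderOf x ∣ (P : Subgroup G).index := orderOf_dvd_of_pow_eq_one h3
    have h5 : (P : Subgroup G).index.Coprime p :=
      ((Nat.Prime.coprime_iff_not_dvd hp.out).mpr P.not_dvd_index).symm
    exact Nat.Coprime.coprime_dvd_left h4 h5
  exact eq_one_of_coprime_of_pow hc hk'

/-- The kernel of the norm of an automorphism of an abelian group. -/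
theorem exists_fixedfree {A : Type*} [CommGroup A] (σ : MulAut A) (m : ℕ) (hσ : σ ^ m = 1) :
    ∃ H : Subgroup A, (∀ h ∈ H, σ h ∈ H) ∧ (∀ h : A, h⁻¹ * σ h ∈ H) ∧
      (∀ y ∈ H, σ y = y → y ^ m = 1) := by
  let τ : A →* A := ∏ i ∈ Finset.range m, ((σ ^ i : MulAut A) : A ≃* A).toMonoidHom
  have hτ : ∀ y, τ y = ∏ i ∈ Finset.range m, (σ ^ i) y := by
    intro y
    simp [τ, MonoidHom.finsetProd_apply]
  have hτσ : ∀ y, τ (σ y) = τ y := by
    intro y
    rw [hτ, hτ]
    have e1 := Finset.prod_range_succ (fun i => (σ ^ i) y) m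
    have e2 := Finset.prod_range_succ' (fun i => (σ ^ i) y) m
    simp only [hσ, pow_zero, MulAut.one_apply] at e1 e2
    have e3 : ∀ i, (σ ^ i) (σ y) = (σ ^ (i + 1)) y := by
      intro i; rw [pow_succ]; rfl
    simp only [e3]
    exact mul_right_cancel (e2.symm.trans e1)
  refine ⟨τ.ker, ?_, ?_, ?_⟩
  · intro h hh
    rw [MonoidHom.mem_ker, hτσ]
    exact hh
  · intro h
    rw [MonoidHom.mem_ker, map_mul, map_inv, hτσ, inv_mul_cancel]
  · intro y hy hfix
    have h1 : ∀ i, (σ ^ i) y = y := by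
      intro i
      induction i with
      | zero => simp
      | succ i ih =>
        rw [pow_succ]
        change (σ ^ i) (σ y) = y
        rw [hfix, ih]
    have h2 := MonoidHom.mem_ker.mp hy
    rw [hτ] at h2
    simp only [h1, Finset.prod_const, Finset.card_range] at h2
    exact h2

/-- The core of the argument: coprime elements of `C(x)` act trivially on `p`-subgroups of `C(x)`. -/
theorem core (hS : SN G) {x : G} (hx1 : x ≠ 1) (hxp : x ^ p = 1) {Q : Subgroup G}
    (hQ : IsPGroup p Q) (hQc : ∀ a ∈ Q, ∀ b ∈ Q, a * b = b * a)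
    (hQC : Q ≤ centralizer (zpowers x : Set G)) {g : G}
    (hgC : g ∈ centralizer (zpowers x : Set G)) (hgN : g ∈ normalizer (Q : Set G))
    (hc : (orderOf g).Coprime p) : g ∈ centralizer (Q : Set G) := by
  classical
  have hpp : p.Prime := hp.out
  by_contra hg
  letI : CommGroup Q :=
    { (inferInstance : Group Q) with mul_comm := fun a b => Subtype.ext (hQc a a.2 b b.2) }
  let σ : MulAut Q := Q.normalizerMonoidHom ⟨g, hgN⟩
  have hσv : ∀ y : Q, ((σ y : Q) : G) = g * y * g⁻¹ := fun _ => rfl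
  have hσm : σ ^ orderOf g = 1 := by
    change (Q.normalizerMonoidHom ⟨g, hgN⟩) ^ orderOf g = 1
    rw [← map_pow]
    have : (⟨g, hgN⟩ : normalizer (Q : Set G)) ^ orderOf g = 1 :=
      Subtype.ext (by simp [pow_orderOf_eq_one])
    rw [this, map_one]
  obtain ⟨H, hH1, hH2, hH3⟩ := exists_fixedfree σ (orderOf g) hσm
  set H' : Subgroup G := H.map Q.subtype with hH'
  have hH'Q : H' ≤ Q := map_subtype_le _
  have hgH' : g ∈ normalizer (H' : Set G) := by
    apply mem_normalizer_of_conj_mem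
    rintro _ ⟨w, hw, rfl⟩
    exact ⟨σ w, hH1 w hw, rfl⟩
  -- fixed points in `H'` are trivial
  have hfix : ∀ y ∈ H', g * y * g⁻¹ = y → y = 1 := by
    rintro _ ⟨w, hw, rfl⟩ hy
    have h1 : σ w = w := Subtype.ext hy
    have h2 := hH3 w hw h1
    obtain ⟨k, hk⟩ := hQ w
    have h3 : (w : G) ^ p ^ k = 1 := by simpa using congrArg Subtype.val hk
    have h4 : (w : G) ^ orderOf g = 1 := by simpa using congrArg Subtype.val h2
    have h5 : orderOf (w : G) ∣ orderOf g := orderOf_dvd_of_pow_eq_one h4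
    exact eq_one_of_coprime_of_pow (Nat.Coprime.coprime_dvd_left h5 hc) h3
  -- an element moved by `g`
  obtain ⟨h, hh, hne⟩ : ∃ h ∈ Q, g * h * g⁻¹ ≠ h := by
    by_contra hall
    push Not at hall
    apply hg
    rw [Subgroup.mem_centralizer_iff]
    intro q hq
    have := hall q hq
    calc q * g = (g * q * g⁻¹) * g := by rw [this]
      _ = g * q := by group
  set c : G := h⁻¹ * (g * h * g⁻¹) with hc'
  have hcH : c ∈ H' := by
    refine ⟨_, hH2 ⟨h, hh⟩, ?_⟩
    simp [hσv, hc']
  have hcne : c ≠ 1 := by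
    intro h1
    apply hne
    have : h⁻¹ * (g * h * g⁻¹) = 1 := h1
    rw [inv_mul_eq_one] at this
    exact this.symm
  -- the group `K`
  set K : Subgroup G := H' ⊔ zpowers g with hK
  have hKC : K ≤ centralizer (zpowers x : Set G) :=
    sup_le (hH'Q.trans hQC) (zpowers_le.mpr hgC)
  have hKn : ¬ IsMulCommutative K := by
    intro hcomm
    have hc2 := isComm_iff.mp hcomm
    have h1 := hc2 g (mem_sup_right (mem_zpowers g)) c (mem_sup_left hcH)
    apply hcne
    apply hfix c hcH
    rw [h1]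
    group
  have hxK : x ∈ K := by
    have h1 : x ∈ normalizer (K : Set G) := by
      apply mem_normalizer_of_conj_mem
      intro z hz
      have := Subgroup.mem_centralizer_iff.mp (hKC hz) x (mem_zpowers x)
      have e : x * z * x⁻¹ = z := by rw [this]; group
      rw [e]; exact hz
    rwa [hS K hKn] at h1
  have hdec : (K : Set G) = (H' : Set G) * (zpowers g : Set G) :=
    coe_mul_of_right_le_normalizer_left H' (zpowers g) (zpowers_le.mpr hgH')
  have hxK' : x ∈ (K : Set G) := hxK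
  rw [hdec] at hxK'
  obtain ⟨y, hy, z, hz, hyz⟩ := hxK'
  -- `z = y⁻¹ x` is a `p`-element
  have hyC : y * x = x * y := Subgroup.mem_centralizer_iff.mp (hQC (hH'Q hy)) x (mem_zpowers x) |>.symm
  obtain ⟨k, hk⟩ := hQ ⟨y, hH'Q hy⟩
  have hk' : y ^ p ^ k = 1 := by simpa using congrArg Subtype.val hk
  have hz1 : z = y⁻¹ * x := by rw [← hyz]; group
  have hzp : z ^ p ^ (k + 1) = 1 := by
    have hcm : Commute y⁻¹ x := (Commute.inv_left hyC)
    have e1 : y ^ p ^ (k + 1) = 1 := by rw [pow_succ, pow_mul, hk', one_pow]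
    have e2 : x ^ p ^ (k + 1) = 1 := by rw [pow_succ', pow_mul, hxp, one_pow]
    rw [hz1, hcm.mul_pow, inv_pow, e1, e2, inv_one, one_mul]
  have hzc : (orderOf z).Coprime p := by
    have : orderOf z ∣ orderOf g := by
      obtain ⟨j, rfl⟩ := hz
      apply orderOf_dvd_of_pow_eq_one
      simp only
      rw [← zpow_natCast, ← zpow_mul, mul_comm, zpow_mul, zpow_natCast, pow_orderOf_eq_one,
        one_zpow]
    exact Nat.Coprime.coprime_dvd_left this hc
  have hz2 : z = 1 := eq_one_of_coprime_of_pow hzc hzp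
  have hxy : x = y := by rw [← hyz]; change y * z = y; rw [hz2, mul_one]
  apply hx1
  apply hfix x (hxy ▸ hy)
  have := Subgroup.mem_centralizer_iff.mp hgC x (mem_zpowers x)
  rw [← this]
  group

/-- Two elements of order `p` of a cyclic group generate the same subgroup. -/
theorem mem_zpowers_of_pow_eq_one {u x y : G} (hxu : x ∈ zpowers u) (hyu : y ∈ zpowers u)
    (hx : orderOf x = p) (hy : y ^ p = 1) : y ∈ zpowers x := by
  classical
  have hpp : p.Prime := hp.out
  haveI : Fintype (zpowers u) := Fintype.ofFinite _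
  have h1 := IsCyclic.card_pow_eq_one_le (α := zpowers u) hpp.pos
  let X : zpowers u := ⟨x, hxu⟩
  have hX : orderOf X = p := by rw [Subgroup.orderOf_mk, hx]
  haveI : Fintype (zpowers X) := Fintype.ofFinite _
  let T : Finset (zpowers u) := Finset.univ.image (fun a : zpowers X => (a : zpowers u))
  have hT : T.card = p := by
    rw [Finset.card_image_of_injective _ Subtype.val_injective, Finset.card_univ, ← hX,
      ← Nat.card_eq_fintype_card, Nat.card_zpowers]
  have hsub : T ⊆ Finset.univ.filter (fun a : zpowers u => a ^ p = 1) := by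
    intro a ha
    rw [Finset.mem_image] at ha
    obtain ⟨b, -, rfl⟩ := ha
    rw [Finset.mem_filter]
    refine ⟨Finset.mem_univ _, ?_⟩
    obtain ⟨j, hj⟩ := b.2
    rw [← hj]
    simp only
    rw [← zpow_natCast, ← zpow_mul, mul_comm, zpow_mul, zpow_natCast, ← hX, pow_orderOf_eq_one,
      one_zpow]
  have heq := Finset.eq_of_subset_of_card_le hsub (by rw [hT]; exact h1)
  have hYmem : (⟨y, hyu⟩ : zpowers u) ∈ T := by
    rw [heq, Finset.mem_filter]
    exact ⟨Finset.mem_univ _, Subtype.ext (by simpa using hy)⟩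
  rw [Finset.mem_image] at hYmem
  obtain ⟨b, -, hb⟩ := hYmem
  obtain ⟨j, hj⟩ := b.2
  refine ⟨j, ?_⟩
  have h3 : (b : zpowers u) = X ^ j := hj.symm
  have h4 := congrArg Subtype.val hb
  rw [h3] at h4
  simpa [X] using h4

/-- In a simple group with abelian Sylow `p`-subgroups and property `SN`, centralizers of elements
of order `p` are abelian. -/
theorem centralizer_comm_of_prime (hna : ¬ IsMulCommutative G) (htop : commutator G = ⊤)
    (hS : SN G) (hsyl : ∀ P : Sylow p G, IsMulCommutative (P : Subgroup G)) {x : G} (hx1 : x ≠ 1)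
    (hxp : x ^ p = 1) : IsMulCommutative (centralizer (zpowers x : Set G)) := by
  classical
  have hpp : p.Prime := hp.out
  by_contra hCn
  set C : Subgroup G := centralizer (zpowers x : Set G) with hC
  have hmemC : ∀ g : G, g * x = x * g → g ∈ C := by
    intro g hg
    rw [hC, Subgroup.mem_centralizer_iff]
    rintro _ ⟨k, rfl⟩
    exact ((Commute.zpow_left hg.symm k : Commute (x ^ k) g))
  have hCmem : ∀ g ∈ C, x * g = g * x := fun g hg =>
    Subgroup.mem_centralizer_iff.mp hg x (mem_zpowers x)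
  have hxC : x ∈ C := hmemC x rfl
  have hordx : orderOf x = p := orderOf_eq_prime hxp hx1
  have hNx : normalizer (zpowers x : Set G) ≤ C := by
    have h1 := normalizer_le_normalizer_centralizer' (zpowers x)
    rwa [← hC, hS C hCn] at h1
  have hxin : ∀ K : Subgroup G, K ≤ C → ¬ IsMulCommutative K → x ∈ K := by
    intro K hKC hKn
    have h1 : x ∈ normalizer (K : Set G) := by
      apply mem_normalizer_of_conj_mem
      intro z hz
      have := hCmem z (hKC hz)
      have e : x * z * x⁻¹ = z := by rw [this]; group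
      rw [e]; exact hz
    rwa [hS K hKn] at h1
  have hcommP : ∀ Q : Subgroup G, IsPGroup p Q → ∀ a ∈ Q, ∀ b ∈ Q, a * b = b * a := by
    intro Q hQ
    obtain ⟨S, hS'⟩ := hQ.exists_le_sylow
    intro a ha b hb
    exact isComm_iff.mp (hsyl S) a (hS' ha) b (hS' hb)
  -- Frobenius' hypothesis
  have hF : FrobeniusHyp p C := by
    intro Q hQ g hg hc
    have hQ' : IsPGroup p (Q.map C.subtype) := hQ.map _
    have hg' : (g : G) ∈ normalizer ((Q.map C.subtype : Subgroup G) : Set G) := by
      apply mem_normalizer_of_conj_mem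
      rintro _ ⟨q, hq, rfl⟩
      exact ⟨g * q * g⁻¹, (Subgroup.mem_normalizer_iff.mp hg q).mp hq, rfl⟩
    have h1 := core hS hx1 hxp hQ' (hcommP _ hQ') (map_subtype_le _) g.2 hg'
      (by rwa [Subgroup.orderOf_coe])
    rw [Subgroup.mem_centralizer_iff]
    intro q hq
    apply Subtype.ext
    exact (Subgroup.mem_centralizer_iff.mp h1) q ⟨q, hq, rfl⟩
  obtain ⟨N, hnN, h1, h2⟩ := hasNormalPComplement_iff.mp (hasNormalPComplement_of_hyp hF)
  set L : Subgroup G := N.map C.subtype with hL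
  have hLC : L ≤ C := map_subtype_le _
  have hLcard : (Nat.card L).Coprime p := by
    rw [hL, Subgroup.card_map_of_injective C.subtype_injective]
    exact h1
  -- `p`-elements of `L` are trivial
  have hLp : ∀ ℓ ∈ L, ∀ k : ℕ, ℓ ^ p ^ k = 1 → ℓ = 1 := by
    intro ℓ hℓ k hk
    have h3 : orderOf ℓ ∣ Nat.card L := by
      have := orderOf_dvd_natCard (⟨ℓ, hℓ⟩ : L)
      simpa using this
    exact eq_one_of_coprime_of_pow (Nat.Coprime.coprime_dvd_left h3 hLcard) hk
  have hxL : x ∉ L := fun h => hx1 (hLp x h 1 (by simpa using hxp))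
  have hLcomm : IsMulCommutative L := by
    by_contra hn
    exact hxL (hxin L hLC hn)
  have hLc := isComm_iff.mp hLcomm
  -- a Sylow subgroup containing `x`
  have hzx : IsPGroup p (zpowers x) := by
    rw [IsPGroup.iff_card, Nat.card_zpowers, hordx]
    exact ⟨1, (pow_one p).symm⟩
  obtain ⟨P, hP⟩ := hzx.exists_le_sylow
  have hxP : x ∈ (P : Subgroup G) := hP (mem_zpowers x)
  have hPc := isComm_iff.mp (hsyl P)
  have hPC : (P : Subgroup G) ≤ C := fun u hu => hmemC u (hPc u hu x hxP)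
  have hcompl := isComplement'_of_coprime_of_isPGroup (P.subtype hPC) h1 h2
  have hdec : ∀ c ∈ C, ∃ ℓ ∈ L, ∃ u ∈ (P : Subgroup G), c = ℓ * u := by
    intro c hc
    obtain ⟨⟨ℓ, u⟩, hlu⟩ := hcompl.2 (⟨c, hc⟩ : C)
    have hmem : ∀ w : C, w ∈ ((P.subtype hPC : Sylow p C) : Subgroup C) ↔
        (w : G) ∈ (P : Subgroup G) := by
      intro w
      rw [Sylow.coe_subtype, Subgroup.mem_subgroupOf]
    have hu : (u : C).1 ∈ (P : Subgroup G) := (hmem _).mp u.2
    refine ⟨(ℓ : C).1, ⟨ℓ, ℓ.2, rfl⟩, (u : C).1, hu, ?_⟩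
    have := congrArg Subtype.val hlu
    exact this.symm
  have hLn : ∀ c ∈ C, ∀ ℓ ∈ L, c * ℓ * c⁻¹ ∈ L := by
    rintro c hc _ ⟨ℓ, hℓ, rfl⟩
    exact ⟨⟨c, hc⟩ * ℓ * ⟨c, hc⟩⁻¹, hnN.conj_mem ℓ hℓ _, rfl⟩
  -- `P₀`
  set P₀ : Subgroup G := (P : Subgroup G) ⊓ centralizer (L : Set G) with hP₀
  have hP0 : ¬ (P : Subgroup G) ≤ P₀ := by
    intro hle
    apply hCn
    rw [isComm_iff]
    intro a ha b hb
    obtain ⟨ℓ₁, hℓ₁, u₁, hu₁, rfl⟩ := hdec a ha
    obtain ⟨ℓ₂, hℓ₂, u₂, hu₂, rfl⟩ := hdec b hb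
    have c1 : Commute ℓ₁ ℓ₂ := hLc _ hℓ₁ _ hℓ₂
    have c2 : Commute u₁ u₂ := hPc _ hu₁ _ hu₂
    have c3 : Commute ℓ₁ u₂ := Subgroup.mem_centralizer_iff.mp (hle hu₂).2 _ hℓ₁
    have c4 : Commute ℓ₂ u₁ := Subgroup.mem_centralizer_iff.mp (hle hu₁).2 _ hℓ₂
    exact Commute.mul_left (Commute.mul_right c1 c3) (Commute.mul_right c4.symm c2)
  -- elements outside `P₀`
  have hkey : ∀ u ∈ (P : Subgroup G), u ∉ P₀ → x ∈ zpowers u := by
    intro u hu hu0
    have huC : u ∈ C := hPC hu
    have hnorm : zpowers u ≤ normalizer (L : Set G) := by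
      rw [zpowers_le]
      apply mem_normalizer_of_conj_mem
      exact hLn u huC
    set K : Subgroup G := L ⊔ zpowers u with hK
    have hKC : K ≤ C := sup_le hLC (zpowers_le.mpr huC)
    have hKn : ¬ IsMulCommutative K := by
      intro hcomm
      apply hu0
      refine ⟨hu, ?_⟩
      change u ∈ centralizer (L : Set G)
      rw [Subgroup.mem_centralizer_iff]
      intro ℓ hℓ
      exact (isComm_iff.mp hcomm) ℓ (mem_sup_left hℓ) u (mem_sup_right (mem_zpowers u))
    have hxK : x ∈ (K : Set G) := hxin K hKC hKn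
    rw [hK, coe_mul_of_right_le_normalizer_left L (zpowers u) hnorm] at hxK
    obtain ⟨ℓ, hℓ, z, hz, hxe⟩ := hxK
    have hzP : z ∈ (P : Subgroup G) := (zpowers_le.mpr hu) hz
    have hℓP : ℓ ∈ (P : Subgroup G) := by
      have : ℓ = x * z⁻¹ := by rw [← hxe]; group
      rw [this]
      exact mul_mem hxP (inv_mem hzP)
    obtain ⟨k, hk⟩ := P.isPGroup' ⟨ℓ, hℓP⟩
    have hk' : ℓ ^ p ^ k = 1 := by simpa using congrArg Subtype.val hk
    have hℓ1 := hLp ℓ hℓ k hk'
    have hxz : x = z := by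
      have : ℓ * z = x := hxe
      rw [← this, hℓ1, one_mul]
    rw [hxz]
    exact hz
  -- Lemma T
  obtain ⟨g, hgN, hgx⟩ : ∃ g ∈ normalizer ((P : Subgroup G) : Set G), g * x * g⁻¹ ≠ x := by
    by_contra hall
    push Not at hall
    exact hx1 (eq_one_of_normalizer_fixes P (hsyl P) htop hxP hall)
  have hgP : ∀ u ∈ (P : Subgroup G), g * u * g⁻¹ ∈ (P : Subgroup G) := fun u hu =>
    (Subgroup.mem_normalizer_iff.mp hgN u).mp hu
  have hgP' : ∀ u ∈ (P : Subgroup G), g⁻¹ * u * g ∈ (P : Subgroup G) := fun u hu => by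
    have := (Subgroup.mem_normalizer_iff.mp (inv_mem hgN) u).mp hu
    simpa using this
  -- a suitable element
  obtain ⟨u, hu, hu1, hu2⟩ : ∃ u ∈ (P : Subgroup G), u ∉ P₀ ∧ g⁻¹ * u * g ∉ P₀ := by
    obtain ⟨a, ha, ha0⟩ := Set.not_subset.mp hP0
    by_cases h3 : g⁻¹ * a * g ∈ P₀
    · by_cases h4 : g * a * g⁻¹ ∈ P₀
      · refine ⟨a * (g * a * g⁻¹), mul_mem ha (hgP a ha), ?_, ?_⟩
        · intro h5
          apply ha0
          have : a = a * (g * a * g⁻¹) * (g * a * g⁻¹)⁻¹ := by group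
          rw [this]
          exact mul_mem h5 (inv_mem h4)
        · intro h5
          apply ha0
          have : a = (g⁻¹ * a * g)⁻¹ * (g⁻¹ * (a * (g * a * g⁻¹)) * g) := by group
          rw [this]
          exact mul_mem (inv_mem h3) h5
      · refine ⟨g * a * g⁻¹, hgP a ha, h4, ?_⟩
        have : g⁻¹ * (g * a * g⁻¹) * g = a := by group
        rw [this]
        exact ha0
    · exact ⟨a, ha, ha0, h3⟩
  have hx_u : x ∈ zpowers u := hkey u hu hu1
  have hx_u' : x ∈ zpowers (g⁻¹ * u * g) := hkey _ (hgP' u hu) hu2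
  have hy_u : g * x * g⁻¹ ∈ zpowers u := by
    obtain ⟨j, hj⟩ := hx_u'
    refine ⟨j, ?_⟩
    have hj' : (g⁻¹ * u * g) ^ j = x := hj
    change u ^ j = g * x * g⁻¹
    rw [← hj']
    have e : g⁻¹ * u * g = g⁻¹ * u * g⁻¹⁻¹ := by simp
    rw [e, conj_zpow]
    group
  have hyp : (g * x * g⁻¹) ^ p = 1 := by
    rw [conj_pow, hxp]; group
  have hyx : g * x * g⁻¹ ∈ zpowers x := mem_zpowers_of_pow_eq_one hx_u hy_u hordx hyp
  have hgNx : g ∈ normalizer (zpowers x : Set G) := by
    apply mem_normalizer_of_conj_mem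
    rintro _ ⟨j, rfl⟩
    have e : g * (fun n : ℤ => x ^ n) j * g⁻¹ = (g * x * g⁻¹) ^ j := by
      simp only
      rw [conj_zpow]
    rw [e]
    exact zpow_mem hyx j
  have := hCmem g (hNx hgNx)
  apply hgx
  rw [← this]
  group

/-- All centralizers of non-identity elements are abelian. -/
theorem centralizer_comm [IsSimpleGroup G] (hna : ¬ IsMulCommutative G) (htop : commutator G = ⊤)
    (hS : SN G) {y : G} (hy : y ≠ 1) : IsMulCommutative (centralizer ({y} : Set G)) := by
  have hne : orderOf y ≠ 1 := by rwa [Ne, orderOf_eq_one_iff]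
  set q := (orderOf y).minFac with hq
  have hqp : q.Prime := Nat.minFac_prime hne
  haveI : Fact q.Prime := ⟨hqp⟩
  have hqd : q ∣ orderOf y := Nat.minFac_dvd _
  set x := y ^ (orderOf y / q) with hx
  have hord : orderOf x = q := orderOf_pow_orderOf_div (orderOf_pos y).ne' hqd
  have hx1 : x ≠ 1 := by
    intro h
    rw [h, orderOf_one] at hord
    exact hqp.one_lt.ne hord
  have hxp : x ^ q = 1 := by rw [← hord]; exact pow_orderOf_eq_one x
  have h1 := centralizer_comm_of_prime hna htop hS (fun P => sylow_comm hna hS P) hx1 hxp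
  have h2 := isComm_iff.mp h1
  rw [isComm_iff]
  have hle : centralizer ({y} : Set G) ≤ centralizer (zpowers x : Set G) := by
    intro z hz
    rw [Subgroup.mem_centralizer_singleton_iff] at hz
    rw [Subgroup.mem_centralizer_iff]
    rintro _ ⟨k, rfl⟩
    have hc : Commute z y := hz
    have hc2 : Commute z x := hc.pow_right _
    exact (hc2.zpow_right k).symm
  intro a ha b hb
  exact h2 a (hle ha) b (hle hb)

end Cfsg.Agent.Lib.Transfer.SelfNorm
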